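/-
The permutations of nine points used by the three-local characterisation of the alternating group of
degree nine.
-/
import Mathlib.GroupTheory.SpecificGroups.Alternating

set_option autoImplicit false

namespace CfsgLib.AltNineLocal

open Equiv

/-- The block of a point. -/
def blk (i : Fin 9) : Fin 3 := ⟨i.val / 3, by omega⟩

/-- The first point of a block. -/
def base (k : Fin 3) : Fin 9 := ⟨3 * k.val, by omega⟩

theorem blk_base : ∀ k : Fin 3, blk (base k) = k := by decide

/-- A three-cycle. -/
def cyc (i j k : Fin 9) : Perm (Fin 9) := swap i j * swap j k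

/-- The product of two transpositions. -/
def dbl (i j k l : Fin 9) : Perm (Fin 9) := swap i j * swap k l

/-- The three-cycle on block `k`. -/
def ax : Fin 3 → Perm (Fin 9)
  | 0 => cyc 0 1 2
  | 1 => cyc 3 4 5
  | 2 => cyc 6 7 8

/-- An element of weight two. -/
def pb : Perm (Fin 9) := ax 0 * ax 1

/-- An element of weight three. -/
def px : Perm (Fin 9) := ax 0 * ax 1 * ax 2

/-- The permutations preserving the three blocks. -/
def blockStab : Subgroup (Perm (Fin 9)) where
  carrier := {σ | ∀ i j, blk i = blk j → blk (σ i) = blk (σ j)}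
  one_mem' _ _ h := h
  mul_mem' {a b} ha hb i j h := by
    rw [Perm.mul_apply, Perm.mul_apply]; exact ha _ _ (hb i j h)
  inv_mem' {a} ha := by
    intro i j h
    let f : Fin 3 → Fin 3 := fun k => blk (a (base k))
    have hf : ∀ x, f (blk x) = blk (a x) := fun x => ha _ _ (blk_base _)
    have hs : Function.Surjective f := fun k => ⟨blk (a⁻¹ (base k)), by
      rw [hf, Perm.coe_inv, Equiv.apply_symm_apply, blk_base]⟩
    refine (Finite.injective_iff_surjective.2 hs) ?_
    rw [hf, hf, Perm.coe_inv, Equiv.apply_symm_apply, Equiv.apply_symm_apply]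
    exact h

instance decidableBlockStab : DecidablePred (· ∈ blockStab) := fun σ =>
  decidable_of_iff (∀ i j, blk i = blk j → blk (σ i) = blk (σ j)) Iff.rfl

/-- The normaliser of the group generated by the three block cycles in the alternating group. -/
def nineH : Subgroup (Perm (Fin 9)) := alternatingGroup (Fin 9) ⊓ blockStab

instance decidableNineH : DecidablePred (· ∈ nineH) := fun σ =>
  decidable_of_iff (Perm.sign σ = 1 ∧ σ ∈ blockStab)
    (by simp [nineH, Subgroup.mem_inf, Perm.mem_alternatingGroup])

/-- The even permutations moving only points in a given set. -/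
def altOn (s : Finset (Fin 9)) : Subgroup (Perm (Fin 9)) where
  carrier := {σ | Perm.sign σ = 1 ∧ ∀ i, i ∉ s → σ i = i}
  one_mem' := ⟨map_one _, fun _ _ => rfl⟩
  mul_mem' {a b} ha hb := ⟨by rw [map_mul, ha.1, hb.1, mul_one], fun i hi => by
    rw [Perm.mul_apply, hb.2 i hi, ha.2 i hi]⟩
  inv_mem' {a} ha := ⟨by rw [map_inv, ha.1, inv_one], fun i hi => by
    rw [Perm.coe_inv, Equiv.symm_apply_eq]; exact (ha.2 i hi).symm⟩

instance decidableAltOn (s : Finset (Fin 9)) : DecidablePred (· ∈ altOn s) := fun σ =>
  decidable_of_iff (Perm.sign σ = 1 ∧ ∀ i, i ∉ s → σ i = i) Iff.rfl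

theorem mem_altOn {s : Finset (Fin 9)} {σ : Perm (Fin 9)} :
    σ ∈ altOn s ↔ Perm.sign σ = 1 ∧ ∀ i, i ∉ s → σ i = i := Iff.rfl

/-- The points outside a block. -/
def offBlock (k : Fin 3) : Finset (Fin 9) := Finset.univ.filter fun i => blk i ≠ k

/-- The even permutations fixing a block pointwise. -/
abbrev six (k : Fin 3) : Subgroup (Perm (Fin 9)) := altOn (offBlock k)

theorem ax_mem_nineH : ∀ k : Fin 3, ax k ∈ nineH := by decide +kernel

theorem pb_mem_nineH : pb ∈ nineH := mul_mem (ax_mem_nineH 0) (ax_mem_nineH 1)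

theorem px_mem_nineH : px ∈ nineH := mul_mem pb_mem_nineH (ax_mem_nineH 2)

/-- The group generated by the three block cycles. -/
def baseJ : Subgroup (Perm (Fin 9)) := Subgroup.closure (Set.range ax)

theorem baseJ_le : baseJ ≤ nineH := (Subgroup.closure_le _).2 fun _ ⟨k, hk⟩ => hk ▸ ax_mem_nineH k

end CfsgLib.AltNineLocal
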