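/-
Finite facts on the permutations of nine points used for the crossing four groups.
-/
import Cfsg.Agent.Lib.AltNineLocal.Model

set_option autoImplicit false
set_option maxRecDepth 100000

namespace CfsgLib.AltNineLocal.Cross

open Equiv

attribute [local instance 10000] List.decidableBAll List.decidableBEx

/-- The central involution. -/
def s0 : Perm (Fin 9) := dbl 0 1 2 3
/-- The first partner. -/
def s1 : Perm (Fin 9) := dbl 0 2 1 3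
/-- The second partner, in the model. -/
def hh : Perm (Fin 9) := dbl 0 1 4 5
/-- The involution inverting the last block. -/
def tau : Perm (Fin 9) := dbl 4 5 7 8

/-- The centraliser of `s0` on the first six points. -/
def dl : List (Perm (Fin 9)) := [1, s0, s1, s0 * s1, hh, s0 * hh, s1 * hh, hh * s1]
/-- The group generated by the last block cycle and `tau`. -/
def ul : List (Perm (Fin 9)) := [1, ax 2, ax 2 * ax 2, tau, ax 2 * tau, ax 2 * ax 2 * tau]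

theorem dl_spec : ∀ d ∈ dl, d ∈ six 2 ∧ d * ax 2 = ax 2 * d ∧ d * s0 = s0 * d ∧ d ^ 8 = 1 ∧ d⁻¹ ∈ dl ∧
    (∀ d' ∈ dl, d * d' ∈ dl) ∧ (∀ u ∈ ul, u * d = d * u) := by decide +kernel

theorem ul_spec : ∀ u ∈ ul, u ∈ nineH ∧ u⁻¹ ∈ ul ∧ (∀ u' ∈ ul, u * u' ∈ ul) ∧
    (u * ax 2 = ax 2 * u → u ^ 3 = 1) ∧ (u ^ 2 = 1 ∨ u ^ 3 = 1) ∧
    (u * tau * u⁻¹ = tau → u = 1 ∨ u = tau) ∧ (u ^ 3 = 1 → u = 1 ∨ u = ax 2 ∨ u = ax 2 * ax 2) := by
  decide +kernel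

theorem ul_comm : ∀ u ∈ ul, ∀ u' ∈ ul, (u * u' * u⁻¹ * u'⁻¹) ^ 3 = 1 := by decide +kernel

theorem dl_comm : ∀ d ∈ dl, ∀ d' ∈ dl, d * d' * d⁻¹ * d'⁻¹ = 1 ∨ d * d' * d⁻¹ * d'⁻¹ = s0 := by decide +kernel

theorem dl_conj : ∀ d ∈ dl, ∀ v ∈ dl, d * v * d⁻¹ = v ∨ d * v * d⁻¹ = v * s0 := by decide +kernel

theorem dl_invol : ∀ d ∈ dl, d * d = 1 →
    d = 1 ∨ d = s0 ∨ d = s1 ∨ d = s0 * s1 ∨ d = hh ∨ d = s0 * hh := by decide +kernel

theorem dl_prod : s1 * s0 = s0 * s1 ∧ hh * s0 = s0 * hh ∧ s0 * hh * s0 = hh ∧ s0 * s1 * s0 = s1 ∧ s0 * s0 = 1 := by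
  decide +kernel

theorem mem_lists : (1 ∈ dl ∧ s0 ∈ dl ∧ s1 ∈ dl ∧ s0 * s1 ∈ dl ∧ hh ∈ dl ∧ s0 * hh ∈ dl) ∧
    (1 ∈ ul ∧ ax 2 ∈ ul ∧ tau ∈ ul) := by decide +kernel

theorem basics : hh ∈ nineH ∧ tau ∈ nineH ∧ tau ∈ six 0 ∧ hh ∈ six 2 ∧ s0 ≠ 1 ∧ s1 ≠ 1 ∧ hh ≠ 1 ∧
    s1 ≠ hh ∧ s1 ≠ s0 * hh ∧ s1 ≠ s0 ∧ hh ≠ s0 ∧ ax 2 ≠ 1 ∧ (ax 2) ^ 3 = 1 ∧ tau * ax 2 * tau⁻¹ = (ax 2)⁻¹ ∧
    tau * tau = 1 ∧ tau ≠ ax 2 ∧ pb ≠ 1 ∧ pb ^ 3 = 1 ∧ ax 0 * tau = tau * ax 0 := by decide +kernel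

/-- The first four group. -/
def v1 : Fin 4 → Perm (Fin 9) := ![1, s0, s1, s0 * s1]
/-- The second four group. -/
def v2 : Fin 4 → Perm (Fin 9) := ![1, s0, hh, s0 * hh]

theorem v_spec : (∀ i, v1 i ∈ dl ∧ v1 i * s1 = s1 * v1 i) ∧ (∀ i, v2 i ∈ dl ∧ v2 i * hh = hh * v2 i) ∧
    Function.Injective v1 ∧ Function.Injective v2 ∧ hh * s1 * hh⁻¹ = s1 * s0 ∧ s1 * hh * s1⁻¹ = hh * s0 := by
  refine ⟨by decide +kernel, by decide +kernel, ?_, ?_, by decide +kernel, by decide +kernel⟩ <;>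
    · intro a b h
      revert h
      revert a b
      decide +kernel

theorem ul_inj : ∀ i j : Fin 6, ul[i.val]'(by simp [ul]) = ul[j.val]'(by simp [ul]) → i = j := by decide +kernel

/-- A map of the first six points commuting with `s0`. -/
def mk6 (a b c d : Fin 6) (i : Fin 9) : Fin 9 :=
  ![a.castLE (by omega), s0 (a.castLE (by omega)), b.castLE (by omega), s0 (b.castLE (by omega)),
    c.castLE (by omega), d.castLE (by omega), 6, 7, 8] i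

theorem cent_s0_check : ∀ c d a b : Fin 6, Function.Injective (mk6 a b c d) →
    ∃ x ∈ dl ++ dl.map (fun y => y * swap 4 5), ∀ i, x i = mk6 a b c d i := by decide +kernel

theorem odd_check : ∀ y ∈ dl, Perm.sign (y * swap 4 5) ≠ 1 := by decide +kernel

theorem cent_s0 {σ : Perm (Fin 9)} (hσ : σ ∈ six 2) (hc : σ * s0 = s0 * σ) : σ ∈ dl := by
  have hout : ∀ i : Fin 9, 6 ≤ i.val → σ i = i := fun i hi => hσ.2 i (by
    simp only [offBlock, Finset.mem_filter, Finset.mem_univ, true_and, not_not]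
    ext
    show i.val / 3 = 2
    omega)
  have hin : ∀ i : Fin 9, i.val < 6 → (σ i).val < 6 := fun i hi => by
    by_contra h
    have := σ.injective (hout (σ i) (by omega))
    rw [this] at h
    omega
  have hcc : ∀ i, σ (s0 i) = s0 (σ i) := fun i => congrArg (fun p : Perm (Fin 9) => p i) hc
  have key : ∀ i, σ i = mk6 ⟨_, hin 0 (by decide)⟩ ⟨_, hin 2 (by decide)⟩ ⟨_, hin 4 (by decide)⟩
      ⟨_, hin 5 (by decide)⟩ i := by
    intro i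
    fin_cases i
    · rfl
    · show σ 1 = s0 (σ 0)
      rw [← hcc]; exact congrArg σ (by decide +kernel)
    · rfl
    · show σ 3 = s0 (σ 2)
      rw [← hcc]; exact congrArg σ (by decide +kernel)
    · rfl
    · rfl
    · exact hout 6 (by decide)
    · exact hout 7 (by decide)
    · exact hout 8 (by decide)
  obtain ⟨x, hx, hxi⟩ := cent_s0_check _ _ _ _ fun a b e => σ.injective ((key a).trans (e.trans (key b).symm))
  obtain rfl : x = σ := Equiv.ext fun i => (hxi i).trans (key i).symm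
  rcases List.mem_append.1 hx with h | h
  · exact h
  · obtain ⟨y, hy, rfl⟩ := List.mem_map.1 h
    exact absurd hσ.1 (odd_check y hy)

/-- No element of the model has order five. -/
theorem eq_one_of_pow_five {σ : Perm (Fin 9)} (hσ : σ ∈ nineH) (h5 : σ ^ 5 = 1) : σ = 1 := by
  have hb : ∀ i j, blk i = blk j → blk (σ i) = blk (σ j) := hσ.2
  have hap : ∀ i, σ (σ (σ (σ (σ i)))) = i := fun i => by
    have := congrArg (fun p : Perm (Fin 9) => p i) h5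
    simpa [pow_succ] using this
  have h3 : ∀ f : Fin 3 → Fin 3, (∀ k, f (f (f (f (f k)))) = k) → ∀ k, f k = k := by decide
  obtain ⟨f, hf⟩ : ∃ f : Fin 3 → Fin 3, ∀ i, f (blk i) = blk (σ i) :=
    ⟨fun k => blk (σ (base k)), fun i => hb _ _ (blk_base _)⟩
  have hfk : ∀ k, f k = k := h3 f fun k => by
    have := congrArg blk (hap (base k))
    rw [← hf, ← hf, ← hf, ← hf, ← hf, blk_base] at this
    exact this
  have hpres : ∀ i, blk (σ i) = blk i := fun i => by rw [← hf, hfk]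
  have hval : ∀ (k : Fin 3) (r : Fin 3), blk (⟨3 * k.val + r.val, by omega⟩ : Fin 9) = k := by decide
  obtain ⟨g, hg⟩ : ∃ g : Fin 3 → Fin 3 → Fin 3,
      ∀ k r, σ ⟨3 * k.val + r.val, by omega⟩ = ⟨3 * k.val + (g k r).val, by omega⟩ := by
    refine ⟨fun k r => ⟨(σ ⟨3 * k.val + r.val, by omega⟩).val % 3, by omega⟩, fun k r => ?_⟩
    have h := congrArg Fin.val ((hpres ⟨3 * k.val + r.val, by omega⟩).trans (hval k r))
    simp only [blk] at h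
    ext
    simp only
    omega
  refine Equiv.ext fun i => ?_
  obtain ⟨k, r, rfl⟩ : ∃ k r : Fin 3, (⟨3 * k.val + r.val, by omega⟩ : Fin 9) = i := by
    revert i; decide
  have hgk := h3 (g k) fun s => by
    have h := hap ⟨3 * k.val + s.val, by omega⟩
    rw [hg, hg, hg, hg, hg] at h
    have h' := congrArg Fin.val h
    ext
    simp only at h'
    omega
  rw [Perm.one_apply, hg]
  ext
  simp only [hgk r]

/-- A five-cycle. -/
def five : Perm (Fin 9) :=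
  ⟨![1, 2, 3, 4, 0, 5, 6, 7, 8], ![4, 0, 1, 2, 3, 5, 6, 7, 8], by decide +kernel, by decide +kernel⟩

theorem five_spec : five ∈ six 2 ∧ five * ax 2 = ax 2 * five ∧ five ^ 5 = 1 ∧ five ≠ 1 := by decide +kernel

/-- Moving `s1` to `s0`. -/
def qs1 : Perm (Fin 9) :=
  ⟨![0, 2, 1, 3, 5, 4, 6, 7, 8], ![0, 2, 1, 3, 5, 4, 6, 7, 8], by decide +kernel, by decide +kernel⟩
/-- Moving `s0 s1` to `s0`. -/
def qs01 : Perm (Fin 9) :=
  ⟨![0, 2, 3, 1, 4, 5, 6, 7, 8], ![0, 3, 1, 2, 4, 5, 6, 7, 8], by decide +kernel, by decide +kernel⟩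
/-- Moving `hh` to `s0`. -/
def qhh : Perm (Fin 9) :=
  ⟨![0, 1, 4, 5, 2, 3, 6, 7, 8], ![0, 1, 4, 5, 2, 3, 6, 7, 8], by decide +kernel, by decide +kernel⟩
/-- Moving `s0 hh` to `s0`. -/
def qs0h : Perm (Fin 9) :=
  ⟨![4, 5, 0, 1, 2, 3, 6, 7, 8], ![2, 3, 4, 5, 0, 1, 6, 7, 8], by decide +kernel, by decide +kernel⟩
/-- Moving the first exceptional product into the model. -/
def qu0 : Perm (Fin 9) :=
  ⟨![0, 3, 1, 4, 5, 2, 6, 7, 8], ![0, 2, 5, 1, 3, 4, 6, 7, 8], by decide +kernel, by decide +kernel⟩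
/-- Moving the second exceptional product into the model. -/
def qu1 : Perm (Fin 9) :=
  ⟨![0, 1, 3, 4, 2, 5, 6, 7, 8], ![0, 1, 4, 2, 3, 5, 6, 7, 8], by decide +kernel, by decide +kernel⟩
/-- A block permutation. -/
def pT : Perm (Fin 9) :=
  ⟨![6, 7, 8, 0, 1, 2, 3, 4, 5], ![3, 4, 5, 6, 7, 8, 0, 1, 2], by decide +kernel, by decide +kernel⟩
/-- Moving the conjugate of `tau` to `s0`. -/
def qT : Perm (Fin 9) :=
  ⟨![4, 0, 1, 5, 2, 3, 6, 7, 8], ![1, 2, 4, 5, 0, 3, 6, 7, 8], by decide +kernel, by decide +kernel⟩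

theorem q_spec : (qs1 ∈ six 2 ∧ qs1 * s1 * qs1⁻¹ = s0) ∧ (qs01 ∈ six 2 ∧ qs01 * (s0 * s1) * qs01⁻¹ = s0) ∧
    (qhh ∈ six 2 ∧ qhh * hh * qhh⁻¹ = s0) ∧ (qs0h ∈ six 2 ∧ qs0h * (s0 * hh) * qs0h⁻¹ = s0) := by
  decide +kernel

theorem qu_spec : (qu0 ∈ six 2 ∧ qu0 * s0 * (tau * qu0⁻¹ * tau⁻¹) ∈ nineH ∧ tau * qu0⁻¹ * tau⁻¹ ∈ six 2 ∧
      qu0 * s0 * (tau * qu0⁻¹ * tau⁻¹) * tau * pb = pb * (qu0 * s0 * (tau * qu0⁻¹ * tau⁻¹) * tau)) ∧
    (qu1 ∈ six 2 ∧ qu1 * s1 * (tau * qu1⁻¹ * tau⁻¹) ∈ nineH ∧ tau * qu1⁻¹ * tau⁻¹ ∈ six 2 ∧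
      qu1 * s1 * (tau * qu1⁻¹ * tau⁻¹) * tau * pb = pb * (qu1 * s1 * (tau * qu1⁻¹ * tau⁻¹) * tau)) := by
  decide +kernel

theorem qT_spec : pT ∈ nineH ∧ pT * tau * pT⁻¹ ∈ six 2 ∧ pT * tau * pT⁻¹ ∈ nineH ∧ qT ∈ six 2 ∧
    qT * (pT * tau * pT⁻¹) * qT⁻¹ = s0 ∧ ax 0 * s0 * (ax 0)⁻¹ ∈ six 2 ∧
    ax 0 * s0 * (ax 0)⁻¹ * s0⁻¹ = s1 := by
  decide +kernel

end CfsgLib.AltNineLocal.Cross
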