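/-
The setting of the three-local characterisation of the alternating group of degree nine.
-/
import Cfsg.Agent.Lib.AltNineLocal.Model
import Cfsg.Prelude.Def_Solvable
import Mathlib.GroupTheory.Sylow

set_option autoImplicit false

namespace CfsgLib.AltNineLocal

open Equiv

/-- A subgroup `J` whose normaliser is identified with the model, all three-local cores trivial. -/
structure Hyp (G : Type*) [Group G] where
  /-- the elementary abelian subgroup of order 27 -/
  J : Subgroup G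
  /-- the identification of its normaliser -/
  ι : ↥nineH →* G
  ι_injective : Function.Injective ι
  range_ι : ι.range = Subgroup.normalizer (J : Set G)
  mem_J : ∀ p : ↥nineH, ι p ∈ J ↔ (p : Perm (Fin 9)) ∈ baseJ
  cores : ∀ x ∈ Subgroup.normalizer (J : Set G), orderOf x = 3 →
    Cfsg.pPrimeCore 3 (Subgroup.centralizer ({x} : Set G)) = ⊥

namespace Hyp

variable {G : Type*} [Group G] (h : Hyp G)

/-- The element of `G` attached to a permutation (one outside the model). -/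
def el (σ : Perm (Fin 9)) : G := if hσ : σ ∈ nineH then h.ι ⟨σ, hσ⟩ else 1

theorem el_eq (p : ↥nineH) : h.el p = h.ι p := by rw [el, dif_pos p.2]

theorem el_of_mem {σ : Perm (Fin 9)} (hσ : σ ∈ nineH) : h.el σ = h.ι ⟨σ, hσ⟩ := dif_pos hσ

theorem el_mul {σ τ : Perm (Fin 9)} (hσ : σ ∈ nineH) (hτ : τ ∈ nineH) :
    h.el (σ * τ) = h.el σ * h.el τ := by
  rw [h.el_of_mem hσ, h.el_of_mem hτ, h.el_of_mem (mul_mem hσ hτ), ← map_mul]; rfl

theorem el_one : h.el 1 = 1 := by
  rw [h.el_of_mem (one_mem _)]; exact map_one h.ι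

theorem el_inv {σ : Perm (Fin 9)} (hσ : σ ∈ nineH) : h.el σ⁻¹ = (h.el σ)⁻¹ := by
  rw [h.el_of_mem hσ, h.el_of_mem (inv_mem hσ), ← map_inv]; rfl

theorem el_inj {σ τ : Perm (Fin 9)} (hσ : σ ∈ nineH) (hτ : τ ∈ nineH) (e : h.el σ = h.el τ) :
    σ = τ := by
  rw [h.el_of_mem hσ, h.el_of_mem hτ] at e
  exact congrArg Subtype.val (h.ι_injective e)

theorem el_mem {σ : Perm (Fin 9)} (hσ : σ ∈ nineH) :
    h.el σ ∈ Subgroup.normalizer (h.J : Set G) := by
  rw [h.el_of_mem hσ, ← h.range_ι]; exact ⟨_, rfl⟩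

theorem exists_el {g : G} (hg : g ∈ Subgroup.normalizer (h.J : Set G)) :
    ∃ σ ∈ nineH, h.el σ = g := by
  rw [← h.range_ι] at hg
  obtain ⟨p, rfl⟩ := hg
  exact ⟨p, p.2, h.el_eq p⟩

theorem el_mem_J {σ : Perm (Fin 9)} (hσ : σ ∈ nineH) : h.el σ ∈ h.J ↔ σ ∈ baseJ := by
  rw [h.el_of_mem hσ, h.mem_J]

end Hyp

/-- The three copies of the alternating group of degree six inside the centralisers of the block
cycles, labelled compatibly with the model. -/
structure SixAct {G : Type*} [Group G] (h : Hyp G) where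
  /-- the element attached to a permutation fixing a block pointwise -/
  t : Perm (Fin 9) → G
  t_mul : ∀ (k : Fin 3) (σ τ : Perm (Fin 9)), σ ∈ six k → τ ∈ six k → t (σ * τ) = t σ * t τ
  t_ne_one : ∀ (k : Fin 3) (σ : Perm (Fin 9)), σ ∈ six k → t σ = 1 → σ = 1
  t_el : ∀ (k : Fin 3) (σ : Perm (Fin 9)), σ ∈ six k → σ ∈ nineH → t σ = h.el σ
  t_conj : ∀ (k : Fin 3) (σ p : Perm (Fin 9)), σ ∈ six k → p ∈ nineH →
    t (p * σ * p⁻¹) = h.el p * t σ * (h.el p)⁻¹
  cent : ∀ (k : Fin 3) (g : G), g * h.el (ax k) = h.el (ax k) * g ↔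
    ∃ σ ∈ six k, ∃ i : ℕ, g = h.el (ax k) ^ i * t σ

end CfsgLib.AltNineLocal
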