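/-
The case of two small crossing four groups is contradictory.
-/
import Cfsg.Agent.Lib.AltNineLocal.Setting
import Cfsg.Agent.Lib.AltNineLocal.CrossPerms
import Cfsg.Agent.S0215
import Mathlib.GroupTheory.Nilpotent
import Mathlib.Tactic.Group

set_option autoImplicit false

namespace CfsgLib.AltNineLocal

open Equiv CfsgLib.AltNineLocal.Cross

namespace Cross

/-- A subgroup of a `p`-group containing what normalises it is the whole group. -/
theorem eq_of_normalizer_le {H : Type*} [Group H] [Finite H] {P S : Subgroup H} {p : ℕ}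
    [Fact p.Prime] (hP : IsPGroup p P) (hSP : S ≤ P)
    (h : ∀ g ∈ P, (∀ s ∈ S, g * s * g⁻¹ ∈ S) → g ∈ S) : P = S := by
  refine le_antisymm ?_ hSP
  by_contra hne
  have : Group.IsNilpotent ↥P := hP.isNilpotent
  have hlt : S.subgroupOf P < ⊤ := lt_top_iff_ne_top.2 fun e =>
    hne (Subgroup.subgroupOf_eq_top.1 e)
  obtain ⟨y, hy, hyS⟩ := SetLike.exists_of_lt (Group.normalizerCondition_of_isNilpotent _ hlt)
  refine hyS (h y y.2 fun s hs => ?_)
  exact (Subgroup.mem_normalizer_iff.1 hy ⟨s, hSP hs⟩).1 hs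

/-- An involution central modulo a normal subgroup of odd order: every element is, up to that
subgroup, one commuting with the involution. -/
theorem exists_mem_commute {M : Type*} [Group M] [Finite M] {N : Subgroup M} [N.Normal]
    (hN : Odd (Nat.card N)) {u : M} (hu : u * u = 1) (hc : ∀ g, u * g * u⁻¹ * g⁻¹ ∈ N) (g : M) :
    ∃ n ∈ N, ∃ y, y * u = u * y ∧ g = n * y := by
  have hinv : u⁻¹ = u := inv_eq_of_mul_eq_one_left hu
  have hn : u * g * u * g⁻¹ ∈ N := by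
    have := hc g
    rwa [hinv] at this
  set n := u * g * u * g⁻¹ with hndef
  obtain ⟨k, hk⟩ := Odd.of_dvd_nat hN (Subgroup.orderOf_dvd_natCard N hn)
  have hn1 : n ^ (k + k + 1) = 1 := by
    rw [show k + k + 1 = orderOf n by omega]; exact pow_orderOf_eq_one n
  have hun : u * n = g * u * g⁻¹ := by
    rw [hndef, ← mul_assoc, ← mul_assoc, ← mul_assoc, hu, one_mul]
  have hflip : u * n * u⁻¹ = n⁻¹ := by
    rw [hun, hinv, hndef]
    simp only [mul_inv_rev, inv_inv, hinv, mul_assoc]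
  have hflipk : u * n ^ k * u⁻¹ = (n ^ k)⁻¹ := by
    rw [← conj_pow, hflip, inv_pow]
  have hck : n ^ k * u * (n ^ k)⁻¹ = g * u * g⁻¹ := by
    rw [← hun]
    have h1 : n ^ k * u = u * (n ^ k)⁻¹ := by
      calc n ^ k * u = u * (u * n ^ k * u⁻¹) * (u * u) := by
            rw [hu, mul_one]
            simp only [← mul_assoc, hu, one_mul, hinv]
        _ = u * (n ^ k)⁻¹ := by rw [hu, mul_one, hflipk]
    rw [h1, mul_assoc]
    congr 1
    have h2 : n ^ k * n ^ k * n = 1 := by rw [← pow_add, ← pow_succ, hn1]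
    rw [← mul_inv_rev]
    exact inv_eq_of_mul_eq_one_right h2
  refine ⟨n ^ k, pow_mem hn k, (n ^ k)⁻¹ * g, ?_, by group⟩
  calc (n ^ k)⁻¹ * g * u = (n ^ k)⁻¹ * (g * u * g⁻¹) * g := by group
    _ = (n ^ k)⁻¹ * (n ^ k * u * (n ^ k)⁻¹) * g := by rw [hck]
    _ = u * ((n ^ k)⁻¹ * g) := by group

end Cross

namespace SixAct

variable {G : Type*} [Group G] {h : Hyp G} (T : SixAct h)
include T

theorem crossCommute {k : Fin 3} {σ p : Perm (Fin 9)} (hσ : σ ∈ six k) (hp : p ∈ nineH)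
    (e : p * σ = σ * p) : h.el p * T.t σ = T.t σ * h.el p := by
  have := T.t_conj k σ p hσ hp
  rw [e, mul_inv_cancel_right] at this
  exact (eq_mul_inv_iff_mul_eq.1 this).symm

theorem crossOne : T.t 1 = 1 := (T.t_el 2 1 (one_mem _) (one_mem _)).trans h.el_one

theorem crossInv {k : Fin 3} {σ : Perm (Fin 9)} (hσ : σ ∈ six k) : T.t σ⁻¹ = (T.t σ)⁻¹ := by
  refine eq_inv_of_mul_eq_one_left ?_
  rw [← T.t_mul k _ _ (inv_mem hσ) hσ, inv_mul_cancel, T.crossOne]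

theorem crossPow {k : Fin 3} {σ : Perm (Fin 9)} (hσ : σ ∈ six k) (n : ℕ) :
    T.t (σ ^ n) = T.t σ ^ n := by
  induction n with
  | zero => rw [pow_zero, pow_zero, T.crossOne]
  | succ n ih => rw [pow_succ, pow_succ, T.t_mul k _ _ (pow_mem hσ n) hσ, ih]

theorem crossInj {k : Fin 3} {σ π : Perm (Fin 9)} (hσ : σ ∈ six k) (hπ : π ∈ six k)
    (e : T.t σ = T.t π) : σ = π := by
  refine mul_inv_eq_one.1 (T.t_ne_one k _ (mul_mem hσ (inv_mem hπ)) ?_)
  rw [T.t_mul k _ _ hσ (inv_mem hπ), T.crossInv hπ, e, mul_inv_cancel]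

/-- The elements of the local group. -/
def El (d u : Perm (Fin 9)) : G := T.t d * h.el u

theorem El_one_right (d : Perm (Fin 9)) : T.El d 1 = T.t d := by rw [El, h.el_one, mul_one]

theorem El_one_left (u : Perm (Fin 9)) : T.El 1 u = h.el u := by rw [El, T.crossOne, one_mul]

theorem El_mul {d u d' u' : Perm (Fin 9)} (hd : d ∈ dl) (hu : u ∈ ul) (hd' : d' ∈ dl)
    (hu' : u' ∈ ul) : T.El d u * T.El d' u' = T.El (d * d') (u * u') := by
  simp only [El]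
  rw [T.t_mul 2 _ _ (dl_spec d hd).1 (dl_spec d' hd').1, h.el_mul (ul_spec u hu).1 (ul_spec u' hu').1,
    mul_assoc, ← mul_assoc (h.el u), T.crossCommute (dl_spec d' hd').1 (ul_spec u hu).1
      ((dl_spec d' hd').2.2.2.2.2.2 u hu)]
  simp only [mul_assoc]

theorem El_inv {d u : Perm (Fin 9)} (hd : d ∈ dl) (hu : u ∈ ul) :
    (T.El d u)⁻¹ = T.El d⁻¹ u⁻¹ := by
  refine inv_eq_of_mul_eq_one_right ?_
  rw [T.El_mul hd hu (dl_spec d hd).2.2.2.2.1 (ul_spec u hu).2.1, mul_inv_cancel, mul_inv_cancel,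
    T.El_one_left, h.el_one]

theorem El_eq_one {d u : Perm (Fin 9)} (hd : d ∈ dl) (hu : u ∈ ul) (e : T.El d u = 1) :
    d = 1 ∧ u = 1 := by
  obtain ⟨hd6, hdax, -, hd8, -, -, -⟩ := dl_spec d hd
  obtain ⟨huN, -, -, hu3, -⟩ := ul_spec u hu
  have e' : h.el u = (T.t d)⁻¹ := eq_inv_of_mul_eq_one_right e
  have hc : Commute (h.el (ax 2)) (T.t d) := T.crossCommute hd6 (ax_mem_nineH 2) hdax.symm
  have hcu : h.el u * h.el (ax 2) = h.el (ax 2) * h.el u := by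
    rw [e']; exact hc.inv_right.eq.symm
  have h3 : h.el u ^ 3 = 1 := by
    rw [← h.el_mul huN (ax_mem_nineH 2), ← h.el_mul (ax_mem_nineH 2) huN] at hcu
    have := hu3 (h.el_inj (mul_mem huN (ax_mem_nineH 2)) (mul_mem (ax_mem_nineH 2) huN) hcu)
    rw [pow_succ, pow_succ, pow_one] at this ⊢
    rw [← h.el_mul huN huN, ← h.el_mul (mul_mem huN huN) huN, this, h.el_one]
  have h8 : h.el u ^ 8 = 1 := by rw [e', inv_pow, ← T.crossPow hd6, hd8, T.crossOne, inv_one]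
  have hu1 : h.el u = 1 := by
    have := pow_gcd_eq_one.2 ⟨h3, h8⟩
    simpa using this
  refine ⟨T.t_ne_one 2 d hd6 ?_, h.el_inj huN (one_mem _) (hu1.trans h.el_one.symm)⟩
  rwa [El, hu1, mul_one] at e

theorem El_inj {d u d' u' : Perm (Fin 9)} (hd : d ∈ dl) (hu : u ∈ ul) (hd' : d' ∈ dl) (hu' : u' ∈ ul)
    (e : T.El d u = T.El d' u') : d = d' ∧ u = u' := by
  obtain ⟨-, -, -, -, hdi, -, -⟩ := dl_spec d' hd'
  have hui := (ul_spec u' hu').2.1
  obtain ⟨h1, h2⟩ := T.El_eq_one ((dl_spec d hd).2.2.2.2.2.1 _ hdi) ((ul_spec u hu).2.2.1 _ hui)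
    (by rw [← T.El_mul hd hu hdi hui, ← T.El_inv hd' hu', e, mul_inv_cancel])
  exact ⟨mul_inv_eq_one.1 h1, mul_inv_eq_one.1 h2⟩

theorem El_conj {d u d' u' : Perm (Fin 9)} (hd : d ∈ dl) (hu : u ∈ ul) (hd' : d' ∈ dl) (hu' : u' ∈ ul) :
    T.El d u * T.El d' u' * (T.El d u)⁻¹ = T.El (d * d' * d⁻¹) (u * u' * u⁻¹) := by
  rw [T.El_mul hd hu hd' hu', T.El_inv hd hu,
    T.El_mul ((dl_spec d hd).2.2.2.2.2.1 _ hd') ((ul_spec u hu).2.2.1 _ hu') (dl_spec d hd).2.2.2.2.1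
      (ul_spec u hu).2.1]

theorem El_pow {d u : Perm (Fin 9)} (hd : d ∈ dl) (hu : u ∈ ul) (n : ℕ) :
    d ^ n ∈ dl ∧ u ^ n ∈ ul ∧ T.El d u ^ n = T.El (d ^ n) (u ^ n) := by
  induction n with
  | zero =>
    simp only [pow_zero]
    exact ⟨mem_lists.1.1, mem_lists.2.1, (by rw [T.El_one_left, h.el_one])⟩
  | succ n ih =>
    simp only [pow_succ]
    exact ⟨(dl_spec _ ih.1).2.2.2.2.2.1 _ hd, (ul_spec _ ih.2.1).2.2.1 _ hu,
      by rw [ih.2.2, T.El_mul ih.1 ih.2.1 hd hu]⟩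

theorem El_comm_t0 {d u : Perm (Fin 9)} (hd : d ∈ dl) (hu : u ∈ ul) :
    T.El d u * T.t s0 = T.t s0 * T.El d u := by
  obtain ⟨hh1, -, hs, -⟩ := dl_spec d hd
  rw [← T.El_one_right s0, T.El_mul hd hu mem_lists.1.2.1 mem_lists.2.1,
    T.El_mul mem_lists.1.2.1 mem_lists.2.1 hd hu, hs, mul_one, one_mul]

theorem t0_sq : T.t s0 * T.t s0 = 1 := by
  rw [← T.t_mul 2 _ _ (dl_spec _ mem_lists.1.2.1).1 (dl_spec _ mem_lists.1.2.1).1,
    dl_prod.2.2.2.2, T.crossOne]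

/-- The elements normalising the last cycle inside the centraliser of the involution. -/
theorem exists_El {g : G} (hg : g * T.t s0 = T.t s0 * g)
    (he : g * h.el (ax 2) * g⁻¹ = h.el (ax 2) ∨ g * h.el (ax 2) * g⁻¹ = (h.el (ax 2))⁻¹) :
    ∃ d ∈ dl, ∃ u ∈ ul, g = T.El d u := by
  have key : ∀ x : G, x * T.t s0 = T.t s0 * x → x * h.el (ax 2) = h.el (ax 2) * x →
      ∃ d ∈ dl, ∃ u ∈ ul, x = T.El d u := by
    intro x hx hxe
    obtain ⟨σ, hσ, i, rfl⟩ := (T.cent 2 x).1 hxe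
    obtain ⟨hup, hpe⟩ : ax 2 ^ i ∈ ul ∧ h.el (ax 2) ^ i = h.el (ax 2 ^ i) := by
      obtain ⟨-, h2, h3⟩ := T.El_pow mem_lists.1.1 mem_lists.2.2.1 i
      rw [T.El_one_left, one_pow, T.El_one_left] at h3
      exact ⟨h2, h3⟩
    rw [hpe] at hx ⊢
    have hs0 := (dl_spec s0 mem_lists.1.2.1)
    have hcp : h.el (ax 2 ^ i) * T.t s0 = T.t s0 * h.el (ax 2 ^ i) :=
      T.crossCommute hs0.1 (ul_spec _ hup).1 (hs0.2.2.2.2.2.2 _ hup)
    have hcs : T.t σ * T.t s0 = T.t s0 * T.t σ := by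
      apply mul_left_cancel (a := h.el (ax 2 ^ i))
      rw [← mul_assoc, hx, ← mul_assoc, ← mul_assoc, hcp]
    rw [← T.t_mul 2 _ _ hσ hs0.1, ← T.t_mul 2 _ _ hs0.1 hσ] at hcs
    have hσd := cent_s0 hσ (T.crossInj (mul_mem hσ hs0.1) (mul_mem hs0.1 hσ) hcs)
    exact ⟨σ, hσd, _, hup,
      T.crossCommute hσ (ul_spec _ hup).1 ((dl_spec σ hσd).2.2.2.2.2.2 _ hup)⟩
  rcases he with he | he
  · exact key g hg (mul_inv_eq_iff_eq_mul.1 he)
  · obtain ⟨-, htN, -, -, -, -, -, -, -, -, -, -, -, htau, -⟩ := basics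
    have hs0 := (dl_spec s0 mem_lists.1.2.1)
    have hct : h.el tau * T.t s0 = T.t s0 * h.el tau :=
      T.crossCommute hs0.1 htN (hs0.2.2.2.2.2.2 _ mem_lists.2.2.2)
    have hte : h.el tau * h.el (ax 2) * (h.el tau)⁻¹ = (h.el (ax 2))⁻¹ := by
      rw [← h.el_mul htN (ax_mem_nineH 2), ← h.el_inv htN,
        ← h.el_mul (mul_mem htN (ax_mem_nineH 2)) (inv_mem htN), htau, h.el_inv (ax_mem_nineH 2)]
    obtain ⟨d, hd, u, hu, e⟩ := key (h.el tau * g)
      (by rw [mul_assoc, hg, ← mul_assoc, hct, mul_assoc]) (by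
        refine mul_inv_eq_iff_eq_mul.1 ?_
        calc h.el tau * g * h.el (ax 2) * (h.el tau * g)⁻¹
            = h.el tau * (g * h.el (ax 2) * g⁻¹) * (h.el tau)⁻¹ := by group
          _ = h.el tau * (h.el (ax 2))⁻¹ * (h.el tau)⁻¹ := by rw [he]
          _ = (h.el tau * h.el (ax 2) * (h.el tau)⁻¹)⁻¹ := by group
          _ = h.el (ax 2) := by rw [hte, inv_inv])
    refine ⟨d, hd, tau⁻¹ * u, (ul_spec _ (ul_spec _ mem_lists.2.2.2).2.1).2.2.1 _ hu, ?_⟩
    rw [eq_inv_mul_of_mul_eq e, ← T.El_one_left tau, T.El_inv mem_lists.1.1 mem_lists.2.2.2,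
      T.El_mul (dl_spec _ mem_lists.1.1).2.2.2.2.1 (ul_spec _ mem_lists.2.2.2).2.1 hd hu, inv_one,
      one_mul]

/-- An element of the local group of order dividing three. -/
theorem El_cube {d u : Perm (Fin 9)} (hd : d ∈ dl) (hu : u ∈ ul) {n : ℕ}
    (hn : T.El d u ^ (3 ^ n) = 1) :
    d = 1 ∧ (T.El d u = 1 ∨ T.El d u = h.el (ax 2) ∨ T.El d u = (h.el (ax 2))⁻¹) := by
  obtain ⟨h1, h2, h3⟩ := T.El_pow hd hu (3 ^ n)
  obtain ⟨hd1, hu1⟩ := T.El_eq_one h1 h2 (h3.symm.trans hn)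
  obtain ⟨hd6, -, -, hd8, -⟩ := dl_spec d hd
  have hd' : d = 1 := by
    have hg := pow_gcd_eq_one.2 ⟨hd8, hd1⟩
    have h83 : Nat.gcd 8 (3 ^ n) = 1 :=
      Nat.Coprime.pow_right n (by decide : Nat.Coprime 8 3)
    rwa [h83, pow_one] at hg
  refine ⟨hd', ?_⟩
  obtain ⟨huN, -, -, -, h23, -, h3'⟩ := ul_spec u hu
  have hu3 : u ^ 3 = 1 := h23.elim (fun h2' => by
    have hg := pow_gcd_eq_one.2 ⟨h2', hu1⟩
    have h23' : Nat.gcd 2 (3 ^ n) = 1 := Nat.Coprime.pow_right n (by decide : Nat.Coprime 2 3)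
    rw [h23', pow_one] at hg
    rw [hg, one_pow]) id
  rw [hd', T.El_one_left]
  rcases h3' hu3 with rfl | rfl | rfl
  · exact .inl h.el_one
  · exact .inr (.inl rfl)
  · refine .inr (.inr (eq_inv_of_mul_eq_one_left ?_))
    rw [← h.el_mul huN (ax_mem_nineH 2)]
    have h3 := basics.2.2.2.2.2.2.2.2.2.2.2.2.1
    rw [pow_succ, pow_succ, pow_one] at h3
    rw [h3, h.el_one]

variable [Finite G]

/-- No conjugate of the element of weight two commutes with the involution. -/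
theorem not_conj_pb (hb : Subgroup.centralizer ({h.el pb} : Set G) ≤ Subgroup.normalizer (h.J : Set G))
    (g : G) (hg : g * h.el pb * g⁻¹ * T.t s0 = T.t s0 * (g * h.el pb * g⁻¹)) : False := by
  have := Fact.mk Nat.prime_three
  obtain ⟨-, -, -, -, -, -, -, -, -, -, -, hax1, hax3, -, -, -, hpb1, hpb3, -⟩ := basics
  set e := h.el (ax 2) with he
  set L := Subgroup.centralizer ({T.t s0} : Set G) with hL
  have heL : e ∈ L := Subgroup.mem_centralizer_singleton_iff.2 (by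
    rw [he, ← T.El_one_left]; exact T.El_comm_t0 mem_lists.1.1 mem_lists.2.2.1)
  have he3 : e ^ 3 = 1 := by
    rw [he, ← T.El_one_left, (T.El_pow mem_lists.1.1 mem_lists.2.2.1 3).2.2, hax3, one_pow,
      T.El_one_left, h.el_one]
  let E : Subgroup L := Subgroup.zpowers ⟨e, heL⟩
  have hE : ∀ x : L, x ∈ E → (x : G) = 1 ∨ (x : G) = e ∨ (x : G) = e⁻¹ := by
    intro x hx
    obtain ⟨k, rfl⟩ := Subgroup.mem_zpowers_iff.1 hx
    simp only [SubgroupClass.coe_zpow]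
    rw [← Int.emod_add_ediv_mul k 3, mul_comm, zpow_add, zpow_mul, zpow_ofNat, he3, one_zpow, mul_one]
    rcases (by omega : k % 3 = 0 ∨ k % 3 = 1 ∨ k % 3 = 2) with hk | hk | hk <;> rw [hk]
    · exact .inl (zpow_zero e)
    · exact .inr (.inl (zpow_one e))
    · refine .inr (.inr (eq_inv_of_mul_eq_one_left ?_))
      rw [zpow_ofNat, ← pow_succ, he3]
  have hEp : IsPGroup 3 E := fun x => ⟨1, by
    have hx : (⟨e, heL⟩ : L) ^ 3 = 1 := Subtype.ext he3
    obtain ⟨k, hk⟩ := Subgroup.mem_zpowers_iff.1 x.2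
    refine Subtype.ext ?_
    simp only [SubmonoidClass.coe_pow, OneMemClass.coe_one, pow_one, ← hk]
    rw [← zpow_natCast, zpow_comm, zpow_natCast, hx, one_zpow]⟩
  obtain ⟨Q, hQ⟩ := hEp.exists_le_sylow
  have hQE : (Q : Subgroup L) = E := eq_of_normalizer_le Q.isPGroup' hQ fun x hx hn => by
    have hxe : (x : G) * e * (x : G)⁻¹ = e ∨ (x : G) * e * (x : G)⁻¹ = e⁻¹ := by
      refine (hE _ (hn _ (Subgroup.mem_zpowers _))).resolve_left fun h1 => ?_
      refine hax1 (h.el_inj (ax_mem_nineH 2) (one_mem _) ?_)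
      rw [h.el_one]
      exact conj_eq_one_iff.1 h1
    obtain ⟨d, hd, u, hu, hxd⟩ := T.exists_El (Subgroup.mem_centralizer_singleton_iff.1 x.2) hxe
    obtain ⟨n, hn'⟩ := Q.isPGroup' ⟨x, hx⟩
    have hn'' : (x : G) ^ (3 ^ n) = 1 := congrArg (fun y : ↥(Q : Subgroup L) => ((y : L) : G)) hn'
    rw [hxd] at hn''
    rcases (T.El_cube hd hu hn'').2 with h1 | h1 | h1 <;> rw [← hxd] at h1
    · rw [show x = 1 from Subtype.ext h1]; exact one_mem _
    · rw [show x = ⟨e, heL⟩ from Subtype.ext h1]; exact Subgroup.mem_zpowers _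
    · rw [show x = ⟨e, heL⟩⁻¹ from Subtype.ext h1]; exact inv_mem (Subgroup.mem_zpowers _)
  let y : L := ⟨g * h.el pb * g⁻¹, Subgroup.mem_centralizer_singleton_iff.2 hg⟩
  have hpe : h.el pb ^ 3 = 1 := by
    rw [pow_succ, pow_succ, pow_one, ← h.el_mul pb_mem_nineH pb_mem_nineH,
      ← h.el_mul (mul_mem pb_mem_nineH pb_mem_nineH) pb_mem_nineH]
    rw [pow_succ, pow_succ, pow_one] at hpb3
    rw [hpb3, h.el_one]
  have hy3 : y ^ 3 = 1 := Subtype.ext (by simp [y, conj_pow, hpe])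
  have hyp : IsPGroup 3 (Subgroup.zpowers y) := fun x => ⟨1, by
    obtain ⟨k, hk⟩ := Subgroup.mem_zpowers_iff.1 x.2
    refine Subtype.ext ?_
    simp only [SubmonoidClass.coe_pow, OneMemClass.coe_one, pow_one, ← hk]
    rw [← zpow_natCast, zpow_comm, zpow_natCast, hy3, one_zpow]⟩
  obtain ⟨P, hP⟩ := hyp.exists_le_sylow
  obtain ⟨c, hc⟩ := MulAction.exists_smul_eq L P Q
  have hcy : c * y * c⁻¹ ∈ E := by
    rw [← hQE, ← hc, Sylow.coe_subgroup_smul]
    exact ⟨y, hP (Subgroup.mem_zpowers _), rfl⟩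
  obtain ⟨x, hx⟩ : ∃ x : G, x * h.el pb * x⁻¹ = e ∨ x * h.el pb * x⁻¹ = e⁻¹ := by
    refine ⟨(c : G) * g, (?_ : _ ∨ _)⟩
    have h1 := hE _ hcy
    simp only [Subgroup.coe_mul, InvMemClass.coe_inv, y] at h1
    rw [show (c : G) * g * h.el pb * ((c : G) * g)⁻¹ = c * (g * h.el pb * g⁻¹) * (c : G)⁻¹ by group]
    refine h1.resolve_left fun h1 => hpb1 (h.el_inj pb_mem_nineH (one_mem _) ?_)
    rw [h.el_one]
    exact conj_eq_one_iff.1 (conj_eq_one_iff.1 h1)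
  obtain ⟨h56, hfax, hf5, hf1⟩ := five_spec
  have hfe : Commute (T.t five) e := (T.crossCommute h56 (ax_mem_nineH 2) hfax.symm).symm
  have hfy : Commute (T.t five) (x * h.el pb * x⁻¹) := by
    rcases hx with hx | hx <;> rw [hx]
    · exact hfe
    · exact hfe.inv_right
  have hmem : x⁻¹ * T.t five * x ∈ Subgroup.normalizer (h.J : Set G) :=
    hb (Subgroup.mem_centralizer_singleton_iff.2 (by
      have := congrArg (fun z => x⁻¹ * z * x) hfy.eq
      simp only [mul_assoc, inv_mul_cancel, mul_one, inv_mul_cancel_left] at this ⊢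
      exact this))
  obtain ⟨σ, hσ, hσe⟩ := h.exists_el hmem
  have hel5 : h.el (σ ^ 5) = 1 := by
    have h0 : h.el σ ^ 5 = 1 := by
      rw [hσe, show x⁻¹ * T.t five * x = x⁻¹ * T.t five * x⁻¹⁻¹ by rw [inv_inv], conj_pow,
        ← T.crossPow h56, hf5, T.crossOne, mul_one, inv_inv, inv_mul_cancel]
    simp only [pow_succ, pow_zero, one_mul] at h0 ⊢
    rw [h.el_mul (mul_mem (mul_mem (mul_mem hσ hσ) hσ) hσ) hσ, h.el_mul (mul_mem (mul_mem hσ hσ) hσ) hσ,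
      h.el_mul (mul_mem hσ hσ) hσ, h.el_mul hσ hσ, h0]
  have hσ1 := eq_one_of_pow_five hσ
    (h.el_inj (pow_mem hσ 5) (one_mem _) (hel5.trans h.el_one.symm))
  rw [hσ1, h.el_one] at hσe
  refine hf1 (T.t_ne_one 2 five h56 ?_)
  rw [show T.t five = x * (x⁻¹ * T.t five * x) * x⁻¹ by group, ← hσe, mul_one, mul_inv_cancel]

/-- The exceptional involutions are not conjugate to the central one. -/
theorem not_conj_tau (hb : Subgroup.centralizer ({h.el pb} : Set G) ≤ Subgroup.normalizer (h.J : Set G))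
    {d : Perm (Fin 9)} (hd : d = s0 ∨ d = s1 ∨ d = s0 * s1) (g : G) :
    g * T.t s0 * g⁻¹ ≠ T.El d tau := by
  obtain ⟨htN6, htN, -, -, -, -, -, -, -, -, -, -, -, -, -, -, -, -⟩ := basics
  have core : ∀ v q : Perm (Fin 9), v ∈ six 2 → q ∈ six 2 → tau * q⁻¹ * tau⁻¹ ∈ six 2 →
      q * v * (tau * q⁻¹ * tau⁻¹) ∈ nineH →
      q * v * (tau * q⁻¹ * tau⁻¹) * tau * pb = pb * (q * v * (tau * q⁻¹ * tau⁻¹) * tau) →
      ∀ g : G, g * T.t s0 * g⁻¹ ≠ T.El v tau := by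
    intro v q hv hq hq' hN hcomm g e
    have h1 : T.t q * T.El v tau * (T.t q)⁻¹ = h.el (q * v * (tau * q⁻¹ * tau⁻¹) * tau) := by
      rw [h.el_mul hN htN, ← T.t_el 2 _ (mul_mem (mul_mem hq hv) hq') hN,
        T.t_mul 2 _ _ (mul_mem hq hv) hq', T.t_mul 2 _ _ hq hv,
        T.t_conj 2 _ _ (inv_mem hq) htN, T.crossInv hq, El]
      simp only [mul_assoc, inv_mul_cancel, mul_one]
    refine T.not_conj_pb hb (g⁻¹ * (T.t q)⁻¹) ?_
    have h2 : h.el pb * (T.t q * g * T.t s0 * (T.t q * g)⁻¹) =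
        T.t q * g * T.t s0 * (T.t q * g)⁻¹ * h.el pb := by
      rw [show T.t q * g * T.t s0 * (T.t q * g)⁻¹ = T.t q * (g * T.t s0 * g⁻¹) * (T.t q)⁻¹ by group,
        e, h1, ← h.el_mul pb_mem_nineH (mul_mem hN htN), ← h.el_mul (mul_mem hN htN) pb_mem_nineH,
        hcomm]
    have := congrArg (fun z => (T.t q * g)⁻¹ * z * (T.t q * g)) h2
    simp only [mul_inv_rev, inv_inv, mul_assoc, inv_mul_cancel, mul_one, inv_mul_cancel_left] at this ⊢
    exact this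
  obtain ⟨⟨a1, a2, a3, a4⟩, ⟨b1, b2, b3, b4⟩⟩ := qu_spec
  have hs0 := (dl_spec s0 mem_lists.1.2.1).1
  have hs1 := (dl_spec s1 mem_lists.1.2.2.1).1
  rcases hd with rfl | rfl | rfl
  · exact core s0 qu0 hs0 a1 a3 a2 a4 g
  · exact core s1 qu1 hs1 b1 b3 b2 b4 g
  · intro e
    obtain ⟨hhd, hhu⟩ : hh ∈ dl ∧ (1 : Perm (Fin 9)) ∈ ul := ⟨mem_lists.1.2.2.2.2.1, mem_lists.2.1⟩
    have hc : T.El hh 1 * T.El s1 tau * (T.El hh 1)⁻¹ = T.El (s0 * s1) tau := by
      rw [T.El_conj hhd hhu mem_lists.1.2.2.1 mem_lists.2.2.2, v_spec.2.2.2.2.1, one_mul, inv_one,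
        mul_one, dl_prod.1]
    refine core s1 qu1 hs1 b1 b3 b2 b4 ((T.El hh 1)⁻¹ * g) ?_
    rw [← e] at hc
    calc (T.El hh 1)⁻¹ * g * T.t s0 * ((T.El hh 1)⁻¹ * g)⁻¹
        = (T.El hh 1)⁻¹ * (g * T.t s0 * g⁻¹) * T.El hh 1 := by group
      _ = (T.El hh 1)⁻¹ * (T.El hh 1 * T.El s1 tau * (T.El hh 1)⁻¹) * T.El hh 1 := by rw [hc]
      _ = T.El s1 tau := by group

/-- The centraliser of one of the four groups. -/
theorem exists_El_of_commute {s : Perm (Fin 9)} {v : Fin 4 → Perm (Fin 9)}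
    (hv : ∀ i, v i ∈ dl ∧ v i * s = s * v i) (hinj : Function.Injective v) (hs : s ∈ dl)
    (hc : Nat.card (Subgroup.centralizer ({T.t s0, T.t s} : Set G)) ≤ 24) {g : G}
    (h0 : g * T.t s0 = T.t s0 * g) (h1 : g * T.t s = T.t s * g) :
    ∃ d ∈ dl, ∃ u ∈ ul, g = T.El d u := by
  have hlen : ul.length = 6 := rfl
  have hmem : ∀ x : Fin 4 × Fin 6, T.El (v x.1) (ul[x.2.val]'(by omega)) ∈
      Subgroup.centralizer ({T.t s0, T.t s} : Set G) := by
    intro x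
    have hu : ul[x.2.val]'(by omega) ∈ ul := List.getElem_mem _
    rw [Subgroup.mem_centralizer_iff]
    rintro y (rfl | rfl)
    · exact (T.El_comm_t0 (hv x.1).1 hu).symm
    · rw [← T.El_one_right s, T.El_mul hs mem_lists.2.1 (hv x.1).1 hu,
        T.El_mul (hv x.1).1 hu hs mem_lists.2.1, one_mul, mul_one, (hv x.1).2]
  let f : Fin 4 × Fin 6 → Subgroup.centralizer ({T.t s0, T.t s} : Set G) :=
    fun x => ⟨_, hmem x⟩
  have hf : Function.Injective f := fun a b e => by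
    obtain ⟨e1, e2⟩ := T.El_inj (hv a.1).1 (List.getElem_mem _) (hv b.1).1 (List.getElem_mem _)
      (congrArg Subtype.val e)
    exact Prod.ext (hinj e1) (ul_inj _ _ e2)
  obtain ⟨x, hx⟩ := (hf.bijective_of_nat_card_le (by simpa using hc)).2 ⟨g, by
    rw [Subgroup.mem_centralizer_iff]
    rintro y (rfl | rfl)
    exacts [h0.symm, h1.symm]⟩
  exact ⟨_, (hv x.1).1, _, List.getElem_mem _, (congrArg Subtype.val hx).symm⟩

/-- Equality up to the central involution. -/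
def Near (a b : G) : Prop := b = a ∨ b = a * T.t s0

omit [Finite G] in
theorem near_symm {a b : G} (e : T.Near a b) : T.Near b a := by
  rcases e with rfl | rfl
  · exact .inl rfl
  · exact .inr (by rw [mul_assoc, T.t0_sq, mul_one])

omit [Finite G] in
theorem near_trans {a b c : G} (e : T.Near a b) (e' : T.Near b c) : T.Near a c := by
  rcases e with rfl | rfl <;> rcases e' with rfl | rfl
  · exact .inl rfl
  · exact .inr rfl
  · exact .inr rfl
  · exact .inl (by rw [mul_assoc, T.t0_sq, mul_one])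

omit [Finite G] in
theorem near_conj {a b g : G} (hg : g * T.t s0 = T.t s0 * g) (e : T.Near a b) :
    T.Near (g * a * g⁻¹) (g * b * g⁻¹) := by
  rcases e with rfl | rfl
  · exact .inl rfl
  · refine .inr ?_
    have : T.t s0 = g * T.t s0 * g⁻¹ := (eq_mul_inv_iff_mul_eq.2 hg.symm)
    calc g * (a * T.t s0) * g⁻¹ = g * a * g⁻¹ * (g * T.t s0 * g⁻¹) := by group
      _ = _ := by rw [← this]

/-- The conditions on a partner of the central involution. -/
structure Partner (s : Perm (Fin 9)) : Prop where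
  mem : s ∈ dl
  sq : s * s = 1
  ne_one : s ≠ 1
  ne_s0 : s ≠ s0
  cent : ∀ g : G, g * T.t s0 = T.t s0 * g → g * T.t s = T.t s * g → ∃ d ∈ dl, ∃ u ∈ ul, g = T.El d u
  swapper : ∃ w ∈ dl, w * s * w⁻¹ = s * s0
  conj : ∃ g : G, g * T.t s0 * g⁻¹ = T.t s
  conj' : ∃ g : G, g * T.t s0 * g⁻¹ = T.t s * T.t s0

omit [Finite G] in
theorem fix_partner {s : Perm (Fin 9)} (hs : T.Partner s) {g : G} (hg : g * T.t s0 = T.t s0 * g)
    (e : T.Near (T.t s) (g * T.t s * g⁻¹)) : ∃ d ∈ dl, ∃ u ∈ ul, g = T.El d u := by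
  rcases e with e | e
  · exact hs.cent g hg (mul_inv_eq_iff_eq_mul.1 e)
  obtain ⟨w, hw, hws⟩ := hs.swapper
  have hW : T.El w 1 * T.t s * (T.El w 1)⁻¹ = T.t s * T.t s0 := by
    rw [← T.El_one_right s, T.El_conj hw mem_lists.2.1 hs.mem mem_lists.2.1, hws, mul_one, one_mul,
      inv_one, T.El_one_right, T.El_one_right,
      T.t_mul 2 _ _ (dl_spec _ hs.mem).1 (dl_spec _ mem_lists.1.2.1).1]
  have hw0 : (T.El w 1)⁻¹ * T.t s0 = T.t s0 * (T.El w 1)⁻¹ :=
    ((show Commute _ _ from T.El_comm_t0 hw mem_lists.2.1).inv_left).eq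
  obtain ⟨d, hd, u, hu, e'⟩ := hs.cent ((T.El w 1)⁻¹ * g)
    (by rw [mul_assoc, hg, ← mul_assoc, hw0, mul_assoc]) (by
      refine mul_inv_eq_iff_eq_mul.1 ?_
      calc (T.El w 1)⁻¹ * g * T.t s * ((T.El w 1)⁻¹ * g)⁻¹
          = (T.El w 1)⁻¹ * (g * T.t s * g⁻¹) * T.El w 1 := by group
        _ = (T.El w 1)⁻¹ * (T.El w 1 * T.t s * (T.El w 1)⁻¹) * T.El w 1 := by rw [e, hW]
        _ = T.t s := by group)
  refine ⟨w * d, (dl_spec w hw).2.2.2.2.2.1 _ hd, 1 * u, by rwa [one_mul], ?_⟩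
  rw [← T.El_mul hw mem_lists.2.1 hd hu, ← e', mul_inv_cancel_left]

omit [Finite G] in
theorem conj_commuting {s : Perm (Fin 9)} (hs : T.Partner s) {g : G} (hg : g * T.t s0 = T.t s0 * g)
    (hc : Commute (g * T.t s * g⁻¹) (h.el (ax 2))) : T.Near (T.t s) (g * T.t s * g⁻¹) := by
  obtain ⟨-, -, -, -, -, -, -, -, -, -, -, hax1, hax3, -⟩ := basics
  have h0e : T.t s0 * h.el (ax 2) = h.el (ax 2) * T.t s0 := by
    rw [← T.El_one_left (ax 2)]; exact (T.El_comm_t0 mem_lists.1.1 mem_lists.2.2.1).symm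
  have hg' : g⁻¹ * T.t s0 = T.t s0 * g⁻¹ := ((show Commute _ _ from hg).inv_left).eq
  obtain ⟨d, hd, u, hu, e⟩ := hs.cent (g⁻¹ * h.el (ax 2) * g)
    (by rw [mul_assoc, hg, ← mul_assoc, mul_assoc g⁻¹, ← h0e, ← mul_assoc, hg']; simp only [mul_assoc])
    (by
      have := congrArg (fun z => g⁻¹ * z * g) hc.eq
      simp only [mul_assoc, inv_mul_cancel, mul_one, inv_mul_cancel_left] at this ⊢
      exact this.symm)
  have he3 : h.el (ax 2) ^ 3 = 1 := by
    rw [← T.El_one_left, (T.El_pow mem_lists.1.1 mem_lists.2.2.1 3).2.2, hax3, one_pow,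
      T.El_one_left, h.el_one]
  have hn : T.El d u ^ (3 ^ 1) = 1 := by
    rw [← e, pow_one, show g⁻¹ * h.el (ax 2) * g = g⁻¹ * h.el (ax 2) * g⁻¹⁻¹ by rw [inv_inv],
      conj_pow, he3, mul_one, inv_inv, inv_mul_cancel]
  have hne : T.El d u ≠ 1 := fun h1 => hax1 (h.el_inj (ax_mem_nineH 2) (one_mem _) (by
    rw [h.el_one, show h.el (ax 2) = g * (g⁻¹ * h.el (ax 2) * g) * g⁻¹ by group, e, h1, mul_one,
      mul_inv_cancel]))
  obtain ⟨d', hd', u', hu', e'⟩ := T.exists_El (g := g⁻¹) hg' (by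
    rw [inv_inv, e]; exact (T.El_cube hd hu hn).2.resolve_left hne)
  have eg : g = T.El d'⁻¹ u'⁻¹ := by rw [← T.El_inv hd' hu', ← e', inv_inv]
  obtain ⟨-, -, -, -, hdi, -, -⟩ := dl_spec d' hd'
  rw [eg, ← T.El_one_right s, T.El_conj hdi (ul_spec _ hu').2.1 hs.mem mem_lists.2.1, mul_one,
    mul_inv_cancel, T.El_one_right, T.El_one_right]
  rcases dl_conj _ hdi _ hs.mem with e'' | e'' <;> rw [e'']
  · exact .inl rfl
  · exact .inr (T.t_mul 2 _ _ (dl_spec _ hs.mem).1 (dl_spec _ mem_lists.1.2.1).1)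

theorem conj_cases (hb : Subgroup.centralizer ({h.el pb} : Set G) ≤ Subgroup.normalizer (h.J : Set G))
    {s : Perm (Fin 9)} (hs : T.Partner s) {g : G} (hg : g * T.t s0 = T.t s0 * g)
    {d u : Perm (Fin 9)} (hd : d ∈ dl) (hu : u = 1 ∨ u = tau)
    (e : T.Near (T.El d u) (g * T.t s * g⁻¹)) :
    T.Near (T.t s) (g * T.t s * g⁻¹) ∨ T.Near (T.El hh tau) (g * T.t s * g⁻¹) := by
  obtain ⟨d', hd', e'⟩ : ∃ d' ∈ dl, g * T.t s * g⁻¹ = T.El d' u := by
    rcases e with e | e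
    · exact ⟨d, hd, e⟩
    · have hu' : u ∈ ul := by rcases hu with rfl | rfl; exacts [mem_lists.2.1, mem_lists.2.2.2]
      refine ⟨d * s0, (dl_spec d hd).2.2.2.2.2.1 _ mem_lists.1.2.1, ?_⟩
      rw [e, ← T.El_one_right s0, T.El_mul hd hu' mem_lists.1.2.1 mem_lists.2.1, mul_one]
  rcases hu with rfl | rfl
  · refine .inl (T.conj_commuting hs hg ?_)
    rw [e', T.El_one_right]
    exact (T.crossCommute (dl_spec d' hd').1 (ax_mem_nineH 2) (dl_spec d' hd').2.1.symm).symm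
  refine .inr ?_
  have hu := mem_lists.2.2.2
  have hsq : d' * d' = 1 := by
    refine (T.El_eq_one ((dl_spec d' hd').2.2.2.2.2.1 _ hd') ((ul_spec _ hu).2.2.1 _ hu) ?_).1
    rw [← T.El_mul hd' hu hd' hu, ← e', show g * T.t s * g⁻¹ * (g * T.t s * g⁻¹) =
      g * (T.t s * T.t s) * g⁻¹ by group, ← T.t_mul 2 _ _ (dl_spec _ hs.mem).1 (dl_spec _ hs.mem).1,
      hs.sq, T.crossOne, mul_one, mul_inv_cancel]
  obtain ⟨a, ha⟩ := hs.conj
  have hno : ∀ x, x = s0 ∨ x = s1 ∨ x = s0 * s1 → d' ≠ x := fun x hx hdx =>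
    T.not_conj_tau hb (hdx ▸ hx) (g * a) (by
      rw [← e', ← ha]; group)
  rcases dl_invol d' hd' hsq with rfl | h1 | h1 | h1 | rfl | rfl
  · exfalso
    obtain ⟨b, hb'⟩ := hs.conj'
    refine T.not_conj_tau hb (.inl rfl) (g * b) ?_
    rw [show g * b * T.t s0 * (g * b)⁻¹ = g * (b * T.t s0 * b⁻¹) * g⁻¹ by group, hb',
      show g * (T.t s * T.t s0) * g⁻¹ = g * T.t s * g⁻¹ * (g * T.t s0 * g⁻¹) by group, e', hg,
      mul_inv_cancel_right, ← T.El_one_right s0, T.El_mul mem_lists.1.1 hu mem_lists.1.2.1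
        mem_lists.2.1, one_mul, mul_one]
  · exact absurd h1 (hno _ (.inl rfl))
  · exact absurd h1 (hno _ (.inr (.inl rfl)))
  · exact absurd h1 (hno _ (.inr (.inr rfl)))
  · exact .inl e'
  · refine .inr (e'.trans ?_)
    rw [← T.El_one_right s0, T.El_mul mem_lists.1.2.2.2.2.1 hu mem_lists.1.2.1 mem_lists.2.1, mul_one,
      dl_prod.2.1]

/-- Membership in the elementary group of order eight modulo the involution. -/
def InW (x : G) : Prop := ∃ d ∈ dl, ∃ u, (u = 1 ∨ u = tau) ∧ x = T.El d u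

theorem exists_isolated (hb : Subgroup.centralizer ({h.el pb} : Set G) ≤ Subgroup.normalizer (h.J : Set G))
    (hs1 : T.Partner s1) (hsh : T.Partner hh) :
    ∃ s, T.Partner s ∧ ∀ g : G, g * T.t s0 = T.t s0 * g →
      (∃ y, T.InW y ∧ T.Near y (g * T.t s * g⁻¹)) → T.Near (T.t s) (g * T.t s * g⁻¹) := by
  by_contra hno
  push Not at hno
  obtain ⟨g1, hg1, ⟨_, ⟨d1, hd1, u1, hu1, rfl⟩, n1⟩, f1⟩ := hno s1 hs1
  obtain ⟨g2, hg2, ⟨_, ⟨d2, hd2, u2, hu2, rfl⟩, n2⟩, f2⟩ := hno hh hsh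
  have e1 := (T.conj_cases hb hs1 hg1 hd1 hu1 n1).resolve_left f1
  have e2 := (T.conj_cases hb hsh hg2 hd2 hu2 n2).resolve_left f2
  set x := g2⁻¹ * g1 with hx
  have hg2' : g2⁻¹ * T.t s0 = T.t s0 * g2⁻¹ := ((show Commute _ _ from hg2).inv_left).eq
  have hxc : x * T.t s0 = T.t s0 * x := by
    rw [hx, mul_assoc, hg1, ← mul_assoc, hg2', mul_assoc]
  have hnear : T.Near (T.t hh) (x * T.t s1 * x⁻¹) := by
    have := T.near_conj hg2' (T.near_trans (T.near_symm e2) e1)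
    rw [show g2⁻¹ * (g2 * T.t hh * g2⁻¹) * g2⁻¹⁻¹ = T.t hh by group,
      show g2⁻¹ * (g1 * T.t s1 * g1⁻¹) * g2⁻¹⁻¹ = x * T.t s1 * x⁻¹ by rw [hx]; group] at this
    exact this
  have hhd := mem_lists.1.2.2.2.2.1
  have hcomm : Commute (x * T.t s1 * x⁻¹) (h.el (ax 2)) := by
    have c1 : Commute (T.t hh) (h.el (ax 2)) :=
      (T.crossCommute (dl_spec _ hhd).1 (ax_mem_nineH 2) (dl_spec _ hhd).2.1.symm).symm
    have c0 : Commute (T.t s0) (h.el (ax 2)) :=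
      (T.crossCommute (dl_spec _ mem_lists.1.2.1).1 (ax_mem_nineH 2)
        (dl_spec _ mem_lists.1.2.1).2.1.symm).symm
    rcases hnear with e | e <;> rw [e]
    exacts [c1, c1.mul_left c0]
  have := T.near_trans hnear (T.near_symm (T.conj_commuting hs1 hxc hcomm))
  obtain ⟨-, -, -, -, -, -, -, hne1, hne2, -⟩ := basics
  have h6 := (dl_spec _ mem_lists.1.2.2.1).1
  have h6' := (dl_spec _ hhd).1
  rcases this with e | e
  · exact hne1 (T.crossInj h6 h6' e)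
  · rw [← T.t_mul 2 _ _ h6' (dl_spec _ mem_lists.1.2.1).1] at e
    exact hne2 ((T.crossInj h6 (mul_mem h6' (dl_spec _ mem_lists.1.2.1).1) e).trans dl_prod.2.1)

omit [Finite G] in
theorem exists_conj_t0 {d q : Perm (Fin 9)} (hd : d ∈ six 2) (hq : q ∈ six 2) (e : q * d * q⁻¹ = s0) :
    ∃ g : G, g * T.t s0 * g⁻¹ = T.t d := by
  refine ⟨(T.t q)⁻¹, ?_⟩
  rw [← e, T.t_mul 2 _ _ (mul_mem hq hd) (inv_mem hq), T.t_mul 2 _ _ hq hd, T.crossInv hq]
  group

/-- The two partners cannot both have small centralisers. -/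
theorem false_of_small
    (hb : Subgroup.centralizer ({h.el pb} : Set G) ≤ Subgroup.normalizer (h.J : Set G))
    (hV : Nat.card (Subgroup.centralizer ({T.t (dbl 0 1 2 3), T.t (dbl 0 2 1 3)} : Set G)) ≤ 24)
    (hW : Nat.card (Subgroup.centralizer ({T.t (dbl 0 1 2 3), h.el (dbl 0 1 4 5)} : Set G)) ≤ 24) :
    False := by
  have := Fact.mk Nat.prime_two
  obtain ⟨⟨l1, l0, ls1, ls01, lh, ls0h⟩, lu1, luax, lut⟩ := mem_lists
  obtain ⟨hhN, htN, -, -, hs01, hs11, hhh1, -, -, hs1s0, hhs0, -, -, -, htt, -, -, -, hax0⟩ := basics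
  obtain ⟨⟨q1, q1e⟩, ⟨q2, q2e⟩, ⟨q3, q3e⟩, ⟨q4, q4e⟩⟩ := q_spec
  obtain ⟨hv1, hv2, hi1, hi2, hsw1, hsw2⟩ := v_spec
  have hm : ∀ {d}, d ∈ dl → d ∈ six 2 := fun hd => (dl_spec _ hd).1
  rw [← T.t_el 2 (dbl 0 1 4 5) (hm lh) hhN] at hW
  have hP1 : T.Partner s1 :=
    { mem := ls1
      sq := by decide +kernel
      ne_one := hs11
      ne_s0 := hs1s0
      cent := fun g a b => T.exists_El_of_commute hv1 hi1 ls1 hV a b
      swapper := ⟨hh, lh, hsw1⟩
      conj := T.exists_conj_t0 (hm ls1) q1 q1e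
      conj' := by
        rw [← T.t_mul 2 _ _ (hm ls1) (hm l0), dl_prod.1]
        exact T.exists_conj_t0 (hm ls01) q2 q2e }
  have hPh : T.Partner hh :=
    { mem := lh
      sq := by decide +kernel
      ne_one := hhh1
      ne_s0 := hhs0
      cent := fun g a b => T.exists_El_of_commute hv2 hi2 lh hW a b
      swapper := ⟨s1, ls1, hsw2⟩
      conj := T.exists_conj_t0 (hm lh) q3 q3e
      conj' := by
        rw [← T.t_mul 2 _ _ (hm lh) (hm l0), dl_prod.2.1]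
        exact T.exists_conj_t0 (hm ls0h) q4 q4e }
  obtain ⟨s, hs, hiso⟩ := T.exists_isolated hb hP1 hPh
  -- the centraliser of the involution modulo the involution
  set L := Subgroup.centralizer ({T.t s0} : Set G) with hLdef
  have hmemL : ∀ {x : G}, x ∈ L ↔ x * T.t s0 = T.t s0 * x :=
    Subgroup.mem_centralizer_singleton_iff
  let z : L := ⟨T.t s0, hmemL.2 rfl⟩
  have hZ : (Subgroup.zpowers z).Normal := ⟨fun n hn g => by
    obtain ⟨k, rfl⟩ := Subgroup.mem_zpowers_iff.1 hn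
    have hc : Commute g z := Subtype.ext (hmemL.1 g.2)
    rw [(hc.zpow_right k).eq, mul_inv_cancel_right]
    exact Subgroup.zpow_mem _ (Subgroup.mem_zpowers z) k⟩
  let π := QuotientGroup.mk' (Subgroup.zpowers z)
  have hπ : ∀ a b : L, π a = π b ↔ T.Near (a : G) b := by
    intro a b
    rw [QuotientGroup.mk'_apply, QuotientGroup.mk'_apply, QuotientGroup.eq, Subgroup.mem_zpowers_iff]
    constructor
    · rintro ⟨k, hk⟩
      have hk' : T.t s0 ^ k = (a : G)⁻¹ * b := congrArg Subtype.val hk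
      rw [← Int.emod_add_ediv_mul k 2, mul_comm, zpow_add, zpow_mul, zpow_ofNat, pow_two, T.t0_sq,
        one_zpow, mul_one] at hk'
      rcases (by omega : k % 2 = 0 ∨ k % 2 = 1) with hk2 | hk2 <;> rw [hk2] at hk'
      · exact .inl (inv_mul_eq_one.1 ((zpow_zero _).symm.trans hk').symm).symm
      · exact .inr (eq_mul_of_inv_mul_eq ((zpow_one _).symm.trans hk').symm)
    · rintro (e | e)
      · exact ⟨0, Subtype.ext (by simp [e])⟩
      · exact ⟨1, Subtype.ext (by simp [e, z])⟩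
  have hπs : Function.Surjective π := QuotientGroup.mk'_surjective _
  let EL : ∀ d u : Perm (Fin 9), d ∈ dl → u ∈ ul → L := fun d u hd hu =>
    ⟨T.El d u, hmemL.2 (T.El_comm_t0 hd hu)⟩
  have hu2 : ∀ {u}, u = 1 ∨ u = tau → u ∈ ul := by
    rintro u (rfl | rfl); exacts [lu1, lut]
  let W : Subgroup L :=
    { carrier := {x | T.InW x}
      one_mem' := ⟨1, l1, 1, .inl rfl, by rw [T.El_one_left, h.el_one]; rfl⟩
      mul_mem' := by
        rintro a b ⟨d, hd, u, hu, ea⟩ ⟨d', hd', u', hu', eb⟩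
        refine ⟨d * d', (dl_spec d hd).2.2.2.2.2.1 _ hd', u * u', ?_, ?_⟩
        · rcases hu with rfl | rfl <;> rcases hu' with rfl | rfl <;> simp [htt]
        · rw [Subgroup.coe_mul, ea, eb, T.El_mul hd (hu2 hu) hd' (hu2 hu')]
      inv_mem' := by
        rintro a ⟨d, hd, u, hu, ea⟩
        refine ⟨d⁻¹, (dl_spec d hd).2.2.2.2.1, u⁻¹, ?_, ?_⟩
        · rcases hu with rfl | rfl
          · exact .inl inv_one
          · exact .inr (inv_eq_of_mul_eq_one_left htt)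
        · rw [Subgroup.coe_inv, ea, T.El_inv hd (hu2 hu)] }
  have hW8 : ∀ x ∈ W, x ^ 8 = 1 := by
    rintro x ⟨d, hd, u, hu, ex⟩
    refine Subtype.ext ?_
    rw [SubmonoidClass.coe_pow, ex, (T.El_pow hd (hu2 hu) 8).2.2, (dl_spec d hd).2.2.2.1]
    rcases hu with rfl | rfl
    · rw [one_pow, T.El_one_left, h.el_one]; rfl
    · rw [show (8 : ℕ) = 2 * 4 from rfl, pow_mul, pow_two, htt, one_pow, T.El_one_left, h.el_one]; rfl
  have hWp : IsPGroup 2 (W.map π) := fun x => ⟨3, by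
    obtain ⟨y, hy, ey⟩ := x.2
    refine Subtype.ext ?_
    rw [SubmonoidClass.coe_pow, ← ey, ← map_pow, show (2 : ℕ) ^ 3 = 8 from rfl, hW8 y hy, map_one]
    rfl⟩
  obtain ⟨R, hR⟩ := hWp.exists_le_sylow
  let S : L := EL s 1 hs.mem lu1
  have hS : (S : G) = T.t s := T.El_one_right s
  have hSW : S ∈ W := ⟨s, hs.mem, 1, .inl rfl, rfl⟩
  have hfix : ∀ g : L, π g * π S * (π g)⁻¹ ∈ W.map π → T.Near (T.t s) (g * T.t s * (g : G)⁻¹) := by
    intro g hg
    obtain ⟨y, hy, ey⟩ := hg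
    rw [← map_inv, ← map_mul, ← map_mul, hπ] at ey
    simp only [Subgroup.coe_mul, InvMemClass.coe_inv, hS] at ey
    exact hiso g (hmemL.1 g.2) ⟨y, hy, ey⟩
  have hRW : (R : Subgroup _) = W.map π := Cross.eq_of_normalizer_le R.isPGroup' hR fun r _ hn => by
    obtain ⟨g, rfl⟩ := hπs r
    obtain ⟨d, hd, u, hu, eg⟩ := T.fix_partner hs (hmemL.1 g.2) (hfix g (hn _ ⟨S, hSW, rfl⟩))
    have hTW : EL 1 tau l1 lut ∈ W := ⟨1, l1, tau, .inr rfl, rfl⟩
    obtain ⟨y, ⟨d', hd', u', hu', ey⟩, e⟩ := hn _ ⟨_, hTW, rfl⟩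
    rw [← map_inv, ← map_mul, ← map_mul, hπ] at e
    simp only [Subgroup.coe_mul, InvMemClass.coe_inv, eg, ey, EL,
      T.El_conj hd hu l1 lut, mul_one, mul_inv_cancel] at e
    have huu : u * tau * u⁻¹ ∈ ul :=
      (ul_spec _ ((ul_spec u hu).2.2.1 _ lut)).2.2.1 _ (ul_spec u hu).2.1
    have heq : u * tau * u⁻¹ = u' := by
      rcases e with e | e
      · exact (T.El_inj l1 huu hd' (hu2 hu') e).2
      · rw [← T.El_one_right s0, T.El_mul hd' (hu2 hu') l0 lu1, mul_one] at e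
        exact (T.El_inj l1 huu ((dl_spec d' hd').2.2.2.2.2.1 _ l0) (hu2 hu') e).2
    have hu3 : u = 1 ∨ u = tau := (ul_spec u hu).2.2.2.2.2.1 (by
      rcases hu' with rfl | rfl
      · have h1 : tau = 1 := conj_eq_one_iff.1 heq
        rw [h1, mul_one, mul_inv_cancel]
      · exact heq)
    exact ⟨g, ⟨d, hd, u, hu3, eg⟩, rfl⟩
  have hSS : S * S = 1 := Subtype.ext (by
    rw [Subgroup.coe_mul, hS, ← T.t_mul 2 _ _ (hm hs.mem) (hm hs.mem), hs.sq, T.crossOne]; rfl)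
  have hord : orderOf (π S) = 2 := by
    refine orderOf_eq_prime (by rw [pow_two, ← map_mul, hSS, map_one]) fun e => ?_
    rw [← map_one π, hπ] at e
    rcases e with e | e <;> rw [hS, OneMemClass.coe_one] at e
    · exact hs.ne_one (T.t_ne_one 2 _ (hm hs.mem) e.symm)
    · refine hs.ne_s0 (T.crossInj (hm hs.mem) (hm l0) ?_)
      exact mul_right_cancel (b := T.t s0) (e.symm.trans T.t0_sq.symm)
  obtain ⟨N, hN, hNodd, hNc⟩ := Cfsg.Agent.S0215.result R (π S) hord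
    (hR ⟨S, hSW, rfl⟩) fun g hg => by
      obtain ⟨g, rfl⟩ := hπs g
      have hg' : π g * π S * (π g)⁻¹ ∈ W.map π := hRW ▸ hg
      rw [← map_inv, ← map_mul, ← map_mul, hπ]
      simp only [Subgroup.coe_mul, InvMemClass.coe_inv, hS]
      exact T.near_symm (hfix g hg')
  let φ := QuotientGroup.mk' N
  have hgen : ∀ x : L, ∃ d u, ∃ (hd : d ∈ dl) (hu : u ∈ ul), φ (π x) = φ (π (EL d u hd hu)) := by
    intro x
    obtain ⟨n, hn, y, hy, e⟩ := Cross.exists_mem_commute hNodd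
      (by rw [← map_mul, hSS, map_one]) hNc (π x)
    obtain ⟨y, rfl⟩ := hπs y
    have hy' : π (y * S * y⁻¹) = π S := by
      rw [map_mul, map_mul, hy, map_inv, mul_inv_cancel_right]
    rw [eq_comm, hπ] at hy'
    simp only [Subgroup.coe_mul, InvMemClass.coe_inv, hS] at hy'
    obtain ⟨d, hd, u, hu, ey⟩ := T.fix_partner hs (hmemL.1 y.2) hy'
    refine ⟨d, u, hd, hu, ?_⟩
    rw [e, map_mul, show y = EL d u hd hu from Subtype.ext ey]
    rw [show φ n = 1 from (QuotientGroup.eq_one_iff n).2 hn, one_mul]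
  have hcube : ∀ a b : L, (φ (π a) * φ (π b) * (φ (π a))⁻¹ * (φ (π b))⁻¹) ^ 3 = 1 := by
    intro a b
    obtain ⟨d, u, hd, hu, ea⟩ := hgen a
    obtain ⟨d', u', hd', hu', eb⟩ := hgen b
    rw [ea, eb, ← map_inv, ← map_inv, ← map_mul, ← map_mul, ← map_mul, ← map_inv, ← map_inv,
      ← map_mul, ← map_mul, ← map_mul, ← map_pow, ← map_pow]
    have : π ((EL d u hd hu * EL d' u' hd' hu' * (EL d u hd hu)⁻¹ * (EL d' u' hd' hu')⁻¹) ^ 3) = π 1 := by
      rw [hπ]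
      simp only [SubmonoidClass.coe_pow, Subgroup.coe_mul, InvMemClass.coe_inv, OneMemClass.coe_one, EL]
      have a1 := (dl_spec _ ((dl_spec d hd).2.2.2.2.2.1 _ hd')).2.2.2.2.2.1 _ (dl_spec d hd).2.2.2.2.1
      have b1 := (ul_spec _ ((ul_spec u hu).2.2.1 _ hu')).2.2.1 _ (ul_spec u hu).2.1
      have a2 := (dl_spec _ a1).2.2.2.2.2.1 _ (dl_spec d' hd').2.2.2.2.1
      have b2 := (ul_spec _ b1).2.2.1 _ (ul_spec u' hu').2.1
      rw [T.El_conj hd hu hd' hu', T.El_inv hd' hu',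
        T.El_mul a1 b1 (dl_spec d' hd').2.2.2.2.1 (ul_spec u' hu').2.1, (T.El_pow a2 b2 3).2.2,
        ul_comm u hu u' hu', T.El_one_right]
      rcases dl_comm d hd d' hd' with e | e <;> rw [e]
      · rw [one_pow, T.crossOne]; exact .inl rfl
      · refine .inr ?_
        rw [show s0 ^ 3 = s0 by decide +kernel, T.t0_sq]
    rw [this, map_one, map_one]
  -- the transported commutator
  obtain ⟨hp, hT6, hTN, hq, hqT, hA6, hA⟩ := qT_spec
  set g0 := T.t qT * h.el pT with hg0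
  have hg0t : g0 * h.el tau * g0⁻¹ = T.t s0 := by
    rw [hg0, show T.t qT * h.el pT * h.el tau * (T.t qT * h.el pT)⁻¹ =
      T.t qT * (h.el pT * h.el tau * (h.el pT)⁻¹) * (T.t qT)⁻¹ by group, ← h.el_inv hp,
      ← h.el_mul hp htN, ← h.el_mul (mul_mem hp htN) (inv_mem hp), ← T.t_el 2 _ hT6 hTN, ← hqT,
      T.t_mul 2 _ _ (mul_mem hq hT6) (inv_mem hq), T.t_mul 2 _ _ hq hT6, T.crossInv hq]
  have hax : ax 0 ∈ nineH := ax_mem_nineH 0
  have hin : ∀ y : G, y * h.el tau = h.el tau * y → g0 * y * g0⁻¹ ∈ L := fun y hy => by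
    rw [hmemL, ← hg0t, show g0 * y * g0⁻¹ * (g0 * h.el tau * g0⁻¹) = g0 * (y * h.el tau) * g0⁻¹ by
      group, hy]
    group
  have hta : h.el (ax 0) * h.el tau = h.el tau * h.el (ax 0) := by
    rw [← h.el_mul hax htN, ← h.el_mul htN hax, hax0]
  have htb : T.t s0 * h.el tau = h.el tau * T.t s0 :=
    (T.crossCommute (hm l0) htN ((dl_spec _ l0).2.2.2.2.2.2 _ lut)).symm
  let a : L := ⟨_, hin _ hta⟩
  let b : L := ⟨_, hin _ htb⟩
  have hab : ((a * b * a⁻¹ * b⁻¹ : L) : G) = g0 * T.t s1 * g0⁻¹ := by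
    rw [← hA, T.t_mul 2 _ _ hA6 (inv_mem (hm l0)), T.crossInv (hm l0), T.t_conj 2 _ _ (hm l0) hax]
    simp only [Subgroup.coe_mul, InvMemClass.coe_inv, a, b]
    group
  set c := a * b * a⁻¹ * b⁻¹ with hc
  have hc2 : π c * π c = 1 := by
    rw [← map_mul, show c * c = 1 from Subtype.ext (by
      rw [Subgroup.coe_mul, hab, show g0 * T.t s1 * g0⁻¹ * (g0 * T.t s1 * g0⁻¹) =
        g0 * (T.t s1 * T.t s1) * g0⁻¹ by group, ← T.t_mul 2 _ _ (hm ls1) (hm ls1), hP1.sq,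
        T.crossOne, mul_one, mul_inv_cancel]; rfl), map_one]
  have hc1 : π c ≠ 1 := fun e => by
    rw [← map_one π, hπ, OneMemClass.coe_one, hab] at e
    rcases e with e | e
    · exact hs11 (T.t_ne_one 2 _ (hm ls1) (conj_eq_one_iff.1 e.symm))
    · have e1 : g0 * T.t s1 * g0⁻¹ = T.t s0 := mul_right_cancel (b := T.t s0)
        (e.symm.trans T.t0_sq.symm)
      rw [← hg0t] at e1
      have e2 : T.t s1 = h.el tau := mul_left_cancel (mul_right_cancel e1)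
      rw [← T.El_one_right, ← T.El_one_left] at e2
      exact hs11 (T.El_inj ls1 lu1 l1 lut e2).1
  have hcN : π c ∈ N := by
    rw [← QuotientGroup.eq_one_iff (N := N)]
    have h3 : φ (π c) ^ 3 = 1 := by
      have := hcube a b
      rwa [hc, map_mul, map_mul, map_mul, map_inv, map_inv, map_mul, map_mul, map_mul, map_inv, map_inv]
    have h2 : φ (π c) ^ 2 = 1 := by rw [pow_two, ← map_mul, hc2, map_one]
    show φ (π c) = 1
    simpa using pow_gcd_eq_one.2 (⟨h3, h2⟩ : φ (π c) ^ 3 = 1 ∧ φ (π c) ^ 2 = 1)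
  have h2N : orderOf (π c) = 2 := orderOf_eq_prime (by rw [pow_two, hc2]) hc1
  have hdvd := Subgroup.orderOf_dvd_natCard N hcN
  rw [h2N] at hdvd
  exact Nat.not_even_iff_odd.2 hNodd (even_iff_two_dvd.2 hdvd)

end SixAct

end CfsgLib.AltNineLocal
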