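import Mathlib.GroupTheory.SpecificGroups.Alternating.Simple
import Mathlib.GroupTheory.Sylow

/-!
Finite facts about the alternating group of degree five and the symmetric group of degree three.
-/

set_option autoImplicit false
set_option linter.style.haveILetI false

namespace CfsgLib.AltNineLocal.Sections

open Equiv Equiv.Perm

/-- The alternating group of degree five. -/
abbrev A5 : Type := ↥(alternatingGroup (Fin 5))

/-- A three-cycle. -/
def x5 : A5 := ⟨swap 0 1 * swap 1 2, mem_alternatingGroup.2 (by decide)⟩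

/-- An involution generating the group together with `x5`. -/
def b5 : A5 := ⟨swap 0 3 * swap 1 4, mem_alternatingGroup.2 (by decide)⟩

theorem exists_conj_x5 : ∀ y : A5, y ^ 3 = 1 → y ≠ 1 → ∃ a : A5, a * y * a⁻¹ = x5 := by
  decide +kernel

theorem sq_of_pow_four : ∀ y : A5, y ^ 4 = 1 → y ^ 2 = 1 := by decide +kernel

theorem exists_image_b5 : ∀ y : A5, y ^ 2 = 1 → y ≠ 1 → (x5 * y) ^ 5 = 1 →
    ∃ s : Perm (Fin 5), s * (x5 : Perm (Fin 5)) = (x5 : Perm (Fin 5)) * s ∧
      s * (b5 : Perm (Fin 5)) * s⁻¹ = (y : Perm (Fin 5)) := by decide +kernel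

theorem eq_pow_of_cube_comm : ∀ s : Perm (Fin 5), s * (x5 : Perm (Fin 5)) = (x5 : Perm (Fin 5)) * s →
    s ^ 3 * (b5 : Perm (Fin 5)) = (b5 : Perm (Fin 5)) * s ^ 3 →
    ∃ i : Fin 3, s = (x5 : Perm (Fin 5)) ^ i.val := by decide +kernel

theorem card_A5 : Nat.card A5 = 60 := by
  rw [Nat.card_eq_fintype_card]; decide +kernel

theorem eq_top_of_mem {H : Subgroup A5} (hx : x5 ∈ H) (hb : b5 ∈ H) : H = ⊤ := by
  haveI : IsSimpleGroup A5 := alternatingGroup.isSimpleGroup (by simp)
  have h2 : (2 : ℕ) ∣ Nat.card H := by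
    have := Subgroup.orderOf_dvd_natCard H hb
    rwa [orderOf_eq_prime (p := 2) (by decide +kernel) (by decide +kernel)] at this
  have h3 : (3 : ℕ) ∣ Nat.card H := by
    have := Subgroup.orderOf_dvd_natCard H hx
    rwa [orderOf_eq_prime (p := 3) (by decide +kernel) (by decide +kernel)] at this
  have h5 : (5 : ℕ) ∣ Nat.card H := by
    haveI : Fact (Nat.Prime 5) := ⟨by decide⟩
    have := Subgroup.orderOf_dvd_natCard H (mul_mem hx hb)
    rwa [orderOf_eq_prime (p := 5) (by decide +kernel) (by decide +kernel)] at this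
  have h30 : 30 ∣ Nat.card H := by omega
  have hmul := H.card_mul_index
  rw [card_A5] at hmul
  obtain ⟨k, hk⟩ := h30
  rw [hk] at hmul
  have hki : k * H.index = 2 := by nlinarith
  have : H.index = 1 ∨ H.index = 2 := (Nat.dvd_prime Nat.prime_two).1 ⟨k, by rw [← hki, mul_comm]⟩
  rcases this with h | h
  · exact Subgroup.index_eq_one.1 h
  · rcases (Subgroup.normal_of_index_eq_two h).eq_bot_or_eq_top with e | e
    · rw [e, Subgroup.card_bot] at h2; omega
    · exact e

/-- An endomorphism of order dividing three which fixes `x5` is conjugation by a power of `x5`. -/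
theorem exists_eq_conj (f : A5 →* A5) (hx : f x5 = x5) (h3 : ∀ a, f (f (f a)) = a) :
    ∃ i : ℕ, ∀ a, f a = x5 ^ i * a * (x5 ^ i)⁻¹ := by
  have hb : b5 ^ 2 = 1 ∧ b5 ≠ 1 ∧ (x5 * b5) ^ 5 = 1 := by decide +kernel
  obtain ⟨s, hsx, hsb⟩ := exists_image_b5 (f b5) (by rw [← map_pow, hb.1, map_one])
    (fun e => hb.2.1 (by rw [← h3 b5, e, map_one, map_one]))
    (by rw [← hx, ← map_mul, ← map_pow, hb.2.2, map_one])
  have hs : ∀ a : A5, s * (a : Perm (Fin 5)) * s⁻¹ ∈ alternatingGroup (Fin 5) := fun a =>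
    Subgroup.Normal.conj_mem inferInstance _ a.2 s
  let g : A5 →* A5 :=
    { toFun := fun a => ⟨_, hs a⟩
      map_one' := Subtype.ext (by simp)
      map_mul' := fun a b => Subtype.ext (by simp [mul_assoc]) }
  have hfg : f = g := by
    have htop : f.eqLocus g = ⊤ := eq_top_of_mem
      (show f x5 = g x5 from Subtype.ext (by
        show (f x5 : Perm (Fin 5)) = s * (x5 : Perm (Fin 5)) * s⁻¹
        rw [hx, hsx, mul_inv_cancel_right]))
      (show f b5 = g b5 from Subtype.ext hsb.symm)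
    exact MonoidHom.ext fun a => (by rw [htop]; trivial : a ∈ f.eqLocus g)
  obtain ⟨i, hi⟩ := eq_pow_of_cube_comm s hsx (by
    have e := congrArg Subtype.val (h3 b5)
    rw [hfg] at e
    change s * (s * (s * (b5 : Perm (Fin 5)) * s⁻¹) * s⁻¹) * s⁻¹ = (b5 : Perm (Fin 5)) at e
    calc s ^ 3 * (b5 : Perm (Fin 5))
        = s * (s * (s * (b5 : Perm (Fin 5)) * s⁻¹) * s⁻¹) * s⁻¹ * s ^ 3 := by
          simp [pow_succ, mul_assoc]
      _ = (b5 : Perm (Fin 5)) * s ^ 3 := by rw [e])
  refine ⟨i.val, fun a => Subtype.ext ?_⟩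
  rw [hfg]
  show s * (a : Perm (Fin 5)) * s⁻¹ = _
  simp [hi]

/-- A normal subgroup of the symmetric group of degree three without elements of order three is
trivial. -/
theorem perm_three_eq_bot {K : Subgroup (Perm (Fin 3))} [K.Normal] (h : ¬ 3 ∣ Nat.card K) :
    K = ⊥ := by
  haveI := Fact.mk Nat.prime_three
  have hno : ∀ u ∈ K, u ^ 3 = 1 → u = 1 := fun u hu h3 => by
    by_contra h1
    have := Subgroup.orderOf_dvd_natCard K hu
    rw [orderOf_eq_prime h3 h1] at this
    exact h this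
  refine (Subgroup.eq_bot_iff_forall K).2 fun s hs => ?_
  by_contra h1
  obtain ⟨t, ht, ht1⟩ := (by decide +kernel : ∀ s : Perm (Fin 3), s ≠ 1 → s ^ 3 ≠ 1 →
    ∃ t, (s * (t * s⁻¹ * t⁻¹)) ^ 3 = 1 ∧ s * (t * s⁻¹ * t⁻¹) ≠ 1) s h1 fun e => h1 (hno s hs e)
  exact ht1 (hno _ (mul_mem hs (Subgroup.Normal.conj_mem inferInstance _ (inv_mem hs) t)) ht)

end CfsgLib.AltNineLocal.Sections
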