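/-
If the centralisers of the block cycles and of their products lie in the local subgroup, it is the whole
group.
-/
import Cfsg.Agent.Lib.AltNineLocal.Setting
import Cfsg.Agent.Lib.OrderDegrees.StrongCore.Main

set_option autoImplicit false
set_option synthInstance.maxSize 2000
set_option Elab.async false

namespace CfsgLib.AltNineLocal

open Equiv CfsgLib.OrderDegrees.StrongCore

theorem perm9_gen_mem : ∀ m : Fin 4, perm9 (OrderDegrees.StrongCore.gen m) ∈ nineH := by decide +kernel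

theorem perm9_mem (n : K0) : perm9 n ∈ nineH := by
  have h : (⊤ : Subgroup K0) ≤ nineH.comap perm9 := by
    rw [← OrderDegrees.StrongCore.closure_gen, Subgroup.closure_le]
    rintro _ ⟨m, rfl⟩
    exact perm9_gen_mem m
  exact h (Subgroup.mem_top n)

theorem perm9_axes : ∀ x : Fin 9,
    perm9 (transl (1, 0, 0)) x = ax 0 x ∧ perm9 (transl (0, 1, 0)) x = ax 1 x ∧
    perm9 (transl (0, 0, 1)) x = ax 2 x ∧ perm9 (transl (1, 1, 0)) x = pb x ∧
    perm9 (transl (1, 1, 1)) x = px x := by decide +kernel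

theorem transl_mul (u v : Vec) : transl u * transl v = transl (u + v) :=
  SemidirectProduct.ext (by simp [transl, ofAdd_add]) (by simp [transl])

theorem transl_span : ∀ u : Vec, ∃ i j k : Fin 3,
    u = i.val • ((1, 0, 0) : Vec) + j.val • ((0, 1, 0) : Vec) + k.val • ((0, 0, 1) : Vec) := by
  decide +kernel

/-- The translations of the model correspond to the group generated by the axes. -/
theorem perm9_mem_baseJ_iff (n : K0) : perm9 n ∈ baseJ ↔ n.right = 1 := by
  have h0 := Equiv.ext fun x => (perm9_axes x).1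
  have h1 := Equiv.ext fun x => (perm9_axes x).2.1
  have h2 := Equiv.ext fun x => (perm9_axes x).2.2.1
  constructor
  · intro hn
    have h : baseJ ≤ (SemidirectProduct.inl : V →* K0).range.map perm9 := by
      refine (Subgroup.closure_le _).2 ?_
      rintro _ ⟨k, rfl⟩
      fin_cases k
      exacts [⟨_, ⟨_, rfl⟩, h0⟩, ⟨_, ⟨_, rfl⟩, h1⟩, ⟨_, ⟨_, rfl⟩, h2⟩]
    obtain ⟨_, ⟨v, rfl⟩, he⟩ := h hn
    rw [← perm9_injective he]
    rfl
  · intro hn
    rw [transl_of_right hn]
    obtain ⟨i, j, k, hu⟩ := transl_span n.left.toAdd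
    have hpow : ∀ (v : Vec) (m : ℕ), transl (m • v) = transl v ^ m := by
      intro v m
      induction m with
      | zero => rw [zero_nsmul, pow_zero]; rfl
      | succ m ih => rw [succ_nsmul, pow_succ, ← ih, transl_mul]
    rw [hu, ← transl_mul, ← transl_mul, hpow, hpow, hpow, map_mul, map_mul, map_pow, map_pow, map_pow,
      h0, h1, h2]
    exact mul_mem (mul_mem (pow_mem (Subgroup.subset_closure (Set.mem_range_self 0)) _)
      (pow_mem (Subgroup.subset_closure (Set.mem_range_self 1)) _))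
      (pow_mem (Subgroup.subset_closure (Set.mem_range_self 2)) _)

theorem hit0 : ∀ a : Fin 9, ∃ n : K0, perm9 n 0 = a := by decide +kernel

theorem hit1 : ∀ a : Fin 9, blk a = 0 → a ≠ 0 → ∃ n : K0, perm9 n 0 = 0 ∧ perm9 n 1 = a := by
  decide +kernel

theorem hit3 : ∀ a : Fin 9, blk a ≠ 0 →
    ∃ n : K0, perm9 n 0 = 0 ∧ perm9 n 1 = 1 ∧ perm9 n 3 = a := by decide +kernel

theorem hit4 : ∀ a : Fin 9, blk a = 1 → a ≠ 3 →
    ∃ n : K0, perm9 n 0 = 0 ∧ perm9 n 1 = 1 ∧ perm9 n 3 = 3 ∧ perm9 n 4 = a := by decide +kernel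

theorem hit6 : ∀ a : Fin 9, blk a = 2 →
    ∃ n : K0, perm9 n 0 = 0 ∧ perm9 n 1 = 1 ∧ perm9 n 3 = 3 ∧ perm9 n 4 = 4 ∧ perm9 n 6 = a := by
  decide +kernel

/-- The model is the whole normaliser. -/
theorem mem_range_perm9 {σ : Perm (Fin 9)} (hσ : σ ∈ nineH) : σ ∈ perm9.range := by
  have step : ∀ (σ : Perm (Fin 9)) (n : K0), σ ∈ nineH →
      ((perm9 n)⁻¹ * σ ∈ nineH ∧ ((perm9 n)⁻¹ * σ ∈ perm9.range → σ ∈ perm9.range)) := by
    intro σ n hσ
    refine ⟨mul_mem (inv_mem (perm9_mem n)) hσ, fun h => ?_⟩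
    have := mul_mem (⟨n, rfl⟩ : perm9 n ∈ perm9.range) h
    rwa [mul_inv_cancel_left] at this
  have fix : ∀ (σ : Perm (Fin 9)) (n : K0) (i : Fin 9), perm9 n i = σ i → ((perm9 n)⁻¹ * σ) i = i := by
    intro σ n i h
    rw [Perm.mul_apply, Perm.coe_inv, Equiv.symm_apply_eq, h]
  have five : ∀ τ : Perm (Fin 9), τ ∈ nineH → τ 0 = 0 → τ 1 = 1 → τ 3 = 3 → τ 4 = 4 → τ 6 = 6 →
      τ ∈ perm9.range := by
    intro τ hτ t0 t1 t3 t4 t6
    have ne : ∀ i j : Fin 9, i ≠ j → τ i ≠ τ j := fun i j h e => h (τ.injective e)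
    have b2 : blk (τ 2) = 0 := by rw [hτ.2 2 0 (by decide), t0]; decide
    have b5 : blk (τ 5) = 1 := by rw [hτ.2 5 3 (by decide), t3]; decide
    have b7 : blk (τ 7) = 2 := by rw [hτ.2 7 6 (by decide), t6]; decide
    have b8 : blk (τ 8) = 2 := by rw [hτ.2 8 6 (by decide), t6]; decide
    have c0 : ∀ x : Fin 9, blk x = 0 → x ≠ 0 → x ≠ 1 → x = 2 := by decide
    have c1 : ∀ x : Fin 9, blk x = 1 → x ≠ 3 → x ≠ 4 → x = 5 := by decide
    have c2 : ∀ x : Fin 9, blk x = 2 → x ≠ 6 → x = 7 ∨ x = 8 := by decide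
    have t2 := c0 _ b2 (t0 ▸ ne 2 0 (by decide)) (t1 ▸ ne 2 1 (by decide))
    have t5 := c1 _ b5 (t3 ▸ ne 5 3 (by decide)) (t4 ▸ ne 5 4 (by decide))
    rcases c2 _ b7 (t6 ▸ ne 7 6 (by decide)) with t7 | t7
    · have t8 : τ 8 = 8 := (c2 _ b8 (t6 ▸ ne 8 6 (by decide))).resolve_left
        fun e => ne 8 7 (by decide) (e.trans t7.symm)
      have : τ = 1 := Equiv.ext fun i => by fin_cases i <;> assumption
      rw [this]; exact one_mem _
    · exfalso
      have t8 : τ 8 = 7 := (c2 _ b8 (t6 ▸ ne 8 6 (by decide))).resolve_right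
        fun e => ne 8 7 (by decide) (e.trans t7.symm)
      have : τ = swap 7 8 := Equiv.ext fun i => by
        fin_cases i <;> first | exact t7 | exact t8 | assumption
      have hs := Perm.mem_alternatingGroup.1 hτ.1
      rw [this] at hs
      exact absurd hs (by decide)
  have four : ∀ τ : Perm (Fin 9), τ ∈ nineH → τ 0 = 0 → τ 1 = 1 → τ 3 = 3 → τ 4 = 4 →
      τ ∈ perm9.range := by
    intro τ hτ t0 t1 t3 t4
    have hb : blk (τ 6) = 2 := by
      have h0 : blk (τ 6) ≠ 0 := fun e => by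
        have := blockStab.inv_mem hτ.2 (τ 6) (τ 0) (by rw [e, t0]; rfl)
        simp only [Perm.coe_inv, Equiv.symm_apply_apply] at this
        exact absurd this (by decide)
      have h1 : blk (τ 6) ≠ 1 := fun e => by
        have := blockStab.inv_mem hτ.2 (τ 6) (τ 3) (by rw [e, t3]; rfl)
        simp only [Perm.coe_inv, Equiv.symm_apply_apply] at this
        exact absurd this (by decide)
      exact (show ∀ k : Fin 3, k ≠ 0 → k ≠ 1 → k = 2 by decide) _ h0 h1
    obtain ⟨n, a, b, c, d, e⟩ := hit6 _ hb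
    obtain ⟨hm, hr⟩ := step τ n hτ
    exact hr (five _ hm (fix _ _ _ (a.trans t0.symm)) (fix _ _ _ (b.trans t1.symm))
      (fix _ _ _ (c.trans t3.symm)) (fix _ _ _ (d.trans t4.symm)) (fix _ _ _ e))
  have three : ∀ τ : Perm (Fin 9), τ ∈ nineH → τ 0 = 0 → τ 1 = 1 → τ 3 = 3 → τ ∈ perm9.range := by
    intro τ hτ t0 t1 t3
    obtain ⟨n, a, b, c, d⟩ := hit4 (τ 4) (by rw [hτ.2 4 3 (by decide), t3]; decide)
      (fun e => absurd (τ.injective (e.trans t3.symm)) (by decide))
    obtain ⟨hm, hr⟩ := step τ n hτ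
    exact hr (four _ hm (fix _ _ _ (a.trans t0.symm)) (fix _ _ _ (b.trans t1.symm))
      (fix _ _ _ (c.trans t3.symm)) (fix _ _ _ d))
  have two : ∀ τ : Perm (Fin 9), τ ∈ nineH → τ 0 = 0 → τ 1 = 1 → τ ∈ perm9.range := by
    intro τ hτ t0 t1
    obtain ⟨n, a, b, c⟩ := hit3 (τ 3) fun e => by
      have := blockStab.inv_mem hτ.2 (τ 3) (τ 0) (by rw [e, t0]; rfl)
      simp only [Perm.coe_inv, Equiv.symm_apply_apply] at this
      exact absurd this (by decide)
    obtain ⟨hm, hr⟩ := step τ n hτ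
    exact hr (three _ hm (fix _ _ _ (a.trans t0.symm)) (fix _ _ _ (b.trans t1.symm)) (fix _ _ _ c))
  have one : ∀ τ : Perm (Fin 9), τ ∈ nineH → τ 0 = 0 → τ ∈ perm9.range := by
    intro τ hτ t0
    obtain ⟨n, a, b⟩ := hit1 (τ 1) (by rw [hτ.2 1 0 (by decide), t0]; decide)
      (fun e => absurd (τ.injective (e.trans t0.symm)) (by decide))
    obtain ⟨hm, hr⟩ := step τ n hτ
    exact hr (two _ hm (fix _ _ _ (a.trans t0.symm)) (fix _ _ _ b))
  obtain ⟨n, a⟩ := hit0 (σ 0)
  obtain ⟨hm, hr⟩ := step σ n hσ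
  exact hr (one _ hm (fix _ _ _ a))

/-- The three orbits of the complement on the non-zero translations. -/
theorem orbit_three : ∀ u : Vec, u ≠ 0 → ∃ r : Mon,
    act r u = (1, 0, 0) ∨ act r u = (1, 1, 0) ∨ act r u = (1, 1, 1) := by decide +kernel

variable {G : Type*} [Group G]

/-- If the three kinds of centralisers lie in the local subgroup, it is the whole group. -/
theorem Hyp.eq_top_of_local [Finite G] (h : Hyp G)
    (hax : Subgroup.centralizer ({h.el (ax 0)} : Set G) ≤ Subgroup.normalizer (h.J : Set G))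
    (hb : Subgroup.centralizer ({h.el pb} : Set G) ≤ Subgroup.normalizer (h.J : Set G))
    (hx : Subgroup.centralizer ({h.el px} : Set G) ≤ Subgroup.normalizer (h.J : Set G)) :
    Subgroup.normalizer (h.J : Set G) = ⊤ := by
  classical
  let := Fintype.ofFinite G
  let f : K0 →* ↥nineH := perm9.codRestrict nineH perm9_mem
  have hf : Function.Injective f := fun a b e => perm9_injective (congrArg Subtype.val e)
  have hs : Function.Surjective f := fun p => by
    obtain ⟨n, hn⟩ := mem_range_perm9 p.2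
    exact ⟨n, Subtype.ext hn⟩
  let e : K0 →* G := h.ι.comp f
  have he : ∀ n, e n = h.el (perm9 n) := fun n => by
    rw [h.el_of_mem (perm9_mem n)]; rfl
  have hrange : e.range = Subgroup.normalizer (h.J : Set G) := by
    rw [MonoidHom.range_comp, MonoidHom.range_eq_top.2 hs, ← MonoidHom.range_eq_map, h.range_ι]
  have hmem : ∀ n : K0, e n ∈ h.J ↔ n.right = 1 := fun n => by
    rw [he, h.el_mem_J (perm9_mem n), perm9_mem_baseJ_iff]
  have hle : h.J ≤ Subgroup.normalizer (h.J : Set G) := Subgroup.le_normalizer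
  have hcent : ∀ j ∈ h.J, j ≠ 1 →
      Subgroup.centralizer ({j} : Set G) ≤ Subgroup.normalizer (h.J : Set G) := by
    intro j hj hj1 y hy
    obtain ⟨n, rfl⟩ : j ∈ e.range := hrange ▸ hle hj
    rw [transl_of_right ((hmem n).1 hj)] at hy hj1
    have hu : n.left.toAdd ≠ 0 := fun e' => hj1 (by rw [e', show transl 0 = 1 from rfl, map_one])
    obtain ⟨r, hr⟩ := orbit_three _ hu
    set c := e ⟨1, r⟩
    set u := n.left.toAdd
    have hc : c ∈ Subgroup.normalizer (h.J : Set G) := hrange ▸ ⟨_, rfl⟩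
    have hcu : c * e (transl u) * c⁻¹ = e (transl (act r u)) := by
      rw [← conj_transl r u, map_mul, map_mul, map_inv]
    have hy' : c * y * c⁻¹ ∈ Subgroup.centralizer ({e (transl (act r u))} : Set G) := by
      rw [Subgroup.mem_centralizer_singleton_iff] at hy ⊢
      rw [← hcu, conj_mul, conj_mul, hy]
    have key : c * y * c⁻¹ ∈ Subgroup.normalizer (h.J : Set G) := by
      rcases hr with hr | hr | hr <;> rw [hr, he] at hy'
      · exact hax (by rwa [show perm9 (transl (1, 0, 0)) = ax 0 from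
          Equiv.ext fun x => (perm9_axes x).1] at hy')
      · exact hb (by rwa [show perm9 (transl (1, 1, 0)) = pb from
          Equiv.ext fun x => (perm9_axes x).2.2.2.1] at hy')
      · exact hx (by rwa [show perm9 (transl (1, 1, 1)) = px from
          Equiv.ext fun x => (perm9_axes x).2.2.2.2] at hy')
    have := mul_mem (mul_mem (inv_mem hc) key) hc
    rwa [show c⁻¹ * (c * y * c⁻¹) * c = y by group] at this
  exact Setting.eq_top
    { H := Subgroup.normalizer (h.J : Set G)
      J := h.J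
      e := e
      inj := h.ι_injective.comp hf
      range := hrange
      mem := hmem
      cent := hcent
      le := hle }

end CfsgLib.AltNineLocal
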