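/-
The hypotheses of the characterisation give the setting: the given subgroup of order 27 corresponds
to the group generated by the three block cycles, and its normaliser to the block stabiliser.
-/
import Cfsg.Agent.Lib.AltNineLocal.Setting

set_option autoImplicit false

namespace CfsgLib.AltNineLocal

open Equiv

/-- The position of a point in its block. -/
def off (i : Fin 9) : Fin 3 := ⟨i.val % 3, by omega⟩

/-- The point in a given position of a given block. -/
def point (k j : Fin 3) : Fin 9 := ⟨3 * k.val + j.val, by omega⟩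

theorem blk_point : ∀ k j : Fin 3, blk (point k j) = k := by decide

theorem off_point : ∀ k j : Fin 3, off (point k j) = j := by decide

theorem point_blk_off : ∀ i : Fin 9, point (blk i) (off i) = i := by decide

theorem ax_mem_baseJ (k : Fin 3) : ax k ∈ baseJ := Subgroup.subset_closure ⟨k, rfl⟩

theorem cube_fun : ∀ g : Fin 3 → Fin 3, (∀ i, g (g (g i)) = i) →
    ∃ a : Fin 3, ∀ i, g i = i + a := by decide

theorem ax_translate : ∀ k i, ax k i = point (blk i) (off i + if blk i = k then 1 else 0) := by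
  decide

theorem ax_mul_translate : ∀ (a : Fin 3 → Fin 3) (i : Fin 9),
    (ax 0 ^ (a 0).val * ax 1 ^ (a 1).val * ax 2 ^ (a 2).val) i =
      point (blk i) (off i + a (blk i)) := by
  decide +kernel

/-- A permutation preserving every block and of order dividing three lies in `baseJ`. -/
theorem mem_baseJ_of_translate {σ : Perm (Fin 9)} (h1 : ∀ i, blk (σ i) = blk i)
    (h3 : σ ^ 3 = 1) : σ ∈ baseJ := by
  have hσ : ∀ k j, σ (point k j) = point k (off (σ (point k j))) := by
    intro k j
    conv_lhs => rw [← point_blk_off (σ (point k j)), h1, blk_point]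
  have hg : ∀ k, ∀ j, off (σ (point k (off (σ (point k (off (σ (point k j)))))))) = j := by
    intro k j
    rw [← hσ, ← hσ, show σ (σ (σ (point k j))) = (σ ^ 3) (point k j) from rfl, h3,
      Perm.one_apply, off_point]
  choose a ha using fun k => cube_fun (fun j => off (σ (point k j))) (hg k)
  have e : σ = ax 0 ^ (a 0).val * ax 1 ^ (a 1).val * ax 2 ^ (a 2).val := by
    refine Equiv.ext fun i => ?_
    rw [ax_mul_translate]
    conv_lhs => rw [← point_blk_off i, hσ, ha]
  rw [e]
  exact mul_mem (mul_mem (pow_mem (ax_mem_baseJ 0) _)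
    (pow_mem (ax_mem_baseJ 1) _)) (pow_mem (ax_mem_baseJ 2) _)

/-- The elements of `baseJ` translate every block. -/
theorem exists_translate {σ : Perm (Fin 9)} (h : σ ∈ baseJ) :
    ∃ a : Fin 3 → Fin 3, ∀ i, σ i = point (blk i) (off i + a (blk i)) := by
  induction h using Subgroup.closure_induction with
  | mem x hx =>
    obtain ⟨k, rfl⟩ := hx
    exact ⟨fun l => if l = k then 1 else 0, fun i => ax_translate k i⟩
  | one => exact ⟨0, fun i => by simp [point_blk_off]⟩
  | mul x y _ _ hx hy =>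
    obtain ⟨a, ha⟩ := hx
    obtain ⟨b, hb⟩ := hy
    exact ⟨fun l => b l + a l, fun i => by
      rw [Perm.mul_apply, hb, ha, blk_point, off_point, add_assoc]⟩
  | inv x _ hx =>
    obtain ⟨a, ha⟩ := hx
    refine ⟨fun l => -a l, fun i => ?_⟩
    rw [Perm.coe_inv, Equiv.symm_apply_eq, ha, blk_point, off_point, neg_add_cancel_right,
      point_blk_off]

theorem blk_apply_of_mem_baseJ {σ : Perm (Fin 9)} (h : σ ∈ baseJ) (i : Fin 9) :
    blk (σ i) = blk i := by
  obtain ⟨a, ha⟩ := exists_translate h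
  rw [ha, blk_point]

theorem card_baseJ_le : Nat.card baseJ ≤ 27 := by
  classical
  choose a ha using fun σ : ↥baseJ => exists_translate σ.2
  refine (Nat.card_le_card_of_injective a fun σ τ e => ?_).trans ?_
  · exact Subtype.ext (Equiv.ext fun i => by rw [ha, ha, e])
  · simp

theorem ax_cube : ∀ k, ax k ^ 3 = 1 := by decide

/-- The elements of order three preserving blocks in a commutative normal subgroup of exponent
three translate the blocks. -/
theorem mem_baseJ_of_conj {m : Perm (Fin 9)} (hm : m ∈ blockStab) (h3 : m ^ 3 = 1)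
    (hc : (m * (dbl 1 2 4 5 * m⁻¹ * (dbl 1 2 4 5)⁻¹)) ^ 3 = 1) : m ∈ baseJ := by
  refine mem_baseJ_of_translate (fun i => ?_) h3
  have hf : ∀ x, blk (m x) = blk (m (base (blk x))) := fun x => hm _ _ (blk_base _).symm
  have hf3 : ∀ k, blk (m (base (blk (m (base (blk (m (base k)))))))) = k := by
    intro k
    rw [show blk (m (base (blk (m (base k))))) = blk (m (m (base k))) from (hf _).symm, ← hf,
      show m (m (m (base k))) = (m ^ 3) (base k) from rfl, h3, Perm.one_apply,
      blk_base]
  by_contra hne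
  rw [hf] at hne
  have hj : ∀ f : Fin 3 → Fin 3, (∀ k, f (f (f k)) = k) → ∀ k, f k ≠ k → f 0 = 2 ∨ f 1 = 2 := by
    decide
  have hg : ∀ j : Fin 3, j ≠ 2 → ∃ y, blk y = j ∧ dbl 1 2 4 5 y ≠ y ∧
      blk (dbl 1 2 4 5 y) = j := by decide
  have hfix : ∀ x, blk x = 2 → dbl 1 2 4 5 x = x := by decide
  obtain ⟨j, hj2, hjf⟩ : ∃ j, j ≠ (2 : Fin 3) ∧ blk (m (base j)) = 2 := by
    rcases hj (fun k => blk (m (base k))) hf3 _ hne with h | h
    · exact ⟨0, by decide, h⟩
    · exact ⟨1, by decide, h⟩
  obtain ⟨y, hy, hyg, hyb⟩ := hg j hj2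
  set g := dbl 1 2 4 5
  have hgi : g⁻¹ = g := (inv_eq_of_mul_eq_one_right (by decide : g * g = 1))
  rw [hgi] at hc
  have hgg : g (g y) = y := by
    rw [← Perm.mul_apply, (by decide : g * g = 1), Perm.one_apply]
  have b1 : blk (m y) = 2 := by rw [hf, hy, hjf]
  have b2 : blk (m (g y)) = 2 := by rw [hf, hyb, hjf]
  set d := m * (g * m⁻¹ * g) with hd
  have e1 : d (m y) = m (g y) := by
    simp only [hd, Perm.mul_apply]
    rw [hfix _ b1, Perm.coe_inv, Equiv.symm_apply_apply]
  have e2 : d (m (g y)) = m y := by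
    simp only [hd, Perm.mul_apply]
    rw [hfix _ b2, Perm.coe_inv, Equiv.symm_apply_apply, hgg]
  have e3 : d (d (d (m y))) = m y := by
    rw [show d (d (d (m y))) = (d ^ 3) (m y) from rfl, hc, Perm.one_apply]
  rw [e1, e2, e1] at e3
  exact hyg (m.injective e3)

/-- The normaliser of the group of block cycles is the block stabiliser. -/
theorem inf_normalizer_eq :
    alternatingGroup (Fin 9) ⊓ Subgroup.normalizer (baseJ : Set (Perm (Fin 9))) = nineH := by
  apply le_antisymm <;> intro σ hσ <;> refine ⟨hσ.1, ?_⟩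
  · intro i j hij
    have : ∀ a b : Fin 3, ∃ l : Fin 3, ((ax 0 ^ l.val * ax 1 ^ l.val * ax 2 ^ l.val) : Perm (Fin 9))
        = ax 0 ^ l.val * ax 1 ^ l.val * ax 2 ^ l.val ∧ b = a + l := by decide
    obtain ⟨l, -, hl⟩ := this (off i) (off j)
    set p := ax 0 ^ l.val * ax 1 ^ l.val * ax 2 ^ l.val with hp
    have hpJ : p ∈ baseJ := mul_mem (mul_mem (pow_mem (ax_mem_baseJ 0) _)
      (pow_mem (ax_mem_baseJ 1) _)) (pow_mem (ax_mem_baseJ 2) _)
    have hpi : p i = j := by
      rw [hp, ax_mul_translate (fun _ => l), hij, ← hl, point_blk_off]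
    have hq := (Subgroup.mem_normalizer_iff.1 hσ.2 p).1 hpJ
    have := blk_apply_of_mem_baseJ hq (σ i)
    rw [Perm.mul_apply, Perm.mul_apply, Perm.coe_inv, Equiv.symm_apply_apply, hpi] at this
    exact this.symm
  · refine Subgroup.mem_normalizer_iff.2 ?_
    have key : ∀ τ ∈ blockStab, ∀ p ∈ baseJ, τ * p * τ⁻¹ ∈ baseJ := by
      intro τ hτ p hp
      have hp3 : p ^ 3 = 1 := by
        obtain ⟨a, ha⟩ := exists_translate hp
        refine Equiv.ext fun i => ?_
        rw [show (p ^ 3) i = p (p (p i)) from rfl, ha (p (p i)), ha (p i), ha i]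
        simp only [blk_point, off_point, Perm.one_apply]
        rw [show off i + a (blk i) + a (blk i) + a (blk i) = off i by
          have : ∀ x y : Fin 3, x + y + y + y = x := by decide
          exact this _ _, point_blk_off]
      refine mem_baseJ_of_translate (fun i => ?_) (by rw [conj_pow, hp3]; group)
      obtain ⟨x, rfl⟩ := τ.surjective i
      rw [Perm.mul_apply, Perm.mul_apply, Perm.coe_inv, Equiv.symm_apply_apply]
      exact hτ _ _ (blk_apply_of_mem_baseJ hp x)
    intro p
    refine ⟨key σ hσ.2 p, fun h => ?_⟩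
    have := key σ⁻¹ (inv_mem hσ.2) _ h
    rwa [show σ⁻¹ * (σ * p * σ⁻¹) * σ⁻¹⁻¹ = p by group] at this

/-- A normal subgroup of order 27 and exponent three of the model is `baseJ`. -/
theorem eq_baseJ {M : Subgroup (Perm (Fin 9))} (hM : M ≤ nineH) (hcard : Nat.card M = 27)
    (h3 : ∀ m ∈ M, m ^ 3 = 1) (hn : ∀ p ∈ nineH, ∀ m ∈ M, p * m * p⁻¹ ∈ M) : M = baseJ := by
  have hg : dbl 1 2 4 5 ∈ nineH := by decide +kernel
  have hle : M ≤ baseJ := fun m hm =>
    mem_baseJ_of_conj (hM hm).2 (h3 m hm) (h3 _ (mul_mem hm (hn _ hg _ (inv_mem hm))))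
  exact Subgroup.eq_of_le_of_card_ge hle (hcard ▸ card_baseJ_le)

/-- The setting of the characterisation. -/
theorem exists_hyp {G : Type*} [Group G] [Finite G]
    (J : Subgroup G) (hJexp : ∀ a ∈ J, a ^ 3 = 1) (hJcard : Nat.card J = 27)
    (H : Subgroup G) (hH : H = Subgroup.normalizer (J : Set G))
    (J₀ : Subgroup (Perm (Fin 9)))
    (hJ₀ : J₀ = Subgroup.closure {swap (0 : Fin 9) 1 * swap 1 2, swap (3 : Fin 9) 4 * swap 4 5,
      swap (6 : Fin 9) 7 * swap 7 8})
    (eH : H ≃* ↥(alternatingGroup (Fin 9) ⊓ Subgroup.normalizer (J₀ : Set (Perm (Fin 9)))))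
    (hcores : ∀ x ∈ H, orderOf x = 3 →
      Cfsg.pPrimeCore 3 (Subgroup.centralizer ({x} : Set G)) = ⊥) :
    ∃ h : Hyp G, h.J = J := by
  subst hH
  have hJ : J₀ = baseJ := by
    rw [hJ₀, baseJ]
    congr 1
    ext x
    simp [Fin.exists_fin_succ, ax, cyc, eq_comm]
  subst hJ
  let e : ↥(Subgroup.normalizer (J : Set G)) ≃* ↥nineH :=
    eH.trans (MulEquiv.subgroupCongr inf_normalizer_eq)
  set J' := J.subgroupOf (Subgroup.normalizer (J : Set G)) with hJ'
  set M := (J'.map e.toMonoidHom).map nineH.subtype with hM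
  have hJn : J ≤ Subgroup.normalizer (J : Set G) := Subgroup.le_normalizer
  have hMb : M = baseJ := by
    refine eq_baseJ (Subgroup.map_subtype_le _) ?_ ?_ ?_
    · rw [hM, Subgroup.card_map_of_injective nineH.subtype_injective,
        Subgroup.card_map_of_injective (by exact e.injective),
        Nat.card_congr (Subgroup.subgroupOfEquivOfLe hJn).toEquiv, hJcard]
    · rintro m ⟨m', ⟨j, hj, rfl⟩, rfl⟩
      rw [← map_pow, ← map_pow, show j ^ 3 = 1 from Subtype.ext (hJexp _ hj), map_one, map_one]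
    · rintro p hp m ⟨m', ⟨j, hj, rfl⟩, rfl⟩
      set q := e.symm ⟨p, hp⟩ with hq
      refine ⟨e (q * j * q⁻¹), ⟨q * j * q⁻¹, (Subgroup.mem_normalizer_iff.1 q.2 _).1 hj, rfl⟩, ?_⟩
      simp [hq]
  refine ⟨{ J := J
            ι := (Subgroup.normalizer (J : Set G)).subtype.comp e.symm.toMonoidHom
            ι_injective := Subtype.val_injective.comp e.symm.injective
            range_ι := ?_
            mem_J := fun p => ?_
            cores := hcores }, rfl⟩
  · ext x
    exact ⟨fun ⟨p, hp⟩ => hp ▸ (e.symm p).2, fun hx => ⟨e ⟨x, hx⟩, by simp⟩⟩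
  · rw [← hMb]
    constructor
    · intro h
      exact ⟨p, ⟨e.symm p, h, e.apply_symm_apply p⟩, rfl⟩
    · rintro ⟨p', ⟨j, hj, rfl⟩, hp⟩
      obtain rfl : e j = p := Subtype.ext hp
      simp only [MonoidHom.comp_apply, MulEquiv.coe_toMonoidHom, MulEquiv.symm_apply_apply]
      exact hj

end CfsgLib.AltNineLocal
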