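import Cfsg.Agent.Lib.AltNineLocal.Inverted
import Cfsg.Agent.Lib.PermGroups.SelfCentralizingNineCases
import Cfsg.Agent.Lib.CoprimeAction.Abelian
import Cfsg.Agent.S0497

/-!
# A self-centralising Sylow 3-subgroup of order nine with normaliser of order 36

Either it is normal, or the group is `A₆`.
-/

set_option autoImplicit false
set_option linter.style.haveILetI false

open Cfsg

namespace CfsgLib.AltNineLocal.FourCase

variable {K : Type*} [Group K] [Finite K]

/-- A normal subgroup of order prime to three is trivial. -/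
theorem eq_bot_of_normal (P : Sylow 3 K) (hcard : Nat.card P = 9)
    (hexp : ∀ s ∈ (P : Subgroup K), s ^ 3 = 1)
    (hcent : ∀ s ∈ (P : Subgroup K), s ≠ 1 → Subgroup.centralizer ({s} : Set K) = (P : Subgroup K))
    (N : Subgroup K) [N.Normal] (h3 : ¬ 3 ∣ Nat.card N) : N = ⊥ := by
  haveI : Fact (Nat.Prime 3) := ⟨Nat.prime_three⟩
  haveI : IsMulCommutative (P : Subgroup K) :=
    IsPGroup.isMulCommutative_of_card_eq_prime_sq (p := 3) (by rw [hcard]; norm_num)
  have hnc : ¬ IsCyclic (P : Subgroup K) := by
    intro h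
    obtain ⟨g, hg⟩ := h.exists_generator
    have h1 := orderOf_eq_card_of_forall_mem_zpowers hg
    have h2 : orderOf g ∣ 3 := orderOf_dvd_of_pow_eq_one (Subtype.ext (by push_cast; exact hexp g g.2))
    rw [h1, hcard] at h2
    norm_num at h2
  have hco : (Nat.card (P : Subgroup K)).Coprime (Nat.card N) := by
    rw [hcard]
    exact ((Nat.Prime.coprime_iff_not_dvd Nat.prime_three).2 h3).pow_left 2
  rw [eq_bot_iff]
  refine CfsgLib.CoprimeAction.le_of_centralizers (A := (P : Subgroup K)) hnc
    Subgroup.le_normalizer_of_normal hco ?_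
  intro a ha ha1
  rw [hcent a ha ha1]
  intro g hg
  rw [Subgroup.mem_bot]
  have h1 : orderOf g ∣ Nat.card N := N.orderOf_dvd_natCard hg.1
  have h2 : orderOf g ∣ Nat.card (P : Subgroup K) := Subgroup.orderOf_dvd_natCard _ hg.2
  exact orderOf_eq_one_iff.1 (Nat.eq_one_of_dvd_coprimes hco h2 h1)

/-- With a self-centralising Sylow 3-subgroup of order nine and four-element automiser without invariant line,
the Sylow subgroup is normal or the group is `A₆`. -/
theorem normal_or_altSix {K : Type*} [Group K] [Finite K] (P : Sylow 3 K) (hcard : Nat.card P = 9)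
    (hexp : ∀ s ∈ (P : Subgroup K), s ^ 3 = 1)
    (hcent : ∀ s ∈ (P : Subgroup K), s ≠ 1 → Subgroup.centralizer ({s} : Set K) = (P : Subgroup K))
    (hN : Nat.card (Subgroup.normalizer ((P : Subgroup K) : Set K)) = 36)
    (hline : ∀ s ∈ (P : Subgroup K), s ≠ 1 →
      ∃ g ∈ Subgroup.normalizer ((P : Subgroup K) : Set K), g * s * g⁻¹ ∉ Subgroup.zpowers s) :
    (P : Subgroup K).Normal ∨ Nonempty (K ≃* alternatingGroup (Fin 6)) := by
  classical
  haveI : Fact (Nat.Prime 3) := ⟨Nat.prime_three⟩
  haveI := Fintype.ofFinite K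
  haveI hPc : IsMulCommutative (P : Subgroup K) :=
    IsPGroup.isMulCommutative_of_card_eq_prime_sq (p := 3) (by rw [hcard]; norm_num)
  set Nm := Subgroup.normalizer ((P : Subgroup K) : Set K) with hNm
  have h : CfsgLib.PermGroups.SelfCentNine P := ⟨hPc, hexp, hcard, hcent⟩
  have h4 : CfsgLib.PermGroups.nineIndex P = 4 := by
    rw [CfsgLib.PermGroups.nineIndex, h.centralizer_eq, Subgroup.relIndex]
    have h2 := ((P : Subgroup K).subgroupOf Nm).card_mul_index
    rw [Nat.card_congr (Subgroup.subgroupOfEquivOfLe Subgroup.le_normalizer).toEquiv, hcard, hN] at h2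
    show ((P : Subgroup K).subgroupOf Nm).index = 4
    omega
  obtain ⟨M, hM⟩ := CfsgLib.Blocks.exists_isPModular_of_prime Nat.prime_three
  haveI := CfsgLib.Blocks.isPrime_of_isPModular hM
  have hle := h.card_le_of_four hM h4
  obtain ⟨n, hn9, hK, hn⟩ := h.card_group
  rw [h4] at hK
  by_cases hn1 : n = 1
  · left
    haveI : Subsingleton (Sylow 3 K) := (Nat.card_eq_one_iff_unique.1 (hn.trans hn1)).1
    exact Sylow.normal_of_subsingleton (P := P)
  have h19 : n ≠ 19 := by
    intro e
    rw [e] at hK
    haveI : Fact (Nat.Prime 19) := ⟨by norm_num⟩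
    obtain ⟨Q⟩ := (inferInstance : Nonempty (Sylow 19 K))
    have hQ : Nat.card (Q : Subgroup K) = 19 := by
      rw [Q.card_eq_multiplicity, hK]
      rw [show Nat.factorization (19 * (9 * 4)) 19 = 1 from ?_]
      · norm_num
      rw [Nat.factorization_mul (by norm_num) (by norm_num), Finsupp.add_apply,
        Nat.Prime.factorization_self (by norm_num), Nat.factorization_eq_zero_of_not_dvd (by norm_num)]
    have hidx : (Q : Subgroup K).index = 36 := by
      have := Subgroup.card_mul_index (Q : Subgroup K)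
      rw [hQ, hK] at this
      omega
    have hd := Q.card_dvd_index
    rw [hidx] at hd
    have hm : Nat.card (Sylow 19 K) % 19 = 1 := card_sylow_modEq_one 19 K
    have hle36 := Nat.le_of_dvd (by norm_num) hd
    have h1' : Nat.card (Sylow 19 K) = 1 := by
      interval_cases hk : Nat.card (Sylow 19 K) <;> omega
    haveI : Subsingleton (Sylow 19 K) := (Nat.card_eq_one_iff_unique.1 h1').1
    haveI := Sylow.normal_of_subsingleton (P := Q)
    have hQ0 := eq_bot_of_normal P hcard hexp hcent (Q : Subgroup K) (by rw [hQ]; norm_num)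
    rw [hQ0, Subgroup.card_bot] at hQ
    norm_num at hQ
  have hn10 : n = 10 := by
    have : n * (9 * 4) ≤ 720 := hK ▸ hle
    omega
  subst hn10
  right
  have hnn : ¬ (P : Subgroup K).Normal := by
    intro hP
    haveI := hP
    have h1 : Nat.card (Sylow 3 K) = 1 := by
      rw [P.card_eq_index_normalizer,
        show Subgroup.normalizer (P : Set K) = ⊤ from Subgroup.normalizer_eq_top_iff.2 hP,
        Subgroup.index_top]
    omega
  have key : ∀ L : Subgroup K, L.Normal → L = ⊥ ∨ L = ⊤ := by
    intro L hL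
    haveI := hL
    by_cases h3 : 3 ∣ Nat.card L
    swap
    · exact Or.inl (eq_bot_of_normal P hcard hexp hcent L h3)
    right
    -- `L` contains `P`
    obtain ⟨a, ha⟩ := exists_prime_orderOf_dvd_card' (G := L) 3 h3
    have hao : orderOf (a : K) = 3 := by rw [Subgroup.orderOf_coe, ha]
    obtain ⟨c, hc⟩ := h.exists_conj_mem hao
    set s := c * (a : K) * c⁻¹ with hs
    have hsL : s ∈ L := hL.conj_mem _ a.2 c
    have hs1 : s ≠ 1 := fun e => by
      rw [hs, conj_eq_one_iff] at e
      rw [e, orderOf_one] at hao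
      norm_num at hao
    obtain ⟨g, hg, hgs⟩ := hline s hc hs1
    have hgP : g * s * g⁻¹ ∈ (P : Subgroup K) := (Subgroup.mem_normalizer_iff.1 hg s).1 hc
    have hPL : (P : Subgroup K) ≤ L := by
      have hlt : Subgroup.zpowers s < L ⊓ (P : Subgroup K) :=
        lt_of_le_of_ne (Subgroup.zpowers_le.2 ⟨hsL, hc⟩) fun e => hgs (e ▸ ⟨hL.conj_mem _ hsL g, hgP⟩)
      have hd := Subgroup.card_dvd_of_le (inf_le_right : L ⊓ (P : Subgroup K) ≤ P)
      rw [hcard, show (9 : ℕ) = 3 ^ 2 by norm_num, Nat.dvd_prime_pow Nat.prime_three] at hd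
      obtain ⟨k, hk, hkc⟩ := hd
      have h3' : Nat.card (Subgroup.zpowers s) = 3 := by
        rw [Nat.card_zpowers, h.orderOf_eq hc hs1]
      have h3le := Subgroup.card_le_of_le hlt.le
      rw [h3'] at h3le
      interval_cases k
      · omega
      · exact absurd (Subgroup.eq_of_le_of_card_ge hlt.le (by rw [hkc, h3']; norm_num)) hlt.ne
      · have := Subgroup.eq_of_le_of_card_ge (inf_le_right : L ⊓ (P : Subgroup K) ≤ P)
          (by rw [hkc, hcard]; norm_num)
        exact this ▸ inf_le_left
    have htop : Nm ⊔ L = ⊤ := Sylow.normalizer_sup_eq_top' P hPL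
    -- the trace of the normalizer
    have hidx : L.relIndex Nm = L.index := by
      rw [← Subgroup.relIndex_sup_right (H := Nm), htop, Subgroup.relIndex_top_right]
    have hPLN : (P : Subgroup K) ≤ L ⊓ Nm := le_inf hPL Subgroup.le_normalizer
    obtain ⟨j, hj⟩ := hcard ▸ Subgroup.card_dvd_of_le hPLN
    have hmul := (L.subgroupOf Nm).card_mul_index
    rw [show (L.subgroupOf Nm).index = L.index from hidx,
      ← Subgroup.inf_subgroupOf_right,
      Nat.card_congr (Subgroup.subgroupOfEquivOfLe (inf_le_right : L ⊓ Nm ≤ Nm)).toEquiv,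
      hj, hN] at hmul
    have hcardL := L.card_mul_index
    rw [hK] at hcardL
    have hj4 : j * L.index = 4 := by
      have e : 9 * (j * L.index) = 9 * 4 := by rw [← mul_assoc, hmul]
      omega
    have hjle : j ∣ 2 ^ 2 := ⟨L.index, by rw [hj4]; norm_num⟩
    obtain ⟨i, hi, rfl⟩ := (Nat.dvd_prime_pow Nat.prime_two).1 hjle
    -- the subgroup in `L`
    let P₁ : Sylow 3 L := P.subtype hPL
    have hP₁ : (P₁ : Subgroup L) = (P : Subgroup K).subgroupOf L := P.coe_subtype hPL
    have hP₁c : Nat.card (P₁ : Subgroup L) = 9 := by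
      rw [hP₁, Nat.card_congr (Subgroup.subgroupOfEquivOfLe hPL).toEquiv, hcard]
    have hNL : Subgroup.normalizer ((P₁ : Subgroup L) : Set L) = Nm.subgroupOf L := by
      rw [hP₁]; exact (Subgroup.subgroupOf_normalizer_eq hPL).symm
    have hNc : Nat.card (Subgroup.normalizer ((P₁ : Subgroup L) : Set L)) = 9 * 2 ^ i := by
      rw [hNL, ← Subgroup.inf_subgroupOf_right,
        Nat.card_congr (Subgroup.subgroupOfEquivOfLe (inf_le_right : Nm ⊓ L ≤ L)).toEquiv,
        inf_comm, hj]
    have hcore : Cfsg.pPrimeCore 3 L = ⊥ := by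
      have hsn : ((Cfsg.pPrimeCore 3 L).map L.subtype).IsSubnormal :=
        (Subgroup.Normal.isSubnormal (inferInstance : (Cfsg.pPrimeCore 3 L).Normal)).trans'
          (Subgroup.Normal.isSubnormal hL)
      have h' := CfsgLib.Cores.le_pPrimeCore_of_subnormal (p := 3) hsn (by
        rw [Subgroup.card_map_of_injective L.subtype_injective]
        exact CfsgLib.Cores.card_pPrimeCore_coprime 3)
      rw [eq_bot_of_normal P hcard hexp hcent (Cfsg.pPrimeCore 3 K)
        CfsgLib.Cores.not_dvd_card_pPrimeCore, le_bot_iff,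
        Subgroup.map_eq_bot_iff_of_injective _ L.subtype_injective] at h'
      exact h'
    have hnot : ¬ (P₁ : Subgroup L).Normal := by
      intro hP₁n
      haveI := hP₁n
      have h1 : Nm.subgroupOf L = ⊤ := by rw [← hNL, Subgroup.normalizer_eq_top]
      have hLN : L ≤ Nm := Subgroup.subgroupOf_eq_top.1 h1
      rw [sup_eq_left.2 hLN] at htop
      exact hnn (Subgroup.normalizer_eq_top_iff.1 htop)
    interval_cases i
    · -- the normalizer in `L` is `P`
      exfalso
      have hP₁le : (P₁ : Subgroup L) ≤ Subgroup.normalizer ((P₁ : Subgroup L) : Set L) :=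
        Subgroup.le_normalizer
      have heq := Subgroup.eq_of_le_of_card_ge hP₁le (by rw [hNc, hP₁c]; norm_num)
      have hNC : Subgroup.normalizer ((P₁ : Subgroup L) : Set L) ≤
          Subgroup.centralizer ((P₁ : Subgroup L) : Set L) := by
        intro x hx
        rw [← heq, hP₁] at hx
        refine Subgroup.mem_centralizer_iff.2 fun z hz => Subtype.ext ?_
        have hz' : (z : K) ∈ (P : Subgroup K) := by
          rw [SetLike.mem_coe, hP₁] at hz; exact hz
        show (z : K) * (x : K) = (x : K) * (z : K)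
        exact congrArg Subtype.val
          (hPc.is_comm.comm (⟨_, hz'⟩ : (P : Subgroup K)) ⟨_, hx⟩)
      have hcomp := MonoidHom.ker_transferSylow_isComplement' P₁ hNC
      have hT : (MonoidHom.transferSylow P₁ hNC).ker ≤ Cfsg.pPrimeCore 3 L :=
        CfsgLib.Cores.le_pPrimeCore
          ((Nat.prime_three.coprime_iff_not_dvd.2
            (MonoidHom.not_dvd_card_ker_transferSylow P₁ hNC)).symm)
      rw [hcore, le_bot_iff] at hT
      rw [hT] at hcomp
      refine hnot ?_
      rw [Subgroup.isComplement'_bot_left.1 hcomp]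
      infer_instance
    · -- inverting involution
      exfalso
      apply hnot
      have h18 : Nat.card (Subgroup.normalizer ((P₁ : Subgroup L) : Set L)) = 18 := by rw [hNc]; norm_num
      haveI : Fact (Nat.Prime 2) := ⟨Nat.prime_two⟩
      obtain ⟨t, ht⟩ := exists_prime_orderOf_dvd_card'
        (G := Subgroup.normalizer ((P₁ : Subgroup L) : Set L)) 2 (by rw [h18]; norm_num)
      have htK : orderOf ((t : L) : K) = 2 := by rw [Subgroup.orderOf_coe, Subgroup.orderOf_coe, ht]
      have ht2 : ((t : L) : K) * ((t : L) : K) = 1 := by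
        rw [← pow_two, ← htK, pow_orderOf_eq_one]
      have hP₁mem : ∀ s : L, s ∈ (P₁ : Subgroup L) ↔ (s : K) ∈ (P : Subgroup K) := fun s => by
        rw [hP₁]; rfl
      refine CfsgLib.AltNineLocal.Inverted.normal_of_inverted P₁ hP₁c
        (fun s hs => Subtype.ext (by push_cast; exact hexp s ((hP₁mem s).1 hs))) h18
        ⟨t, t.2, fun s hs => ?_⟩ 1 (one_mem _) (fun s hs hs1 => ?_) hcore
      · -- `t` inverts
        have hsP : (s : K) ∈ (P : Subgroup K) := (hP₁mem s).1 hs
        set τ : K := ((t : L) : K) with hτ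
        have hτs : τ * s * τ⁻¹ ∈ (P : Subgroup K) :=
          (hP₁mem _).1 ((Subgroup.mem_normalizer_iff.1 t.2 s).1 hs)
        have hcomm : (s : K) * (τ * s * τ⁻¹) = τ * s * τ⁻¹ * s :=
          congrArg Subtype.val (hPc.is_comm.comm (⟨_, hsP⟩ : (P : Subgroup K)) ⟨_, hτs⟩)
        have hτi : τ⁻¹ = τ := inv_eq_of_mul_eq_one_right ht2
        have hfix : τ * (s * (τ * s * τ⁻¹)) = s * (τ * s * τ⁻¹) * τ := by
          calc τ * (s * (τ * s * τ⁻¹)) = τ * s * τ⁻¹ * (τ * τ * s * τ⁻¹) := by group
            _ = τ * s * τ⁻¹ * s * τ := by rw [ht2, one_mul, hτi, ← mul_assoc]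
            _ = _ := by rw [hcomm]
        have h1 : (s : K) * (τ * s * τ⁻¹) = 1 := by
          by_contra hne
          have hτP : τ ∈ (P : Subgroup K) := by
            rw [← hcent _ (mul_mem hsP hτs) hne, Subgroup.mem_centralizer_singleton_iff]
            exact hfix
          have h9 := Subgroup.orderOf_dvd_natCard _ hτP
          rw [htK, hcard] at h9
          norm_num at h9
        exact Subtype.ext (eq_inv_of_mul_eq_one_right h1)
      · -- centralisers in `L`
        ext x
        rw [Subgroup.mem_centralizer_singleton_iff, hP₁mem]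
        have hsP : (s : K) ∈ (P : Subgroup K) := (hP₁mem s).1 hs
        have hsne : (s : K) ≠ 1 := fun e => hs1 (by
          rw [show s = 1 from Subtype.ext e]; exact one_mem _)
        rw [← hcent _ hsP hsne, Subgroup.mem_centralizer_singleton_iff]
        exact ⟨fun e => congrArg Subtype.val e, fun e => Subtype.ext e⟩
    · norm_num at hj4
      exact Subgroup.index_eq_one.1 (by omega)
  haveI : Nontrivial K := Finite.one_lt_card_iff_nontrivial.1 (by rw [hK]; norm_num)
  haveI : IsSimpleGroup K := ⟨key⟩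
  exact Cfsg.Agent.S0497.result (by rw [hK])

end CfsgLib.AltNineLocal.FourCase
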