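/-
Finite facts in the alternating group of degree nine about the centraliser of a double
transposition.
-/
import Cfsg.Agent.Lib.AltNineLocal.Model
import Mathlib

set_option autoImplicit false

namespace CfsgLib.AltNineLocal.GlobalT

open Equiv

/-- The alternating group of degree nine. -/
abbrev A9 := ↥(alternatingGroup (Fin 9))

/-- An even double transposition. -/
def T0 : A9 := ⟨dbl 0 1 2 3, Perm.mem_alternatingGroup.2 (by decide +kernel)⟩
/-- Its companion in the four-group. -/
def V0 : A9 := ⟨dbl 0 2 1 3, Perm.mem_alternatingGroup.2 (by decide +kernel)⟩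
/-- A three-cycle commuting with the four-group. -/
def E0 : A9 := ⟨cyc 6 7 8, Perm.mem_alternatingGroup.2 (by decide +kernel)⟩
/-- A three-cycle permuting the four-group. -/
def C0 : A9 := ⟨cyc 1 2 3, Perm.mem_alternatingGroup.2 (by decide +kernel)⟩
/-- An element inverting `E0`. -/
def R0 : A9 := ⟨dbl 4 5 6 7, Perm.mem_alternatingGroup.2 (by decide +kernel)⟩
/-- An element interchanging the two involutions of the four-group other than `T0`. -/
def S0 : A9 := ⟨dbl 0 1 4 5, Perm.mem_alternatingGroup.2 (by decide +kernel)⟩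
/-- An involution with one fixed point. -/
def U0 : A9 := ⟨dbl 0 1 2 3 * dbl 4 5 6 7, Perm.mem_alternatingGroup.2 (by decide +kernel)⟩
/-- An element of order three and weight two centralising `U0`. -/
def P0 : A9 := ⟨cyc 0 2 4 * cyc 1 3 5, Perm.mem_alternatingGroup.2 (by decide +kernel)⟩
/-- A five-cycle centralising `E0`. -/
def F0 : A9 := ⟨cyc 0 1 2 * cyc 2 3 4, Perm.mem_alternatingGroup.2 (by decide +kernel)⟩

theorem basic :
    (T0 * T0 = 1 ∧ T0 ≠ 1 ∧ V0 * V0 = 1 ∧ V0 ≠ 1 ∧ V0 ≠ T0 ∧ T0 * V0 = V0 * T0) ∧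
    (E0 * E0 * E0 = 1 ∧ E0 ≠ 1 ∧ E0 * T0 = T0 * E0 ∧ E0 * V0 = V0 * E0) ∧
    (C0 * C0 * C0 = 1 ∧ C0 * E0 = E0 * C0 ∧
    C0 * T0 * C0⁻¹ = V0 ∧ C0 * V0 * C0⁻¹ = T0 * V0 ∧ C0 * (T0 * V0) * C0⁻¹ = T0) ∧
    (R0 * E0 * R0⁻¹ = E0⁻¹ ∧ R0 * T0 = T0 * R0 ∧ R0 * V0 = V0 * R0 ∧
    S0 * T0 = T0 * S0 ∧ S0 * V0 * S0⁻¹ = T0 * V0) ∧
    (U0 * U0 = 1 ∧ P0 * U0 = U0 * P0 ∧ P0 * P0 * P0 = 1 ∧ P0 ≠ 1 ∧
    F0 * E0 = E0 * F0 ∧ F0 ^ 5 = 1 ∧ F0 ≠ 1) := by
  refine ⟨?_, ?_, ?_, ?_, ?_⟩ <;> decide +kernel

theorem C0_ne_pow : ∀ i : Fin 3, C0 * E0 ^ (i : ℕ) ≠ 1 := by decide +kernel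

theorem closure_no_mem : ∀ i j : Fin 3, C0 ^ (i : ℕ) * E0 ^ (j : ℕ) ≠ 1 →
    (C0 ^ (i : ℕ) * E0 ^ (j : ℕ)) ^ 3 = 1 := by decide +kernel

/-- Permutations that are conjugate, one of them commuting with an odd permutation, are conjugate
in the alternating group. -/
theorem conj_of_cycleType (r s : A9) (o : Perm (Fin 9)) (ho : Perm.sign o = -1)
    (hor : o * (r : Perm (Fin 9)) = (r : Perm (Fin 9)) * o)
    (h : (r : Perm (Fin 9)).cycleType = (s : Perm (Fin 9)).cycleType) :
    ∃ g : A9, g * r * g⁻¹ = s := by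
  obtain ⟨π, hπ⟩ := isConj_iff.1 (Perm.isConj_iff_cycleType_eq.2 h)
  rcases Int.units_eq_one_or (Perm.sign π) with he | he
  · exact ⟨⟨π, Perm.mem_alternatingGroup.2 he⟩, Subtype.ext hπ⟩
  · refine ⟨⟨π * o, Perm.mem_alternatingGroup.2 (by rw [map_mul, he, ho]; decide)⟩,
      Subtype.ext ?_⟩
    show π * o * (r : Perm (Fin 9)) * (π * o)⁻¹ = s
    rw [mul_assoc π o, hor, ← hπ]
    group

theorem involution_types (σ : A9) (h2 : σ * σ = 1) (h1 : σ ≠ 1) :
    (∃ g : A9, g * T0 * g⁻¹ = σ) ∨ ∃ g : A9, g * U0 * g⁻¹ = σ := by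
  set p : Perm (Fin 9) := (σ : Perm (Fin 9)) with hp
  have ho : orderOf p = 2 := orderOf_eq_prime (by rw [pow_two]; exact congrArg Subtype.val h2)
    fun e => h1 (Subtype.ext e)
  obtain ⟨n, hn⟩ := Perm.cycleType_prime_order (σ := p) (by rw [ho]; exact Nat.prime_two)
  rw [ho] at hn
  have hle : p.cycleType.sum ≤ 9 := by
    rw [Perm.sum_cycleType]
    exact (Finset.card_le_univ _).trans (by simp)
  rw [hn, Multiset.sum_replicate, smul_eq_mul] at hle
  have hsign : Perm.sign p = 1 := Perm.mem_alternatingGroup.1 σ.2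
  rw [Perm.sign_of_cycleType, hn, Multiset.sum_replicate, Multiset.card_replicate, smul_eq_mul]
    at hsign
  obtain rfl | rfl : n = 1 ∨ n = 3 := by
    rcases (show n = 0 ∨ n = 1 ∨ n = 2 ∨ n = 3 by omega) with rfl | rfl | rfl | rfl
    · exact absurd hsign (by decide)
    · exact Or.inl rfl
    · exact absurd hsign (by decide)
    · exact Or.inr rfl
  · exact Or.inl (conj_of_cycleType T0 σ (swap 4 5) (by decide +kernel) (by decide +kernel)
      ((show (T0 : Perm (Fin 9)).cycleType = {2, 2} by decide +kernel).trans (hn.trans rfl).symm))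
  · exact Or.inr (conj_of_cycleType U0 σ (swap 0 1) (by decide +kernel) (by decide +kernel)
      ((show (U0 : Perm (Fin 9)).cycleType = {2, 2, 2, 2} by decide +kernel).trans
        (hn.trans rfl).symm))

/-- The five-cycle and the weight two element do not commute up to conjugacy. -/
theorem no_five (σ : A9) (h5 : σ ^ 5 = 1) (h1 : σ ≠ 1) (hc : σ * P0 = P0 * σ) : False := by
  have hcard : Nat.card (Subgroup.centralizer ({(P0 : Perm (Fin 9))} : Set (Perm (Fin 9)))) =
      108 := by
    rw [Perm.nat_card_centralizer,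
      show (P0 : Perm (Fin 9)).cycleType = {3, 3} by decide +kernel, Fintype.card_fin]
    decide
  have hm : (σ : Perm (Fin 9)) ∈ Subgroup.centralizer ({(P0 : Perm (Fin 9))} : Set _) :=
    Subgroup.mem_centralizer_singleton_iff.2 (congrArg Subtype.val hc)
  haveI : Fact (Nat.Prime 5) := ⟨by norm_num⟩
  have h := Subgroup.orderOf_dvd_natCard _ hm
  rw [hcard, orderOf_eq_prime (x := (σ : Perm (Fin 9))) (p := 5) (congrArg Subtype.val h5)
    fun e => h1 (Subtype.ext e)] at h
  omega

theorem moved : ∀ i : Fin 9, (T0 : Perm (Fin 9)) i ≠ i ↔ i.val < 4 := by decide +kernel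

theorem preserve {σ : A9} (hσ : σ * T0 = T0 * σ) (i : Fin 9) :
    ((σ : Perm (Fin 9)) i).val < 4 ↔ i.val < 4 := by
  have h : ∀ x, (T0 : Perm (Fin 9)) ((σ : Perm (Fin 9)) x) = (σ : Perm (Fin 9))
      ((T0 : Perm (Fin 9)) x) := fun x => (Perm.ext_iff.1 (congrArg Subtype.val hσ) x).symm
  rw [← moved, ← moved, h, (σ : Perm (Fin 9)).injective.ne_iff]

theorem comm_apply {σ : A9} (hσ : σ * T0 = T0 * σ) (i : Fin 9) :
    (σ : Perm (Fin 9)) ((T0 : Perm (Fin 9)) i) = (T0 : Perm (Fin 9)) ((σ : Perm (Fin 9)) i) :=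
  Perm.ext_iff.1 (congrArg Subtype.val hσ) i

theorem conj_V_key : ∀ i j : Fin 9, i.val < 4 → j.val < 4 → j ≠ i →
    j ≠ (T0 : Perm (Fin 9)) i →
    swap i j * swap ((T0 : Perm (Fin 9)) i) ((T0 : Perm (Fin 9)) j) = (V0 : Perm (Fin 9)) ∨
      swap i j * swap ((T0 : Perm (Fin 9)) i) ((T0 : Perm (Fin 9)) j) =
        ((T0 * V0 : A9) : Perm (Fin 9)) := by
  decide +kernel

/-- The centraliser of `T0` normalises the four-group. -/
theorem conj_V {σ : A9} (hσ : σ * T0 = T0 * σ) :
    σ * V0 * σ⁻¹ = V0 ∨ σ * V0 * σ⁻¹ = T0 * V0 := by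
  set p : Perm (Fin 9) := (σ : Perm (Fin 9)) with hp
  have e : p * (V0 : Perm (Fin 9)) * p⁻¹ =
      swap (p 0) (p 2) * swap ((T0 : Perm (Fin 9)) (p 0)) ((T0 : Perm (Fin 9)) (p 2)) := by
    rw [← comm_apply hσ, ← comm_apply hσ, Equiv.swap_apply_apply, Equiv.swap_apply_apply]
    rw [show (T0 : Perm (Fin 9)) 0 = 1 by decide +kernel,
      show (T0 : Perm (Fin 9)) 2 = 3 by decide +kernel]
    show p * (swap 0 2 * swap 1 3) * p⁻¹ = p * swap 0 2 * p⁻¹ * (p * swap 1 3 * p⁻¹)
    group
  have hne : p 2 ≠ p 0 := p.injective.ne (by decide)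
  have hne' : p 2 ≠ (T0 : Perm (Fin 9)) (p 0) := by
    rw [← comm_apply hσ]
    exact p.injective.ne (by decide +kernel)
  rcases conj_V_key (p 0) (p 2) ((preserve hσ 0).2 (by decide)) ((preserve hσ 2).2 (by decide))
    hne hne' with h | h
  · exact Or.inl (Subtype.ext (e.trans h))
  · exact Or.inr (Subtype.ext (e.trans h))

theorem four_key : ∀ i j : Fin 9, i.val < 4 → j.val < 4 → j ≠ i → j ≠ (T0 : Perm (Fin 9)) i →
    i = 0 ∨ i = 1 ∨ i = 2 ∨ i = 3 := by
  decide +kernel

/-- An element of odd order commuting with `T0` fixes the points moved by it. -/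
theorem fix_of_odd {σ : A9} (hσ : σ * T0 = T0 * σ) (hodd : Odd (orderOf σ)) :
    ∀ i : Fin 9, i.val < 4 → (σ : Perm (Fin 9)) i = i := by
  set p : Perm (Fin 9) := (σ : Perm (Fin 9)) with hp
  have hT : ∀ x, p ((T0 : Perm (Fin 9)) x) = (T0 : Perm (Fin 9)) (p x) := comm_apply hσ
  have h4 : ∀ i : Fin 9, i.val < 4 → (p ^ 4) i = i := by
    intro i hi
    have e : (p ^ 4) i = p (p (p (p i))) := by simp [pow_succ, Perm.mul_apply]
    rw [e]
    have key : ∀ a b : Fin 9, a.val < 4 → b.val < 4 → b ≠ a → b ≠ (T0 : Perm (Fin 9)) a →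
        p 0 = a → p 2 = b → p (p (p (p i))) = i := by
      intro a b ha hb hba hbT h0 h2
      have h1 : p 1 = (T0 : Perm (Fin 9)) a := by
        rw [← h0, ← hT, show (T0 : Perm (Fin 9)) 0 = 1 by decide +kernel]
      have h3 : p 3 = (T0 : Perm (Fin 9)) b := by
        rw [← h2, ← hT, show (T0 : Perm (Fin 9)) 2 = 3 by decide +kernel]
      have hT' : (T0 : Perm (Fin 9)) 0 = 1 ∧ (T0 : Perm (Fin 9)) 1 = 0 ∧
          (T0 : Perm (Fin 9)) 2 = 3 ∧ (T0 : Perm (Fin 9)) 3 = 2 := by decide +kernel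
      obtain ⟨t0, t1, t2, t3⟩ := hT'
      fin_cases a <;> fin_cases b <;> fin_cases i <;>
        simp_all (config := { decide := true })
    exact key (p 0) (p 2) ((preserve hσ 0).2 (by decide)) ((preserve hσ 2).2 (by decide))
      (p.injective.ne (by decide)) (by rw [← hT]; exact p.injective.ne (by decide +kernel)) rfl rfl
  intro i hi
  have hcop : (orderOf p).Coprime 4 := by
    rw [hp, Subgroup.orderOf_coe]
    exact (Nat.coprime_two_right.2 hodd).pow_right 2
  obtain ⟨m, hm⟩ := exists_pow_eq_self_of_coprime hcop.symm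
  rw [← hm]
  exact Equiv.Perm.pow_apply_eq_self_of_apply_eq_self (h4 i hi) m

/-- The only elements of odd order commuting with `T0` and `E0` are the powers of `E0`. -/
theorem odd_T_E {σ : A9} (hσ : σ * T0 = T0 * σ) (hE : σ * E0 = E0 * σ) (hodd : Odd (orderOf σ)) :
    σ = 1 ∨ σ = E0 ∨ σ = E0 * E0 := by
  set p : Perm (Fin 9) := (σ : Perm (Fin 9)) with hp
  have hlow := fix_of_odd hσ hodd
  have hc : ∀ x, p ((E0 : Perm (Fin 9)) x) = (E0 : Perm (Fin 9)) (p x) := fun x =>
    Perm.ext_iff.1 (congrArg Subtype.val hE) x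
  have hmov : ∀ x : Fin 9, (E0 : Perm (Fin 9)) x ≠ x ↔ 6 ≤ x.val := by decide +kernel
  have hhigh : ∀ x, 6 ≤ (p x).val ↔ 6 ≤ x.val := fun x => by
    rw [← hmov, ← hmov, ← hc, p.injective.ne_iff]
  have hp45 : ∀ x : Fin 9, (x = 4 ∨ x = 5) → p x = 4 ∨ p x = 5 := by
    intro x hx
    have h1 : ¬ 6 ≤ (p x).val := fun h => by
      have := (hhigh x).1 h
      rcases hx with rfl | rfl <;> simp at this
    have h2 : ¬ (p x).val < 4 := fun h => by
      have e : p x = x := p.injective (hlow _ h)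
      rw [e] at h
      rcases hx with rfl | rfl <;> simp at h
    have hv : (p x).val = 4 ∨ (p x).val = 5 := by omega
    rcases hv with h | h
    · exact Or.inl (Fin.ext h)
    · exact Or.inr (Fin.ext h)
  have h45 : p 4 = 4 ∧ p 5 = 5 := by
    have hne : p 4 ≠ p 5 := p.injective.ne (by decide)
    have hsq : (p ^ 2) 4 = 4 ∧ (p ^ 2) 5 = 5 := by
      rw [pow_two, Perm.mul_apply, Perm.mul_apply]
      rcases hp45 4 (Or.inl rfl) with a | a <;> rcases hp45 5 (Or.inr rfl) with b | b
      · exact absurd (a.trans b.symm) hne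
      · simp [a, b]
      · simp [a, b]
      · exact absurd (a.trans b.symm) hne
    have hcop : (orderOf p).Coprime 2 := by
      rw [hp, Subgroup.orderOf_coe]
      exact Nat.coprime_two_right.2 hodd
    obtain ⟨m, hm⟩ := exists_pow_eq_self_of_coprime hcop.symm
    rw [← hm]
    exact ⟨Equiv.Perm.pow_apply_eq_self_of_apply_eq_self hsq.1 m,
      Equiv.Perm.pow_apply_eq_self_of_apply_eq_self hsq.2 m⟩
  have hE' : (E0 : Perm (Fin 9)) 6 = 7 ∧ (E0 : Perm (Fin 9)) 7 = 8 := by decide +kernel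
  have h7 : p 7 = (E0 : Perm (Fin 9)) (p 6) := by rw [← hE'.1, hc]
  have h8 : p 8 = (E0 : Perm (Fin 9)) (p 7) := by rw [← hE'.2, hc]
  have hext : ∀ τ : A9, (∀ x : Fin 9, x.val < 6 → (τ : Perm (Fin 9)) x = x) →
      (τ : Perm (Fin 9)) 6 = p 6 → (τ : Perm (Fin 9)) 7 = p 7 → (τ : Perm (Fin 9)) 8 = p 8 →
      σ = τ := by
    intro τ hl a b c
    refine Subtype.ext (Perm.ext fun x => ?_)
    show p x = _
    fin_cases x
    iterate 4 exact (hlow _ (by decide)).trans (hl _ (by decide)).symm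
    · exact h45.1.trans (hl _ (by decide)).symm
    · exact h45.2.trans (hl _ (by decide)).symm
    exacts [a.symm, b.symm, c.symm]
  have hv : (p 6).val = 6 ∨ (p 6).val = 7 ∨ (p 6).val = 8 := by
    have := (hhigh 6).2 (by decide)
    omega
  rcases hv with h | h | h
  · have h6 : p 6 = 6 := Fin.ext h
    refine Or.inl (hext 1 (fun x _ => rfl) h6.symm ?_ ?_) <;>
      simp only [h8, h7, h6] <;> decide +kernel
  · have h6 : p 6 = 7 := Fin.ext h
    refine Or.inr (Or.inl (hext E0 (by decide +kernel) (h6 ▸ by decide +kernel) ?_ ?_)) <;>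
      simp only [h8, h7, h6]
    all_goals decide +kernel
  · have h6 : p 6 = 8 := Fin.ext h
    refine Or.inr (Or.inr (hext (E0 * E0) (by decide +kernel) (h6 ▸ by decide +kernel) ?_ ?_)) <;>
      simp only [h8, h7, h6]
    all_goals decide +kernel

theorem lt_four : ∀ x : Fin 9, x.val < 4 → x = 0 ∨ x = 1 ∨ x = 2 ∨ x = 3 := by decide +kernel

theorem inner_key : ∀ i j : Fin 9, i.val < 4 → j.val < 4 → j ≠ i → j ≠ (T0 : Perm (Fin 9)) i →
    ∃ τ : Perm (Fin 9), (τ = ((1 : A9) : Perm (Fin 9)) ∨ τ = (T0 : Perm (Fin 9)) ∨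
      τ = (V0 : Perm (Fin 9)) ∨ τ = ((T0 * V0 : A9) : Perm (Fin 9)) ∨ τ = swap 0 1 ∨ τ = swap 2 3 ∨
      τ = swap 0 1 * dbl 0 2 1 3 ∨ τ = swap 2 3 * dbl 0 2 1 3) ∧
      (∀ x : Fin 9, 4 ≤ x.val → τ x = x) ∧
      τ 0 = i ∧ τ 1 = (T0 : Perm (Fin 9)) i ∧ τ 2 = j ∧ τ 3 = (T0 : Perm (Fin 9)) j := by
  intro i j hi hj h1 h2
  have hl : ∀ k : Fin 8, ∀ x : Fin 9, 4 ≤ x.val →
      (![1, (T0 : Perm (Fin 9)), V0, (T0 * V0 : A9), swap 0 1, swap 2 3, swap 0 1 * dbl 0 2 1 3,
        swap 2 3 * dbl 0 2 1 3] : Fin 8 → Perm (Fin 9)) k x = x := by decide +kernel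
  have hk : ∀ i j : Fin 9, i.val < 4 → j.val < 4 → j ≠ i → j ≠ (T0 : Perm (Fin 9)) i →
      ∃ k : Fin 8, (![1, (T0 : Perm (Fin 9)), V0, (T0 * V0 : A9), swap 0 1, swap 2 3,
          swap 0 1 * dbl 0 2 1 3, swap 2 3 * dbl 0 2 1 3] : Fin 8 → Perm (Fin 9)) k 0 = i ∧
        (![1, (T0 : Perm (Fin 9)), V0, (T0 * V0 : A9), swap 0 1, swap 2 3,
          swap 0 1 * dbl 0 2 1 3, swap 2 3 * dbl 0 2 1 3] : Fin 8 → Perm (Fin 9)) k 1 =
          (T0 : Perm (Fin 9)) i ∧
        (![1, (T0 : Perm (Fin 9)), V0, (T0 * V0 : A9), swap 0 1, swap 2 3,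
          swap 0 1 * dbl 0 2 1 3, swap 2 3 * dbl 0 2 1 3] : Fin 8 → Perm (Fin 9)) k 2 = j ∧
        (![1, (T0 : Perm (Fin 9)), V0, (T0 * V0 : A9), swap 0 1, swap 2 3,
          swap 0 1 * dbl 0 2 1 3, swap 2 3 * dbl 0 2 1 3] : Fin 8 → Perm (Fin 9)) k 3 =
          (T0 : Perm (Fin 9)) j := by decide +kernel
  obtain ⟨k, e⟩ := hk i j hi hj h1 h2
  refine ⟨_, ?_, hl k, e⟩
  fin_cases k <;> simp

/-- An involution `σ` commuting with `T0` such that `σ` and `σ T0` move four points each is in the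
four-group or commutes with a three-cycle commuting with `T0`. -/
theorem double_cases {σ : A9} (hσ : σ * T0 = T0 * σ) (h2 : σ * σ = 1)
    (hs : (σ : Perm (Fin 9)).support.card = 4)
    (ht : ((σ * T0 : A9) : Perm (Fin 9)).support.card = 4) :
    (σ = 1 ∨ σ = T0 ∨ σ = V0 ∨ σ = T0 * V0) ∨
      ∃ y : A9, y * y * y = 1 ∧ y ≠ 1 ∧ y * T0 = T0 * y ∧ y * σ = σ * y ∧
        (y : Perm (Fin 9)).cycleType = {3} := by
  classical
  set p : Perm (Fin 9) := (σ : Perm (Fin 9)) with hp
  let Z : Finset (Fin 9) := Finset.univ.filter fun x => 4 ≤ x.val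
  have hout : p.support ∩ Z = ((σ * T0 : A9) : Perm (Fin 9)).support ∩ Z := by
    ext x
    simp only [Finset.mem_inter, Perm.mem_support, Z, Finset.mem_filter, Finset.mem_univ, true_and]
    refine and_congr_left fun hx => ?_
    show p x ≠ x ↔ p ((T0 : Perm (Fin 9)) x) ≠ x
    rw [not_ne_iff.1 (mt (moved x).1 (by omega))]
  have hZle : (p.support ∩ Z).card ≤ 3 := by
    by_contra h
    have hlt : 3 < (p.support ∩ Z).card := by omega
    have h1 : p.support ∩ Z = p.support :=
      Finset.eq_of_subset_of_card_le Finset.inter_subset_left (by omega)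
    have h1' : ((σ * T0 : A9) : Perm (Fin 9)).support ∩ Z =
        ((σ * T0 : A9) : Perm (Fin 9)).support :=
      Finset.eq_of_subset_of_card_le Finset.inter_subset_left (by rw [← hout]; omega)
    have h0 : (0 : Fin 9) ∈ ((σ * T0 : A9) : Perm (Fin 9)).support := by
      rw [Perm.mem_support]
      show p ((T0 : Perm (Fin 9)) 0) ≠ 0
      have h1x : p 1 = 1 := by
        by_contra hne
        have : (1 : Fin 9) ∈ p.support ∩ Z := h1.symm ▸ Perm.mem_support.2 hne
        simp [Z] at this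
      rw [show (T0 : Perm (Fin 9)) 0 = 1 by decide +kernel, h1x]
      decide
    rw [← h1'] at h0
    simp [Z] at h0
  by_cases hin : ∀ x : Fin 9, 4 ≤ x.val → p x = x
  · left
    have hT' : (T0 : Perm (Fin 9)) 0 = 1 ∧ (T0 : Perm (Fin 9)) 2 = 3 := by decide +kernel
    have h1 : p 1 = (T0 : Perm (Fin 9)) (p 0) := by rw [← hT'.1, comm_apply hσ]
    have h3 : p 3 = (T0 : Perm (Fin 9)) (p 2) := by rw [← hT'.2, comm_apply hσ]
    obtain ⟨τ, hτ, hτl, e0, e1, e2, e3⟩ := inner_key (p 0) (p 2) ((preserve hσ 0).2 (by decide))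
      ((preserve hσ 2).2 (by decide)) (p.injective.ne (by decide))
      (by rw [← comm_apply hσ]; exact p.injective.ne (by decide +kernel))
    have hpτ : p = τ := by
      refine Perm.ext fun x => ?_
      by_cases hx : 4 ≤ x.val
      · exact (hin x hx).trans (hτl x hx).symm
      · rcases lt_four x (by omega) with rfl | rfl | rfl | rfl
        exacts [e0.symm, h1.trans e1.symm, e2.symm, h3.trans e3.symm]
    have hsign : Perm.sign τ = 1 := hpτ ▸ Perm.mem_alternatingGroup.1 σ.2
    rcases hτ with rfl | rfl | rfl | rfl | rfl | rfl | rfl | rfl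
    · exact Or.inl (Subtype.ext hpτ)
    · exact Or.inr (Or.inl (Subtype.ext hpτ))
    · exact Or.inr (Or.inr (Or.inl (Subtype.ext hpτ)))
    · exact Or.inr (Or.inr (Or.inr (Subtype.ext hpτ)))
    all_goals exact absurd hsign (by decide +kernel)
  · right
    push Not at hin
    obtain ⟨x, hx4, hx⟩ := hin
    have hxm : x ∈ p.support ∩ Z := Finset.mem_inter.2 ⟨Perm.mem_support.2 hx, by simp [Z, hx4]⟩
    have hpx4 : 4 ≤ (p x).val := by
      by_contra h
      have := (preserve hσ x).1 (show (p x).val < 4 by omega)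
      omega
    have hpp : ∀ z, p (p z) = z := Perm.ext_iff.1 (congrArg Subtype.val h2)
    have hfixed : 3 ≤ (Z \ p.support).card := by
      by_contra h
      have hu := Finset.card_inter_add_card_sdiff Z p.support
      have hZ : Z.card = 5 := by decide
      rw [Finset.inter_comm] at hu
      have h3 : (p.support ∩ Z).card = 3 := by omega
      -- an involution cannot move exactly three points of the invariant set
      have hex : ∃ z ∈ p.support ∩ Z, z ∉ ({x, p x} : Finset (Fin 9)) := by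
        by_contra hno
        push Not at hno
        have := Finset.card_le_card (show p.support ∩ Z ⊆ {x, p x} from fun z hz => hno z hz)
        have := Finset.card_le_two (a := x) (b := p x)
        omega
      obtain ⟨z, hz, hzn⟩ := hex
      simp only [Finset.mem_insert, Finset.mem_singleton, not_or] at hzn
      have hz4 : 4 ≤ z.val := by simpa [Z] using (Finset.mem_inter.1 hz).2
      have hpz4 : 4 ≤ (p z).val := by
        by_contra h'
        have := (preserve hσ z).1 (show (p z).val < 4 by omega)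
        omega
      have hzne : p z ≠ z := Perm.mem_support.1 (Finset.mem_inter.1 hz).1
      have h4 : ({x, p x, z, p z} : Finset (Fin 9)) ⊆ p.support ∩ Z := by
        intro y hy
        simp only [Finset.mem_insert, Finset.mem_singleton] at hy
        simp only [Finset.mem_inter, Perm.mem_support, Z, Finset.mem_filter, Finset.mem_univ,
          true_and]
        rcases hy with rfl | rfl | rfl | rfl
        · exact ⟨hx, hx4⟩
        · exact ⟨fun e => hx (p.injective e), hpx4⟩
        · exact ⟨hzne, hz4⟩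
        · exact ⟨fun e => hzne (p.injective e), hpz4⟩
      have hc4 : ({x, p x, z, p z} : Finset (Fin 9)).card = 4 := by
        have a1 : p z ≠ x := fun e => hzn.2 (by rw [← e, hpp])
        have a2 : p z ≠ p x := fun e => hzn.1 (p.injective e)
        rw [Finset.card_insert_of_notMem, Finset.card_insert_of_notMem,
          Finset.card_insert_of_notMem, Finset.card_singleton] <;>
          simp [Ne.symm hx, hzn.1, Ne.symm hzn.1, Ne.symm hzn.2, a1.symm, a2.symm, hzne.symm]
      have := Finset.card_le_card h4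
      omega
    obtain ⟨W, hW, hWc⟩ := Finset.exists_subset_card_eq hfixed
    obtain ⟨a, b, c, hab, hac, hbc, rfl⟩ := Finset.card_eq_three.1 hWc
    have hmem : ∀ z ∈ ({a, b, c} : Finset (Fin 9)), 4 ≤ z.val ∧ p z = z := fun z hz => by
      have := hW hz
      simp only [Finset.mem_sdiff, Z, Finset.mem_filter, Finset.mem_univ, true_and,
        Perm.mem_support, not_not] at this
      exact this
    have h3c : (cyc a b c).IsThreeCycle := by
      rw [cyc, Equiv.swap_comm a b]
      exact Perm.isThreeCycle_swap_mul_swap_same hab.symm hbc hac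
    have hcomm : ∀ q : Perm (Fin 9), q a = a → q b = b → q c = c →
        cyc a b c * q = q * cyc a b c := by
      intro q qa qb qc
      have e1 : q * swap a b * q⁻¹ = swap a b := by rw [← Equiv.swap_apply_apply, qa, qb]
      have e2 : q * swap b c * q⁻¹ = swap b c := by rw [← Equiv.swap_apply_apply, qb, qc]
      calc cyc a b c * q = (q * swap a b * q⁻¹) * (q * swap b c * q⁻¹) * q := by rw [e1, e2, cyc]
        _ = q * cyc a b c := by rw [cyc]; group
    have hT : ∀ z ∈ ({a, b, c} : Finset (Fin 9)), (T0 : Perm (Fin 9)) z = z := fun z hz =>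
      not_ne_iff.1 (mt (moved z).1 (by have := (hmem z hz).1; omega))
    have ho := h3c.orderOf
    refine ⟨⟨cyc a b c, h3c.mem_alternatingGroup⟩, Subtype.ext ?_, fun e => ?_,
      Subtype.ext (hcomm _ (hT a (by simp)) (hT b (by simp)) (hT c (by simp))),
      Subtype.ext (hcomm p (hmem a (by simp)).2 (hmem b (by simp)).2 (hmem c (by simp)).2), h3c⟩
    · have h := pow_orderOf_eq_one (cyc a b c)
      rw [ho, pow_succ, pow_two] at h
      exact h
    · have e' : cyc a b c = 1 := congrArg Subtype.val e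
      rw [e', orderOf_one] at ho
      omega

/-- The points `4, ..., 8`. -/
def e5 : Fin 5 ≃ {i : Fin 9 // 4 ≤ i.val} where
  toFun i := ⟨⟨i.val + 4, by omega⟩, Nat.le_add_left _ _⟩
  invFun i := ⟨i.1.val - 4, by omega⟩
  left_inv i := by ext; simp
  right_inv i := by ext; have := i.2; simp; omega

/-- The alternating group on the last five points. -/
def psi : alternatingGroup (Fin 5) →* A9 where
  toFun σ := ⟨(σ : Perm (Fin 5)).extendDomain e5, Perm.mem_alternatingGroup.2 (by
    rw [Perm.sign_extendDomain]; exact Perm.mem_alternatingGroup.1 σ.2)⟩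
  map_one' := Subtype.ext (Perm.extendDomain_one _)
  map_mul' σ τ := Subtype.ext (Perm.extendDomain_mul _ _ _).symm

theorem psi_injective : Function.Injective psi := fun σ τ h =>
  Subtype.ext (Perm.extendDomainHom_injective e5 (congrArg Subtype.val h))

theorem psi_apply_low (σ : alternatingGroup (Fin 5)) {i : Fin 9} (hi : i.val < 4) :
    (psi σ : Perm (Fin 9)) i = i :=
  Perm.extendDomain_apply_not_subtype _ _ (by omega)

theorem psi_commute (σ : alternatingGroup (Fin 5)) (τ : A9)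
    (hτ : ∀ i : Fin 9, 4 ≤ i.val → (τ : Perm (Fin 9)) i = i) : psi σ * τ = τ * psi σ :=
  Subtype.ext (Perm.Disjoint.commute fun i => by
    by_cases hi : 4 ≤ i.val
    · exact Or.inr (hτ i hi)
    · exact Or.inl (psi_apply_low σ (by omega))).eq

theorem T0_high : ∀ i : Fin 9, 4 ≤ i.val → (T0 : Perm (Fin 9)) i = i := by decide +kernel

theorem V0_high : ∀ i : Fin 9, 4 ≤ i.val → (V0 : Perm (Fin 9)) i = i := by decide +kernel

theorem mem_psi_range {σ : A9} (h : ∀ i : Fin 9, i.val < 4 → (σ : Perm (Fin 9)) i = i) :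
    σ ∈ psi.range := by
  set p : Perm (Fin 9) := (σ : Perm (Fin 9)) with hp
  have hinv : ∀ i : Fin 9, 4 ≤ (p i).val ↔ 4 ≤ i.val := by
    intro i
    constructor
    · intro h1
      by_contra h2
      rw [h i (by omega)] at h1
      exact h2 h1
    · intro h1
      by_contra h2
      rw [p.injective (h _ (by omega) : p (p i) = p i)] at h2
      exact h2 h1
  let π : Perm (Fin 5) := e5.symm.permCongr (p.subtypePerm hinv)
  have hπ : π.extendDomain e5 = p := by
    refine Perm.ext fun i => ?_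
    by_cases hi : 4 ≤ i.val
    · refine (Perm.extendDomain_apply_subtype π e5 hi).trans ?_
      simp [π, Equiv.permCongr_apply]
    · exact (Perm.extendDomain_apply_not_subtype π e5 hi).trans (h i (by omega)).symm
  refine ⟨⟨π, Perm.mem_alternatingGroup.2 ?_⟩, Subtype.ext hπ⟩
  rw [← Perm.sign_extendDomain π e5, hπ]
  exact Perm.mem_alternatingGroup.1 σ.2

/-- The points `4, 5, 6, 7`. -/
def e4 : Fin 4 ≃ {i : Fin 9 // 4 ≤ i.val ∧ i.val ≤ 7} where
  toFun i := ⟨⟨i.val + 4, by omega⟩, Nat.le_add_left _ _, by simp; omega⟩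
  invFun i := ⟨i.1.val - 4, by have := i.2; omega⟩
  left_inv i := by ext; simp
  right_inv i := by ext; have := i.2; simp; omega

/-- The points `4, 5, 7, 8`. -/
def e4' : Fin 4 ≃ {i : Fin 9 // 4 ≤ i.val ∧ i.val ≠ 6} where
  toFun i := ⟨if i.val < 2 then ⟨i.val + 4, by omega⟩ else ⟨i.val + 5, by omega⟩, by
    split <;> simp <;> omega⟩
  invFun i := ⟨if i.1.val < 6 then i.1.val - 4 else i.1.val - 5, by
    have := i.2; split <;> omega⟩
  left_inv i := by
    ext
    by_cases h : i.val < 2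
    · simp [h] <;> omega
    · simp [h] <;> omega
  right_inv i := by
    have := i.2
    apply Subtype.ext; apply Fin.ext
    by_cases h : i.1.val < 6
    · simp [h, show i.1.val - 4 < 2 by omega]; omega
    · simp [h, show ¬ i.1.val - 5 < 2 by omega]; omega

/-- The alternating group on four of the last five points. -/
def psi4 {q : Fin 9 → Prop} [DecidablePred q] (e : Fin 4 ≃ Subtype q) :
    alternatingGroup (Fin 4) →* A9 where
  toFun σ := ⟨(σ : Perm (Fin 4)).extendDomain e, Perm.mem_alternatingGroup.2 (by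
    rw [Perm.sign_extendDomain]; exact Perm.mem_alternatingGroup.1 σ.2)⟩
  map_one' := Subtype.ext (Perm.extendDomain_one _)
  map_mul' σ τ := Subtype.ext (Perm.extendDomain_mul _ _ _).symm

theorem psi4_injective {q : Fin 9 → Prop} [DecidablePred q] (e : Fin 4 ≃ Subtype q) :
    Function.Injective (psi4 e) := fun _ _ h =>
  Subtype.ext (Perm.extendDomainHom_injective e (congrArg Subtype.val h))

theorem psi4_T0 {q : Fin 9 → Prop} [DecidablePred q] (e : Fin 4 ≃ Subtype q)
    (hq : ∀ i : Fin 9, q i → 4 ≤ i.val) (σ : alternatingGroup (Fin 4)) :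
    psi4 e σ * T0 = T0 * psi4 e σ :=
  Subtype.ext (Perm.Disjoint.commute fun i => by
    by_cases hi : 4 ≤ i.val
    · exact Or.inr (T0_high i hi)
    · exact Or.inl (Perm.extendDomain_apply_not_subtype _ _ fun h => hi (hq i h))).eq

/-- A double transposition of four points. -/
def dbl' (i j k l : Fin 4) : Perm (Fin 4) := swap i j * swap k l

/-- The two double transpositions with product `E0`. -/
theorem E0_eq : ∃ d d' : alternatingGroup (Fin 4), d * d = 1 ∧ d' * d' = 1 ∧
    psi4 e4 d * psi4 e4' d' = E0 :=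
  ⟨⟨dbl' 0 1 2 3, Perm.mem_alternatingGroup.2 (by decide +kernel)⟩,
    ⟨dbl' 0 1 2 3, Perm.mem_alternatingGroup.2 (by decide +kernel)⟩,
    by decide +kernel, by decide +kernel, by decide +kernel⟩


/-- A fixed-point-free action of `A₄` on an abelian group of odd order kills the four-group. -/
theorem four_trivial {O : Type*} [CommGroup O] [Finite O] (hodd : Odd (Nat.card O))
    (ρ : alternatingGroup (Fin 4) →* MulAut O)
    (hfpf : ∀ y : alternatingGroup (Fin 4), y * y * y = 1 → y ≠ 1 → ∀ x : O, ρ y x = x → x = 1)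
    {d : alternatingGroup (Fin 4)} (hd : d * d = 1) (x : O) : ρ d x = x := by
  classical
  let A := alternatingGroup (Fin 4)
  have hinv : ∀ (g : A) (x : O), ρ g (∏ h : A, ρ h x) = ∏ h : A, ρ h x := fun g x => by
    rw [map_prod]
    refine Fintype.prod_equiv (Equiv.mulLeft g) _ _ fun h => ?_
    show ρ g (ρ h x) = ρ (g * h) x
    rw [map_mul]; rfl
  have hy : ∀ (y : A), y * y * y = 1 → y ≠ 1 → ∀ x : O, x * ρ y x * ρ (y * y) x = 1 := by
    intro y h3 h1 x
    refine hfpf y h3 h1 _ ?_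
    rw [map_mul, map_mul]
    have e1 : ρ y (ρ y x) = ρ (y * y) x := by rw [map_mul]; rfl
    have e2 : ρ y (ρ (y * y) x) = x := by
      rw [← MulAut.mul_apply, ← map_mul, ← mul_assoc, h3, map_one]; rfl
    rw [e1, e2]
    ac_rfl
  let y0 : A := ⟨swap 0 1 * swap 1 2, Perm.mem_alternatingGroup.2 (by decide +kernel)⟩
  have hP : ∀ x : O, ∏ h : A, ρ h x = 1 := fun x =>
    hfpf y0 (by decide +kernel) (by decide +kernel) _ (hinv y0 x)
  let D : Finset A := Finset.univ.filter fun g => g * g = 1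
  let L : Finset A := Finset.univ.filter fun g => g * g * g = 1 ∧ g ≠ 1
  let a1 : A := ⟨swap 1 2 * swap 2 3, Perm.mem_alternatingGroup.2 (by decide +kernel)⟩
  let a2 : A := ⟨swap 0 2 * swap 2 3, Perm.mem_alternatingGroup.2 (by decide +kernel)⟩
  let a3 : A := ⟨swap 0 1 * swap 1 3, Perm.mem_alternatingGroup.2 (by decide +kernel)⟩
  have hLD : ∀ z : O → O, (∀ x, z x = ∏ g ∈ D, ρ g x) → ∀ x, z x = x ^ 4 := by
    intro z hz x
    have hsplit : (Finset.univ : Finset A) = D ∪ L := by decide +kernel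
    have hdisj : Disjoint D L := by decide +kernel
    have hLeq : L = {a1, a1 * a1, a2, a2 * a2, a3, a3 * a3, y0, y0 * y0} := by decide +kernel
    have h := hP x
    rw [hsplit, Finset.prod_union hdisj, hLeq] at h
    rw [Finset.prod_insert (by decide +kernel), Finset.prod_insert (by decide +kernel),
      Finset.prod_insert (by decide +kernel), Finset.prod_insert (by decide +kernel),
      Finset.prod_insert (by decide +kernel), Finset.prod_insert (by decide +kernel),
      Finset.prod_insert (by decide +kernel), Finset.prod_singleton, ← hz] at h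
    have h4 : z x * ((ρ a1 x * ρ (a1 * a1) x) * ((ρ a2 x * ρ (a2 * a2) x) *
        ((ρ a3 x * ρ (a3 * a3) x) * (ρ y0 x * ρ (y0 * y0) x)))) = 1 := by
      rw [← h]; ac_rfl
    have f : ∀ a : A, a * a * a = 1 → a ≠ 1 → ρ a x * ρ (a * a) x = x⁻¹ := fun a b c =>
      eq_inv_of_mul_eq_one_right (by rw [← mul_assoc]; exact hy a b c x)
    rw [f a1 (by decide +kernel) (by decide +kernel), f a2 (by decide +kernel) (by decide +kernel),
      f a3 (by decide +kernel) (by decide +kernel), f y0 (by decide +kernel) (by decide +kernel)]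
      at h4
    rw [eq_inv_of_mul_eq_one_left h4]
    simp [pow_succ, mul_assoc]
  have hz := hLD (fun x => ∏ g ∈ D, ρ g x) (fun _ => rfl)
  have hshift : ρ d (∏ g ∈ D, ρ g x) = ∏ g ∈ D, ρ g x := by
    rw [map_prod]
    refine Finset.prod_nbij' (fun g => d * g) (fun g => d * g) ?_ ?_ ?_ ?_ ?_
    · have : ∀ d : A, d * d = 1 → ∀ g ∈ D, d * g ∈ D := by decide +kernel
      exact fun g hg => this d hd g hg
    · have : ∀ d : A, d * d = 1 → ∀ g ∈ D, d * g ∈ D := by decide +kernel
      exact fun g hg => this d hd g hg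
    · intro g _; show d * (d * g) = g; rw [← mul_assoc, hd, one_mul]
    · intro g _; show d * (d * g) = g; rw [← mul_assoc, hd, one_mul]
    · intro g _; rw [map_mul]; rfl
  rw [show (∏ g ∈ D, ρ g x) = x ^ 4 from hz x, map_pow] at hshift
  have hcop : (Nat.card O).Coprime 4 := (Nat.coprime_two_right.2 hodd).pow_right 2
  exact (powCoprime hcop).injective hshift


theorem pow_E_of_low {p : Perm (Fin 9)} (hl : ∀ x : Fin 9, x.val < 6 → p x = x)
    (hc : p * (E0 : Perm (Fin 9)) = (E0 : Perm (Fin 9)) * p) :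
    p = 1 ∨ p = (E0 : Perm (Fin 9)) ∨ p = ((E0 * E0 : A9) : Perm (Fin 9)) := by
  have hc' : ∀ x, p ((E0 : Perm (Fin 9)) x) = (E0 : Perm (Fin 9)) (p x) := fun x =>
    Perm.ext_iff.1 hc x
  have hE' : (E0 : Perm (Fin 9)) 6 = 7 ∧ (E0 : Perm (Fin 9)) 7 = 8 := by decide +kernel
  have h7 : p 7 = (E0 : Perm (Fin 9)) (p 6) := by rw [← hE'.1, hc']
  have h8 : p 8 = (E0 : Perm (Fin 9)) (p 7) := by rw [← hE'.2, hc']
  have h6 : 6 ≤ (p 6).val := by
    by_contra h
    have := p.injective (hl (p 6) (by omega))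
    rw [this] at h
    exact h (by decide)
  have hext : ∀ τ : Perm (Fin 9), (∀ x : Fin 9, x.val < 6 → τ x = x) → τ 6 = p 6 → τ 7 = p 7 →
      τ 8 = p 8 → p = τ := by
    intro τ ht a b c
    refine Perm.ext fun x => ?_
    fin_cases x
    iterate 6 exact (hl _ (by decide)).trans (ht _ (by decide)).symm
    exacts [a.symm, b.symm, c.symm]
  rcases (show (p 6).val = 6 ∨ (p 6).val = 7 ∨ (p 6).val = 8 by omega) with h | h | h
  · have e : p 6 = 6 := Fin.ext h
    exact Or.inl (hext 1 (fun x _ => rfl) e.symm (by rw [h7, e] <;> decide +kernel)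
      (by rw [h8, h7, e] <;> decide +kernel))
  · have e : p 6 = 7 := Fin.ext h
    exact Or.inr (Or.inl (hext _ (by decide +kernel) (by rw [e] <;> decide +kernel)
      (by rw [h7, e] <;> decide +kernel) (by rw [h8, h7, e] <;> decide +kernel)))
  · have e : p 6 = 8 := Fin.ext h
    exact Or.inr (Or.inr (hext _ (by decide +kernel) (by rw [e] <;> decide +kernel)
      (by rw [h7, e] <;> decide +kernel) (by rw [h8, h7, e] <;> decide +kernel)))

/-- The centraliser of the four-group and `E0`. -/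
theorem cent_V_E {σ : A9} (hT : σ * T0 = T0 * σ) (hV : σ * V0 = V0 * σ) (hE : σ * E0 = E0 * σ) :
    ∃ w : A9, (w = 1 ∨ w = T0 ∨ w = V0 ∨ w = T0 * V0) ∧
      (σ = w ∨ σ = w * E0 ∨ σ = w * (E0 * E0)) := by
  have h4 : ∀ i : Fin 9, i.val < 4 → ∃ k : Fin 4,
      ((![1, T0, V0, T0 * V0] : Fin 4 → A9) k : Perm (Fin 9)) 0 = i := by decide +kernel
  obtain ⟨k, hk⟩ := h4 ((σ : Perm (Fin 9)) 0) ((preserve hT 0).2 (by decide))
  set w : A9 := (![1, T0, V0, T0 * V0] : Fin 4 → A9) k with hw
  have hwc : w * T0 = T0 * w ∧ w * V0 = V0 * w ∧ w * E0 = E0 * w := by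
    have key : ∀ k : Fin 4, (![1, T0, V0, T0 * V0] : Fin 4 → A9) k * T0 =
        T0 * (![1, T0, V0, T0 * V0] : Fin 4 → A9) k ∧ (![1, T0, V0, T0 * V0] : Fin 4 → A9) k * V0 =
        V0 * (![1, T0, V0, T0 * V0] : Fin 4 → A9) k ∧ (![1, T0, V0, T0 * V0] : Fin 4 → A9) k * E0 =
        E0 * (![1, T0, V0, T0 * V0] : Fin 4 → A9) k := by decide +kernel
    exact key k
  refine ⟨w, by rw [hw]; fin_cases k <;> simp, ?_⟩
  set p : Perm (Fin 9) := ((w⁻¹ * σ : A9) : Perm (Fin 9)) with hp
  have hc : ∀ g : A9, σ * g = g * σ → w * g = g * w → (w⁻¹ * σ) * g = g * (w⁻¹ * σ) :=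
    fun g a b => ((show Commute w g from b).inv_left.mul_left (show Commute σ g from a)).eq
  have h0 : p 0 = 0 := by
    show (w : Perm (Fin 9))⁻¹ ((σ : Perm (Fin 9)) 0) = 0
    rw [← hk]
    exact (w : Perm (Fin 9)).symm_apply_apply 0
  have hlow : ∀ x : Fin 9, x.val < 4 → p x = x := by
    have hT' : ∀ x, p ((T0 : Perm (Fin 9)) x) = (T0 : Perm (Fin 9)) (p x) := fun x =>
      Perm.ext_iff.1 (congrArg Subtype.val (hc _ hT hwc.1)) x
    have hV' : ∀ x, p ((V0 : Perm (Fin 9)) x) = (V0 : Perm (Fin 9)) (p x) := fun x =>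
      Perm.ext_iff.1 (congrArg Subtype.val (hc _ hV hwc.2.1)) x
    have e1 : (T0 : Perm (Fin 9)) 0 = 1 ∧ (V0 : Perm (Fin 9)) 0 = 2 ∧
        (T0 : Perm (Fin 9)) 2 = 3 := by decide +kernel
    have h2 : p 2 = 2 := by rw [← e1.2.1, hV', h0]
    intro x hx
    rcases lt_four x hx with rfl | rfl | rfl | rfl
    · exact h0
    · rw [← e1.1, hT', h0]
    · exact h2
    · rw [← e1.2.2, hT', h2]
  have hcE : p * (E0 : Perm (Fin 9)) = (E0 : Perm (Fin 9)) * p :=
    congrArg Subtype.val (hc _ hE hwc.2.2)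
  have hfinal : p = 1 ∨ p = (E0 : Perm (Fin 9)) ∨ p = ((E0 * E0 : A9) : Perm (Fin 9)) := by
    have h45 : (p 4 = 4 ∨ p 4 = 5) ∧ (p 5 = 4 ∨ p 5 = 5) := by
      have key : ∀ x : Fin 9, 4 ≤ x.val → x.val < 6 → 4 ≤ (p x).val ∧ (p x).val < 6 := by
        intro x hx hx'
        have hfix : (E0 : Perm (Fin 9)) (p x) = p x := by
          have hE0 : ∀ y : Fin 9, y.val < 6 → (E0 : Perm (Fin 9)) y = y := by decide +kernel
          have := Perm.ext_iff.1 hcE x
          rw [Perm.mul_apply, Perm.mul_apply, hE0 x hx'] at this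
          exact this.symm
        have hmov : ∀ y : Fin 9, (E0 : Perm (Fin 9)) y = y → y.val < 6 := by decide +kernel
        refine ⟨?_, hmov _ hfix⟩
        by_contra hlt
        have := p.injective (hlow (p x) (by omega))
        rw [this] at hlt
        omega
      have a := key 4 (by decide) (by decide)
      have b := key 5 (by decide) (by decide)
      refine ⟨?_, ?_⟩
      · rcases (show (p 4).val = 4 ∨ (p 4).val = 5 by omega) with h | h
        exacts [Or.inl (Fin.ext h), Or.inr (Fin.ext h)]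
      · rcases (show (p 5).val = 4 ∨ (p 5).val = 5 by omega) with h | h
        exacts [Or.inl (Fin.ext h), Or.inr (Fin.ext h)]
    have hne : p 4 ≠ p 5 := p.injective.ne (by decide)
    rcases h45.1 with a | a
    · rcases h45.2 with b | b
      · exact absurd (a.trans b.symm) hne
      refine pow_E_of_low (fun x hx => ?_) hcE
      by_cases h : x.val < 4
      · exact hlow x h
      · rcases (show x.val = 4 ∨ x.val = 5 by omega) with h | h <;>
          [(rw [show x = 4 from Fin.ext h]; exact a); (rw [show x = 5 from Fin.ext h]; exact b)]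
    · rcases h45.2 with b | b
      swap
      · exact absurd (a.trans b.symm) hne
      exfalso
      have hs : Perm.sign p = 1 := Perm.mem_alternatingGroup.1 (w⁻¹ * σ).2
      have hq := pow_E_of_low (p := swap 4 5 * p) (fun x hx => ?_) ?_
      · have hp' : Perm.sign (swap 4 5 * p) = 1 := by
          rcases hq with e | e | e <;> rw [e] <;> decide +kernel
        rw [map_mul, hs, mul_one] at hp'
        exact absurd hp' (by decide +kernel)
      · rw [Perm.mul_apply]
        by_cases h : x.val < 4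
        · rw [hlow x h]
          exact Equiv.swap_apply_of_ne_of_ne (fun e => by simp [e] at h) (fun e => by simp [e] at h)
        · rcases (show x.val = 4 ∨ x.val = 5 by omega) with h | h
          · rw [show x = 4 from Fin.ext h, a]; decide +kernel
          · rw [show x = 5 from Fin.ext h, b]; decide +kernel
      · rw [mul_assoc, hcE, ← mul_assoc,
          show swap 4 5 * (E0 : Perm (Fin 9)) = (E0 : Perm (Fin 9)) * swap 4 5 by decide +kernel,
          mul_assoc]
  rcases hfinal with e | e | e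
  · exact Or.inl (eq_of_inv_mul_eq_one (Subtype.ext e)).symm
  · exact Or.inr (Or.inl (by
      rw [← show w⁻¹ * σ = E0 from Subtype.ext e, mul_inv_cancel_left]))
  · exact Or.inr (Or.inr (by
      rw [← show w⁻¹ * σ = E0 * E0 from Subtype.ext e, mul_inv_cancel_left]))

/-- A permutation of order three fixing four points is a three-cycle, conjugate to `E0`. -/
theorem conj_E0 {s : A9} (h3 : s * s * s = 1) (h1 : s ≠ 1)
    (hlow : ∀ x : Fin 9, x.val < 4 → (s : Perm (Fin 9)) x = x) : ∃ g : A9, g * E0 * g⁻¹ = s := by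
  set p : Perm (Fin 9) := (s : Perm (Fin 9)) with hp
  have ho : orderOf p = 3 := by
    haveI : Fact (Nat.Prime 3) := ⟨by norm_num⟩
    exact orderOf_eq_prime (by rw [pow_succ, pow_two]; exact congrArg Subtype.val h3)
      fun e => h1 (Subtype.ext e)
  obtain ⟨n, hn⟩ := Perm.cycleType_prime_order (σ := p) (by rw [ho]; norm_num)
  rw [ho] at hn
  have hle : p.cycleType.sum ≤ 5 := by
    rw [Perm.sum_cycleType]
    calc p.support.card ≤ (Finset.univ.filter fun x : Fin 9 => 4 ≤ x.val).card := by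
          refine Finset.card_le_card fun x hx => ?_
          simp only [Finset.mem_filter, Finset.mem_univ, true_and]
          by_contra h
          exact Perm.mem_support.1 hx (hlow x (by omega))
      _ = 5 := by decide
  rw [hn, Multiset.sum_replicate, smul_eq_mul] at hle
  obtain rfl : n = 0 := by omega
  exact conj_of_cycleType E0 s (swap 0 1) (by decide +kernel) (by decide +kernel)
    ((show (E0 : Perm (Fin 9)).cycleType = {3} by decide +kernel).trans hn.symm)

theorem conj_three {y : A9} (h : (y : Perm (Fin 9)).cycleType = {3}) :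
    ∃ g : A9, g * E0 * g⁻¹ = y :=
  conj_of_cycleType E0 y (swap 0 1) (by decide +kernel) (by decide +kernel)
    ((show (E0 : Perm (Fin 9)).cycleType = {3} by decide +kernel).trans h.symm)

end CfsgLib.AltNineLocal.GlobalT
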