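/-
Carmichael's relations among the three labelled alternating groups of degree six give a homomorphism from
the alternating group of degree nine.
-/
import Cfsg.Agent.Lib.AltNineLocal.Setting
import Cfsg.Agent.Lib.ShortPres.Carmichael
import Mathlib.GroupTheory.SpecificGroups.Alternating.Simple

set_option autoImplicit false
set_option linter.unusedSectionVars false

namespace CfsgLib.AltNineLocal

open Equiv

/-- The last seven points. -/
def pt (n : Fin 7) : Fin 9 := ⟨n.val + 2, by omega⟩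

theorem sign_star_cyc : ∀ n : Fin 7, Perm.sign (cyc 0 1 (pt n)) = 1 := by decide +kernel

/-- The Carmichael generators. -/
def gen (n : Fin 7) : alternatingGroup (Fin 9) :=
  ⟨cyc 0 1 (pt n), Perm.mem_alternatingGroup.2 (sign_star_cyc n)⟩

theorem altOn_mono {s s' : Finset (Fin 9)} (h : s ⊆ s') : altOn s ≤ altOn s' :=
  fun _ hσ => ⟨hσ.1, fun i hi => hσ.2 i fun k => hi (h k)⟩

/-- Generation of the alternating group on a set containing two fixed points by a star of three-cycles. -/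
theorem altOn_le {K : Subgroup (Perm (Fin 9))} : ∀ l : List (Fin 9), (∀ i ∈ l, i ≠ 0 ∧ i ≠ 1) →
    (∀ i ∈ l, cyc 0 1 i ∈ K) → altOn ({0, 1} ∪ l.toFinset) ≤ K := by
  intro l
  induction l with
  | nil =>
    intro _ _ σ hσ
    have hfix : ∀ i, i ≠ 0 → i ≠ 1 → σ i = i := fun i h0 h1 => hσ.2 i (by simp [h0, h1])
    by_cases h : σ 0 = 0
    · have h1 : σ 1 = 1 := by
        by_contra k
        have hne : σ 1 ≠ 0 := fun e => absurd (σ.injective (e.trans h.symm)) (by decide)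
        exact k (σ.injective (hfix _ hne k))
      have : σ = 1 := Equiv.ext fun i => by
        by_cases h0 : i = 0
        · rw [h0, h]; rfl
        by_cases hi : i = 1
        · rw [hi, h1]; rfl
        exact hfix i h0 hi
      rw [this]; exact one_mem _
    · exfalso
      have h0 : σ 0 = 1 := by
        by_contra k
        exact h (σ.injective (hfix _ h k))
      have h1 : σ 1 = 0 := by
        by_contra k
        have hne : σ 1 ≠ 1 := fun e => absurd (σ.injective (e.trans h0.symm)) (by decide)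
        exact absurd (σ.injective (hfix _ k hne)) hne
      have : σ = swap 0 1 := Equiv.ext fun i => by
        by_cases hi0 : i = 0
        · rw [hi0, h0, swap_apply_left]
        by_cases hi1 : i = 1
        · rw [hi1, h1, swap_apply_right]
        rw [hfix i hi0 hi1, swap_apply_of_ne_of_ne hi0 hi1]
      have hs := hσ.1
      rw [this] at hs
      exact absurd hs (by decide)
  | cons i l ih =>
    intro hne hgen σ hσ
    have hle := ih (fun j hj => hne j (List.mem_cons_of_mem _ hj)) fun j hj => hgen j (List.mem_cons_of_mem _ hj)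
    have hset : ({0, 1} ∪ (i :: l).toFinset : Finset (Fin 9)) = insert i ({0, 1} ∪ l.toFinset) := by
      ext x; simp
    rw [hset] at hσ
    obtain ⟨hi0, hi1⟩ := hne i List.mem_cons_self
    have hci : cyc 0 1 i ∈ K := hgen i List.mem_cons_self
    have ci : cyc 0 1 i i = 0 := by
      simp [cyc]
    have key : ∀ w ∈ K, w ∈ altOn (insert i ({0, 1} ∪ l.toFinset)) → w i = σ i → σ ∈ K := by
      intro w hw hwa hwi
      have hm : w⁻¹ * σ ∈ altOn ({0, 1} ∪ l.toFinset) := by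
        refine ⟨(mul_mem (inv_mem hwa) hσ).1, fun x hx => ?_⟩
        by_cases hxi : x = i
        · subst hxi
          rw [Perm.mul_apply, ← hwi, Equiv.Perm.coe_inv, Equiv.symm_apply_apply]
        · exact (mul_mem (inv_mem hwa) hσ).2 x (by simp only [Finset.mem_insert, not_or]; exact ⟨hxi, hx⟩)
      have := mul_mem hw (hle hm)
      rwa [mul_inv_cancel_left] at this
    have hcyc : ∀ j ∈ insert i ({0, 1} ∪ l.toFinset), j ≠ 0 → j ≠ 1 →
        cyc 0 1 j ∈ altOn (insert i ({0, 1} ∪ l.toFinset)) := by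
      intro j hj hj0 hj1
      refine ⟨by simp [cyc, Perm.sign_swap (Ne.symm hj1)], fun x hx => ?_⟩
      have hx0 : x ≠ 0 := fun k => hx (by simp [k])
      have hx1 : x ≠ 1 := fun k => hx (by simp [k])
      have hxj : x ≠ j := fun k => hx (k ▸ hj)
      simp [cyc, swap_apply_of_ne_of_ne, hx0, hx1, hxj]
    have hiS := Finset.mem_insert_self i ({0, 1} ∪ l.toFinset)
    have hj : σ i ∈ insert i ({0, 1} ∪ l.toFinset) := by
      by_contra k
      exact k (by rw [σ.injective (hσ.2 _ k)]; exact hiS)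
    by_cases hσi : σ i = i
    · exact key 1 (one_mem _) (one_mem _) (by rw [hσi]; rfl)
    by_cases h0 : σ i = 0
    · exact key _ hci (hcyc i hiS hi0 hi1) (by rw [ci, h0])
    have ci1 : cyc 0 1 i 0 = 1 := by
      simp [cyc, swap_apply_of_ne_of_ne, Ne.symm hi0]
    by_cases h1 : σ i = 1
    · exact key _ (mul_mem hci hci) (mul_mem (hcyc i hiS hi0 hi1) (hcyc i hiS hi0 hi1))
        (by rw [Perm.mul_apply, ci, ci1, h1])
    have hjl : σ i ∈ l := by simpa [hσi, h0, h1] using hj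
    have cj : cyc 0 1 (σ i) 0 = 1 ∧ cyc 0 1 (σ i) 1 = σ i := by
      refine ⟨?_, ?_⟩ <;> simp [cyc, swap_apply_of_ne_of_ne, Ne.symm h0, h0, h1]
    refine key (cyc 0 1 (σ i) * cyc 0 1 (σ i) * cyc 0 1 i)
      (mul_mem (mul_mem (hgen _ (List.mem_cons_of_mem _ hjl)) (hgen _ (List.mem_cons_of_mem _ hjl))) hci)
      (mul_mem (mul_mem (hcyc _ hj h0 h1) (hcyc _ hj h0 h1)) (hcyc i hiS hi0 hi1)) ?_
    rw [Perm.mul_apply, Perm.mul_apply, ci, cj.1, cj.2]

theorem closure_gen : Subgroup.closure (Set.range gen) = ⊤ := by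
  rw [eq_top_iff]
  intro σ _
  have h := altOn_le (K := (Subgroup.closure (Set.range gen)).map (alternatingGroup (Fin 9)).subtype)
    [2, 3, 4, 5, 6, 7, 8] (by decide) (fun i hi => by
      obtain ⟨n, rfl⟩ : ∃ n, pt n = i := by
        revert i; decide
      exact ⟨gen n, Subgroup.subset_closure ⟨n, rfl⟩, rfl⟩)
    (show (σ : Perm (Fin 9)) ∈ _ from
      ⟨Perm.mem_alternatingGroup.1 σ.2, fun i hi => absurd
        ((show ∀ i : Fin 9, i ∈ ({0, 1} ∪ [2, 3, 4, 5, 6, 7, 8].toFinset : Finset (Fin 9)) by decide) i) hi⟩)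
  obtain ⟨τ, hτ, he⟩ := h
  rwa [← Subtype.ext he]

/-- The permutation taking the first four points to the tail of the star. -/
def turn : Perm (Fin 9) :=
  ⟨![6, 7, 8, 2, 0, 1, 3, 4, 5], ![4, 5, 3, 6, 7, 8, 0, 1, 2], by decide +kernel, by decide +kernel⟩

/-- Exchange the first two blocks. -/
def g01 : Perm (Fin 9) := swap 0 3 * swap 1 4 * swap 2 5 * swap 1 2

/-- Exchange the outer blocks. -/
def g02 : Perm (Fin 9) := swap 0 6 * swap 1 7 * swap 2 8 * swap 1 2

theorem turn_mem : turn ∈ nineH := by decide +kernel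
theorem g01_mem : g01 ∈ nineH ∧ g01 ∈ six 2 := by decide +kernel
theorem g02_mem : g02 ∈ nineH ∧ g02 ∈ six 1 := by decide +kernel
theorem s45_mem : dbl 1 2 4 5 ∈ nineH ∧ dbl 1 2 4 5 ∈ six 2 := by decide +kernel

theorem turn_mix : ∀ j : Fin 9, j ∈ ([6, 7, 8] : List (Fin 9)) → ∃ j' : Fin 9, j' ∈ ([6, 7, 8] : List (Fin 9)) ∧
    cyc 2 j j' ∈ six 1 ∧ turn⁻¹ * cyc 2 j j' * turn ∈ altOn {0, 1, 2, 3} ∧
    cyc 2 j j' * cyc 0 1 2 * (cyc 2 j j')⁻¹ = cyc 0 1 j := by decide +kernel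

theorem turn_left : ∀ i : Fin 9, i ∈ ([3, 4, 5] : List (Fin 9)) →
    turn⁻¹ * cyc 0 1 i * turn ∈ altOn {4, 5, 6, 7, 8} ∧ cyc 0 1 i ∈ six 2 ∧ cyc 0 1 2 ∈ six 2 := by
  decide +kernel

theorem cyc_six : ∀ i : Fin 9, (i ∈ ([2, 3, 4, 5] : List (Fin 9)) → cyc 0 1 i ∈ six 2) ∧
    (i ∈ ([2, 6, 7, 8] : List (Fin 9)) → cyc 0 1 i ∈ six 1) := by decide +kernel

namespace SixAct

variable {G : Type*} [Group G] {h : Hyp G} (T : SixAct h)

theorem t_one (k : Fin 3) : T.t 1 = 1 := by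
  rw [T.t_el k 1 (one_mem _) (one_mem _), h.el_one]

theorem t_sq {k : Fin 3} {σ : Perm (Fin 9)} (hσ : σ ∈ six k) (h2 : σ ^ 2 = 1) : T.t σ ^ 2 = 1 := by
  rw [pow_two, ← T.t_mul k σ σ hσ hσ, ← pow_two, h2, T.t_one k]

theorem t_cube {k : Fin 3} {σ : Perm (Fin 9)} (hσ : σ ∈ six k) (h3 : σ ^ 3 = 1) : T.t σ ^ 3 = 1 := by
  rw [pow_succ, pow_two, ← T.t_mul k σ σ hσ hσ, ← T.t_mul k _ σ (mul_mem hσ hσ) hσ, ← pow_two, ← pow_succ,
    h3, T.t_one k]

theorem t_pair {k : Fin 3} {σ τ : Perm (Fin 9)} (hσ : σ ∈ six k) (hτ : τ ∈ six k) (h2 : (σ * τ) ^ 2 = 1) :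
    (T.t σ * T.t τ) ^ 2 = 1 := by
  rw [← T.t_mul k σ τ hσ hτ]
  exact T.t_sq (mul_mem hσ hτ) h2

variable (hcross : ∀ s t, s ∈ altOn {0, 1, 2, 3} → t ∈ altOn {4, 5, 6, 7, 8} → Commute (T.t s) (T.t t))
include hcross

/-- The relation between two stars in different copies. -/
theorem mixed {i j : Fin 9} (hi : i ∈ ([3, 4, 5] : List (Fin 9))) (hj : j ∈ ([6, 7, 8] : List (Fin 9))) :
    (T.t (cyc 0 1 i) * T.t (cyc 0 1 j)) ^ 2 = 1 ∧ (T.t (cyc 0 1 j) * T.t (cyc 0 1 i)) ^ 2 = 1 := by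
  obtain ⟨j', -, hk1, hk4, hkj⟩ := turn_mix j hj
  obtain ⟨hi5, hi2, h22⟩ := turn_left i hi
  obtain ⟨k, hk⟩ : ∃ k, k = cyc 2 j j' := ⟨_, rfl⟩
  rw [← hk] at hk1 hk4 hkj
  have hcomm : Commute (T.t k) (T.t (cyc 0 1 i)) := by
    have hb : ∀ σ : Perm (Fin 9), turn * (turn⁻¹ * σ * turn) * turn⁻¹ = σ := fun σ => by group
    have e1 := T.t_conj 2 _ turn (altOn_mono (by decide) hk4) turn_mem
    have e2 := T.t_conj 0 _ turn (altOn_mono (by decide) hi5) turn_mem
    rw [hb] at e1 e2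
    rw [e1, e2]
    exact (hcross _ _ hk4 hi5).map (MulAut.conj (h.el turn)).toMonoidHom
  have h21 : cyc 0 1 2 ∈ six 1 := (cyc_six 2).2 (by decide)
  have hxj : T.t (cyc 0 1 j) = T.t k * T.t (cyc 0 1 2) * (T.t k)⁻¹ := by
    rw [eq_mul_inv_iff_mul_eq, ← T.t_mul 1 _ _ ((cyc_six j).2 (List.mem_cons_of_mem _ hj)) hk1,
      ← T.t_mul 1 _ _ hk1 h21, ← hkj, inv_mul_cancel_right]
  have hp : ∀ i : Fin 9, i ∈ ([3, 4, 5] : List (Fin 9)) →
      (cyc 0 1 i * cyc 0 1 2) ^ 2 = 1 ∧ (cyc 0 1 2 * cyc 0 1 i) ^ 2 = 1 := by decide +kernel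
  constructor
  · rw [hxj, show T.t (cyc 0 1 i) * (T.t k * T.t (cyc 0 1 2) * (T.t k)⁻¹) =
      T.t k * (T.t (cyc 0 1 i) * T.t (cyc 0 1 2)) * (T.t k)⁻¹ by
        rw [← mul_assoc, ← mul_assoc, ← hcomm.eq]; group,
      conj_pow, T.t_pair hi2 h22 (hp i hi).1, mul_one, mul_inv_cancel]
  · rw [hxj, show T.t k * T.t (cyc 0 1 2) * (T.t k)⁻¹ * T.t (cyc 0 1 i) =
      T.t k * (T.t (cyc 0 1 2) * T.t (cyc 0 1 i)) * (T.t k)⁻¹ by
        rw [mul_assoc (T.t k * T.t (cyc 0 1 2)), hcomm.inv_left.eq]; group,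
      conj_pow, T.t_pair h22 hi2 (hp i hi).2, mul_one, mul_inv_cancel]

theorem pair_relations (m n : Fin 7) (hmn : m ≠ n) :
    (T.t (cyc 0 1 (pt m)) * T.t (cyc 0 1 (pt n))) ^ 2 = 1 := by
  have hc : ∀ n : Fin 7, pt n = 2 ∨ pt n ∈ ([3, 4, 5] : List (Fin 9)) ∨ pt n ∈ ([6, 7, 8] : List (Fin 9)) := by
    decide +kernel
  have hr : ∀ m n : Fin 7, m ≠ n → (cyc 0 1 (pt m) * cyc 0 1 (pt n)) ^ 2 = 1 := by decide +kernel
  have l3 : ∀ i : Fin 9, i = 2 ∨ i ∈ ([3, 4, 5] : List (Fin 9)) → cyc 0 1 i ∈ six 2 := fun i hi =>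
    (cyc_six i).1 (List.mem_cons.2 hi)
  have l6 : ∀ i : Fin 9, i = 2 ∨ i ∈ ([6, 7, 8] : List (Fin 9)) → cyc 0 1 i ∈ six 1 := fun i hi =>
    (cyc_six i).2 (List.mem_cons.2 hi)
  rcases hc m with a | a | a <;> rcases hc n with b | b | b
  all_goals first
    | exact T.t_pair (l3 _ (Or.inl a)) (l3 _ (Or.inl b)) (hr m n hmn)
    | exact T.t_pair (l3 _ (Or.inl a)) (l3 _ (Or.inr b)) (hr m n hmn)
    | exact T.t_pair (l3 _ (Or.inr a)) (l3 _ (Or.inl b)) (hr m n hmn)
    | exact T.t_pair (l3 _ (Or.inr a)) (l3 _ (Or.inr b)) (hr m n hmn)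
    | exact T.t_pair (l6 _ (Or.inl a)) (l6 _ (Or.inr b)) (hr m n hmn)
    | exact T.t_pair (l6 _ (Or.inr a)) (l6 _ (Or.inl b)) (hr m n hmn)
    | exact T.t_pair (l6 _ (Or.inr a)) (l6 _ (Or.inr b)) (hr m n hmn)
    | exact (mixed T hcross a b).1
    | exact (mixed T hcross b a).2

omit hcross in
theorem cube_relations (n : Fin 7) : T.t (cyc 0 1 (pt n)) ^ 3 = 1 := by
  have hc : ∀ n : Fin 7, (pt n ∈ ([2, 3, 4, 5] : List (Fin 9)) ∨ pt n ∈ ([2, 6, 7, 8] : List (Fin 9))) ∧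
      cyc 0 1 (pt n) ^ 3 = 1 := by decide +kernel
  rcases (hc n).1 with a | a
  · exact T.t_cube ((cyc_six _).1 a) (hc n).2
  · exact T.t_cube ((cyc_six _).2 a) (hc n).2

/-- **The alternating group of degree nine.** -/
theorem exists_hom [Finite G] :
    ∃ f : alternatingGroup (Fin 9) →* G, Function.Injective f ∧
      (∀ p : alternatingGroup (Fin 9), (p : Perm (Fin 9)) ∈ nineH → f p = h.el p) ∧
      (∀ (k : Fin 3) (p : alternatingGroup (Fin 9)), (p : Perm (Fin 9)) ∈ six k → f p = T.t p) := by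
  classical
  obtain ⟨y, hy⟩ : ∃ y : Fin 7 → alternatingGroup (Fin 9) × G, y = fun n => (gen n, T.t (cyc 0 1 (pt n))) :=
    ⟨_, rfl⟩
  obtain ⟨K, hK⟩ : ∃ K, K = Subgroup.closure (Set.range y) := ⟨_, rfl⟩
  have hb := CfsgLib.ShortPres.carmichael (x := y)
    (fun n => by
      rw [hy]
      have : gen n ^ 3 = 1 := by
        revert n; decide +kernel
      exact Prod.ext this (T.cube_relations n))
    (fun m n hmn => by
      rw [hy]
      have : (gen m * gen n) ^ 2 = 1 := by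
        revert m n; decide +kernel
      exact Prod.ext this (T.pair_relations hcross m n hmn))
  rw [← hK, Fintype.card_fin] at hb
  obtain ⟨φ, hφ⟩ : ∃ φ : K →* alternatingGroup (Fin 9), φ = (MonoidHom.fst _ G).comp K.subtype := ⟨_, rfl⟩
  have hφs : Function.Surjective φ := by
    rw [← MonoidHom.range_eq_top, eq_top_iff, ← closure_gen, Subgroup.closure_le]
    rintro _ ⟨n, rfl⟩
    refine ⟨⟨y n, hK.symm ▸ Subgroup.subset_closure ⟨n, rfl⟩⟩, ?_⟩
    rw [hφ]
    show (y n).1 = gen n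
    simp only [hy]
  have hφb : Function.Bijective φ := by
    have := hb.1
    refine (Nat.bijective_iff_surjective_and_card φ).2 ⟨hφs, ?_⟩
    have h1 := Nat.card_le_card_of_surjective φ hφs
    have h2 := two_mul_nat_card_alternatingGroup (α := Fin 9)
    rw [Nat.card_perm, Nat.card_fin] at h2
    have h3 := hb.2
    rw [show Nat.factorial (7 + 2) = 362880 from rfl] at h3
    rw [show Nat.factorial 9 = 362880 from rfl] at h2
    omega
  obtain ⟨f, hf⟩ : ∃ f : alternatingGroup (Fin 9) →* G,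
      f = ((MonoidHom.snd _ G).comp K.subtype).comp (MulEquiv.ofBijective φ hφb).symm.toMonoidHom := ⟨_, rfl⟩
  have hgen : ∀ n, f (gen n) = T.t (cyc 0 1 (pt n)) := fun n => by
    have h1 : (MulEquiv.ofBijective φ hφb).symm (gen n) = ⟨y n, hK.symm ▸ Subgroup.subset_closure ⟨n, rfl⟩⟩ := by
      rw [MulEquiv.symm_apply_eq]
      show gen n = φ _
      rw [hφ]
      show gen n = (y n).1
      simp only [hy]
    rw [hf]
    show (((MulEquiv.ofBijective φ hφb).symm (gen n) : K) : alternatingGroup (Fin 9) × G).2 = _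
    rw [h1]
    simp only [hy]
  -- agreement on the two copies containing the centre of the star
  have hsix : ∀ (k : Fin 3) (l : List (Fin 9)), ({0, 1} ∪ l.toFinset : Finset (Fin 9)) = offBlock k →
      (∀ i ∈ l, i ≠ 0 ∧ i ≠ 1) → (∀ i ∈ l, cyc 0 1 i ∈ six k) →
      ∀ p : alternatingGroup (Fin 9), (p : Perm (Fin 9)) ∈ six k → f p = T.t p := by
    intro k l hl hne hc
    obtain ⟨E, hE⟩ : ∃ E : Subgroup (Perm (Fin 9)), E =
        { carrier := {σ | σ ∈ six k ∧ ∀ h' : σ ∈ alternatingGroup (Fin 9), f ⟨σ, h'⟩ = T.t σ}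
          one_mem' := ⟨one_mem _, fun _ => by rw [T.t_one k]; exact map_one f⟩
          mul_mem' := fun {a b} ha hb => ⟨mul_mem ha.1 hb.1, fun _ => by
            rw [T.t_mul k a b ha.1 hb.1, ← ha.2 (Perm.mem_alternatingGroup.2 ha.1.1),
              ← hb.2 (Perm.mem_alternatingGroup.2 hb.1.1), ← map_mul]; rfl⟩
          inv_mem' := fun {a} ha => ⟨inv_mem ha.1, fun _ => by
            refine mul_left_cancel (a := T.t a) ?_
            rw [← T.t_mul k a a⁻¹ ha.1 (inv_mem ha.1), mul_inv_cancel, T.t_one k,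
              ← ha.2 (Perm.mem_alternatingGroup.2 ha.1.1), ← map_mul]
            exact (congrArg f (Subtype.ext (mul_inv_cancel a))).trans (map_one f)⟩ } := ⟨_, rfl⟩
    intro p hp
    have hle : six k ≤ E := by
      show altOn (offBlock k) ≤ E
      rw [← hl]
      refine altOn_le l hne fun i hi => ?_
      rw [hE]
      refine ⟨hc i hi, fun h' => ?_⟩
      obtain ⟨n, rfl⟩ : ∃ n, pt n = i := by
        have : ∀ i : Fin 9, i ≠ 0 → i ≠ 1 → ∃ n, pt n = i := by decide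
        exact this i (hne i hi).1 (hne i hi).2
      exact hgen n
    have := hle hp
    rw [hE] at this
    exact this.2 p.2
  have h2 := hsix 2 [2, 3, 4, 5] (by decide +kernel) (by decide) fun i => (cyc_six i).1
  have h1 := hsix 1 [2, 6, 7, 8] (by decide +kernel) (by decide) fun i => (cyc_six i).2
  -- agreement on the block stabiliser
  obtain ⟨M, hM⟩ : ∃ M : Subgroup (Perm (Fin 9)), M =
      { carrier := {σ | σ ∈ nineH ∧ ∀ h' : σ ∈ alternatingGroup (Fin 9), f ⟨σ, h'⟩ = h.el σ}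
        one_mem' := ⟨one_mem _, fun _ => by rw [h.el_one]; exact map_one f⟩
        mul_mem' := fun {a b} ha hb => ⟨mul_mem ha.1 hb.1, fun _ => by
          rw [h.el_mul ha.1 hb.1, ← ha.2 ha.1.1, ← hb.2 hb.1.1, ← map_mul]; rfl⟩
        inv_mem' := fun {a} ha => ⟨inv_mem ha.1, fun _ => by
          rw [h.el_inv ha.1, ← ha.2 ha.1.1, ← map_inv]; rfl⟩ } := ⟨_, rfl⟩
  have hMk : ∀ σ ∈ nineH, (σ ∈ six 1 ∨ σ ∈ six 2) → σ ∈ M := by
    intro σ hσ hk
    rw [hM]
    refine ⟨hσ, fun h' => ?_⟩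
    rcases hk with hk | hk
    · rw [h1 ⟨σ, h'⟩ hk]; exact T.t_el 1 σ hk hσ
    · rw [h2 ⟨σ, h'⟩ hk]; exact T.t_el 2 σ hk hσ
  have hax : ax 0 ∈ six 2 := by decide +kernel
  have m01 : g01 ∈ M := hMk _ g01_mem.1 (Or.inr g01_mem.2)
  have m02 : g02 ∈ M := hMk _ g02_mem.1 (Or.inl g02_mem.2)
  have max0 : ax 0 ∈ M := hMk _ (ax_mem_nineH 0) (Or.inr hax)
  have ms : dbl 1 2 4 5 ∈ M := hMk _ s45_mem.1 (Or.inr s45_mem.2)
  have m0 : ∀ σ ∈ nineH, σ ∈ six 0 → σ ∈ M := by
    intro σ hσ hs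
    have hmem : g01⁻¹ * σ * g01 ∈ six 1 := by
      refine ⟨by rw [map_mul, map_mul, map_inv, hs.1, mul_one, inv_mul_cancel], fun i hi => ?_⟩
      have hb : ∀ i : Fin 9, i ∉ offBlock 1 → g01 i ∉ offBlock 0 := by decide +kernel
      rw [Perm.mul_apply, Perm.mul_apply, hs.2 _ (hb i hi), Equiv.Perm.coe_inv, Equiv.symm_apply_apply]
    have := mul_mem (mul_mem m01 (hMk _ (mul_mem (mul_mem (inv_mem g01_mem.1) hσ) g01_mem.1) (Or.inl hmem)))
      (inv_mem m01)
    rwa [show g01 * (g01⁻¹ * σ * g01) * g01⁻¹ = σ by group] at this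
  have hnine : nineH ≤ M := by
    have red : ∀ (σ g : Perm (Fin 9)), g ∈ M → g⁻¹ * σ ∈ M → σ ∈ M := fun σ g hg hgs => by
      have := mul_mem hg hgs; rwa [mul_inv_cancel_left] at this
    have hMn : ∀ g ∈ M, g ∈ nineH := fun g hg => by rw [hM] at hg; exact hg.1
    -- fixing the point `0` and the block zero pointwise
    have st3 : ∀ σ ∈ nineH, σ 0 = 0 → σ ∈ M := by
      intro σ hσ h0
      have hb : ∀ i, blk i = 0 → blk (σ i) = 0 := fun i hi => by
        rw [hσ.2 i 0 (by rw [hi]; rfl), h0]; rfl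
      have hne : σ 1 ≠ 0 := fun e => absurd (σ.injective (e.trans h0.symm)) (by decide)
      have hne2 : σ 2 ≠ 0 := fun e => absurd (σ.injective (e.trans h0.symm)) (by decide)
      have hcase : ∀ x : Fin 9, blk x = 0 → x ≠ 0 → x = 1 ∨ x = 2 := by decide
      have hfix : ∀ τ : Perm (Fin 9), τ ∈ nineH → τ 0 = 0 → τ 1 = 1 → τ 2 = 2 → τ ∈ M := by
        intro τ hτ t0 t1 t2
        refine m0 τ hτ ⟨Perm.mem_alternatingGroup.1 hτ.1, fun i hi => ?_⟩
        have : ∀ i : Fin 9, i ∉ offBlock 0 → i = 0 ∨ i = 1 ∨ i = 2 := by decide +kernel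
        rcases this i hi with rfl | rfl | rfl <;> assumption
      have h12 : σ 1 ≠ σ 2 := fun e => absurd (σ.injective e) (by decide)
      rcases hcase _ (hb 1 rfl) hne with e1 | e1
      · rcases hcase _ (hb 2 rfl) hne2 with e2 | e2
        · exact absurd (e1.trans e2.symm) h12
        · exact hfix σ hσ h0 e1 e2
      · rcases hcase _ (hb 2 rfl) hne2 with e2 | e2
        · refine red σ _ ms (hfix _ (mul_mem (inv_mem s45_mem.1) hσ) ?_ ?_ ?_) <;>
            rw [Perm.mul_apply] <;> simp only [h0, e1, e2] <;> decide +kernel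
        · exact absurd (e1.trans e2.symm) h12
    have st2 : ∀ σ ∈ nineH, blk (σ 0) = 0 → σ ∈ M := by
      intro σ hσ hb
      have hcase : ∀ x : Fin 9, blk x = 0 → x = 0 ∨ x = 1 ∨ x = 2 := by decide
      rcases hcase _ hb with e | e | e
      · exact st3 σ hσ e
      · refine red σ _ max0 (st3 _ (mul_mem (inv_mem (ax_mem_nineH 0)) hσ) ?_)
        rw [Perm.mul_apply, e]; decide +kernel
      · refine red σ _ (mul_mem max0 max0)
          (st3 _ (mul_mem (inv_mem (mul_mem (ax_mem_nineH 0) (ax_mem_nineH 0))) hσ) ?_)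
        rw [Perm.mul_apply, e]; decide +kernel
    intro σ hσ
    have hcase : ∀ x : Fin 9, blk x = 0 ∨ blk (g01⁻¹ x) = 0 ∨ blk (g02⁻¹ x) = 0 := by decide +kernel
    rcases hcase (σ 0) with e | e | e
    · exact st2 σ hσ e
    · exact red σ _ m01 (st2 _ (mul_mem (inv_mem g01_mem.1) hσ) e)
    · exact red σ _ m02 (st2 _ (mul_mem (inv_mem g02_mem.1) hσ) e)
  have hel : ∀ p : alternatingGroup (Fin 9), (p : Perm (Fin 9)) ∈ nineH → f p = h.el p := fun p hp => by
    have := hnine hp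
    rw [hM] at this
    exact this.2 p.2
  refine ⟨f, ?_, hel, fun k p hp => ?_⟩
  · have := alternatingGroup.isSimpleGroup (α := Fin 9) (by simp)
    rcases (MonoidHom.normal_ker f).eq_bot_or_eq_top with e | e
    · exact (MonoidHom.ker_eq_bot_iff f).1 e
    · exfalso
      have he : f (gen 0) = 1 := MonoidHom.mem_ker.1 (e ▸ Subgroup.mem_top _)
      rw [hgen] at he
      have := T.t_ne_one 2 _ ((cyc_six (pt 0)).1 (by decide)) he
      revert this
      decide +kernel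
  · fin_cases k
    · have hmem : g01⁻¹ * (p : Perm (Fin 9)) * g01 ∈ six 1 := by
        refine ⟨by rw [map_mul, map_mul, map_inv, hp.1, mul_one, inv_mul_cancel], fun i hi => ?_⟩
        have hb : ∀ i : Fin 9, i ∉ offBlock 1 → g01 i ∉ offBlock 0 := by decide +kernel
        rw [Perm.mul_apply, Perm.mul_apply, hp.2 _ (hb i hi), Equiv.Perm.coe_inv, Equiv.symm_apply_apply]
      let g : alternatingGroup (Fin 9) := ⟨g01, g01_mem.1.1⟩
      have e := T.t_conj 1 _ g01 hmem g01_mem.1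
      rw [show g01 * (g01⁻¹ * (p : Perm (Fin 9)) * g01) * g01⁻¹ = p by group] at e
      have h1' : f (g⁻¹ * p * g) = T.t (g01⁻¹ * (p : Perm (Fin 9)) * g01) := h1 (g⁻¹ * p * g) hmem
      have hg' : f g = h.el g01 := hel g g01_mem.1
      calc f p = f (g * (g⁻¹ * p * g) * g⁻¹) := congrArg f (by group)
        _ = _ := by rw [map_mul, map_mul, map_inv, h1', hg']; exact e.symm
    · exact h1 p hp
    · exact h2 p hp

end SixAct

end CfsgLib.AltNineLocal
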