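import Cfsg.Agent.Lib.AltNineLocal.InvertedArith
import Cfsg.Agent.Lib.SymSixRecog.Values
import Cfsg.Agent.Lib.CharTheory.Orthogonality
import Cfsg.Agent.Lib.CharTheory.Linear
import Cfsg.Agent.Lib.BrauerCharacters.ClassMul
import Cfsg.Agent.Lib.Cores.PCore
import Mathlib.GroupTheory.Transfer
import Mathlib.GroupTheory.PGroup

/-!
# Groups with an inverted self-centralising Sylow 3-subgroup of order nine

One line of the Sylow subgroup may have a large centraliser.
-/

set_option autoImplicit false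
set_option linter.style.haveILetI false

open Cfsg

namespace CfsgLib.AltNineLocal.Inverted

variable {G : Type*} [Group G] [Finite G]

/-- Three elements of order dividing three with product one are, modulo an abelian 3'-group,
commuting elements of a Sylow 3-subgroup. -/
theorem triangle (P : Sylow 3 G) (hP : IsMulCommutative (P : Subgroup G))
    {x y : G} (hx : x ^ 3 = 1) (hy : y ^ 3 = 1) (hxy : (x * y) ^ 3 = 1) :
    ∃ a ∈ (P : Subgroup G), ∃ b ∈ (P : Subgroup G),
      IsConj x a ∧ IsConj y b ∧ IsConj (x * y) (a * b) := by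
  haveI : Fact (Nat.Prime 3) := ⟨Nat.prime_three⟩
  simp only [pow_succ, pow_zero, one_mul] at hx hy hxy
  have hyinv : y⁻¹ = y * y := inv_eq_of_mul_eq_one_left hy
  have hxx : x⁻¹ * x⁻¹ = x := by
    calc x⁻¹ * x⁻¹ = x⁻¹ * x⁻¹ * (x * x * x) := by rw [hx, mul_one]
      _ = x := by group
  set a := x⁻¹ * y with ha
  set c := y * x⁻¹ with hc
  have hψa : x * a * x⁻¹ = c := by rw [ha, hc]; group
  have hac : a * c = c * a := by
    have h6 : x * y * x * y * x * y = 1 := by rw [← hxy]; simp only [mul_assoc]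
    have h7 : y * x * y = x⁻¹ * y⁻¹ * x⁻¹ := by
      calc y * x * y = x⁻¹ * (x * y * x * y * x * y) * (y⁻¹ * x⁻¹) := by group
        _ = x⁻¹ * y⁻¹ * x⁻¹ := by rw [h6, mul_one, mul_assoc]
    calc a * c = x⁻¹ * (y * y) * x⁻¹ := by rw [ha, hc]; group
      _ = x⁻¹ * y⁻¹ * x⁻¹ := by rw [hyinv]
      _ = y * x * y := h7.symm
      _ = y * (x⁻¹ * x⁻¹) * y := by rw [hxx]
      _ = c * a := by rw [ha, hc]; group
  have hψc : x * c * x⁻¹ = (c * a)⁻¹ := by
    apply eq_inv_of_mul_eq_one_left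
    calc x * c * x⁻¹ * (c * a) = x * y * (x⁻¹ * x⁻¹) * y * (x⁻¹ * x⁻¹) * y := by rw [ha, hc]; group
      _ = x * y * x * y * x * y := by rw [hxx]
      _ = 1 := by rw [← hxy]; simp only [mul_assoc]
  set A := Subgroup.closure ({a, c} : Set G) with hA
  haveI hAc : IsMulCommutative A := Subgroup.isMulCommutative_closure (by
    rintro u (rfl | rfl) v (rfl | rfl)
    · rfl
    · exact hac
    · exact hac.symm
    · rfl)
  have haA : a ∈ A := Subgroup.subset_closure (Set.mem_insert _ _)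
  have hcA : c ∈ A := Subgroup.subset_closure (Set.mem_insert_of_mem _ rfl)
  have hmap : ∀ z ∈ A, x * z * x⁻¹ ∈ A := by
    intro z hz
    induction hz using Subgroup.closure_induction with
    | mem w hw =>
      rcases hw with rfl | rfl
      · rw [hψa]; exact hcA
      · rw [hψc]; exact inv_mem (mul_mem hcA haA)
    | one => rw [mul_one, mul_inv_cancel]; exact one_mem _
    | mul u v _ _ hu hv => rw [conj_mul.symm]; exact mul_mem hu hv
    | inv u _ hu => rw [← conj_inv]; exact inv_mem hu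
  -- the 3'-part of `A`
  set m := Nat.card A / 3 ^ (Nat.card A).factorization 3 with hm
  have hm3 : ¬ 3 ∣ m := Nat.not_dvd_ordCompl Nat.prime_three Nat.card_pos.ne'
  have hcomm : ∀ u ∈ A, ∀ v ∈ A, Commute u v := fun u hu v hv =>
    congrArg Subtype.val (hAc.is_comm.comm (⟨u, hu⟩ : A) ⟨v, hv⟩)
  let A' : Subgroup G :=
    { carrier := {z | z ∈ A ∧ z ^ m = 1}
      one_mem' := ⟨one_mem A, one_pow _⟩
      mul_mem' := fun {u v} hu hv => ⟨mul_mem hu.1 hv.1, by
        rw [(hcomm u hu.1 v hv.1).mul_pow, hu.2, hv.2, one_mul]⟩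
      inv_mem' := fun {u} hu => ⟨inv_mem hu.1, by rw [inv_pow, hu.2, inv_one]⟩ }
  let M : Subgroup G := A ⊔ Subgroup.zpowers x
  have hxM : x ∈ M := Subgroup.mem_sup_right (Subgroup.mem_zpowers x)
  have hyM : y ∈ M := by
    have : x * a ∈ M := mul_mem hxM (Subgroup.mem_sup_left haA)
    rwa [ha, mul_inv_cancel_left] at this
  have hnA : M ≤ Subgroup.normalizer (A : Set G) := by
    refine sup_le Subgroup.le_normalizer (Subgroup.zpowers_le.2 ?_)
    refine Subgroup.mem_normalizer_iff.2 fun z => ⟨hmap z, fun hz => ?_⟩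
    have h2 := hmap _ (hmap _ hz)
    rwa [show x * (x * (x * z * x⁻¹) * x⁻¹) * x⁻¹ = (x * x * x) * z * (x * x * x)⁻¹ by group, hx,
      one_mul, inv_one, mul_one] at h2
  have hnA' : M ≤ Subgroup.normalizer (A' : Set G) := by
    intro g hg
    refine Subgroup.mem_normalizer_iff.2 fun z => ?_
    have h := Subgroup.mem_normalizer_iff.1 (hnA hg) z
    exact ⟨fun hz => ⟨h.1 hz.1, by rw [conj_pow, hz.2, mul_one, mul_inv_cancel]⟩,
      fun hz => ⟨h.2 hz.1, by
        have := hz.2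
        rw [conj_pow] at this
        exact conj_eq_one_iff.1 this⟩⟩
  let N : Subgroup M := A'.subgroupOf M
  haveI hN : N.Normal := (Subgroup.normal_subgroupOf_iff_le_normalizer
    (fun z (hz : z ∈ A') => Subgroup.mem_sup_left (show z ∈ A ∧ z ^ m = 1 from hz).1)).2 hnA'
  have hq : IsPGroup 3 (M ⧸ N) := by
    intro q
    obtain ⟨g, rfl⟩ := QuotientGroup.mk'_surjective N q
    refine ⟨1 + (Nat.card A).factorization 3, ?_⟩
    rw [← map_pow, QuotientGroup.mk'_apply, QuotientGroup.eq_one_iff, Subgroup.mem_subgroupOf,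
      Subgroup.coe_pow, pow_add, pow_mul, pow_one]
    have h3 : (g : G) ^ 3 ∈ A := by
      have hg : (g : G) ∈ ↑(A ⊔ Subgroup.zpowers x) := g.2
      rw [← SetLike.mem_coe, Subgroup.coe_mul_of_right_le_normalizer_left _ _
        (le_trans le_sup_right hnA)] at hg
      obtain ⟨z, hz, w, hw, hzw⟩ := Set.mem_mul.1 hg
      have hwN : w ∈ Subgroup.normalizer (A : Set G) := hnA (Subgroup.mem_sup_right hw)
      have h1 : w * z * w⁻¹ ∈ A := (Subgroup.mem_normalizer_iff.1 hwN z).1 hz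
      have h2 : w * (w * z * w⁻¹) * w⁻¹ ∈ A := (Subgroup.mem_normalizer_iff.1 hwN _).1 h1
      have hw3 : w ^ 3 = 1 := by
        obtain ⟨k, rfl⟩ := Subgroup.mem_zpowers_iff.1 hw
        rw [← zpow_natCast, ← zpow_mul, mul_comm, zpow_mul, zpow_natCast]
        simp only [pow_succ, pow_zero, one_mul, hx, one_zpow]
      rw [← hzw, show (z * w) ^ 3 = z * (w * z * w⁻¹) * (w * (w * z * w⁻¹) * w⁻¹) * w ^ 3 by
        simp only [pow_succ, pow_zero, one_mul]; group, hw3, mul_one]
      exact mul_mem (mul_mem hz h1) h2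
    refine ⟨pow_mem h3 _, ?_⟩
    rw [← pow_mul, mul_comm (3 ^ _), hm, Nat.div_mul_cancel (Nat.ordProj_dvd _ _)]
    exact congrArg Subtype.val (pow_card_eq_one' (x := (⟨_, h3⟩ : A)))
  obtain ⟨Q⟩ : Nonempty (Sylow 3 M) := inferInstance
  have hinj : ∀ q ∈ (Q : Subgroup M), q ∈ N → q = 1 := by
    intro q hqQ hqN
    have hd : orderOf (q : G) ∣ m := orderOf_dvd_of_pow_eq_one hqN.2
    obtain ⟨k, hk⟩ := Q.2 ⟨q, hqQ⟩
    have hd' : orderOf (q : G) ∣ 3 ^ k := orderOf_dvd_of_pow_eq_one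
      (by simpa using congrArg (fun u : (Q : Subgroup M) => ((u : M) : G)) hk)
    have h1 := Nat.eq_one_of_dvd_coprimes
      (Nat.Coprime.pow_left k ((Nat.prime_three.coprime_iff_not_dvd).2 hm3)) hd' hd
    exact Subtype.ext (orderOf_eq_one_iff.1 h1)
  have hsurj : (Q : Subgroup M).map (QuotientGroup.mk' N) = ⊤ := by
    have hd := Subgroup.index_map_dvd (Q : Subgroup M) (QuotientGroup.mk'_surjective N)
    have h3 : ¬ 3 ∣ ((Q : Subgroup M).map (QuotientGroup.mk' N)).index := fun h =>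
      Q.not_dvd_index (h.trans hd)
    obtain ⟨k, hk⟩ := hq.index ((Q : Subgroup M).map (QuotientGroup.mk' N))
    rcases k with _ | k
    · rw [pow_zero] at hk; exact Subgroup.index_eq_one.1 hk
    · exact absurd (hk ▸ Dvd.intro_left (3 ^ k) (pow_succ 3 k).symm) h3
  obtain ⟨c', hc'⟩ : ∃ c' : G, ∀ q ∈ (Q : Subgroup M), c' * (q : G) * c'⁻¹ ∈ (P : Subgroup G) := by
    obtain ⟨S, hS⟩ := (Q.2.map M.subtype).exists_le_sylow
    obtain ⟨g, hg⟩ := MulAction.exists_smul_eq G S P
    refine ⟨g, fun q hq => ?_⟩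
    rw [← hg]
    exact Subgroup.mem_map.2 ⟨q, hS (Subgroup.mem_map_of_mem _ hq), rfl⟩
  have hQc : ∀ p ∈ (Q : Subgroup M), ∀ q ∈ (Q : Subgroup M), p * q = q * p := by
    intro p hp q hq
    have h : c' * (p : G) * c'⁻¹ * (c' * q * c'⁻¹) = c' * q * c'⁻¹ * (c' * p * c'⁻¹) :=
      congrArg Subtype.val (hP.is_comm.comm (⟨_, hc' p hp⟩ : (P : Subgroup G)) ⟨_, hc' q hq⟩)
    rw [conj_mul, conj_mul] at h
    exact Subtype.ext (mul_left_cancel (mul_right_cancel h))
  have hQ : ∀ g : M, g ^ 3 = 1 → ∃ q ∈ (Q : Subgroup M), IsConj (g : G) (q : G) ∧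
      QuotientGroup.mk' N q = QuotientGroup.mk' N g := by
    intro g hg
    have hz : IsPGroup 3 (Subgroup.zpowers g) := by
      rw [← orderOf_dvd_iff_pow_eq_one] at hg
      rcases (Nat.dvd_prime Nat.prime_three).1 hg with e | e
      · exact IsPGroup.of_card (n := 0) (by rw [Nat.card_zpowers, e, pow_zero])
      · exact IsPGroup.of_card (n := 1) (by rw [Nat.card_zpowers, e, pow_one])
    obtain ⟨S, hS⟩ := hz.exists_le_sylow
    obtain ⟨k, hk⟩ := MulAction.exists_smul_eq M S Q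
    refine ⟨k * g * k⁻¹, ?_, isConj_iff.2 ⟨k, rfl⟩, ?_⟩
    · rw [← hk]
      exact Subgroup.mem_map.2 ⟨g, hS (Subgroup.mem_zpowers g), rfl⟩
    · have hall : ∀ u : M ⧸ N, ∃ q ∈ (Q : Subgroup M), QuotientGroup.mk' N q = u := fun u =>
        Subgroup.mem_map.1 (hsurj ▸ Subgroup.mem_top u)
      obtain ⟨p, hp, hpe⟩ := hall (QuotientGroup.mk' N k)
      obtain ⟨q, hq', hqe⟩ := hall (QuotientGroup.mk' N g)
      rw [map_mul, map_mul, map_inv, ← hpe, ← hqe, ← map_mul, hQc p hp q hq', map_mul,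
        mul_inv_cancel_right]
  obtain ⟨x', hx'Q, hxc, hxe⟩ := hQ ⟨x, hxM⟩ (Subtype.ext (by
    simp only [Subgroup.coe_pow, pow_succ, pow_zero, one_mul, OneMemClass.coe_one]; exact hx))
  obtain ⟨y', hy'Q, hyc, hye⟩ := hQ ⟨y, hyM⟩ (Subtype.ext (by
    simp only [Subgroup.coe_pow, pow_succ, pow_zero, one_mul, OneMemClass.coe_one]; exact hy))
  obtain ⟨z', hz'Q, hzc, hze⟩ := hQ (⟨x, hxM⟩ * ⟨y, hyM⟩) (Subtype.ext (by
    simp only [Subgroup.coe_pow, Subgroup.coe_mul, pow_succ, pow_zero, one_mul, OneMemClass.coe_one]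
    exact hxy))
  have hz' : z' = x' * y' := by
    rw [map_mul, ← hxe, ← hye, ← map_mul] at hze
    have h : z'⁻¹ * (x' * y') ∈ N := by
      rw [← QuotientGroup.eq]
      simpa using hze
    exact inv_mul_eq_one.1 (hinj _ (mul_mem (inv_mem hz'Q) (mul_mem hx'Q hy'Q)) h)
  refine ⟨_, hc' x' hx'Q, _, hc' y' hy'Q, hxc.trans (isConj_iff.2 ⟨c', rfl⟩),
    hyc.trans (isConj_iff.2 ⟨c', rfl⟩), ?_⟩
  rw [conj_mul, ← Subgroup.coe_mul, ← hz']
  exact IsConj.trans (by simpa using hzc) (isConj_iff.2 ⟨c', rfl⟩)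

/-- A group with a Sylow 3-subgroup of order nine, inverted by its normalizer of order eighteen and
self-centralising at all elements outside one line, has it normal if its 3'-core is trivial. -/
theorem normal_of_inverted {K : Type*} [Group K] [Finite K] (P : Sylow 3 K)
    (hcard : Nat.card P = 9) (hexp : ∀ s ∈ (P : Subgroup K), s ^ 3 = 1)
    (hN : Nat.card (Subgroup.normalizer ((P : Subgroup K) : Set K)) = 18)
    (hinv : ∃ g ∈ Subgroup.normalizer ((P : Subgroup K) : Set K),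
      ∀ s ∈ (P : Subgroup K), g * s * g⁻¹ = s⁻¹)
    (x₀ : K) (hx₀ : x₀ ∈ (P : Subgroup K))
    (hC : ∀ s ∈ (P : Subgroup K), s ∉ Subgroup.zpowers x₀ →
      Subgroup.centralizer ({s} : Set K) = (P : Subgroup K))
    (hcore : Cfsg.pPrimeCore 3 K = ⊥) : (P : Subgroup K).Normal := by
  classical
  haveI : Fact (Nat.Prime 3) := ⟨Nat.prime_three⟩
  haveI := Fintype.ofFinite K
  haveI := Fintype.ofFinite (IrrCharacter K)
  haveI hPc : IsMulCommutative (P : Subgroup K) :=
    IsPGroup.isMulCommutative_of_card_eq_prime_sq (p := 3) (by rw [hcard]; norm_num)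
  obtain ⟨g₀, hg₀, hg₀i⟩ := hinv
  set Nm := Subgroup.normalizer ((P : Subgroup K) : Set K) with hNm
  have hord : ∀ s ∈ (P : Subgroup K), s ≠ 1 → orderOf s = 3 := fun s hs h1 =>
    orderOf_eq_prime (hexp s hs) h1
  -- generators: a line `zpowers x` containing the bad one
  obtain ⟨x, hxP, hx1, hxle⟩ : ∃ x ∈ (P : Subgroup K), x ≠ 1 ∧
      Subgroup.zpowers x₀ ≤ Subgroup.zpowers x := by
    by_cases h : x₀ = 1
    · haveI : Nontrivial (P : Subgroup K) :=
        Finite.one_lt_card_iff_nontrivial.1 (by rw [hcard]; norm_num)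
      obtain ⟨s, hs⟩ := exists_ne (1 : (P : Subgroup K))
      exact ⟨s, s.2, fun e => hs (Subtype.ext e), by simp [h]⟩
    · exact ⟨x₀, hx₀, h, le_rfl⟩
  obtain ⟨e, heP, hex⟩ : ∃ e ∈ (P : Subgroup K), e ∉ Subgroup.zpowers x := by
    by_contra hne
    push Not at hne
    have := Subgroup.card_le_of_le (show (P : Subgroup K) ≤ Subgroup.zpowers x from hne)
    rw [hcard, Nat.card_zpowers, hord x hxP hx1] at this
    omega
  have hxx : x⁻¹ ∈ Subgroup.zpowers x := inv_mem (Subgroup.mem_zpowers x)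
  have he1P : e * x ∈ (P : Subgroup K) := mul_mem heP hxP
  have he2P : e * x⁻¹ ∈ (P : Subgroup K) := mul_mem heP (inv_mem hxP)
  have he1x : e * x ∉ Subgroup.zpowers x := fun h =>
    hex (by simpa using mul_mem h hxx)
  have he2x : e * x⁻¹ ∉ Subgroup.zpowers x := fun h =>
    hex (by simpa using mul_mem h (Subgroup.mem_zpowers x))
  have hgood : ∀ s ∈ (P : Subgroup K), s ∉ Subgroup.zpowers x →
      Subgroup.centralizer ({s} : Set K) = (P : Subgroup K) := fun s hs hsx =>
    hC s hs fun h => hsx (hxle h)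
  -- fusion inside `P` is inversion
  have hg₀P : g₀ ∉ (P : Subgroup K) := fun h => by
    have h1 := hg₀i x hxP
    rw [show g₀ * x = x * g₀ from congrArg Subtype.val
      (hPc.is_comm.comm (⟨g₀, h⟩ : (P : Subgroup K)) ⟨x, hxP⟩), mul_inv_cancel_right] at h1
    have h3 := hexp x hxP
    rw [pow_succ, pow_two] at h3
    nth_rewrite 1 [h1] at h3
    rw [inv_mul_cancel, one_mul] at h3
    exact hx1 h3
  have hrel : ((P : Subgroup K).subgroupOf Nm).index = 2 := by
    have h1 : Nat.card ((P : Subgroup K).subgroupOf Nm) = 9 := by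
      rw [Nat.card_congr (Subgroup.subgroupOfEquivOfLe Subgroup.le_normalizer).toEquiv, hcard]
    have h2 := Subgroup.card_mul_index ((P : Subgroup K).subgroupOf Nm)
    rw [h1, hN] at h2
    omega
  have hsplit : ∀ n ∈ Nm, n ∈ (P : Subgroup K) ∨ g₀⁻¹ * n ∈ (P : Subgroup K) := by
    intro n hn
    have h := Subgroup.mul_mem_iff_of_index_two hrel (a := ⟨g₀⁻¹, inv_mem hg₀⟩) (b := ⟨n, hn⟩)
    simp only [Subgroup.mem_subgroupOf, Subgroup.coe_mul, inv_mem_iff] at h
    tauto
  have hfus : ∀ a ∈ (P : Subgroup K), ∀ b ∈ (P : Subgroup K), IsConj a b → b = a ∨ b = a⁻¹ := by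
    intro a ha b hb hab
    obtain ⟨g, hg⟩ := isConj_iff.1 hab
    obtain ⟨n, hn, hne⟩ := Sylow.conj_eq_normalizer_conj_of_mem P a g⁻¹ ha (by
      rw [inv_inv, hg]; exact hb)
    rw [inv_inv, hg] at hne
    rw [hne]
    rcases hsplit n⁻¹ (inv_mem hn) with h | h
    · left
      rw [show n⁻¹ * a = a * n⁻¹ from congrArg Subtype.val
        (hPc.is_comm.comm (⟨n⁻¹, h⟩ : (P : Subgroup K)) ⟨a, ha⟩), inv_mul_cancel_right]
    · right
      have hc : g₀⁻¹ * n⁻¹ * a = a * (g₀⁻¹ * n⁻¹) := congrArg Subtype.val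
        (hPc.is_comm.comm (⟨_, h⟩ : (P : Subgroup K)) ⟨a, ha⟩)
      calc n⁻¹ * a * n = g₀ * (g₀⁻¹ * n⁻¹ * a) * n := by group
        _ = g₀ * (a * (g₀⁻¹ * n⁻¹)) * n := by rw [hc]
        _ = g₀ * a * g₀⁻¹ := by group
        _ = a⁻¹ := hg₀i a ha
  have hreal : ∀ s ∈ (P : Subgroup K), IsConj s s⁻¹ := fun s hs =>
    isConj_iff.2 ⟨g₀, hg₀i s hs⟩
  have hzpow : ∀ u : K, ∀ v w : K, v ∈ Subgroup.zpowers u → (w = v ∨ w = v⁻¹) →
      w ∈ Subgroup.zpowers u := by
    rintro u v w hv (rfl | rfl)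
    exacts [hv, inv_mem hv]
  have hline : e * x ∉ Subgroup.zpowers e := fun h => by
    have hxe : x ∈ Subgroup.zpowers e := by
      simpa using mul_mem (inv_mem (Subgroup.mem_zpowers e)) h
    have hle : Subgroup.zpowers x ≤ Subgroup.zpowers e := Subgroup.zpowers_le.2 hxe
    have he0 : e ≠ 1 := fun h0 => hex (h0 ▸ one_mem _)
    have := Subgroup.eq_of_le_of_card_ge hle (by
      rw [Nat.card_zpowers, Nat.card_zpowers, hord x hxP hx1, hord e heP he0])
    exact hex (this ▸ Subgroup.mem_zpowers e)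
  have hne12 : ¬ IsConj e (e * x) := fun h =>
    hline (hzpow e e _ (Subgroup.mem_zpowers e) (hfus e heP _ he1P h))
  have hne13 : ¬ IsConj e (e * x⁻¹) := fun h => by
    have h1 := hzpow e e _ (Subgroup.mem_zpowers e) (hfus e heP _ he2P h)
    have h2 : x⁻¹ ∈ Subgroup.zpowers e := by
      simpa using mul_mem (inv_mem (Subgroup.mem_zpowers e)) h1
    exact hline (by simpa using mul_mem (Subgroup.mem_zpowers e) (inv_mem h2))
  have hne23 : ¬ IsConj (e * x) (e * x⁻¹) := fun h => by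
    rcases hfus _ he1P _ he2P h with h1 | h1
    · have h2 : x⁻¹ = x := mul_left_cancel h1
      have h3 := hexp x hxP
      rw [pow_succ, pow_two] at h3
      nth_rewrite 1 [← h2] at h3
      rw [inv_mul_cancel, one_mul] at h3
      exact hx1 h3
    · rw [mul_inv_rev] at h1
      have hc : x⁻¹ * e⁻¹ = e⁻¹ * x⁻¹ := congrArg Subtype.val
        (hPc.is_comm.comm (⟨x⁻¹, inv_mem hxP⟩ : (P : Subgroup K)) ⟨e⁻¹, inv_mem heP⟩)
      rw [hc] at h1
      have h2 : e = e⁻¹ := mul_right_cancel h1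
      have h3 := hexp e heP
      rw [pow_succ, pow_two] at h3
      nth_rewrite 1 [h2] at h3
      rw [inv_mul_cancel, one_mul] at h3
      exact hex (h3 ▸ one_mem _)
  -- no pair of conjugates of `e` has product `e * x`
  have hcount : ∀ u : K, ¬ (IsConj e u ∧ IsConj e (u * (e * x))) := by
    rintro u ⟨hu, hv⟩
    have hu3 : u⁻¹ ^ 3 = 1 := by
      obtain ⟨k, rfl⟩ := isConj_iff.1 hu
      rw [inv_pow, conj_pow, hexp e heP, mul_one, mul_inv_cancel, inv_one]
    have hv3 : (u * (e * x)) ^ 3 = 1 := by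
      obtain ⟨k, hk⟩ := isConj_iff.1 hv
      rw [← hk, conj_pow, hexp e heP, mul_one, mul_inv_cancel]
    obtain ⟨a, ha, b, hb, hca, hcb, hcab⟩ := triangle P hPc hu3 hv3 (by
      rw [inv_mul_cancel_left]; exact hexp _ he1P)
    rw [inv_mul_cancel_left] at hcab
    have hu' : IsConj e u⁻¹ := by
      obtain ⟨k, hk⟩ := isConj_iff.1 hu
      exact (hreal e heP).trans (isConj_iff.2 ⟨k, by rw [← hk]; group⟩)
    have ha' := hzpow e e a (Subgroup.mem_zpowers e) (hfus e heP a ha (hu'.trans hca))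
    have hb' := hzpow e e b (Subgroup.mem_zpowers e) (hfus e heP b hb (hv.trans hcb))
    exact hline (hzpow e _ _ (mul_mem ha' hb') (hfus _ (mul_mem ha hb) _ he1P hcab.symm))
  -- integral values
  have hval : ∀ s ∈ (P : Subgroup K), ∀ χ : IrrCharacter K, ∃ n : ℤ, (χ : K → ℂ) s = n := by
    intro s hs χ
    exact SymSixRecog.exists_int_value χ.2
      (by rw [show 6 = 3 * 2 from rfl, pow_mul, hexp s hs, one_pow]) (hreal s hs)
  choose va hva using hval e heP
  choose vb hvb using hval (e * x) he1P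
  choose vc hvc using hval (e * x⁻¹) he2P
  have hdeg := fun χ : IrrCharacter K => BrauerCharacters.charDegree_spec χ
  set d : IrrCharacter K → ℤ := fun χ => (charDegree (χ : K → ℂ) : ℤ) with hd
  have hd1 : ∀ χ : IrrCharacter K, (χ : K → ℂ) 1 = (d χ : ℂ) := fun χ => by
    rw [(hdeg χ).1, hd]; norm_num
  have hcent : ∀ s ∈ (P : Subgroup K), s ∉ Subgroup.zpowers x →
      (Nat.card (Subgroup.centralizer ({s} : Set K)) : ℂ) = 9 := fun s hs hsx => by
    rw [hgood s hs hsx, hcard]; norm_num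
  have horth : ∀ (s t : K) (f g : IrrCharacter K → ℤ), (∀ χ : IrrCharacter K, (χ : K → ℂ) s = f χ) →
      (∀ χ : IrrCharacter K, (χ : K → ℂ) t = g χ) → ((∑ χ, f χ * g χ : ℤ) : ℂ) =
        ∑ χ : IrrCharacter K, (χ : K → ℂ) s * (starRingEnd ℂ) ((χ : K → ℂ) t) := by
    intro s t f g hf hg
    rw [Int.cast_sum]
    refine Finset.sum_congr rfl fun χ _ => ?_
    rw [hf, hg, map_intCast, Int.cast_mul]
  have hdiag : ∀ s ∈ (P : Subgroup K), s ∉ Subgroup.zpowers x → ∀ f : IrrCharacter K → ℤ,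
      (∀ χ : IrrCharacter K, (χ : K → ℂ) s = f χ) → ∑ χ, f χ * f χ = 9 := by
    intro s hs hsx f hf
    have h := horth s s f f hf hf
    rw [CharTheory.sum_mul_conj, if_pos (IsConj.refl s), hcent s hs hsx] at h
    exact_mod_cast h
  have hoff : ∀ s t : K, ¬ IsConj s t → ∀ f g : IrrCharacter K → ℤ,
      (∀ χ : IrrCharacter K, (χ : K → ℂ) s = f χ) → (∀ χ : IrrCharacter K, (χ : K → ℂ) t = g χ) → ∑ χ, f χ * g χ = 0 := by
    intro s t hst f g hf hg
    have h := horth s t f g hf hg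
    rw [CharTheory.sum_mul_conj, if_neg hst] at h
    exact_mod_cast h
  have hone : ∀ s : K, s ≠ 1 → ¬ IsConj 1 s := fun s hs h => hs (isConj_one_right.1 h)
  have h1e : e ≠ 1 := fun h => hex (h ▸ one_mem _)
  have h1e1 : e * x ≠ 1 := fun h => he1x (h ▸ one_mem _)
  have h1e2 : e * x⁻¹ ≠ 1 := fun h => he2x (h ▸ one_mem _)
  have hmod : ∀ s ∈ (P : Subgroup K), ∀ f : IrrCharacter K → ℤ, (∀ χ : IrrCharacter K, (χ : K → ℂ) s = f χ) →
      ∀ χ, (3 : ℤ) ∣ f χ - d χ := fun s hs f hf χ =>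
    SymSixRecog.three_dvd_value_sub χ.2 (hexp s hs) (hf χ) (hd1 χ)
  have ht : d (CharTheory.trivIrr K) = 1 ∧ va (CharTheory.trivIrr K) = 1 ∧
      vb (CharTheory.trivIrr K) = 1 ∧ vc (CharTheory.trivIrr K) = 1 := by
    refine ⟨?_, ?_, ?_, ?_⟩
    · have h := hd1 (CharTheory.trivIrr K)
      rw [CharTheory.trivIrr_apply] at h
      exact_mod_cast h.symm
    all_goals
      first
      | (have h := hva (CharTheory.trivIrr K); rw [CharTheory.trivIrr_apply] at h; exact_mod_cast h.symm)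
      | (have h := hvb (CharTheory.trivIrr K); rw [CharTheory.trivIrr_apply] at h; exact_mod_cast h.symm)
      | (have h := hvc (CharTheory.trivIrr K); rw [CharTheory.trivIrr_apply] at h; exact_mod_cast h.symm)
  have h0 : ∑ χ, ((va χ : ℚ) ^ 2 * (vb χ : ℚ)) / (d χ : ℚ) = 0 := by
    have hs := BrauerCharacters.sum_weight_pairs e e (fun w => if w = e * x then (1 : ℂ) else 0)
    simp only [ite_mul, one_mul, zero_mul, Finset.sum_ite_eq', Finset.mem_univ, if_true] at hs
    simp only [hcount, Finset.filter_false, Finset.card_empty, Nat.cast_zero] at hs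
    have hi : ((Subgroup.centralizer ({e} : Set K)).index : ℂ) ≠ 0 := by
      exact_mod_cast Subgroup.index_ne_zero_of_finite
    have hK : (Nat.card K : ℂ) ≠ 0 := by exact_mod_cast Nat.card_pos.ne'
    rcases mul_eq_zero.1 hs.symm with h | h
    · exact absurd h (div_ne_zero hi hK)
    have h' : ((Subgroup.centralizer ({e} : Set K)).index : ℂ) *
        ((∑ χ, ((va χ : ℚ) ^ 2 * (vb χ : ℚ)) / (d χ : ℚ) : ℚ) : ℂ) = 0 := by
      rw [← h, Rat.cast_sum, Finset.mul_sum]
      refine Finset.sum_congr rfl fun χ _ => ?_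
      rw [centralChar, hva, hvb, hd1, map_intCast]
      push_cast
      ring
    exact_mod_cast (mul_eq_zero.1 h').resolve_left hi
  obtain ⟨χ, hχt, hχd, hχa, hχb, -⟩ := exists_linear_row (CharTheory.trivIrr K) d va vb vc
    (fun χ => by simp only [hd]; exact_mod_cast (hdeg χ).2.1) ht
    (fun χ => by have := hmod e heP va hva χ; have := hmod _ he1P vb hvb χ; omega)
    (fun χ => by have := hmod e heP va hva χ; have := hmod _ he2P vc hvc χ; omega)
    (hdiag e heP hex va hva) (hdiag _ he1P he1x vb hvb) (hdiag _ he2P he2x vc hvc)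
    (hoff _ _ hne12 va vb hva hvb) (hoff _ _ hne13 va vc hva hvc) (hoff _ _ hne23 vb vc hvb hvc)
    (hoff _ _ (hone _ h1e) d va hd1 hva) (hoff _ _ (hone _ h1e1) d vb hd1 hvb)
    (hoff _ _ (hone _ h1e2) d vc hd1 hvc) h0
  -- a linear character trivial on `P`
  obtain ⟨μ, hμ⟩ := CharTheory.exists_hom_of_degree_one χ.2 (by rw [hd1, hχd]; norm_num)
  have hμ' : ∀ z, (χ : K → ℂ) z = (μ z : ℂ) := fun z => by rw [hμ]
  have hμ1 : μ ≠ 1 := by
    intro hm
    refine hχt (Subtype.ext (funext fun z => ?_))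
    rw [hμ' z, hm, CharTheory.trivIrr_apply]
    simp
  have hek : e ∈ μ.ker := by
    rw [MonoidHom.mem_ker]; apply Units.ext
    rw [← hμ' e, hva, hχa]; simp
  have hexk : e * x ∈ μ.ker := by
    rw [MonoidHom.mem_ker]; apply Units.ext
    rw [← hμ' (e * x), hvb, hχb]; simp
  have hxk : x ∈ μ.ker := by simpa using mul_mem (inv_mem hek) hexk
  have hPk : (P : Subgroup K) ≤ μ.ker := by
    have hle : Subgroup.zpowers e ≤ μ.ker ⊓ (P : Subgroup K) :=
      Subgroup.zpowers_le.2 ⟨hek, heP⟩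
    have hd9 := Subgroup.card_dvd_of_le (inf_le_right : μ.ker ⊓ (P : Subgroup K) ≤ P)
    rw [hcard, show (9 : ℕ) = 3 ^ 2 by norm_num, Nat.dvd_prime_pow Nat.prime_three] at hd9
    obtain ⟨k, hk2, hk⟩ := hd9
    have h3 := Subgroup.card_le_of_le hle
    rw [Nat.card_zpowers, hord e heP h1e] at h3
    interval_cases k
    · rw [hk] at h3; omega
    · exfalso
      have heq := Subgroup.eq_of_le_of_card_ge hle (by
        rw [hk, Nat.card_zpowers, hord e heP h1e]; norm_num)
      exact hline (heq ▸ Subgroup.mem_inf.2 ⟨hexk, he1P⟩)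
    · intro z hz
      have heq := Subgroup.eq_of_le_of_card_ge (inf_le_right : μ.ker ⊓ (P : Subgroup K) ≤ P)
        (by rw [hk, hcard]; norm_num)
      exact (heq.symm ▸ hz : z ∈ μ.ker ⊓ (P : Subgroup K)).1
  -- the kernel has a normal 3-complement, which is trivial
  have hg₀k : g₀ ∉ μ.ker := by
    intro h
    have hNk : Nm ≤ μ.ker := fun n hn => by
      rcases hsplit n hn with hm | hm
      · exact hPk hm
      · simpa using mul_mem h (hPk hm)
    have htop := Sylow.normalizer_sup_eq_top' P hPk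
    rw [sup_eq_right.2 (show Subgroup.normalizer (P : Set K) ≤ μ.ker from hNk)] at htop
    exact hμ1 (MonoidHom.ker_eq_top_iff.1 htop)
  let P₁ : Sylow 3 μ.ker := P.subtype hPk
  have hP₁ : (P₁ : Subgroup μ.ker) = (P : Subgroup K).subgroupOf μ.ker := P.coe_subtype hPk
  have hNC : Subgroup.normalizer ((P₁ : Subgroup μ.ker) : Set μ.ker) ≤
      Subgroup.centralizer ((P₁ : Subgroup μ.ker) : Set μ.ker) := by
    intro n hn
    have hnN : (n : K) ∈ Nm := by
      refine Subgroup.mem_normalizer_iff.2 fun z => ?_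
      by_cases hz : z ∈ μ.ker
      · have h := Subgroup.mem_normalizer_iff.1 hn ⟨z, hz⟩
        simp only [hP₁, Subgroup.mem_subgroupOf, Subgroup.coe_mul, InvMemClass.coe_inv] at h
        exact h
      · refine ⟨fun h => absurd (hPk h) hz, fun h => absurd ?_ hz⟩
        simpa [mul_assoc] using mul_mem (mul_mem (inv_mem n.2) (hPk h)) n.2
    have hnP : (n : K) ∈ (P : Subgroup K) := by
      rcases hsplit n hnN with h | h
      · exact h
      · exact absurd (by simpa using mul_mem (hPk h) (inv_mem n.2) : g₀⁻¹ ∈ μ.ker)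
          (fun h' => hg₀k (inv_mem_iff.1 h'))
    refine Subgroup.mem_centralizer_iff.2 fun z hz => ?_
    have hz' : (z : K) ∈ (P : Subgroup K) := by
      have hz1 : z ∈ (P₁ : Subgroup μ.ker) := hz
      rwa [hP₁, Subgroup.mem_subgroupOf] at hz1
    refine Subtype.ext (show (z : K) * (n : K) = (n : K) * (z : K) from ?_)
    have h := hPc.is_comm.comm (⟨_, hz'⟩ : (P : Subgroup K)) ⟨_, hnP⟩
    exact congrArg Subtype.val h
  have hcomp := MonoidHom.ker_transferSylow_isComplement' P₁ hNC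
  have hT3 := MonoidHom.not_dvd_card_ker_transferSylow P₁ hNC
  set T := (MonoidHom.transferSylow P₁ hNC).ker
  have hTsn : (T.map μ.ker.subtype).IsSubnormal :=
    (Subgroup.Normal.isSubnormal (inferInstance : T.Normal)).trans'
      (Subgroup.Normal.isSubnormal (inferInstance : μ.ker.Normal))
  have hTbot : T = ⊥ := by
    have h := Cores.le_pPrimeCore_of_subnormal (p := 3) hTsn (by
      rw [Subgroup.card_map_of_injective μ.ker.subtype_injective]
      exact (Nat.prime_three.coprime_iff_not_dvd.2 hT3).symm)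
    rw [hcore, le_bot_iff, Subgroup.map_eq_bot_iff_of_injective _ μ.ker.subtype_injective] at h
    exact h
  rw [hTbot] at hcomp
  have htop := Subgroup.isComplement'_bot_left.1 hcomp
  have hk : (P : Subgroup K) = μ.ker := by
    refine le_antisymm hPk fun z hz => ?_
    have h : (⟨z, hz⟩ : μ.ker) ∈ (P₁ : Subgroup μ.ker) := by rw [htop]; trivial
    rwa [hP₁, Subgroup.mem_subgroupOf] at h
  rw [hk]
  infer_instance

end CfsgLib.AltNineLocal.Inverted
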