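import Mathlib.Tactic.Linarith
import Mathlib.Tactic.FieldSimp
import Mathlib.Tactic.Ring
import Mathlib.Tactic.IntervalCases
import Mathlib.Tactic.LinearCombination
import Mathlib.Data.Fintype.BigOperators
import Mathlib.Algebra.Order.BigOperators.Group.Finset
import Mathlib.Algebra.Order.Field.Rat
import Mathlib.Algebra.BigOperators.Ring.Finset

/-!
The three columns of a character table at pairwise non-conjugate inverted elements of order three
with centralisers of order nine, one product of which does not occur.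
-/

set_option autoImplicit false

namespace CfsgLib.AltNineLocal.Inverted

open Finset

variable {ι : Type*} [Fintype ι] [DecidableEq ι]

theorem sq_small (f : ι → ℤ) (n : ℕ) (hn : n ≤ 3) (h : ∑ i, f i ^ 2 = (n : ℤ)) :
    (∀ i, f i = 0 ∨ f i = 1 ∨ f i = -1) ∧ (univ.filter fun i => f i ≠ 0).card = n := by
  have hb : ∀ i, f i = 0 ∨ f i = 1 ∨ f i = -1 := by
    intro i
    have h1 : f i ^ 2 ≤ 3 := le_trans
      (single_le_sum (f := fun j => f j ^ 2) (fun j _ => sq_nonneg (f j)) (mem_univ i))
      (by rw [h]; exact_mod_cast hn)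
    have h2 : -1 ≤ f i := by nlinarith
    have h3 : f i ≤ 1 := by nlinarith
    omega
  refine ⟨hb, ?_⟩
  have h4 : ∑ i, f i ^ 2 = ∑ i ∈ univ.filter (fun i => f i ≠ 0), (1 : ℤ) := by
    rw [sum_filter]
    refine sum_congr rfl fun i _ => ?_
    rcases hb i with e | e | e <;> simp [e]
  rw [h, sum_const, nsmul_eq_mul, mul_one] at h4
  exact_mod_cast h4.symm

set_option maxHeartbeats 1600000 in
/-- Extract a linear row. -/
theorem exists_linear_row (t : ι) (d a b c : ι → ℤ) (hd : ∀ i, 0 < d i)
    (ht : d t = 1 ∧ a t = 1 ∧ b t = 1 ∧ c t = 1)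
    (hab3 : ∀ i, (3 : ℤ) ∣ a i - b i) (hac3 : ∀ i, (3 : ℤ) ∣ a i - c i)
    (haa : ∑ i, a i * a i = 9) (hbb : ∑ i, b i * b i = 9) (hcc : ∑ i, c i * c i = 9)
    (hab : ∑ i, a i * b i = 0) (hac : ∑ i, a i * c i = 0) (hbc : ∑ i, b i * c i = 0)
    (hda : ∑ i, d i * a i = 0) (hdb : ∑ i, d i * b i = 0) (hdc : ∑ i, d i * c i = 0)
    (h0 : ∑ i, ((a i : ℚ) ^ 2 * (b i : ℚ)) / (d i : ℚ) = 0) :
    ∃ i, i ≠ t ∧ d i = 1 ∧ a i = 1 ∧ b i = 1 ∧ c i = 1 := by
  choose k hk using hab3
  choose l hl using hac3
  set u : ι → ℤ := fun i => a i - k i - l i with hu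
  have hua : ∀ i, a i = u i + k i + l i := fun i => by simp only [hu]; ring
  have hub : ∀ i, b i = u i - 2 * k i + l i := fun i => by
    simp only [hu]; linarith [hk i]
  have huc : ∀ i, c i = u i + k i - 2 * l i := fun i => by
    simp only [hu]; linarith [hl i]
  -- the norms
  have e9 : ∀ (f g : ι → ℤ), (9 : ℤ) * ∑ i, f i * g i = ∑ i, (3 * f i) * (3 * g i) := fun f g => by
    rw [mul_sum]; exact sum_congr rfl fun i _ => by ring
  have eu : ∀ i, 3 * u i = a i + b i + c i := fun i => by
    linarith [hua i, hub i, huc i]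
  have ek : ∀ i, 3 * k i = a i - b i := fun i => by linarith [hk i]
  have el : ∀ i, 3 * l i = a i - c i := fun i => by linarith [hl i]
  have huu : ∑ i, u i ^ 2 = ((3 : ℕ) : ℤ) := by
    have h := e9 u u
    simp only [eu, add_mul, mul_add, sum_add_distrib, haa, hbb, hcc, hab, hac, hbc,
      mul_comm (b _) (a _), mul_comm (c _) (a _), mul_comm (c _) (b _)] at h
    simp only [pow_two]
    push_cast
    linarith
  have hkk : ∑ i, k i ^ 2 = ((2 : ℕ) : ℤ) := by
    have h := e9 k k
    simp only [ek, sub_mul, mul_sub, sum_sub_distrib, haa, hbb, hab,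
      mul_comm (b _) (a _)] at h
    simp only [pow_two]
    push_cast
    linarith
  have hll : ∑ i, l i ^ 2 = ((2 : ℕ) : ℤ) := by
    have h := e9 l l
    simp only [el, sub_mul, mul_sub, sum_sub_distrib, haa, hcc, hac,
      mul_comm (c _) (a _)] at h
    simp only [pow_two]
    push_cast
    linarith
  have hkl : ∑ i, k i * l i = 1 := by
    have h := e9 k l
    simp only [ek, el, sub_mul, mul_sub, sum_sub_distrib, haa, hab, hac, hbc,
      mul_comm (b _) (a _)] at h
    linarith
  have huk : ∑ i, u i * k i = 0 := by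
    have h := e9 u k
    simp only [eu, ek, add_mul, mul_sub, sum_sub_distrib, sum_add_distrib, haa, hbb, hab, hac, hbc,
      mul_comm (b _) (a _), mul_comm (c _) (a _), mul_comm (c _) (b _)] at h
    linarith
  have hul : ∑ i, u i * l i = 0 := by
    have h := e9 u l
    simp only [eu, el, add_mul, mul_sub, sum_sub_distrib, sum_add_distrib, haa, hcc, hab, hac, hbc,
      mul_comm (b _) (a _), mul_comm (c _) (a _), mul_comm (c _) (b _)] at h
    linarith
  have hdu : ∑ i, d i * u i = 0 := by
    have h := e9 d u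
    simp only [eu, mul_add, sum_add_distrib, mul_assoc, ← mul_sum, hda, hdb, hdc] at h
    linarith
  have hdk : ∑ i, d i * k i = 0 := by
    have h := e9 d k
    simp only [ek, mul_sub, sum_sub_distrib, mul_assoc, ← mul_sum, hda, hdb] at h
    linarith
  have hdl : ∑ i, d i * l i = 0 := by
    have h := e9 d l
    simp only [el, mul_sub, sum_sub_distrib, mul_assoc, ← mul_sum, hda, hdc] at h
    linarith
  obtain ⟨bu, cu⟩ := sq_small u 3 le_rfl huu
  obtain ⟨bk, ck⟩ := sq_small k 2 (by norm_num) hkk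
  obtain ⟨bl, cl⟩ := sq_small l 2 (by norm_num) hll
  have nz : ∀ (f : ι → ℤ) (s : Finset ι) (x : ι),
      univ.filter (fun i => f i ≠ 0) = s → x ∈ s → f x ≠ 0 := fun f s x hs hx => by
    subst hs
    exact (mem_filter.1 hx).2
  -- restricting a sum to a support
  have restr : ∀ (f : ι → ℤ) (s : Finset ι) (g : ι → ℤ),
      univ.filter (fun i => f i ≠ 0) = s → ∑ i, f i * g i = ∑ i ∈ s, f i * g i := by
    intro f s g hs
    refine (sum_subset (subset_univ s) fun i _ hi => ?_).symm
    rw [← hs, mem_filter, not_and, not_not] at hi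
    rw [hi (mem_univ i), zero_mul]
  -- the three rows meeting both differences
  obtain ⟨p, q, hpq, hS, hp, hq⟩ : ∃ p q, p ≠ q ∧ univ.filter (fun i => k i ≠ 0) = {p, q} ∧
      k p * l p = 1 ∧ l q = 0 := by
    obtain ⟨p, q, hpq, hS⟩ := card_eq_two.1 ck
    have h := restr k _ l hS
    rw [hkl, sum_pair hpq] at h
    have hkp : k p ≠ 0 := nz _ _ _ hS (mem_insert_self p {q})
    have hkq : k q ≠ 0 := nz _ _ _ hS (mem_insert_of_mem (mem_singleton_self q))
    rcases bk p with e1 | e1 | e1 <;> rcases bk q with e2 | e2 | e2 <;>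
      rcases bl p with e3 | e3 | e3 <;> rcases bl q with e4 | e4 | e4 <;>
      first
      | exact absurd e1 hkp
      | exact absurd e2 hkq
      | (rw [e1, e2, e3, e4] at h; norm_num at h; done)
      | (refine ⟨p, q, hpq, hS, ?_, e4⟩; rw [e1, e3]; norm_num; done)
      | (refine ⟨q, p, hpq.symm, ?_, ?_, e3⟩ <;> [rw [hS, pair_comm]; (rw [e2, e4]; norm_num)])
  have hlp : l p ≠ 0 := fun e => by simp [e] at hp
  have hkp : k p ≠ 0 := fun e => by simp [e] at hp
  have hkq : k q ≠ 0 := nz _ _ _ hS (mem_insert_of_mem (mem_singleton_self q))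
  obtain ⟨r, hrp, hL⟩ : ∃ r, r ≠ p ∧ univ.filter (fun i => l i ≠ 0) = {p, r} := by
    obtain ⟨x, y, hxy, hL⟩ := card_eq_two.1 cl
    have : p ∈ univ.filter (fun i => l i ≠ 0) := mem_filter.2 ⟨mem_univ p, hlp⟩
    rw [hL, mem_insert, mem_singleton] at this
    rcases this with rfl | rfl
    · exact ⟨y, hxy.symm, hL⟩
    · exact ⟨x, hxy, by rw [hL, pair_comm]⟩
  have hlr : l r ≠ 0 := nz _ _ _ hL (mem_insert_of_mem (mem_singleton_self r))
  have hrq : r ≠ q := fun e => hlr (e ▸ hq)
  have hk0 : ∀ i, i ≠ p → i ≠ q → k i = 0 := fun i h1 h2 => by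
    by_contra h
    have : i ∈ univ.filter (fun i => k i ≠ 0) := mem_filter.2 ⟨mem_univ i, h⟩
    rw [hS, mem_insert, mem_singleton] at this
    tauto
  have hl0 : ∀ i, i ≠ p → i ≠ r → l i = 0 := fun i h1 h2 => by
    by_contra h
    have : i ∈ univ.filter (fun i => l i ≠ 0) := mem_filter.2 ⟨mem_univ i, h⟩
    rw [hL, mem_insert, mem_singleton] at this
    tauto
  have hkr : k r = 0 := hk0 r hrp hrq
  -- signs and degrees
  have sd : ∀ (f : ι → ℤ) (x y : ι), x ≠ y → univ.filter (fun i => f i ≠ 0) = {x, y} →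
      (∀ i, f i = 0 ∨ f i = 1 ∨ f i = -1) → ∑ i, d i * f i = 0 →
      f y = -f x ∧ d y = d x := by
    intro f x y hxy hs hb h
    have hx : f x ≠ 0 := nz _ _ _ hs (mem_insert_self x {y})
    have hy : f y ≠ 0 := nz _ _ _ hs (mem_insert_of_mem (mem_singleton_self y))
    have h' := restr f _ d hs
    rw [sum_congr rfl fun i _ => mul_comm (f i) (d i), h, sum_pair hxy] at h'
    have := hd x
    have := hd y
    rcases hb x with e1 | e1 | e1 <;> rcases hb y with e2 | e2 | e2 <;>
      first
      | exact absurd e1 hx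
      | exact absurd e2 hy
      | (rw [e1, e2] at h' ⊢; constructor <;> omega)
  obtain ⟨hkq', hdq⟩ := sd k p q hpq hS bk hdk
  obtain ⟨hlr', hdr⟩ := sd l p r (Ne.symm hrp) hL bl hdl
  have hlk : l p = k p := by
    rcases bk p with e | e | e <;> rcases bl p with e' | e' | e' <;>
      simp [e, e'] at hp ⊢
  have huq : u q = u p := by
    have h := restr k _ u hS
    rw [sum_congr rfl fun i _ => mul_comm (k i) (u i), huk, sum_pair hpq, hkq'] at h
    exact mul_right_cancel₀ hkp (by linarith)
  have hur : u r = u p := by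
    have h := restr l _ u hL
    rw [sum_congr rfl fun i _ => mul_comm (l i) (u i), hul, sum_pair (Ne.symm hrp), hlr'] at h
    exact mul_right_cancel₀ hlp (by linarith)
  obtain ⟨hdt, hta, htb, htc⟩ := ht
  have hkt : k t = 0 := by have := ek t; omega
  have hlt : l t = 0 := by have := el t; omega
  have hut : u t = 1 := by have := eu t; omega
  have hup : u p = 0 := by
    by_contra h
    have hsub : ({t, p, q, r} : Finset ι) ⊆ univ.filter (fun i => u i ≠ 0) := by
      intro i hi
      simp only [mem_insert, mem_singleton] at hi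
      refine mem_filter.2 ⟨mem_univ i, ?_⟩
      rcases hi with rfl | rfl | rfl | rfl <;> simp [hut, huq, hur, h]
    have hc := card_le_card hsub
    rw [cu, card_insert_of_notMem, card_insert_of_notMem, card_pair hrq.symm] at hc
    · omega
    · simp [hpq, hrp.symm]
    · simp only [mem_insert, mem_singleton]
      rintro (e | e | e)
      · exact hkp (e ▸ hkt)
      · exact hkq (e ▸ hkt)
      · exact hlr (e ▸ hlt)
  -- the other two constant rows
  obtain ⟨g, h, hgh, hgt, hht, hU⟩ : ∃ g h, g ≠ h ∧ g ≠ t ∧ h ≠ t ∧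
      univ.filter (fun i => u i ≠ 0) = {t, g, h} := by
    have hmem : t ∈ univ.filter (fun i => u i ≠ 0) :=
      mem_filter.2 ⟨mem_univ t, by rw [hut]; norm_num⟩
    have h2 : ((univ.filter fun i => u i ≠ 0).erase t).card = 2 := by
      rw [card_erase_of_mem hmem, cu]
    obtain ⟨g, h, hgh, he⟩ := card_eq_two.1 h2
    have hg : g ∈ (univ.filter fun i => u i ≠ 0).erase t := he ▸ mem_insert_self g {h}
    have hh : h ∈ (univ.filter fun i => u i ≠ 0).erase t :=
      he ▸ mem_insert_of_mem (mem_singleton_self h)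
    exact ⟨g, h, hgh, (mem_erase.1 hg).1, (mem_erase.1 hh).1, by rw [← insert_erase hmem, he]⟩
  have hU' : ∀ i, u i = 0 → i ≠ t ∧ i ≠ g ∧ i ≠ h := fun i hi => by
    have hn : i ∉ univ.filter (fun i => u i ≠ 0) := fun e => (mem_filter.1 e).2 hi
    rw [hU] at hn
    simpa [mem_insert, mem_singleton, not_or] using hn
  have hug : u g ≠ 0 := nz _ _ _ hU (mem_insert_of_mem (mem_insert_self g {h}))
  have huh : u h ≠ 0 :=
    nz _ _ _ hU (mem_insert_of_mem (mem_insert_of_mem (mem_singleton_self h)))
  have hkl0 : ∀ i, u i ≠ 0 → k i = 0 ∧ l i = 0 := fun i hi =>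
    ⟨hk0 i (fun e => hi (e ▸ hup)) (fun e => hi (by rw [e, huq, hup])),
      hl0 i (fun e => hi (e ▸ hup)) (fun e => hi (by rw [e, hur, hup]))⟩
  have hdeg : 1 + d g * u g + d h * u h = 0 := by
    have hs := restr u _ d hU
    rw [sum_congr rfl fun i _ => mul_comm (u i) (d i), hdu, sum_insert (by simp [hgt.symm, hht.symm]),
      sum_pair hgh, hut, hdt] at hs
    linarith
  -- the count
  have hcount : 1 + (u g : ℚ) / d g + (u h : ℚ) / d h - 3 * (k p : ℚ) / d p = 0 := by
    have hsplit : ∀ i, ((a i : ℚ) ^ 2 * (b i : ℚ)) / (d i : ℚ) = (u i : ℚ) ^ 3 / d i +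
        ((k i : ℚ) + l i) ^ 2 * ((l i : ℚ) - 2 * k i) / d i := by
      intro i
      rw [hua i, hub i]
      push_cast
      by_cases e : u i = 0
      · rw [e]; push_cast; ring
      · rw [(hkl0 i e).1, (hkl0 i e).2]; push_cast; ring
    simp only [hsplit, sum_add_distrib] at h0
    rw [← sum_subset (subset_univ ({t, g, h} : Finset ι)),
      ← sum_subset (subset_univ ({p, q, r} : Finset ι))] at h0
    · rw [sum_insert (by simp [hgt.symm, hht.symm]), sum_pair hgh,
        sum_insert (by simp [hpq, hrp.symm]), sum_pair hrq.symm, hut, hkr, hkq', hlr', hq, hlk,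
        hdq, hdr, hdt] at h0
      rcases bk p with e | e | e <;> rcases bu g with e1 | e1 | e1 <;>
        rcases bu h with e2 | e2 | e2 <;>
        first
        | exact absurd e hkp
        | exact absurd e1 hug
        | exact absurd e2 huh
        | (rw [e, e1, e2] at h0 ⊢; push_cast at h0 ⊢; ring_nf at h0 ⊢; linarith)
    · intro i _ hi
      simp only [mem_insert, mem_singleton, not_or] at hi
      rw [hk0 i hi.1 hi.2.1, hl0 i hi.1 hi.2.2]
      simp
    · intro i _ hi
      have : u i = 0 := by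
        by_contra e
        exact hi (hU ▸ mem_filter.2 ⟨mem_univ i, e⟩)
      simp [this]
  -- arithmetic
  have fin : ∀ g h : ι, u g = 1 → u h = -1 → 1 + d g * u g + d h * u h = 0 →
      1 + (u g : ℚ) / d g + (u h : ℚ) / d h - 3 * (k p : ℚ) / d p = 0 → d g = 1 := by
    intro g h e1 e2 h1 h2
    rw [e1, e2] at h1 h2
    have hdh : (d h : ℤ) = d g + 1 := by linarith
    have hgp := hd g
    have hpp := hd p
    rw [hdh] at h2
    push_cast at h2
    have e3 : (((d g * (d g + 1) + 1) * d p : ℤ) : ℚ) = ((3 * k p * (d g * (d g + 1)) : ℤ) : ℚ) := by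
      have g0 : (d g : ℚ) ≠ 0 := by exact_mod_cast hgp.ne'
      have g1 : (d g : ℚ) + 1 ≠ 0 := by
        have : (0 : ℚ) < d g := by exact_mod_cast hgp
        linarith
      have p0 : (d p : ℚ) ≠ 0 := by exact_mod_cast hpp.ne'
      field_simp at h2
      push_cast
      linear_combination h2
    have e4 : (d g * (d g + 1) + 1) * d p = 3 * k p * (d g * (d g + 1)) := by exact_mod_cast e3
    have hm : 2 ≤ d g * (d g + 1) :=
      le_trans (by norm_num) (mul_le_mul (show (1 : ℤ) ≤ d g from hgp)
        (show (2 : ℤ) ≤ d g + 1 by omega) (by norm_num) hgp.le)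
    rcases bk p with e | e | e
    · exact absurd e hkp
    · rw [e] at e4
      by_contra hne
      have h6 : 6 ≤ d g * (d g + 1) :=
        le_trans (by norm_num) (mul_le_mul (show (2 : ℤ) ≤ d g by omega)
          (show (3 : ℤ) ≤ d g + 1 by omega) (by norm_num) hgp.le)
      generalize d g * (d g + 1) = m at hm h6 e4
      have hD : d p < 3 := by
        by_contra hge
        have := mul_le_mul_of_nonneg_left (show (3 : ℤ) ≤ d p by omega) (show (0 : ℤ) ≤ m + 1 by omega)
        linarith
      rcases (show d p = 1 ∨ d p = 2 by omega) with eD | eD <;> rw [eD] at e4 <;> omega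
    · rw [e] at e4
      generalize d g * (d g + 1) = m at hm e4
      have := mul_pos (show (0 : ℤ) < m + 1 by omega) hpp
      linarith
  rcases bu g with e1 | e1 | e1
  · exact absurd e1 hug
  · rcases bu h with e2 | e2 | e2
    · exact absurd e2 huh
    · rw [e1, e2] at hdeg
      have := hd g
      have := hd h
      linarith
    · refine ⟨g, hgt, fin g h e1 e2 hdeg hcount, ?_, ?_, ?_⟩
      · rw [hua, e1, (hkl0 g hug).1, (hkl0 g hug).2]; norm_num
      · rw [hub, e1, (hkl0 g hug).1, (hkl0 g hug).2]; norm_num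
      · rw [huc, e1, (hkl0 g hug).1, (hkl0 g hug).2]; norm_num
  · rcases bu h with e2 | e2 | e2
    · exact absurd e2 huh
    · refine ⟨h, hht, fin h g e2 e1 (by linarith) (by linarith), ?_, ?_, ?_⟩
      · rw [hua, e2, (hkl0 h huh).1, (hkl0 h huh).2]; norm_num
      · rw [hub, e2, (hkl0 h huh).1, (hkl0 h huh).2]; norm_num
      · rw [huc, e2, (hkl0 h huh).1, (hkl0 h huh).2]; norm_num
    · rw [e1, e2] at hdeg
      have := hd g
      have := hd h
      exfalso
      linarith

end CfsgLib.AltNineLocal.Inverted
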