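import Cfsg.Agent.Lib.AltNineLocal.Model

/-!
Centralisers in the model of the elements of weight two and three.
-/

set_option autoImplicit false

namespace CfsgLib.AltNineLocal

open Equiv

/-- The element of the base group with given exponents. -/
def jel (v : Fin 3 × Fin 3 × Fin 3) : Perm (Fin 9) :=
  ax 0 ^ v.1.val * ax 1 ^ v.2.1.val * ax 2 ^ v.2.2.val

/-- The rotation of the blocks. -/
def rot : Perm (Fin 9) := cyc 0 3 6 * cyc 1 4 7 * cyc 2 5 8

/-- The swap of the first two blocks (odd). -/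
def swp : Perm (Fin 9) := swap 0 3 * swap 1 4 * swap 2 5

/-- The element exchanging the first two blocks and inverting the third. -/
def tau : Perm (Fin 9) := swp * swap 6 7

/-- Elements conjugating `px` to the four elements of weight three up to inversion. -/
def moves : List (Perm (Fin 9)) :=
  [1, tau, swap 0 6 * swap 1 7 * swap 2 8 * swap 3 4, swap 3 6 * swap 4 7 * swap 5 8 * swap 0 1]

theorem jel_mul : ∀ v w : Fin 3 × Fin 3 × Fin 3, jel v * jel w = jel (v + w) := by decide +kernel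

theorem jel_zero : jel 0 = 1 := by decide +kernel

theorem jel_injective : ∀ v w : Fin 3 × Fin 3 × Fin 3, jel v = jel w → v = w := by decide +kernel

theorem jel_mem_nineH : ∀ v, jel v ∈ nineH := by decide +kernel

theorem jel_mem_baseJ (v : Fin 3 × Fin 3 × Fin 3) : jel v ∈ baseJ :=
  have h : ∀ k, ax k ∈ baseJ := fun k => Subgroup.subset_closure ⟨k, rfl⟩
  mul_mem (mul_mem (pow_mem (h 0) _) (pow_mem (h 1) _)) (pow_mem (h 2) _)

theorem mem_baseJ_iff {σ : Perm (Fin 9)} : σ ∈ baseJ ↔ ∃ v, jel v = σ := by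
  refine ⟨fun h => ?_, fun ⟨v, hv⟩ => hv ▸ jel_mem_baseJ v⟩
  induction h using Subgroup.closure_induction with
  | mem x hx =>
    obtain ⟨k, rfl⟩ := hx
    exact (by decide +kernel : ∀ k : Fin 3, ∃ v, jel v = ax k) k
  | one => exact ⟨0, jel_zero⟩
  | mul a b _ _ ha hb =>
    obtain ⟨v, rfl⟩ := ha
    obtain ⟨w, rfl⟩ := hb
    exact ⟨v + w, (jel_mul v w).symm⟩
  | inv a _ ha =>
    obtain ⟨v, rfl⟩ := ha
    exact ⟨-v, eq_inv_of_mul_eq_one_left (by rw [jel_mul, neg_add_cancel, jel_zero])⟩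

theorem blk_ne_of_mem {σ : Perm (Fin 9)} (hσ : σ ∈ blockStab) {i j : Fin 9} (h : blk i ≠ blk j) :
    blk (σ i) ≠ blk (σ j) := fun e => h (by
  have := blockStab.inv_mem hσ _ _ e
  simpa [Perm.coe_inv] using this)

theorem eq_of_eq_off {σ τ : Perm (Fin 9)} (i₀ : Fin 9) (h : ∀ i, i ≠ i₀ → σ i = τ i) : σ = τ := by
  refine Equiv.ext fun i => ?_
  by_cases hi : i = i₀
  · subst hi
    by_contra hne
    have h1 : τ (τ⁻¹ (σ i)) = σ i := by rw [Perm.coe_inv, Equiv.apply_symm_apply]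
    by_cases h2 : τ⁻¹ (σ i) = i
    · exact hne (by rw [h2] at h1; exact h1.symm)
    · have h3 := h _ h2
      rw [h1] at h3
      exact h2 (σ.injective h3)
  · exact h i hi

/-- The centraliser of `px` in the model. -/
theorem exists_of_comm_px {σ : Perm (Fin 9)} (hσ : σ ∈ nineH) (hc : σ * px = px * σ) :
    ∃ (m : Fin 3) (v : Fin 3 × Fin 3 × Fin 3), σ = rot ^ m.val * jel v := by
  have hb : σ ∈ blockStab := (Subgroup.mem_inf.1 hσ).2
  have hs : Perm.sign σ = 1 := Perm.mem_alternatingGroup.1 (Subgroup.mem_inf.1 hσ).1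
  obtain ⟨o, m, v, h0, h3, h6⟩ := (by decide +kernel :
    ∀ a b : Fin 9, blk a ≠ blk b → ∀ c : Fin 9, blk a ≠ blk c → blk b ≠ blk c →
      ∃ (o : Fin 2) (m : Fin 3) (v : Fin 3 × Fin 3 × Fin 3),
        (swp ^ o.val * rot ^ m.val * jel v) 0 = a ∧ (swp ^ o.val * rot ^ m.val * jel v) 3 = b ∧
        (swp ^ o.val * rot ^ m.val * jel v) 6 = c)
    (σ 0) (σ 3) (blk_ne_of_mem hb (by decide)) (σ 6) (blk_ne_of_mem hb (by decide))
      (blk_ne_of_mem hb (by decide))
  set c := swp ^ o.val * rot ^ m.val * jel v with hcdef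
  have hcc : c * px = px * c := (by decide +kernel : ∀ (o : Fin 2) (m : Fin 3) (v : Fin 3 × Fin 3 × Fin 3),
    swp ^ o.val * rot ^ m.val * jel v * px = px * (swp ^ o.val * rot ^ m.val * jel v)) o m v
  have e1 : ∀ i, c i = σ i → c (px i) = σ (px i) := fun i hi => by
    rw [← Perm.mul_apply, hcc, Perm.mul_apply, hi, ← Perm.mul_apply, ← hc, Perm.mul_apply]
  have hσc : σ = c := by
    refine Equiv.ext fun i => (?_ : σ i = c i)
    have h1 := e1 _ h0
    have h4 := e1 _ h3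
    have h7 := e1 _ h6
    have h2 := e1 _ h1
    have h5 := e1 _ h4
    have h8 := e1 _ h7
    rcases (by decide +kernel : ∀ i : Fin 9, i = 0 ∨ i = px 0 ∨ i = px (px 0) ∨ i = 3 ∨ i = px 3 ∨
      i = px (px 3) ∨ i = 6 ∨ i = px 6 ∨ i = px (px 6)) i with
      rfl | rfl | rfl | rfl | rfl | rfl | rfl | rfl | rfl <;> symm <;> assumption
  have ho : o = 0 := by
    by_contra ho
    obtain rfl : o = 1 := by omega
    refine absurd (hσc ▸ hs) ?_
    exact (by decide +kernel : ∀ (m : Fin 3) (v : Fin 3 × Fin 3 × Fin 3),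
      Perm.sign (swp ^ (1 : Fin 2).val * rot ^ m.val * jel v) ≠ 1) m v
  refine ⟨m, v, ?_⟩
  rw [hσc, hcdef, ho, Fin.val_zero, pow_zero, one_mul]

/-- The centraliser of `pb` in the model. -/
theorem exists_of_comm_pb {σ : Perm (Fin 9)} (hσ : σ ∈ nineH) (hc : σ * pb = pb * σ) :
    ∃ (o : Fin 2) (v : Fin 3 × Fin 3 × Fin 3), σ = tau ^ o.val * jel v := by
  have hb : σ ∈ blockStab := (Subgroup.mem_inf.1 hσ).2
  have hs : Perm.sign σ = 1 := Perm.mem_alternatingGroup.1 (Subgroup.mem_inf.1 hσ).1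
  have hmv : ∀ i, pb i ≠ i → pb (σ i) ≠ σ i := fun i hi e => hi (σ.injective (by
    rw [← Perm.mul_apply, hc, Perm.mul_apply, e]))
  have hfx : ∀ i, pb i = i → pb (σ i) = σ i := fun i hi => by
    rw [← Perm.mul_apply, ← hc, Perm.mul_apply, hi]
  obtain ⟨o, w, v, h0, h3, h6, h7⟩ := (by decide +kernel :
    ∀ a : Fin 9, pb a ≠ a → ∀ b : Fin 9, pb b ≠ b → blk a ≠ blk b →
      ∀ c : Fin 9, pb c = c → ∀ d : Fin 9, pb d = d → d ≠ c →
      ∃ (o : Fin 2) (w : Fin 2) (v : Fin 3 × Fin 3 × Fin 3),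
        (swp ^ o.val * swap (6 : Fin 9) 7 ^ w.val * jel v) 0 = a ∧ (swp ^ o.val * swap (6 : Fin 9) 7 ^ w.val * jel v) 3 = b ∧
        (swp ^ o.val * swap (6 : Fin 9) 7 ^ w.val * jel v) 6 = c ∧ (swp ^ o.val * swap (6 : Fin 9) 7 ^ w.val * jel v) 7 = d)
    (σ 0) (hmv 0 (by decide +kernel)) (σ 3) (hmv 3 (by decide +kernel))
    (blk_ne_of_mem hb (by decide)) (σ 6) (hfx 6 (by decide +kernel)) (σ 7) (hfx 7 (by decide +kernel))
    (fun e => absurd (σ.injective e) (by decide))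
  set c := swp ^ o.val * swap (6 : Fin 9) 7 ^ w.val * jel v with hcdef
  have hcc : c * pb = pb * c := (by decide +kernel : ∀ (o w : Fin 2) (v : Fin 3 × Fin 3 × Fin 3),
    swp ^ o.val * swap (6 : Fin 9) 7 ^ w.val * jel v * pb = pb * (swp ^ o.val * swap (6 : Fin 9) 7 ^ w.val * jel v)) o w v
  have e1 : ∀ i, c i = σ i → c (pb i) = σ (pb i) := fun i hi => by
    rw [← Perm.mul_apply, hcc, Perm.mul_apply, hi, ← Perm.mul_apply, ← hc, Perm.mul_apply]
  have hσc : σ = c := by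
    refine eq_of_eq_off 8 fun i hi => ?_
    have h1 := e1 _ h0
    have h4 := e1 _ h3
    have h2 := e1 _ h1
    have h5 := e1 _ h4
    rcases (by decide +kernel : ∀ i : Fin 9, i = 0 ∨ i = pb 0 ∨ i = pb (pb 0) ∨ i = 3 ∨ i = pb 3 ∨
      i = pb (pb 3) ∨ i = 6 ∨ i = 7 ∨ i = 8) i with
      rfl | rfl | rfl | rfl | rfl | rfl | rfl | rfl | rfl <;>
      first
      | exact absurd rfl hi
      | (symm; assumption)
  have how : w = o := by
    by_contra hne
    refine absurd (hσc ▸ hs) ?_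
    exact (by decide +kernel : ∀ (o w : Fin 2) (v : Fin 3 × Fin 3 × Fin 3), w ≠ o →
      Perm.sign (swp ^ o.val * swap (6 : Fin 9) 7 ^ w.val * jel v) ≠ 1) o w v hne
  refine ⟨o, v, ?_⟩
  rw [hσc, hcdef, how]
  exact (by decide +kernel : ∀ (o : Fin 2) (v : Fin 3 × Fin 3 × Fin 3),
    swp ^ o.val * swap (6 : Fin 9) 7 ^ o.val * jel v = tau ^ o.val * jel v) o v

theorem rot_mem_nineH : rot ∈ nineH := by decide +kernel

theorem tau_mem_nineH : tau ∈ nineH := by decide +kernel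

theorem moves_mem_nineH : ∀ g ∈ moves, g ∈ nineH := by
  intro g hg
  simp only [moves, List.mem_cons, List.not_mem_nil, or_false] at hg
  rcases hg with rfl | rfl | rfl | rfl
  · exact one_mem _
  · exact tau_mem_nineH
  · decide +kernel
  · decide +kernel

theorem rot_comm_px : rot * px = px * rot := by decide +kernel

theorem jel_comm_px : ∀ v, jel v * px = px * jel v := by decide +kernel

theorem jel_comm_pb : ∀ v, jel v * pb = pb * jel v := by decide +kernel

theorem tau_comm_pb : tau * pb = pb * tau := by decide +kernel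

/-- Elements of the centraliser of `px` outside the base group commute only with few base elements. -/
theorem comm_outside : ∀ (m : Fin 3) (v : Fin 3 × Fin 3 × Fin 3), m ≠ 0 →
    ∀ w : Fin 3 × Fin 3 × Fin 3,
      rot ^ m.val * jel v * jel w = jel w * (rot ^ m.val * jel v) → ∃ k : Fin 3, w = (k, k, k) := by
  decide +kernel

theorem not_comm_tau (v w : Fin 3 × Fin 3 × Fin 3) (hw : w.2.2 ≠ 0) :
    tau * jel v * jel w ≠ jel w * (tau * jel v) := by
  intro e
  rw [mul_assoc, jel_mul v w, add_comm, ← jel_mul w v, ← mul_assoc, ← mul_assoc] at e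
  exact (by decide +kernel : ∀ w : Fin 3 × Fin 3 × Fin 3, w.2.2 ≠ 0 → tau * jel w ≠ jel w * tau)
    w hw (mul_right_cancel e)

theorem exists_weight_three : ∀ v : Fin 3 × Fin 3 × Fin 3, v.2.2 ≠ 0 → ∃ k : Fin 3, ∃ g ∈ moves,
    g * px * g⁻¹ = jel (v + (k, k, 0)) ∨ g * px⁻¹ * g⁻¹ = jel (v + (k, k, 0)) := by decide +kernel

theorem pb_eq_jel : pb = jel (1, 1, 0) := by decide +kernel

theorem tau_conj : ∀ v : Fin 3 × Fin 3 × Fin 3,
    ∃ k : Fin 3, tau * jel v * tau⁻¹ = jel (-v + (k, k, 0)) := by decide +kernel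

end CfsgLib.AltNineLocal
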