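import Cfsg.Agent.Lib.AltNineLocal.Setting
import Cfsg.Agent.Lib.AltNineLocal.LocalModel
import Cfsg.Agent.Lib.AltNineLocal.Inverted
import Cfsg.Agent.Lib.NormalPComplement.GlaubermanThompson
import Mathlib.GroupTheory.Nilpotent

/-!
The centralisers of the elements of weight two and three lie in the normaliser of `J`.
-/

set_option autoImplicit false
set_option linter.style.haveILetI false

namespace CfsgLib.AltNineLocal

open Equiv

namespace Hyp

variable {G : Type*} [Group G] (h : Hyp G)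

theorem el_jel_mem (v : Fin 3 × Fin 3 × Fin 3) : h.el (jel v) ∈ h.J :=
  (h.el_mem_J (jel_mem_nineH v)).2 (jel_mem_baseJ v)

theorem exists_jel {g : G} (hg : g ∈ h.J) : ∃ v, h.el (jel v) = g := by
  obtain ⟨σ, hσ, rfl⟩ := h.exists_el (Subgroup.le_normalizer hg)
  obtain ⟨v, hv⟩ := mem_baseJ_iff.1 ((h.el_mem_J hσ).1 hg)
  exact ⟨v, by rw [hv]⟩

theorem card_J : Nat.card h.J = 27 := by
  have hb : Function.Bijective (fun v => (⟨h.el (jel v), h.el_jel_mem v⟩ : h.J)) :=
    ⟨fun v w e => jel_injective v w (h.el_inj (jel_mem_nineH v) (jel_mem_nineH w)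
      (congrArg Subtype.val e)), fun g => by
        obtain ⟨v, hv⟩ := h.exists_jel g.2
        exact ⟨v, Subtype.ext hv⟩⟩
  rw [← Nat.card_congr (Equiv.ofBijective _ hb)]
  simp

theorem J_comm {a b : G} (ha : a ∈ h.J) (hb : b ∈ h.J) : a * b = b * a := by
  obtain ⟨v, rfl⟩ := h.exists_jel ha
  obtain ⟨w, rfl⟩ := h.exists_jel hb
  rw [← h.el_mul (jel_mem_nineH v) (jel_mem_nineH w), ← h.el_mul (jel_mem_nineH w) (jel_mem_nineH v),
    jel_mul, jel_mul, add_comm]

theorem J_exp {a : G} (ha : a ∈ h.J) : a ^ 3 = 1 := by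
  obtain ⟨v, rfl⟩ := h.exists_jel ha
  rw [pow_three', ← h.el_mul (jel_mem_nineH v) (jel_mem_nineH v),
    ← h.el_mul (mul_mem (jel_mem_nineH v) (jel_mem_nineH v)) (jel_mem_nineH v), jel_mul, jel_mul,
    (by decide +kernel : ∀ v : Fin 3 × Fin 3 × Fin 3, v + v + v = 0) v, jel_zero, h.el_one]

theorem el_comm {σ τ : Perm (Fin 9)} (hσ : σ ∈ nineH) (hτ : τ ∈ nineH) :
    h.el σ * h.el τ = h.el τ * h.el σ ↔ σ * τ = τ * σ := by
  rw [← h.el_mul hσ hτ, ← h.el_mul hτ hσ]
  exact ⟨fun e => h.el_inj (mul_mem hσ hτ) (mul_mem hτ hσ) e, fun e => by rw [e]⟩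

theorem el_conj {σ τ : Perm (Fin 9)} (hσ : σ ∈ nineH) (hτ : τ ∈ nineH) :
    h.el (σ * τ * σ⁻¹) = h.el σ * h.el τ * (h.el σ)⁻¹ := by
  rw [h.el_mul (mul_mem hσ hτ) (inv_mem hσ), h.el_mul hσ hτ, h.el_inv hσ]

theorem J_le_centralizer_pb : h.J ≤ Subgroup.centralizer ({h.el pb} : Set G) := fun a ha => by
  obtain ⟨v, rfl⟩ := h.exists_jel ha
  rw [Subgroup.mem_centralizer_singleton_iff]
  exact (h.el_comm (jel_mem_nineH v) pb_mem_nineH).2 (jel_comm_pb v)

theorem J_le_centralizer_px : h.J ≤ Subgroup.centralizer ({h.el px} : Set G) := fun a ha => by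
  obtain ⟨v, rfl⟩ := h.exists_jel ha
  rw [Subgroup.mem_centralizer_singleton_iff]
  exact (h.el_comm (jel_mem_nineH v) px_mem_nineH).2 (jel_comm_px v)

theorem exists_of_mem_px {g : G} (hc : g ∈ Subgroup.centralizer ({h.el px} : Set G))
    (hn : g ∈ Subgroup.normalizer (h.J : Set G)) :
    ∃ (m : Fin 3) (v : Fin 3 × Fin 3 × Fin 3), g = h.el (rot ^ m.val * jel v) := by
  obtain ⟨σ, hσ, rfl⟩ := h.exists_el hn
  rw [Subgroup.mem_centralizer_singleton_iff] at hc
  obtain ⟨m, v, hv⟩ := exists_of_comm_px hσ ((h.el_comm hσ px_mem_nineH).1 hc)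
  exact ⟨m, v, by rw [hv]⟩

theorem pow_nine_of_mem_px {g : G} (hc : g ∈ Subgroup.centralizer ({h.el px} : Set G))
    (hn : g ∈ Subgroup.normalizer (h.J : Set G)) : g ^ 9 = 1 := by
  obtain ⟨m, v, rfl⟩ := h.exists_of_mem_px hc hn
  have hm : rot ^ m.val * jel v ∈ nineH := mul_mem (pow_mem rot_mem_nineH _) (jel_mem_nineH v)
  have hcube : (rot ^ m.val * jel v) ^ 3 ∈ baseJ := by
    obtain ⟨w, hw⟩ := (by decide +kernel : ∀ (m : Fin 3) (v : Fin 3 × Fin 3 × Fin 3),
      ∃ k : Fin 3, (rot ^ m.val * jel v) ^ 3 = jel (k, k, k)) m v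
    rw [hw]; exact jel_mem_baseJ _
  have e : h.el ((rot ^ m.val * jel v) ^ 3) = h.el (rot ^ m.val * jel v) ^ 3 := by
    rw [pow_three', pow_three', h.el_mul (mul_mem hm hm) hm, h.el_mul hm hm]
  calc h.el (rot ^ m.val * jel v) ^ 9 = (h.el (rot ^ m.val * jel v) ^ 3) ^ 3 := by rw [← pow_mul]
    _ = h.el ((rot ^ m.val * jel v) ^ 3) ^ 3 := by rw [e]
    _ = 1 := h.J_exp ((h.el_mem_J (pow_mem hm 3)).2 hcube)

variable [Finite G]
omit [Finite G] in
theorem card_le_of_mem_px {B : Subgroup G}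
    (hBC : B ≤ Subgroup.centralizer ({h.el px} : Set G))
    (hBN : B ≤ Subgroup.normalizer (h.J : Set G))
    (hBc : ∀ a ∈ B, ∀ b ∈ B, a * b = b * a) (hBJ : ¬ B ≤ h.J) : Nat.card B ≤ 9 := by
  classical
  obtain ⟨g, hgB, hgJ⟩ := SetLike.not_le_iff_exists.1 hBJ
  obtain ⟨m, v, rfl⟩ := h.exists_of_mem_px (hBC hgB) (hBN hgB)
  have hm : rot ^ m.val * jel v ∈ nineH := mul_mem (pow_mem rot_mem_nineH _) (jel_mem_nineH v)
  have hm0 : m ≠ 0 := by
    rintro rfl
    exact hgJ (by rw [Fin.val_zero, pow_zero, one_mul]; exact h.el_jel_mem v)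
  have hD : Nat.card ↥(B ⊓ h.J) ≤ 3 := by
    have hsub : ∀ a : ↥(B ⊓ h.J), ∃ k : Fin 3, h.el (jel (k, k, k)) = a := by
      intro a
      obtain ⟨w, hw⟩ := h.exists_jel a.2.2
      have e := hBc _ hgB _ a.2.1
      rw [← hw, h.el_comm hm (jel_mem_nineH w)] at e
      obtain ⟨k, rfl⟩ := comm_outside m v hm0 w e
      exact ⟨k, hw⟩
    choose f hf using hsub
    have := Nat.card_le_card_of_injective f fun a b e => Subtype.ext (by rw [← hf a, ← hf b, e])
    simpa using this
  -- the index of `B ∩ J` in `B` is at most three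
  have hsub : ∀ b : B, ∃ p : Fin 3 × (Fin 3 × Fin 3 × Fin 3),
      (b : G) = h.el (rot ^ p.1.val * jel p.2) := fun b => by
    obtain ⟨m', v', e⟩ := h.exists_of_mem_px (hBC b.2) (hBN b.2)
    exact ⟨(m', v'), e⟩
  choose p hp using hsub
  have hidx : ((B ⊓ h.J).subgroupOf B).index ≤ 3 := by
    have hf : Function.Injective fun q : B ⧸ (B ⊓ h.J).subgroupOf B => (p q.out).1 := by
      intro q r e
      rw [← QuotientGroup.out_eq' q, ← QuotientGroup.out_eq' r, QuotientGroup.eq,
        Subgroup.mem_subgroupOf]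
      refine ⟨SetLike.coe_mem _, ?_⟩
      have e' : (p q.out).1 = (p r.out).1 := e
      rw [Subgroup.coe_mul, Subgroup.coe_inv, hp q.out, hp r.out, e',
        h.el_mul (pow_mem rot_mem_nineH _) (jel_mem_nineH _),
        h.el_mul (pow_mem rot_mem_nineH _) (jel_mem_nineH _)]
      set u := h.el (rot ^ (p r.out).1.val)
      rw [show (u * h.el (jel (p q.out).2))⁻¹ * (u * h.el (jel (p r.out).2)) =
        (h.el (jel (p q.out).2))⁻¹ * h.el (jel (p r.out).2) by group]
      exact h.J.mul_mem (h.J.inv_mem (h.el_jel_mem _)) (h.el_jel_mem _)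
    have := Nat.card_le_card_of_injective _ hf
    rw [← Subgroup.index] at this
    simpa using this
  have hcard := Subgroup.card_mul_index ((B ⊓ h.J).subgroupOf B)
  rw [Nat.card_congr (Subgroup.subgroupOfEquivOfLe inf_le_left).toEquiv] at hcard
  calc Nat.card B = _ := hcard.symm
    _ ≤ 3 * 3 := Nat.mul_le_mul hD hidx

theorem centralizer_px :
    Subgroup.centralizer ({h.el px} : Set G) ≤ Subgroup.normalizer (h.J : Set G) := by
  classical
  haveI : Fact (Nat.Prime 3) := ⟨Nat.prime_three⟩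
  set C := Subgroup.centralizer ({h.el px} : Set G) with hCdef
  set N := Subgroup.normalizer (h.J : Set G) with hNdef
  let J₁ : Subgroup C := h.J.subgroupOf C
  have hJ₁ : Nat.card J₁ = 27 := by
    rw [Nat.card_congr (Subgroup.subgroupOfEquivOfLe h.J_le_centralizer_px).toEquiv, h.card_J]
  let P₁ : Subgroup C := N.subgroupOf C
  have hJP : J₁ ≤ P₁ := fun a ha => Subgroup.le_normalizer (show (a : G) ∈ h.J from ha)
  have hP₁ : IsPGroup 3 P₁ := fun a => ⟨2, Subtype.ext (Subtype.ext (by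
    simpa using h.pow_nine_of_mem_px (g := ((a : C) : G)) (a : C).2 a.2))⟩
  -- abelian subgroups of order at least 27 equal `J₁`
  have hmax : ∀ B : Subgroup C, B ≤ P₁ → IsMulCommutative B → 27 ≤ Nat.card B → B = J₁ := by
    intro B hBP hBc hB
    have hle : B ≤ J₁ := by
      by_contra hne
      have h9 := h.card_le_of_mem_px (B := B.map C.subtype) (Subgroup.map_subtype_le B)
        (by rintro _ ⟨b, hb, rfl⟩; exact hBP hb)
        (by
          rintro _ ⟨a, ha, rfl⟩ _ ⟨b, hb, rfl⟩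
          exact congrArg (fun u : B => ((u : C) : G)) (hBc.is_comm.comm (⟨a, ha⟩ : B) ⟨b, hb⟩))
        (fun hh => hne fun b hb => hh (Subgroup.mem_map_of_mem _ hb))
      rw [Subgroup.card_map_of_injective C.subtype_injective] at h9
      omega
    exact Subgroup.eq_of_le_of_card_ge hle (by rw [hJ₁]; exact hB)
  haveI hJ₁c : IsMulCommutative J₁ := ⟨⟨fun a b => Subtype.ext (Subtype.ext (h.J_comm a.2 b.2))⟩⟩
  have hNJ : ∀ g : C, g ∈ Subgroup.normalizer (J₁ : Set C) → g ∈ P₁ := by
    intro g hg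
    show (g : G) ∈ N
    refine Subgroup.mem_normalizer_iff.2 fun a => ?_
    constructor
    · intro ha
      exact (Subgroup.mem_normalizer_iff.1 hg ⟨a, h.J_le_centralizer_px ha⟩).1 ha
    · intro ha
      have hCm : a ∈ C := by
        have := mul_mem (mul_mem (inv_mem g.2) (h.J_le_centralizer_px ha)) g.2
        simpa [mul_assoc] using this
      exact (Subgroup.mem_normalizer_iff.1 hg ⟨a, hCm⟩).2 ha
  have hNP : ∀ g : C, g ∈ Subgroup.normalizer (P₁ : Set C) → g ∈ P₁ := by
    intro g hg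
    refine hNJ g ?_
    have e : J₁.map (MulAut.conj g).toMonoidHom = J₁ := by
      refine hmax _ ?_ ?_ ?_
      · rintro _ ⟨a, ha, rfl⟩
        exact (Subgroup.mem_normalizer_iff.1 hg a).1 (hJP ha)
      · infer_instance
      · rw [Subgroup.card_map_of_injective (MulEquiv.injective _), hJ₁]
    rwa [Subgroup.mem_normalizer_iff_map_conj_eq]
  obtain ⟨S, hS⟩ := hP₁.exists_le_sylow
  have hSeq : (S : Subgroup C) = P₁ := by
    by_contra hne
    haveI : Group.IsNilpotent (S : Subgroup C) := S.2.isNilpotent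
    have hlt : P₁.subgroupOf (S : Subgroup C) < ⊤ :=
      lt_top_iff_ne_top.2 fun e => hne (le_antisymm (Subgroup.subgroupOf_eq_top.1 e) hS)
    obtain ⟨g, hg, hgn⟩ := SetLike.exists_of_lt (Group.normalizerCondition_of_isNilpotent _ hlt)
    refine hgn (hNP g (Subgroup.mem_normalizer_iff.2 fun a => ?_))
    constructor
    · intro ha
      exact (Subgroup.mem_normalizer_iff.1 hg ⟨a, hS ha⟩).1 ha
    · intro ha
      have haS : a ∈ (S : Subgroup C) := by
        have := mul_mem (mul_mem (inv_mem g.2) (hS ha)) g.2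
        simpa [mul_assoc] using this
      exact (Subgroup.mem_normalizer_iff.1 hg ⟨a, haS⟩).2 ha
  have hTJ : Cfsg.thompsonSubgroupAOf (S : Subgroup C) = J₁ := by
    rw [hSeq]
    refine le_antisymm (NormalPComplement.thompsonSubgroupAOf_le_iff.2 fun A hA => ?_)
      (NormalPComplement.le_thompsonSubgroupAOf ⟨hJP, hJ₁c, fun B hB hBc => ?_⟩)
    · exact (hmax A hA.le hA.comm (by rw [← hJ₁]; exact hA.card_le J₁ hJP hJ₁c)).le
    · by_contra hlt
      push Not at hlt
      rw [hJ₁] at hlt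
      have := hmax B hB hBc hlt.le
      rw [this, hJ₁] at hlt
      omega
  have hZ : Cfsg.centerThompsonAOf (S : Subgroup C) = J₁ := by
    rw [Cfsg.centerThompsonAOf, hTJ, inf_eq_left]
    exact Subgroup.le_centralizer J₁
  have hcomp : Cfsg.HasNormalPComplement 3 C := by
    refine NormalPComplement.hasNormalPComplement_of_normalizer_centerThompsonAOf (by norm_num) S
      (NormalPComplement.hasNormalPComplement_of_isPGroup ?_)
    rw [hZ]
    exact hP₁.to_le fun g hg => hNJ g hg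
  have hx3 : orderOf (h.el px) = 3 := by
    refine orderOf_eq_prime (h.J_exp ?_) fun e => ?_
    · rw [show px = jel (1, 1, 1) by decide +kernel]; exact h.el_jel_mem _
    · rw [← h.el_one] at e
      exact absurd (h.el_inj px_mem_nineH (one_mem _) e) (by decide +kernel)
  have hcore := h.cores _ (h.el_mem px_mem_nineH) hx3
  have hp := NormalPComplement.hasNormalPComplement_iff_isPGroup_quotient.1 hcomp
  have hCp : IsPGroup 3 C := fun g => by
    obtain ⟨k, hk⟩ := hp (QuotientGroup.mk g)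
    refine ⟨k, ?_⟩
    rw [← QuotientGroup.mk_pow, QuotientGroup.eq_one_iff, hcore, Subgroup.mem_bot] at hk
    exact hk
  have htop : (⊤ : Subgroup C) ≤ P₁ :=
    (S.3 (hCp.to_subgroup ⊤) le_top).le.trans hSeq.le
  exact fun g hg => htop (Subgroup.mem_top (⟨g, hg⟩ : C))
omit [Finite G] in
theorem exists_of_mem_pb {g : G} (hc : g ∈ Subgroup.centralizer ({h.el pb} : Set G))
    (hn : g ∈ Subgroup.normalizer (h.J : Set G)) :
    ∃ (o : Fin 2) (v : Fin 3 × Fin 3 × Fin 3), g = h.el (tau ^ o.val * jel v) := by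
  obtain ⟨σ, hσ, rfl⟩ := h.exists_el hn
  rw [Subgroup.mem_centralizer_singleton_iff] at hc
  obtain ⟨m, v, hv⟩ := exists_of_comm_pb hσ ((h.el_comm hσ pb_mem_nineH).1 hc)
  exact ⟨m, v, by rw [hv]⟩

theorem centralizer_weight_three {v : Fin 3 × Fin 3 × Fin 3} {g : Perm (Fin 9)} (hg : g ∈ nineH)
    (hv : g * px * g⁻¹ = jel v ∨ g * px⁻¹ * g⁻¹ = jel v) :
    Subgroup.centralizer ({h.el (jel v)} : Set G) ≤ Subgroup.normalizer (h.J : Set G) := by
  intro c hc
  rw [Subgroup.mem_centralizer_singleton_iff] at hc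
  have hgn := h.el_mem hg
  have key : (h.el g)⁻¹ * c * h.el g ∈ Subgroup.centralizer ({h.el px} : Set G) := by
    rw [Subgroup.mem_centralizer_singleton_iff]
    rcases hv with e | e
    · rw [← e, h.el_conj hg px_mem_nineH] at hc
      calc (h.el g)⁻¹ * c * h.el g * h.el px
          = (h.el g)⁻¹ * (c * (h.el g * h.el px * (h.el g)⁻¹)) * h.el g := by group
        _ = (h.el g)⁻¹ * (h.el g * h.el px * (h.el g)⁻¹ * c) * h.el g := by rw [hc]
        _ = _ := by group
    · rw [← e, h.el_conj hg (inv_mem px_mem_nineH), h.el_inv px_mem_nineH] at hc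
      have hc' : c * (h.el g * h.el px * (h.el g)⁻¹) = h.el g * h.el px * (h.el g)⁻¹ * c := by
        have hcom : Commute c (h.el g * h.el px * (h.el g)⁻¹)⁻¹ := by
          rw [show (h.el g * h.el px * (h.el g)⁻¹)⁻¹ = h.el g * (h.el px)⁻¹ * (h.el g)⁻¹ by group]
          exact hc
        simpa using hcom.inv_right.eq
      calc (h.el g)⁻¹ * c * h.el g * h.el px
          = (h.el g)⁻¹ * (c * (h.el g * h.el px * (h.el g)⁻¹)) * h.el g := by group
        _ = (h.el g)⁻¹ * (h.el g * h.el px * (h.el g)⁻¹ * c) * h.el g := by rw [hc']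
        _ = _ := by group
  have h1 := mul_mem (mul_mem hgn (h.centralizer_px key)) (inv_mem hgn)
  rwa [show h.el g * ((h.el g)⁻¹ * c * h.el g) * (h.el g)⁻¹ = c by group] at h1

set_option maxHeartbeats 2000000 in
theorem centralizer_pb :
    Subgroup.centralizer ({h.el pb} : Set G) ≤ Subgroup.normalizer (h.J : Set G) := by
  classical
  haveI : Fact (Nat.Prime 3) := ⟨Nat.prime_three⟩
  set C := Subgroup.centralizer ({h.el pb} : Set G) with hCdef
  set N := Subgroup.normalizer (h.J : Set G) with hNdef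
  have hbJ : h.el pb ∈ h.J := by rw [pb_eq_jel]; exact h.el_jel_mem _
  have hb3 : orderOf (h.el pb) = 3 := by
    refine orderOf_eq_prime (h.J_exp hbJ) fun e => ?_
    rw [← h.el_one] at e
    exact absurd (h.el_inj pb_mem_nineH (one_mem _) e) (by decide +kernel)
  let b : C := ⟨h.el pb, h.J_le_centralizer_pb hbJ⟩
  let Z : Subgroup C := Subgroup.zpowers b
  have hbc : ∀ c : C, c * b = b * c := fun c =>
    Subtype.ext (Subgroup.mem_centralizer_singleton_iff.1 c.2)
  have hzc : ∀ z ∈ Z, ∀ c : C, c * z = z * c := by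
    intro z hz c
    obtain ⟨k, rfl⟩ := Subgroup.mem_zpowers_iff.1 hz
    exact ((show Commute c b from hbc c).zpow_right k).eq
  haveI hZn : Z.Normal := ⟨fun z hz c => by rwa [hzc z hz c, mul_inv_cancel_right]⟩
  have hZ3 : Nat.card Z = 3 := by
    rw [Nat.card_zpowers, ← Subgroup.orderOf_coe]; exact hb3
  let J₁ : Subgroup C := h.J.subgroupOf C
  let N₁ : Subgroup C := N.subgroupOf C
  have hJ₁ : Nat.card J₁ = 27 := by
    rw [Nat.card_congr (Subgroup.subgroupOfEquivOfLe h.J_le_centralizer_pb).toEquiv, h.card_J]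
  have hZJ : Z ≤ J₁ := Subgroup.zpowers_le.2 hbJ
  have hJN : J₁ ≤ N₁ := fun a ha => Subgroup.le_normalizer (show (a : G) ∈ h.J from ha)
  have hNJ : ∀ g : C, g ∈ Subgroup.normalizer (J₁ : Set C) ↔ g ∈ N₁ := by
    intro g
    constructor
    · intro hg
      refine Subgroup.mem_normalizer_iff.2 fun a => ?_
      constructor
      · intro ha
        exact (Subgroup.mem_normalizer_iff.1 hg ⟨a, h.J_le_centralizer_pb ha⟩).1 ha
      · intro ha
        have hCm : a ∈ C := by
          have := mul_mem (mul_mem (inv_mem g.2) (h.J_le_centralizer_pb ha)) g.2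
          simpa [mul_assoc] using this
        exact (Subgroup.mem_normalizer_iff.1 hg ⟨a, hCm⟩).2 ha
    · intro hg
      exact Subgroup.mem_normalizer_iff.2 fun a => Subgroup.mem_normalizer_iff.1 hg (a : G)
  have hel2 : ∀ (o : Fin 2) (v : Fin 3 × Fin 3 × Fin 3), tau ^ o.val * jel v ∈ nineH := fun o v =>
    mul_mem (pow_mem tau_mem_nineH _) (jel_mem_nineH v)
  have htC : ∀ (o : Fin 2) (v : Fin 3 × Fin 3 × Fin 3), h.el (tau ^ o.val * jel v) ∈ C := fun o v => by
    rw [hCdef, Subgroup.mem_centralizer_singleton_iff]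
    exact (h.el_comm (hel2 o v) pb_mem_nineH).2
      (((show Commute tau pb from tau_comm_pb).pow_left _).mul_left (jel_comm_pb v)).eq
  have hN₁ : Nat.card N₁ = 54 := by
    have hb : Function.Bijective (fun p : Fin 2 × (Fin 3 × Fin 3 × Fin 3) =>
        (⟨⟨_, htC p.1 p.2⟩, h.el_mem (hel2 p.1 p.2)⟩ : N₁)) := by
      refine ⟨fun p q e => ?_, fun g => ?_⟩
      · have e' := congrArg (fun u : N₁ => ((u : C) : G)) e
        exact (by decide +kernel : ∀ p q : Fin 2 × (Fin 3 × Fin 3 × Fin 3),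
          tau ^ p.1.val * jel p.2 = tau ^ q.1.val * jel q.2 → p = q) p q
            (h.el_inj (hel2 p.1 p.2) (hel2 q.1 q.2) e')
      · obtain ⟨o, v, e⟩ := h.exists_of_mem_pb (g : C).2 g.2
        exact ⟨(o, v), Subtype.ext (Subtype.ext e.symm)⟩
    rw [← Nat.card_congr (Equiv.ofBijective _ hb)]
    simp
  have hJ₁p : IsPGroup 3 J₁ := IsPGroup.of_card (n := 3) (by rw [hJ₁]; norm_num)
  obtain ⟨S, hS⟩ := hJ₁p.exists_le_sylow
  have hSeq : (S : Subgroup C) = J₁ := by
    by_contra hne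
    haveI : Group.IsNilpotent (S : Subgroup C) := S.2.isNilpotent
    have hlt : J₁.subgroupOf (S : Subgroup C) < ⊤ :=
      lt_top_iff_ne_top.2 fun e => hne (le_antisymm (Subgroup.subgroupOf_eq_top.1 e) hS)
    obtain ⟨g, hg, hgn⟩ := SetLike.exists_of_lt (Group.normalizerCondition_of_isNilpotent _ hlt)
    have hgJ : (g : C) ∈ Subgroup.normalizer (J₁ : Set C) := Subgroup.mem_normalizer_iff.2 fun a => by
      constructor
      · intro ha
        exact (Subgroup.mem_normalizer_iff.1 hg ⟨a, hS ha⟩).1 ha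
      · intro ha
        have haS : a ∈ (S : Subgroup C) := by
          have := mul_mem (mul_mem (inv_mem g.2) (hS ha)) g.2
          simpa [mul_assoc] using this
        exact (Subgroup.mem_normalizer_iff.1 hg ⟨a, haS⟩).2 ha
    refine hgn (show ((g : C) : G) ∈ h.J from ?_)
    obtain ⟨o, v, e⟩ := h.exists_of_mem_pb (g : C).2 ((hNJ g).1 hgJ)
    obtain ⟨k, hk⟩ := S.2 g
    have hgk : ((g : C) : G) ^ 3 ^ k = 1 := by
      simpa using congrArg (fun u : (S : Subgroup C) => ((u : C) : G)) hk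
    have h2 : ((g : C) : G) ^ 2 ∈ h.J := by
      rw [e, pow_two, ← h.el_mul (hel2 o v) (hel2 o v), h.el_mem_J (mul_mem (hel2 o v) (hel2 o v))]
      obtain ⟨w, hw⟩ := (by decide +kernel : ∀ (o : Fin 2) (v : Fin 3 × Fin 3 × Fin 3),
        ∃ w, jel w = tau ^ o.val * jel v * (tau ^ o.val * jel v)) o v
      exact hw ▸ jel_mem_baseJ w
    obtain ⟨m, hm⟩ : ∃ m, 3 ^ k + 1 = 2 * m := by
      obtain ⟨m, hm⟩ := (Odd.add_one (Odd.pow (by decide : Odd 3)) : Even (3 ^ k + 1))
      exact ⟨m, by omega⟩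
    have h3 : ((g : C) : G) = (((g : C) : G) ^ 2) ^ m := by rw [← pow_mul, ← hm, pow_succ, hgk, one_mul]
    rw [h3]
    exact pow_mem h2 m
  let π : C →* C ⧸ Z := QuotientGroup.mk' Z
  have hπ : Function.Surjective π := QuotientGroup.mk'_surjective Z
  have hker : π.ker = Z := QuotientGroup.ker_mk' Z
  let P : Sylow 3 (C ⧸ Z) := S.mapSurjective hπ
  have hPe : (P : Subgroup (C ⧸ Z)) = J₁.map π := by
    show (S : Subgroup C).map π = _
    rw [hSeq]
  have hquot : Nat.card (C ⧸ Z) * 3 = Nat.card C := by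
    rw [Subgroup.card_eq_card_quotient_mul_card_subgroup Z, hZ3]
  have hmapcard : ∀ (H : Subgroup C), Z ≤ H → Nat.card (H.map π) * 3 = Nat.card H := by
    intro H hZH
    have hi := Subgroup.index_map_eq H hπ (by rw [hker]; exact hZH)
    have h1 := Subgroup.card_mul_index (H.map π)
    have h2 := Subgroup.card_mul_index H
    have hne : H.index ≠ 0 := Subgroup.index_ne_zero_of_finite
    rw [hi] at h1
    apply Nat.eq_of_mul_eq_mul_right (Nat.pos_of_ne_zero hne)
    rw [h2, ← hquot, ← h1]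
    ring
  have hcard : Nat.card P = 9 := by
    have h1 := hmapcard J₁ hZJ
    rw [hJ₁] at h1
    rw [show Nat.card P = Nat.card (P : Subgroup (C ⧸ Z)) from rfl, hPe]
    omega
  have hcomap : (J₁.map π).comap π = J₁ := Subgroup.comap_map_eq_self (by rw [hker]; exact hZJ)
  have hNe : Subgroup.normalizer ((P : Subgroup (C ⧸ Z)) : Set (C ⧸ Z)) = N₁.map π := by
    apply Subgroup.comap_injective hπ
    rw [Subgroup.comap_map_eq_self (by rw [hker]; exact hZJ.trans hJN),
      Subgroup.comap_normalizer_eq_of_surjective _ hπ, hPe, hcomap]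
    ext g
    exact hNJ g
  have hN18 : Nat.card (Subgroup.normalizer ((P : Subgroup (C ⧸ Z)) : Set (C ⧸ Z))) = 18 := by
    have h1 := hmapcard N₁ (hZJ.trans hJN)
    rw [hN₁] at h1
    rw [hNe]
    omega
  have hexp : ∀ s ∈ (P : Subgroup (C ⧸ Z)), s ^ 3 = 1 := by
    rw [hPe]
    rintro _ ⟨a, ha, rfl⟩
    rw [← map_pow, show a ^ 3 = 1 from Subtype.ext (by simpa using h.J_exp ha), map_one]
  let J' : (Fin 3 × Fin 3 × Fin 3) → C := fun v =>
    ⟨h.el (jel v), h.J_le_centralizer_pb (h.el_jel_mem v)⟩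
  have hJ'mul : ∀ v w, J' (v + w) = J' v * J' w := fun v w => Subtype.ext (by
    show h.el (jel (v + w)) = h.el (jel v) * h.el (jel w)
    rw [← h.el_mul (jel_mem_nineH v) (jel_mem_nineH w), jel_mul])
  have hJ'z : ∀ k : Fin 3, π (J' (k, k, 0)) = 1 := by
    intro k
    have hz : J' (k, k, 0) ∈ Z := by
      have h1 : J' (1, 1, 0) = b := Subtype.ext (by show h.el (jel (1, 1, 0)) = h.el pb; rw [pb_eq_jel])
      have h0 : J' 0 = 1 := Subtype.ext (by show h.el (jel 0) = 1; rw [jel_zero, h.el_one])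
      obtain rfl | rfl | rfl := (by decide : ∀ k : Fin 3, k = 0 ∨ k = 1 ∨ k = 1 + 1) k
      · rw [show ((0, 0, 0) : Fin 3 × Fin 3 × Fin 3) = 0 from rfl, h0]
        exact one_mem Z
      · rw [h1]
        exact Subgroup.mem_zpowers b
      · rw [show ((1 + 1, 1 + 1, 0) : Fin 3 × Fin 3 × Fin 3) = (1, 1, 0) + (1, 1, 0) from rfl,
          hJ'mul, h1]
        exact mul_mem (Subgroup.mem_zpowers b) (Subgroup.mem_zpowers b)
    rw [← MonoidHom.mem_ker, hker]; exact hz
  have hmemP : ∀ s ∈ (P : Subgroup (C ⧸ Z)), ∃ v, π (J' v) = s := by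
    rw [hPe]
    rintro _ ⟨a, ha, rfl⟩
    obtain ⟨v, hv⟩ := h.exists_jel ha
    exact ⟨v, congrArg π (Subtype.ext hv)⟩
  have hinv : ∃ g ∈ Subgroup.normalizer ((P : Subgroup (C ⧸ Z)) : Set (C ⧸ Z)),
      ∀ s ∈ (P : Subgroup (C ⧸ Z)), g * s * g⁻¹ = s⁻¹ := by
    have ht : h.el tau ∈ C := by simpa [jel_zero] using htC 1 0
    refine ⟨π ⟨_, ht⟩, ?_, fun s hs => ?_⟩
    · rw [hNe]
      exact Subgroup.mem_map_of_mem _ (h.el_mem tau_mem_nineH)
    · obtain ⟨v, rfl⟩ := hmemP s hs
      obtain ⟨k, hk⟩ := tau_conj v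
      have e : (⟨_, ht⟩ : C) * J' v * (⟨_, ht⟩ : C)⁻¹ = J' (-v + (k, k, 0)) := Subtype.ext (by
        show h.el tau * h.el (jel v) * (h.el tau)⁻¹ = h.el (jel (-v + (k, k, 0)))
        rw [← h.el_conj tau_mem_nineH (jel_mem_nineH v), hk])
      rw [← map_inv, ← map_mul, ← map_mul, e, hJ'mul, map_mul, hJ'z, mul_one]
      refine eq_inv_of_mul_eq_one_left ?_
      rw [← map_mul, ← hJ'mul, neg_add_cancel]
      exact hJ'z 0
  have hx₀ : π (J' (1, 0, 0)) ∈ (P : Subgroup (C ⧸ Z)) := by
    rw [hPe]; exact Subgroup.mem_map_of_mem _ (h.el_jel_mem (1, 0, 0))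
  have hC : ∀ s ∈ (P : Subgroup (C ⧸ Z)), s ∉ Subgroup.zpowers (π (J' (1, 0, 0))) →
      Subgroup.centralizer ({s} : Set (C ⧸ Z)) = (P : Subgroup (C ⧸ Z)) := by
    intro s hs hsx
    obtain ⟨v, rfl⟩ := hmemP s hs
    have hv : v.2.2 ≠ 0 := by
      intro h0
      obtain ⟨α, β, γ⟩ := v
      obtain rfl : γ = 0 := h0
      obtain ⟨i, k, hik⟩ := (by decide +kernel : ∀ α β : Fin 3, ∃ i k : Fin 3,
        ((α, β, 0) : Fin 3 × Fin 3 × Fin 3) = (i, 0, 0) + (k, k, 0)) α β
      refine hsx ?_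
      rw [hik, hJ'mul, map_mul, hJ'z, mul_one]
      obtain rfl | rfl | rfl := (by decide : ∀ k : Fin 3, k = 0 ∨ k = 1 ∨ k = 1 + 1) i
      · rw [hJ'z 0]
        exact one_mem _
      · exact Subgroup.mem_zpowers _
      · rw [show ((1 + 1, 0, 0) : Fin 3 × Fin 3 × Fin 3) = (1, 0, 0) + (1, 0, 0) from rfl,
          hJ'mul, map_mul]
        exact mul_mem (Subgroup.mem_zpowers _) (Subgroup.mem_zpowers _)
    obtain ⟨k, g, hg, hgv⟩ := exists_weight_three v hv
    have hjN := h.centralizer_weight_three (moves_mem_nineH g hg) hgv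
    have hse : π (J' v) = π (J' (v + (k, k, 0))) := by rw [hJ'mul, map_mul, hJ'z, mul_one]
    have hw : (v + (k, k, 0)).2.2 ≠ 0 := by simpa using hv
    rw [hse, hPe]
    set j := J' (v + (k, k, 0)) with hjdef
    set L := (Subgroup.centralizer ({π j} : Set (C ⧸ Z))).comap π with hLdef
    have hLz : ∀ c ∈ L, ∃ z ∈ Z, c * j * c⁻¹ = j * z := by
      intro c hc
      rw [hLdef, Subgroup.mem_comap, Subgroup.mem_centralizer_singleton_iff, ← map_mul, ← map_mul] at hc
      refine ⟨j⁻¹ * (c * j * c⁻¹), ?_, by group⟩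
      rw [← hker, MonoidHom.mem_ker]
      simp only [map_mul, map_inv]
      rw [map_mul, map_mul] at hc
      rw [hc, mul_inv_cancel_right, inv_mul_cancel]
    let L₀ : Subgroup L := (Subgroup.centralizer ({j} : Set C)).subgroupOf L
    haveI hL₀n : L₀.Normal := ⟨fun d hd c => by
      obtain ⟨z, hz, e⟩ := hLz c c.2
      have hd' : (d : C) * j = j * (d : C) := Subgroup.mem_centralizer_singleton_iff.1 hd
      have hq : ((c : C) * d * (c : C)⁻¹) * (j * z) = (j * z) * ((c : C) * d * (c : C)⁻¹) := by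
        rw [← e]
        calc (c : C) * d * (c : C)⁻¹ * ((c : C) * j * (c : C)⁻¹) = (c : C) * (d * j) * (c : C)⁻¹ := by group
          _ = (c : C) * (j * d) * (c : C)⁻¹ := by rw [hd']
          _ = _ := by group
      show ((c * d * c⁻¹ : L) : C) ∈ Subgroup.centralizer ({j} : Set C)
      rw [Subgroup.mem_centralizer_singleton_iff]
      simp only [Subgroup.coe_mul, Subgroup.coe_inv]
      rw [← mul_assoc, mul_assoc j, ← hzc z hz ((c : C) * d * (c : C)⁻¹), ← mul_assoc] at hq
      exact mul_right_cancel hq⟩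
    have hq3 : IsPGroup 3 (L ⧸ L₀) := by
      intro q
      obtain ⟨c, rfl⟩ := QuotientGroup.mk'_surjective L₀ q
      refine ⟨1, ?_⟩
      rw [← map_pow, pow_one, QuotientGroup.mk'_apply, QuotientGroup.eq_one_iff]
      obtain ⟨z, hz, e⟩ := hLz c c.2
      show ((c ^ 3 : L) : C) ∈ Subgroup.centralizer ({j} : Set C)
      rw [Subgroup.mem_centralizer_singleton_iff, Subgroup.coe_pow, pow_three']
      have hz3 : z * z * z = 1 := by
        have := pow_card_eq_one' (x := (⟨z, hz⟩ : Z))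
        rw [hZ3, pow_three'] at this
        exact congrArg Subtype.val this
      have e1 : (c : C) * j = j * z * c := by rw [← e, inv_mul_cancel_right]
      calc (c : C) * c * c * j = (c : C) * c * (c * j) := by group
        _ = (c : C) * c * (j * z * c) := by rw [e1]
        _ = (c : C) * (c * j) * z * c := by group
        _ = (c : C) * (j * z * c) * z * c := by rw [e1]
        _ = (c : C) * j * z * (c * z) * c := by group
        _ = j * z * c * z * (c * z) * c := by rw [e1]
        _ = j * z * (c * z) * (c * z) * c := by group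
        _ = j * z * (z * c) * (z * c) * c := by rw [hzc z hz (c : C)]
        _ = j * z * z * (c * z) * c * c := by group
        _ = j * z * z * (z * c) * c * c := by rw [hzc z hz (c : C)]
        _ = j * (z * z * z) * (c * c * c) := by group
        _ = _ := by rw [hz3, mul_one]
    have hJL : J₁ ≤ L := fun a ha => by
      rw [hLdef, Subgroup.mem_comap, Subgroup.mem_centralizer_singleton_iff, ← map_mul, ← map_mul]
      exact congrArg π (Subtype.ext (h.J_comm ha (h.el_jel_mem _)))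
    have hJL₀ : J₁.subgroupOf L ≤ L₀ := fun a ha => by
      show (a : C) ∈ Subgroup.centralizer ({j} : Set C)
      rw [Subgroup.mem_centralizer_singleton_iff]
      exact Subtype.ext (h.J_comm ha (h.el_jel_mem _))
    have h3 : ¬ 3 ∣ (J₁.subgroupOf L).index := fun hd => by
      refine S.not_dvd_index ?_
      rw [hSeq, ← Subgroup.relIndex_top_right, ← Subgroup.relIndex_mul_relIndex J₁ L ⊤ hJL le_top]
      exact Dvd.dvd.mul_right hd _
    have hL₀ : L₀ = ⊤ := by
      obtain ⟨m, hm⟩ := hq3.index (⊥ : Subgroup (L ⧸ L₀))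
      rw [Subgroup.index_bot, ← Subgroup.index] at hm
      rcases m with _ | m
      · exact Subgroup.index_eq_one.1 (by rw [hm, pow_zero])
      · refine absurd ?_ h3
        exact (hm ▸ Dvd.intro_left (3 ^ m) (pow_succ 3 m).symm : 3 ∣ L₀.index).trans
          (Subgroup.index_dvd_of_le hJL₀)
    have hLJ : L ≤ J₁ := by
      intro c hc
      have hcj : c ∈ Subgroup.centralizer ({j} : Set C) :=
        (hL₀ ▸ Subgroup.mem_top _ : (⟨c, hc⟩ : L) ∈ L₀)
      rw [Subgroup.mem_centralizer_singleton_iff] at hcj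
      have hcN : (c : G) ∈ N := hjN (by
        rw [Subgroup.mem_centralizer_singleton_iff]; exact congrArg Subtype.val hcj)
      obtain ⟨o, w, e⟩ := h.exists_of_mem_pb c.2 hcN
      have ho : o = 0 := by
        by_contra ho
        obtain rfl : o = 1 := by omega
        have e' : h.el (tau * jel w) * h.el (jel (v + (k, k, 0))) =
            h.el (jel (v + (k, k, 0))) * h.el (tau * jel w) := by
          have := congrArg Subtype.val hcj
          simpa [e] using this
        exact not_comm_tau w _ hw ((h.el_comm (mul_mem tau_mem_nineH (jel_mem_nineH w))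
          (jel_mem_nineH _)).1 e')
      show (c : G) ∈ h.J
      rw [e, ho, Fin.val_zero, pow_zero, one_mul]
      exact h.el_jel_mem w
    apply Subgroup.comap_injective hπ
    rw [hcomap]
    exact le_antisymm hLJ hJL
  have hcore : Cfsg.pPrimeCore 3 (C ⧸ Z) = ⊥ := by
    set M := (Cfsg.pPrimeCore 3 (C ⧸ Z)).comap π with hMdef
    have hZM : Z ≤ M := fun z hz => by
      rw [hMdef, Subgroup.mem_comap, (MonoidHom.mem_ker.1 (by rw [hker]; exact hz) : π z = 1)]
      exact one_mem _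
    have hmap : M.map π = Cfsg.pPrimeCore 3 (C ⧸ Z) := Subgroup.map_comap_eq_self_of_surjective hπ _
    have hMc := hmapcard M hZM
    rw [hmap] at hMc
    have hK3 : ¬ 3 ∣ Nat.card (Cfsg.pPrimeCore 3 (C ⧸ Z)) :=
      (Nat.prime_three.coprime_iff_not_dvd).1 (Cores.card_pPrimeCore_coprime 3).symm
    have hZsub : Nat.card (Z.subgroupOf M) = 3 := by
      rw [Nat.card_congr (Subgroup.subgroupOfEquivOfLe hZM).toEquiv, hZ3]
    have hidx : ¬ 3 ∣ (Z.subgroupOf M).index := by
      have h1 := Subgroup.card_mul_index (Z.subgroupOf M)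
      rw [hZsub, ← hMc, mul_comm _ 3] at h1
      rw [Nat.eq_of_mul_eq_mul_left (by norm_num : 0 < 3) h1]
      exact hK3
    let Q : Sylow 3 M := (IsPGroup.of_card (n := 1) (by rw [hZsub]; norm_num) :
      IsPGroup 3 (Z.subgroupOf M)).toSylow hidx
    have hNC : Subgroup.normalizer ((Q : Subgroup M) : Set M) ≤
        Subgroup.centralizer ((Q : Subgroup M) : Set M) := fun n _ =>
      Subgroup.mem_centralizer_iff.2 fun z hz => Subtype.ext
        ((hzc _ (show (z : C) ∈ Z from hz) (n : C)).symm)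
    have hcompl := MonoidHom.ker_transferSylow_isComplement' Q hNC
    have hT3 := MonoidHom.not_dvd_card_ker_transferSylow Q hNC
    set T := (MonoidHom.transferSylow Q hNC).ker
    haveI : M.Normal := Subgroup.Normal.comap inferInstance π
    have hTsn : (T.map M.subtype).IsSubnormal :=
      (Subgroup.Normal.isSubnormal (inferInstance : T.Normal)).trans'
        (Subgroup.Normal.isSubnormal (inferInstance : M.Normal))
    have hTbot : T = ⊥ := by
      have hle := Cores.le_pPrimeCore_of_subnormal (p := 3) hTsn (by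
        rw [Subgroup.card_map_of_injective M.subtype_injective]
        exact (Nat.prime_three.coprime_iff_not_dvd.2 hT3).symm)
      rw [h.cores _ (h.el_mem pb_mem_nineH) hb3, le_bot_iff,
        Subgroup.map_eq_bot_iff_of_injective _ M.subtype_injective] at hle
      exact hle
    rw [hTbot] at hcompl
    have htop := Subgroup.isComplement'_bot_left.1 hcompl
    rw [← hmap, Subgroup.map_eq_bot_iff, hker]
    intro z hz
    have hzQ : (⟨z, hz⟩ : M) ∈ (Q : Subgroup M) := by rw [htop]; trivial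
    exact hzQ
  haveI hnorm : (P : Subgroup (C ⧸ Z)).Normal :=
    Inverted.normal_of_inverted P hcard hexp hN18 hinv _ hx₀ hC hcore
  haveI : J₁.Normal := hcomap ▸ (hPe ▸ hnorm).comap π
  intro g hg
  exact (hNJ ⟨g, hg⟩).1 (by rw [Subgroup.normalizer_eq_top]; trivial)

end Hyp

end CfsgLib.AltNineLocal
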