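/-
Image lists of permutations of nine points, and the searches in the alternating group of degree six.
-/
import Cfsg.Agent.Lib.AltNineLocal.Model

set_option autoImplicit false

namespace CfsgLib.AltNineLocal.SixSearch

open Equiv

/-- The list of images. -/
def code (σ : Perm (Fin 9)) : List ℕ := List.ofFn fun i => (σ i).val

/-- Composition of image lists. -/
def cmb (a b : List ℕ) : List ℕ := b.map fun i => a.getD i 0

/-- The image list of the identity. -/
def idc : List ℕ := [0, 1, 2, 3, 4, 5, 6, 7, 8]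

theorem code_inj {σ τ : Perm (Fin 9)} (h : code σ = code τ) : σ = τ :=
  Equiv.ext fun i => Fin.ext (congrFun (List.ofFn_injective h) i)

theorem code_one : code 1 = idc := by decide +kernel

theorem code_mul (σ τ : Perm (Fin 9)) : code (σ * τ) = cmb (code σ) (code τ) := by
  rw [code, code, code, cmb, List.map_ofFn]
  congr 1
  funext i
  show ((σ * τ) i).val = (List.ofFn fun i => (σ i).val).getD (τ i).val 0
  rw [List.getD_eq_getElem?_getD, List.getElem?_ofFn, dif_pos (τ i).isLt]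
  rfl

/-- The three-cycle on three points. -/
def cycC (i a b : Fin 9) : List ℕ := code (cyc i a b)

/-- A third point, to complete a three-cycle. -/
def third (j k a : Fin 9) : Fin 9 := if a = j then k else j

/-- The first factor in the enumeration of even permutations. -/
def lead3 (i j k a : Fin 9) : Perm (Fin 9) := if a = i then 1 else cyc i a (third j k a)

/-- The even permutations moving only points of a list. -/
def evens : List (Fin 9) → List (List ℕ)
  | i :: j :: k :: l => (i :: j :: k :: l).flatMap fun a => (evens (j :: k :: l)).map fun c => cmb (code (lead3 i j k a)) c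
  | _ => [idc]

theorem cyc_apply_left {i j k : Fin 9} (hij : i ≠ j) (hik : i ≠ k) : cyc i j k i = j := by
  rw [cyc, Perm.mul_apply, swap_apply_of_ne_of_ne hij hik, swap_apply_left]

theorem cyc_mem_altOn {s : Finset (Fin 9)} {i j k : Fin 9} (hij : i ≠ j) (hjk : j ≠ k)
    (hi : i ∈ s) (hj : j ∈ s) (hk : k ∈ s) : cyc i j k ∈ altOn s := by
  refine ⟨by simp [cyc, Perm.sign_swap hij, Perm.sign_swap hjk], fun x hx => ?_⟩
  have hxi : x ≠ i := fun e => hx (e ▸ hi)
  have hxj : x ≠ j := fun e => hx (e ▸ hj)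
  have hxk : x ≠ k := fun e => hx (e ▸ hk)
  rw [cyc, Perm.mul_apply, swap_apply_of_ne_of_ne hxj hxk, swap_apply_of_ne_of_ne hxi hxj]

theorem small_even {l : List (Fin 9)} (hl : l.length ≤ 2) {σ : Perm (Fin 9)} (hs : Perm.sign σ = 1)
    (hσ : ∀ i, i ∉ l → σ i = i) : σ = 1 := by
  by_contra hne
  have hsub : σ.support ⊆ l.toFinset := fun x hx => List.mem_toFinset.2 <| by
    by_contra k; exact Perm.mem_support.1 hx (hσ x k)
  have hle : σ.support.card ≤ 2 :=
    (Finset.card_le_card hsub).trans ((List.toFinset_card_le l).trans hl)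
  have h2 := Perm.two_le_card_support_of_ne_one hne
  have hsw : σ.IsSwap := Perm.card_support_eq_two.1 (le_antisymm hle h2)
  rw [hsw.sign_eq] at hs
  exact absurd hs (by decide)

theorem mem_evens : ∀ (l : List (Fin 9)), l.Nodup → ∀ σ : Perm (Fin 9), Perm.sign σ = 1 →
    (∀ i, i ∉ l → σ i = i) → code σ ∈ evens l := by
  intro l
  induction l with
  | nil => intro _ σ hs hσ; rw [small_even (by simp) hs hσ, code_one]; exact List.mem_singleton.2 rfl
  | cons i l ih =>
    intro hnd σ hs hσ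
    match l, ih, hnd, hσ with
    | [], _, _, hσ => rw [small_even (by simp) hs hσ, code_one]; exact List.mem_singleton.2 rfl
    | [j], _, _, hσ => rw [small_even (by simp) hs hσ, code_one]; exact List.mem_singleton.2 rfl
    | j :: k :: m, ih, hnd, hσ =>
      obtain ⟨hil, hnd'⟩ := List.nodup_cons.1 hnd
      have hij : i ≠ j := fun e => hil (e ▸ List.mem_cons_self)
      have hik : i ≠ k := fun e => hil (e ▸ List.mem_cons_of_mem _ List.mem_cons_self)
      have hjk : j ≠ k := fun e => (List.nodup_cons.1 hnd').1 (e ▸ List.mem_cons_self)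
      have hmem : σ i ∈ i :: j :: k :: m := by
        by_contra h
        exact h (by rw [σ.injective (hσ _ h)]; exact List.mem_cons_self)
      obtain ⟨g, hg⟩ : ∃ g, g = lead3 i j k (σ i) := ⟨_, rfl⟩
      have hgm : g ∈ altOn (i :: j :: k :: m).toFinset ∧ g i = σ i := by
        rw [hg, lead3]
        split
        · next e => exact ⟨one_mem _, e.symm⟩
        · next e =>
          rw [third]
          split
          · next e' =>
            exact ⟨cyc_mem_altOn (Ne.symm e) (e' ▸ hjk) (by simp) (List.mem_toFinset.2 hmem) (by simp),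
              cyc_apply_left (Ne.symm e) hik⟩
          · next e' =>
            exact ⟨cyc_mem_altOn (Ne.symm e) e' (by simp) (List.mem_toFinset.2 hmem) (by simp),
              cyc_apply_left (Ne.symm e) hij⟩
      have hσ' : σ ∈ altOn (i :: j :: k :: m).toFinset := ⟨hs, fun x hx => hσ x fun h => hx (List.mem_toFinset.2 h)⟩
      have hrest := mul_mem (inv_mem hgm.1) hσ'
      have := ih hnd' (g⁻¹ * σ) hrest.1 fun x hx => by
        by_cases hxi : x = i
        · rw [hxi, Perm.mul_apply, ← hgm.2, Perm.coe_inv, Equiv.symm_apply_apply]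
        · exact hrest.2 x fun h => (List.mem_cons.1 (List.mem_toFinset.1 h)).elim hxi hx
      rw [evens]
      refine List.mem_flatMap.2 ⟨σ i, hmem, List.mem_map.2 ⟨_, this, ?_⟩⟩
      rw [← hg, ← code_mul, mul_inv_cancel_left]

/-- The last six points, listed. -/
def sixPts : List (Fin 9) := [3, 4, 5, 6, 7, 8]

theorem code_mem_evens {σ : Perm (Fin 9)} (hσ : σ ∈ six 0) : code σ ∈ evens sixPts :=
  mem_evens _ (by decide) σ hσ.1 fun i hi => hσ.2 i fun k =>
    hi ((show ∀ i : Fin 9, i ∈ offBlock 0 → i ∈ sixPts by decide +kernel) i k)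

/-- An element of order four normalising the two block cycles. -/
def qq : Perm (Fin 9) := swap 3 6 * swap 4 7 * swap 7 5 * swap 5 8

/-- The nine elements of the Sylow subgroup. -/
def pList : List (Perm (Fin 9)) :=
  ([0, 1, 2] : List ℕ).flatMap fun i => ([0, 1, 2] : List ℕ).map fun j => ax 1 ^ i * ax 2 ^ j

/-- The thirty-six elements of the normaliser. -/
def nList : List (Perm (Fin 9)) :=
  ([0, 1, 2, 3] : List ℕ).flatMap fun i => pList.map fun s => qq ^ i * s

/-- The four normal forms of the images of the two generators. -/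
def normForms : List (Perm (Fin 9) × Perm (Fin 9)) :=
  [(ax 1, qq), (ax 1, qq⁻¹), (ax 1 * ax 2, qq), (ax 1 * ax 2, qq⁻¹)]

/-- The image lists of the Sylow subgroup. -/
def pC : List (List ℕ) :=
  [[0,1,2,3,4,5,6,7,8],
   [0,1,2,3,4,5,7,8,6],
   [0,1,2,3,4,5,8,6,7],
   [0,1,2,4,5,3,6,7,8],
   [0,1,2,4,5,3,7,8,6],
   [0,1,2,4,5,3,8,6,7],
   [0,1,2,5,3,4,6,7,8],
   [0,1,2,5,3,4,7,8,6],
   [0,1,2,5,3,4,8,6,7]]

/-- The image lists of the normaliser. -/
def nC : List (List ℕ) :=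
  [[0,1,2,3,4,5,6,7,8],
   [0,1,2,3,4,5,7,8,6],
   [0,1,2,3,4,5,8,6,7],
   [0,1,2,4,5,3,6,7,8],
   [0,1,2,4,5,3,7,8,6],
   [0,1,2,4,5,3,8,6,7],
   [0,1,2,5,3,4,6,7,8],
   [0,1,2,5,3,4,7,8,6],
   [0,1,2,5,3,4,8,6,7],
   [0,1,2,6,7,8,3,5,4],
   [0,1,2,6,7,8,5,4,3],
   [0,1,2,6,7,8,4,3,5],
   [0,1,2,7,8,6,3,5,4],
   [0,1,2,7,8,6,5,4,3],
   [0,1,2,7,8,6,4,3,5],
   [0,1,2,8,6,7,3,5,4],
   [0,1,2,8,6,7,5,4,3],
   [0,1,2,8,6,7,4,3,5],
   [0,1,2,3,5,4,6,8,7],
   [0,1,2,3,5,4,8,7,6],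
   [0,1,2,3,5,4,7,6,8],
   [0,1,2,5,4,3,6,8,7],
   [0,1,2,5,4,3,8,7,6],
   [0,1,2,5,4,3,7,6,8],
   [0,1,2,4,3,5,6,8,7],
   [0,1,2,4,3,5,8,7,6],
   [0,1,2,4,3,5,7,6,8],
   [0,1,2,6,8,7,3,4,5],
   [0,1,2,6,8,7,4,5,3],
   [0,1,2,6,8,7,5,3,4],
   [0,1,2,8,7,6,3,4,5],
   [0,1,2,8,7,6,4,5,3],
   [0,1,2,8,7,6,5,3,4],
   [0,1,2,7,6,8,3,4,5],
   [0,1,2,7,6,8,4,5,3],
   [0,1,2,7,6,8,5,3,4]]

/-- The image lists of the normal forms. -/
def formC : List (List ℕ × List ℕ) :=
  [([0, 1, 2, 4, 5, 3, 6, 7, 8], [0, 1, 2, 6, 7, 8, 3, 5, 4]), ([0, 1, 2, 4, 5, 3, 6, 7, 8], [0, 1, 2, 6, 8, 7, 3, 4, 5]), ([0, 1, 2, 4, 5, 3, 7, 8, 6], [0, 1, 2, 6, 7, 8, 3, 5, 4]), ([0, 1, 2, 4, 5, 3, 7, 8, 6], [0, 1, 2, 6, 8, 7, 3, 4, 5])]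

theorem pC_eq : pList.map code = pC := by decide +kernel
theorem nC_eq : nList.map code = nC := by decide +kernel
theorem formC_eq : normForms.map (fun w => (code w.1, code w.2)) = formC := by decide +kernel

theorem mem_of_code {l : List (Perm (Fin 9))} {σ : Perm (Fin 9)} (h : code σ ∈ l.map code) : σ ∈ l := by
  obtain ⟨τ, hτ, e⟩ := List.mem_map.1 h
  exact code_inj e ▸ hτ

theorem mem_pC {σ : Perm (Fin 9)} (h : σ ∈ pList) : code σ ∈ pC := pC_eq ▸ List.mem_map_of_mem h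
theorem mem_nC {σ : Perm (Fin 9)} (h : σ ∈ nList) : code σ ∈ nC := nC_eq ▸ List.mem_map_of_mem h

/-- The test for preserving the blocks. -/
def blkTest (y : List ℕ) : Bool :=
  y.getD 3 0 / 3 == y.getD 4 0 / 3 && y.getD 3 0 / 3 == y.getD 5 0 / 3 && y.getD 6 0 / 3 == y.getD 7 0 / 3

theorem check_nine : ((evens sixPts).all fun y => !blkTest y || nC.contains y) = true := by decide +kernel

theorem scan_nine0 {σ : Perm (Fin 9)} (hσ : σ ∈ six 0) (h1 : blk (σ 3) = blk (σ 4))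
    (h2 : blk (σ 3) = blk (σ 5)) (h3 : blk (σ 6) = blk (σ 7)) : σ ∈ nList := by
  have hd : ∀ i : Fin 9, (code σ).getD i.val 0 = (σ i).val := fun i => by
    rw [code, List.getD_eq_getElem?_getD, List.getElem?_ofFn, dif_pos i.isLt]; rfl
  have e : ∀ i j : Fin 9, blk (σ i) = blk (σ j) →
      ((code σ).getD i.val 0 / 3 == (code σ).getD j.val 0 / 3) = true := fun i j h => by
    rw [beq_iff_eq, hd, hd]; exact congrArg Fin.val h
  have ht : blkTest (code σ) = true := by
    show ((_ && _) && _) = true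
    rw [Bool.and_eq_true, Bool.and_eq_true]
    exact ⟨⟨e 3 4 h1, e 3 5 h2⟩, e 6 7 h3⟩
  have := List.all_eq_true.1 check_nine _ (code_mem_evens hσ)
  rw [ht] at this
  exact mem_of_code (nC_eq ▸ List.contains_iff_mem.1 (by simpa using this))

theorem check_normal : ((evens sixPts).all fun y =>
    !((pC.any fun p => cmb y [0, 1, 2, 4, 5, 3, 6, 7, 8] == cmb p y) && (pC.any fun p => cmb y [0, 1, 2, 3, 4, 5, 7, 8, 6] == cmb p y)) ||
      nC.contains y) = true := by decide +kernel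

theorem scan_normal {σ : Perm (Fin 9)} (hσ : σ ∈ six 0) (h1 : σ * ax 1 * σ⁻¹ ∈ pList)
    (h2 : σ * ax 2 * σ⁻¹ ∈ pList) : σ ∈ nList := by
  have key : ∀ g : Perm (Fin 9), σ * g * σ⁻¹ ∈ pList →
      (pC.any fun p => cmb (code σ) (code g) == cmb p (code σ)) = true := fun g hg =>
    List.any_eq_true.2 ⟨_, mem_pC hg, by
      rw [beq_iff_eq, ← code_mul, ← code_mul, inv_mul_cancel_right]⟩
  have := List.all_eq_true.1 check_normal _ (code_mem_evens hσ)
  rw [← show code (ax 1) = [0, 1, 2, 4, 5, 3, 6, 7, 8] by decide +kernel, ← show code (ax 2) = [0, 1, 2, 3, 4, 5, 7, 8, 6] by decide +kernel,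
    key _ h1, key _ h2] at this
  exact mem_of_code (nC_eq ▸ List.contains_iff_mem.1 (by simpa using this))

theorem check_forms : (pC.all fun a => a == idc || nC.all fun q =>
    !(cmb (cmb q q) (cmb q q) == idc) || cmb q q == idc ||
      nC.any fun n => formC.any fun w => cmb n a == cmb w.1 n && cmb n q == cmb w.2 n) = true := by
  decide +kernel

theorem normalise {a q : Perm (Fin 9)} (ha : a ∈ pList) (ha1 : a ≠ 1) (hq : q ∈ nList) (hq4 : q ^ 4 = 1)
    (hq2 : q ^ 2 ≠ 1) : ∃ n ∈ nList, (n * a * n⁻¹, n * q * n⁻¹) ∈ normForms := by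
  have h := List.all_eq_true.1 check_forms _ (mem_pC ha)
  simp only [Bool.or_eq_true, beq_iff_eq] at h
  rcases h with h | h
  · exact absurd (code_inj (h.trans code_one.symm)) ha1
  have h' := List.all_eq_true.1 h _ (mem_nC hq)
  simp only [Bool.or_eq_true, beq_iff_eq, Bool.not_eq_true', beq_eq_false_iff_ne, ← code_mul] at h'
  rcases h' with (h' | h') | h'
  · exact absurd (by rw [show q * q * (q * q) = q ^ 4 by rw [← sq q, ← sq, ← pow_mul], hq4, code_one]) h'
  · exact absurd ((sq q).trans (code_inj (h'.trans code_one.symm))) hq2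
  obtain ⟨n, hn, h'⟩ := List.any_eq_true.1 h'
  obtain ⟨w, hw, h'⟩ := List.any_eq_true.1 h'
  simp only [Bool.and_eq_true, beq_iff_eq] at h'
  rw [← formC_eq, List.mem_map] at hw
  obtain ⟨⟨A, Q⟩, hAQ, rfl⟩ := hw
  rw [← nC_eq, List.mem_map] at hn
  obtain ⟨ν, hν, rfl⟩ := hn
  simp only [← code_mul] at h'
  refine ⟨ν, hν, ?_⟩
  rw [mul_inv_eq_iff_eq_mul.2 (code_inj h'.1), mul_inv_eq_iff_eq_mul.2 (code_inj h'.2)]
  exact hAQ

theorem check_rigid : ((evens sixPts).all fun y =>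
    !(cmb y (cmb y y) == idc) || !(cmb (cmb [0, 1, 2, 4, 5, 3, 6, 7, 8] y) (cmb [0, 1, 2, 4, 5, 3, 6, 7, 8] y) == idc) ||
      !(cmb (cmb (cmb (cmb y (cmb (cmb [0, 1, 2, 3, 4, 5, 8, 6, 7] y) [0, 1, 2, 3, 4, 5, 7, 8, 6])) [0, 1, 2, 4, 5, 3, 6, 7, 8]) [0, 1, 2, 4, 5, 3, 6, 7, 8])
        (cmb (cmb [0, 1, 2, 3, 4, 5, 7, 8, 6] y) [0, 1, 2, 3, 4, 5, 8, 6, 7]) == [0, 1, 2, 6, 7, 8, 3, 5, 4]) || y == [0, 1, 2, 4, 6, 5, 3, 7, 8]) = true := by decide +kernel

theorem rigid {y : Perm (Fin 9)} (hy : y ∈ six 0) (h3 : y * (y * y) = 1) (h2 : ax 1 * y * (ax 1 * y) = 1)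
    (hw : y * (ax 2 * ax 2 * y * (ax 2 * ax 2)⁻¹) * ax 1 * ax 1 * (ax 2 * y * (ax 2)⁻¹) = qq) :
    y = cyc 3 4 6 := by
  have e1 : (ax 2 * ax 2)⁻¹ = ax 2 := by decide +kernel
  have e2 : (ax 2)⁻¹ = ax 2 * ax 2 := by decide +kernel
  rw [e1, e2] at hw
  have h := List.all_eq_true.1 check_rigid _ (code_mem_evens hy)
  rw [← show code (ax 1) = [0, 1, 2, 4, 5, 3, 6, 7, 8] by decide +kernel, ← show code (ax 2) = [0, 1, 2, 3, 4, 5, 7, 8, 6] by decide +kernel,
    ← show code (ax 2 * ax 2) = [0, 1, 2, 3, 4, 5, 8, 6, 7] by decide +kernel, ← show code qq = [0, 1, 2, 6, 7, 8, 3, 5, 4] by decide +kernel,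
    ← show code (cyc 3 4 6) = [0, 1, 2, 4, 6, 5, 3, 7, 8] by decide +kernel] at h
  simp only [← code_mul, ← code_one, h3, h2, hw, beq_self_eq_true, Bool.not_true, Bool.false_or, beq_iff_eq] at h
  exact code_inj h

end CfsgLib.AltNineLocal.SixSearch
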