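/-
The alternating group of degree six on the six points outside the first block: every embedding of the
normaliser of a Sylow three-subgroup extends uniquely to an automorphism.
-/
import Cfsg.Agent.Lib.AltNineLocal.SixSearch
import Cfsg.Agent.Lib.ShortPres.Carmichael
import Mathlib.GroupTheory.SpecificGroups.Alternating.Simple
import Mathlib.GroupTheory.Sylow

set_option autoImplicit false

namespace CfsgLib.AltNineLocal

open Equiv SixSearch
open scoped Pointwise

/-! ### The Sylow subgroup and its normaliser -/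

/-- The group of order thirty-six. -/
abbrev nine0 : Subgroup (Perm (Fin 9)) := six 0 ⊓ nineH

theorem ax1_nine0 : ax 1 ∈ nine0 :=
  Subgroup.mem_inf.2 ⟨cyc_mem_altOn (by decide) (by decide) (by decide +kernel) (by decide +kernel) (by decide +kernel),
    ax_mem_nineH 1⟩

theorem ax2_nine0 : ax 2 ∈ nine0 :=
  Subgroup.mem_inf.2 ⟨cyc_mem_altOn (by decide) (by decide) (by decide +kernel) (by decide +kernel) (by decide +kernel),
    ax_mem_nineH 2⟩

theorem qq_six : qq ∈ six 0 := by decide +kernel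
theorem qq_block : qq ∈ blockStab := by decide +kernel

theorem qq_nine0 : qq ∈ nine0 :=
  Subgroup.mem_inf.2 ⟨qq_six, Subgroup.mem_inf.2 ⟨Perm.mem_alternatingGroup.2 qq_six.1, qq_block⟩⟩

theorem pList_nine0 : ∀ σ ∈ pList, σ ∈ nine0 := by
  intro σ hσ
  simp only [pList, List.mem_flatMap, List.mem_map] at hσ
  obtain ⟨i, -, j, -, rfl⟩ := hσ
  exact mul_mem (pow_mem ax1_nine0 _) (pow_mem ax2_nine0 _)

theorem nList_nine0 : ∀ σ ∈ nList, σ ∈ nine0 := by
  intro σ hσ
  simp only [nList, List.mem_flatMap, List.mem_map] at hσ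
  obtain ⟨i, -, s, hs, rfl⟩ := hσ
  exact mul_mem (pow_mem qq_nine0 _) (pList_nine0 s hs)

theorem pList_nodup : pList.Nodup :=
  List.Nodup.of_map code (pC_eq ▸ (by decide +kernel : pC.Nodup))

theorem nList_nodup : nList.Nodup :=
  List.Nodup.of_map code (nC_eq ▸ (by decide +kernel : nC.Nodup))

theorem check_mul : (pC.all fun a => pC.all fun b => pC.contains (cmb a b)) = true := by decide +kernel

theorem pList_mul {a b : Perm (Fin 9)} (ha : a ∈ pList) (hb : b ∈ pList) : a * b ∈ pList :=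
  mem_of_code <| by
    rw [pC_eq, code_mul]
    exact List.contains_iff_mem.1 (List.all_eq_true.1 (List.all_eq_true.1 check_mul _ (mem_pC ha)) _ (mem_pC hb))

theorem mem_nine0_iff {σ : Perm (Fin 9)} : σ ∈ nine0 ↔ σ ∈ nList := by
  refine ⟨fun h => ?_, nList_nine0 σ⟩
  have hb : σ ∈ blockStab := h.2.2
  exact scan_nine0 h.1 (hb 3 4 rfl) (hb 3 5 rfl) (hb 6 7 rfl)

/-- The Sylow three-subgroup. -/
def pSix : Subgroup (Perm (Fin 9)) where
  carrier := {σ | σ ∈ pList}
  one_mem' := show (1 : Perm (Fin 9)) ∈ pList by decide +kernel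
  mul_mem' {a b} ha hb := pList_mul ha hb
  inv_mem' {a} ha := by
    have hp : ∀ n : ℕ, a ^ (n + 1) ∈ pList := fun n => by
      induction n with
      | zero => rw [pow_one]; exact ha
      | succ n ih => rw [pow_succ]; exact pList_mul ih ha
    have hn : 0 < orderOf a := (isOfFinOrder_of_finite a).orderOf_pos
    have e : a⁻¹ = a ^ (2 * orderOf a - 1) := by
      refine inv_eq_of_mul_eq_one_left ?_
      rw [← pow_succ, Nat.sub_add_cancel (by omega), mul_comm, pow_mul, pow_orderOf_eq_one, one_pow]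
    show a⁻¹ ∈ pList
    rw [e, show 2 * orderOf a - 1 = (2 * orderOf a - 2) + 1 by omega]
    exact hp _

theorem mem_pSix {σ : Perm (Fin 9)} : σ ∈ pSix ↔ σ ∈ pList := Iff.rfl

theorem pSix_le : pSix ≤ nine0 := fun σ hσ => pList_nine0 σ hσ

theorem natCard_of_list {M : Subgroup (Perm (Fin 9))} (l : List (Perm (Fin 9))) (hl : l.Nodup)
    (h : ∀ σ, σ ∈ M ↔ σ ∈ l) : Nat.card M = l.length := by
  classical
  rw [Nat.card_congr (Equiv.subtypeEquivRight (q := (· ∈ l.toFinset))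
    fun σ => (h σ).trans List.mem_toFinset.symm), Nat.card_eq_fintype_card, Fintype.card_coe,
    List.toFinset_card_of_nodup hl]

theorem card_pSix : Nat.card pSix = 9 := by
  rw [natCard_of_list pList pList_nodup fun _ => mem_pSix]; decide +kernel

theorem card_nine0 : Nat.card nine0 = 36 := by
  rw [natCard_of_list nList nList_nodup fun _ => mem_nine0_iff]; decide +kernel

theorem ax1_pSix : ax 1 ∈ pSix := mem_pSix.2 (by decide +kernel)
theorem ax2_pSix : ax 2 ∈ pSix := mem_pSix.2 (by decide +kernel)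

theorem qq_conj : qq * ax 1 * qq⁻¹ = ax 2 ∧ qq ^ 2 * ax 1 * (qq ^ 2)⁻¹ = (ax 1)⁻¹ ∧ qq ^ 4 = 1 := by
  decide +kernel

/-- Subgroups containing the two generators contain the whole group of order thirty-six. -/
theorem nine0_le {M : Subgroup (Perm (Fin 9))} (ha : ax 1 ∈ M) (hq : qq ∈ M) : nine0 ≤ M := by
  have hb : ax 2 ∈ M := by
    rw [← qq_conj.1]; exact mul_mem (mul_mem hq ha) (inv_mem hq)
  intro σ hσ
  have := mem_nine0_iff.1 hσ
  simp only [nList, pList, List.mem_flatMap, List.mem_map] at this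
  obtain ⟨i, -, -, ⟨j, -, k, -, rfl⟩, rfl⟩ := this
  exact mul_mem (pow_mem hq _) (mul_mem (pow_mem ha _) (pow_mem hb _))

/-! ### The alternating group of degree six -/

/-- The points outside the first block, counted from zero. -/
def sixPoint : Fin 6 ≃ {i : Fin 9 // i ∈ offBlock 0} where
  toFun i := ⟨⟨i.val + 3, by omega⟩, (by decide +kernel : ∀ i : Fin 6, (⟨i.val + 3, by omega⟩ : Fin 9) ∈ offBlock 0) i⟩
  invFun i := ⟨i.1.val - 3, by omega⟩
  left_inv i := by ext; simp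
  right_inv i := by
    have h : ∀ i : Fin 9, i ∈ offBlock 0 → 3 ≤ i.val := by decide +kernel
    have := h _ i.2
    ext; simp only; omega

/-- The standard embedding. -/
def sixHom : alternatingGroup (Fin 6) →* ↥(six 0) where
  toFun σ := ⟨Perm.extendDomainHom sixPoint σ.1, by
    refine ⟨?_, fun i hi => Perm.extendDomain_apply_not_subtype _ _ hi⟩
    show Perm.sign (Perm.extendDomain σ.1 sixPoint) = 1
    rw [Perm.sign_extendDomain]; exact Perm.mem_alternatingGroup.1 σ.2⟩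
  map_one' := Subtype.ext (map_one (Perm.extendDomainHom sixPoint))
  map_mul' a b := Subtype.ext (map_mul (Perm.extendDomainHom sixPoint) a.1 b.1)

theorem sixHom_bijective : Function.Bijective sixHom := by
  refine ⟨fun a b h => Subtype.ext (Perm.extendDomainHom_injective sixPoint (congrArg Subtype.val h)),
    fun ⟨τ, hτ⟩ => ?_⟩
  have hp : ∀ i, τ i ∈ offBlock 0 ↔ i ∈ offBlock 0 := fun i => by
    constructor
    · intro h; by_contra k; exact k (by rwa [hτ.2 i k] at h)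
    · intro h; by_contra k; exact k (by rw [τ.injective (hτ.2 _ k)]; exact h)
  obtain ⟨σ, hσ⟩ : ∃ σ : Perm (Fin 6), σ = sixPoint.symm.permCongr (τ.subtypePerm hp) := ⟨_, rfl⟩
  have he : Perm.extendDomain σ sixPoint = τ := by
    ext i
    by_cases hi : i ∈ offBlock 0
    · rw [Perm.extendDomain_apply_subtype _ _ hi, hσ]
      simp [Equiv.permCongr_apply]
    · rw [Perm.extendDomain_apply_not_subtype _ _ hi, hτ.2 i hi]
  refine ⟨⟨σ, Perm.mem_alternatingGroup.2 ?_⟩, Subtype.ext he⟩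
  rw [← Perm.sign_extendDomain σ sixPoint, he]
  exact hτ.1

theorem card_six : Nat.card (six 0) = 360 := by
  rw [← Nat.card_congr (Equiv.ofBijective _ sixHom_bijective)]
  have h2 := two_mul_nat_card_alternatingGroup (α := Fin 6)
  rw [Nat.card_perm, Nat.card_fin, show Nat.factorial 6 = 720 from rfl] at h2
  omega

/-- The identification with the alternating group of degree six. -/
noncomputable def sixEquiv : alternatingGroup (Fin 6) ≃* ↥(six 0) := MulEquiv.ofBijective _ sixHom_bijective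

theorem six_simple : IsSimpleGroup ↥(six 0) :=
  have := alternatingGroup.isSimpleGroup (α := Fin 6) (by simp)
  have : Nontrivial ↥(six 0) := sixEquiv.symm.toEquiv.nontrivial
  IsSimpleGroup.isSimpleGroup_of_surjective sixEquiv.toMonoidHom sixEquiv.surjective

theorem six_not_comm : ∃ a b : ↥(six 0), a * b ≠ b * a := by
  refine ⟨⟨ax 1, ax1_nine0.1⟩, ⟨qq, qq_nine0.1⟩, fun h => ?_⟩
  exact absurd (congrArg Subtype.val h) (show ax 1 * qq ≠ qq * ax 1 by decide +kernel)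

/-- A homomorphism to a commutative group kills the alternating group of degree six. -/
theorem six_hom_comm {A : Type*} [CommGroup A] (φ : ↥(six 0) →* A) : φ = 1 := by
  have := six_simple
  rcases φ.normal_ker.eq_bot_or_eq_top with e | e
  · obtain ⟨a, b, hab⟩ := six_not_comm
    exact absurd ((MonoidHom.ker_eq_bot_iff φ).1 e (by rw [map_mul, map_mul, mul_comm])) hab
  · exact MonoidHom.ext fun x => MonoidHom.mem_ker.1 (e ▸ Subgroup.mem_top x)

/-! ### Carmichael's star on the six points -/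

/-- The star of three-cycles carried by two generators and a further element. -/
def star {M : Type*} [Group M] (a b y : M) : Fin 4 → M := ![a, y, b * y * b⁻¹, b * b * y * (b * b)⁻¹]

/-- The element of order four as a word in the star. -/
def starWord {M : Type*} [Group M] (x : Fin 4 → M) : M := x 1 * x 3 * x 0 * x 0 * x 2

theorem map_star {M N : Type*} [Group M] [Group N] (f : M →* N) (a b y : M) (n : Fin 4) :
    f (star a b y n) = star (f a) (f b) (f y) n := by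
  fin_cases n <;> simp [star]

theorem map_starWord {M N : Type*} [Group M] [Group N] (f : M →* N) (x : Fin 4 → M) :
    f (starWord x) = starWord fun n => f (x n) := by
  simp [starWord]

/-- The two conditions on the star. -/
def StarOk (a q y : Perm (Fin 9)) : Prop :=
  (∀ n, star a (q * a * q⁻¹) y n ^ 3 = 1) ∧
    (∀ m n, m ≠ n → (star a (q * a * q⁻¹) y m * star a (q * a * q⁻¹) y n) ^ 2 = 1) ∧
    starWord (star a (q * a * q⁻¹) y) = q

instance (a q y : Perm (Fin 9)) : Decidable (StarOk a q y) := instDecidableAnd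

theorem starOk_std : StarOk (ax 1) qq (cyc 3 4 6) ∧ StarOk (ax 1) qq⁻¹ (cyc 3 4 6) ∧
    StarOk (ax 1 * ax 2) qq (cyc 3 8 4 * cyc 5 7 6) ∧
    StarOk (ax 1 * ax 2) qq⁻¹ (cyc 3 8 4 * cyc 5 7 6) := by decide +kernel

theorem star_y : cyc 3 4 6 ∈ six 0 ∧ cyc 3 8 4 * cyc 5 7 6 ∈ six 0 := by decide +kernel

theorem starOk_pow : qq * ax 1 * qq⁻¹ = ax 2 ∧ (ax 1 * cyc 3 4 6) ^ 5 ≠ 1 ∧
    (star (ax 1) (ax 2) (cyc 3 4 6) 3 * star (ax 1) (ax 2) (cyc 3 4 6) 2 * ax 1) ^ 5 = 1 ∧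
    star (ax 1) (ax 2) (cyc 3 4 6) 3 * star (ax 1) (ax 2) (cyc 3 4 6) 2 * ax 1 ≠ 1 := by decide +kernel

theorem six_card_two {M : Subgroup ↥(six 0)} (h : Nat.card M = 180) : False := by
  have := six_simple
  have hi : M.index = 2 := by
    have := M.card_mul_index
    rw [h, card_six] at this
    omega
  rcases (Subgroup.normal_of_index_eq_two hi).eq_bot_or_eq_top with e | e
  · rw [e, Subgroup.card_bot] at h; omega
  · rw [e, Subgroup.index_top] at hi; omega

/-- The standard star in the group on six points. -/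
def stdStar (n : Fin 4) : ↥(six 0) :=
  ⟨star (ax 1) (ax 2) (cyc 3 4 6) n, (show ∀ n, star (ax 1) (ax 2) (cyc 3 4 6) n ∈ six 0 by decide +kernel) n⟩

theorem starWord_stdStar : starWord stdStar = ⟨qq, qq_nine0.1⟩ :=
  Subtype.ext (show starWord (star (ax 1) (ax 2) (cyc 3 4 6)) = qq by decide +kernel)

theorem closure_stdStar : Subgroup.closure (Set.range stdStar) = ⊤ := by
  obtain ⟨S, hS⟩ : ∃ S, S = Subgroup.closure (Set.range stdStar) := ⟨_, rfl⟩
  rw [← hS]
  have hm : ∀ n, stdStar n ∈ S := fun n => hS ▸ Subgroup.subset_closure ⟨n, rfl⟩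
  have ha : ax 1 ∈ S.map (six 0).subtype := ⟨stdStar 0, hm 0, rfl⟩
  have hq : qq ∈ S.map (six 0).subtype := by
    refine ⟨starWord stdStar, ?_, by rw [starWord_stdStar]; rfl⟩
    exact mul_mem (mul_mem (mul_mem (mul_mem (hm 1) (hm 3)) (hm 0)) (hm 0)) (hm 2)
  have h36 : 36 ∣ Nat.card S := by
    rw [← Subgroup.card_map_of_injective (six 0).subtype_injective, ← card_nine0]
    exact Subgroup.card_dvd_of_le (nine0_le ha hq)
  have h5 : 5 ∣ Nat.card S := by
    obtain ⟨z, hz⟩ : ∃ z : ↥(six 0), z = stdStar 3 * stdStar 2 * stdStar 0 := ⟨_, rfl⟩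
    have hzS : z ∈ S := hz ▸ mul_mem (mul_mem (hm 3) (hm 2)) (hm 0)
    have hz5 : orderOf z = 5 := by
      have : Fact (Nat.Prime 5) := ⟨by norm_num⟩
      rw [← Subgroup.orderOf_coe, hz]
      exact orderOf_eq_prime starOk_pow.2.2.1 starOk_pow.2.2.2
    rw [← hz5, ← Subgroup.orderOf_mk z hzS]
    exact orderOf_dvd_natCard _
  have hd : Nat.card S ∣ 360 := card_six ▸ S.card_subgroup_dvd_card
  have h180 : 180 ∣ Nat.card S := Nat.Coprime.mul_dvd_of_dvd_of_dvd (by norm_num : Nat.Coprime 36 5) h36 h5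
  obtain ⟨m, hm'⟩ := h180
  have hle := Nat.le_of_dvd (by norm_num) hd
  obtain rfl | rfl : m = 1 ∨ m = 2 := by
    have : 0 < Nat.card S := Nat.card_pos
    omega
  · exact (six_card_two (by rw [hm'])).elim
  · exact Subgroup.eq_top_of_card_eq _ (by rw [hm', card_six])

/-- A star satisfying Carmichael's relations is the image of the standard one. -/
theorem exists_of_starOk {a q y : ↥(six 0)} (h : StarOk a q y) :
    ∃ Ψ : ↥(six 0) →* ↥(six 0), Ψ ⟨ax 1, ax1_nine0.1⟩ = a ∧ Ψ ⟨qq, qq_nine0.1⟩ = q := by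
  obtain ⟨x', hx'⟩ : ∃ x', x' = star a (q * a * q⁻¹) y := ⟨_, rfl⟩
  have hc : ∀ n, (x' n : Perm (Fin 9)) = star (a : Perm (Fin 9)) (q * a * q⁻¹) y n := fun n => by
    rw [hx']; exact map_star (six 0).subtype _ _ _ n
  obtain ⟨z, hz⟩ : ∃ z : Fin 4 → ↥(six 0) × ↥(six 0), z = fun n => (stdStar n, x' n) := ⟨_, rfl⟩
  have hstd := starOk_std.1
  rw [StarOk, qq_conj.1] at hstd
  have hb := CfsgLib.ShortPres.carmichael (x := z)
    (fun n => by
      rw [hz]
      refine Prod.ext (Subtype.ext ?_) (Subtype.ext ?_)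
      · exact hstd.1 n
      · show ((x' n : Perm (Fin 9))) ^ 3 = 1
        rw [hc]; exact h.1 n)
    (fun m n hmn => by
      rw [hz]
      refine Prod.ext (Subtype.ext ?_) (Subtype.ext ?_)
      · exact hstd.2.1 m n hmn
      · show ((x' m : Perm (Fin 9)) * x' n) ^ 2 = 1
        rw [hc, hc]; exact h.2.1 m n hmn)
  obtain ⟨K, hK⟩ : ∃ K, K = Subgroup.closure (Set.range z) := ⟨_, rfl⟩
  rw [← hK, Fintype.card_fin, show Nat.factorial (4 + 2) = 720 from rfl] at hb
  obtain ⟨φ, hφ⟩ : ∃ φ : K →* ↥(six 0), φ = (MonoidHom.fst _ _).comp K.subtype := ⟨_, rfl⟩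
  have hzK : ∀ n, z n ∈ K := fun n => hK ▸ Subgroup.subset_closure ⟨n, rfl⟩
  have hφz : ∀ n, φ ⟨z n, hzK n⟩ = stdStar n := fun n => by
    rw [hφ]; show (z n).1 = _; rw [hz]
  have hφs : Function.Surjective φ := by
    rw [← MonoidHom.range_eq_top, eq_top_iff, ← closure_stdStar, Subgroup.closure_le]
    rintro _ ⟨n, rfl⟩
    exact ⟨_, hφz n⟩
  have hφb : Function.Bijective φ := by
    have := hb.1
    refine (Nat.bijective_iff_surjective_and_card φ).2 ⟨hφs, ?_⟩
    have h1 := Nat.card_le_card_of_surjective φ hφs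
    have h2 := hb.2
    rw [card_six] at h1 ⊢
    omega
  obtain ⟨Ψ, hΨ⟩ : ∃ Ψ : ↥(six 0) →* ↥(six 0),
      Ψ = ((MonoidHom.snd _ _).comp K.subtype).comp (MulEquiv.ofBijective φ hφb).symm.toMonoidHom := ⟨_, rfl⟩
  have hgen : ∀ n, Ψ (stdStar n) = x' n := fun n => by
    have h1 : (MulEquiv.ofBijective φ hφb).symm (stdStar n) = ⟨z n, hzK n⟩ := by
      rw [MulEquiv.symm_apply_eq]; exact (hφz n).symm
    rw [hΨ]
    show (((MulEquiv.ofBijective φ hφb).symm (stdStar n) : K) : ↥(six 0) × ↥(six 0)).2 = _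
    rw [h1]
    show (z n).2 = _
    rw [hz]
  refine ⟨Ψ, ?_, ?_⟩
  · have := hgen 0
    rw [hx'] at this
    exact this
  · rw [← starWord_stdStar, map_starWord]
    refine Subtype.ext ?_
    refine (map_starWord (six 0).subtype (fun n => Ψ (stdStar n))).trans ?_
    refine Eq.trans ?_ h.2.2
    exact congrArg starWord (funext fun n => by
      show ((Ψ (stdStar n) : ↥(six 0)) : Perm (Fin 9)) = _
      rw [hgen]; exact hc n)

theorem normForms_ok : ∀ w ∈ normForms, ∃ y ∈ six 0, StarOk w.1 w.2 y := by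
  intro w hw
  simp only [normForms, List.mem_cons, List.not_mem_nil, or_false] at hw
  rcases hw with rfl | rfl | rfl | rfl
  · exact ⟨_, star_y.1, starOk_std.1⟩
  · exact ⟨_, star_y.1, starOk_std.2.1⟩
  · exact ⟨_, star_y.2, starOk_std.2.2.1⟩
  · exact ⟨_, star_y.2, starOk_std.2.2.2⟩

theorem check_qq : (pC.all fun c => pC.contains (cmb (cmb (code qq) c) (code qq⁻¹))) = true := by decide +kernel

theorem qq_norm : ∀ σ ∈ pList, qq * σ * qq⁻¹ ∈ pList := fun σ hσ => mem_of_code <| by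
  rw [pC_eq, code_mul, code_mul]
  exact List.contains_iff_mem.1 (List.all_eq_true.1 check_qq _ (mem_pC hσ))

set_option maxHeartbeats 1000000 in
/-- Every embedding of the group of order thirty-six extends to an automorphism. -/
theorem six_extend (e : ↥nine0 →* ↥(six 0)) (he : Function.Injective e) :
    ∃ Ψ : ↥(six 0) ≃* ↥(six 0), ∀ σ : ↥nine0, Ψ ⟨σ, σ.2.1⟩ = e σ := by
  classical
  have hfac : Fact (Nat.Prime 3) := ⟨by norm_num⟩
  -- the image of the Sylow subgroup is conjugate to the standard one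
  obtain ⟨P₀, hP₀⟩ : ∃ P₀ : Subgroup ↥(six 0), P₀ = pSix.subgroupOf (six 0) := ⟨_, rfl⟩
  have hc₀ : Nat.card P₀ = 9 := by
    rw [hP₀, Nat.card_congr (Subgroup.subgroupOfEquivOfLe (pSix_le.trans inf_le_left)).toEquiv, card_pSix]
  obtain ⟨P₁, hP₁⟩ : ∃ P₁ : Subgroup ↥(six 0), P₁ = (pSix.subgroupOf nine0).map e := ⟨_, rfl⟩
  have hc₁ : Nat.card P₁ = 9 := by
    rw [hP₁, Subgroup.card_map_of_injective he,
      Nat.card_congr (Subgroup.subgroupOfEquivOfLe pSix_le).toEquiv, card_pSix]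
  have h9 : 9 = 3 ^ (Nat.card ↥(six 0)).factorization 3 := by
    rw [card_six, show (360 : ℕ) = 2 ^ 3 * 3 ^ 2 * 5 by norm_num,
      Nat.factorization_mul (by norm_num) (by norm_num), Nat.factorization_mul (by norm_num) (by norm_num),
      Nat.factorization_pow, Nat.factorization_pow]
    simp [Nat.Prime.factorization (show Nat.Prime 2 by norm_num),
      Nat.Prime.factorization (show Nat.Prime 3 by norm_num),
      Nat.Prime.factorization (show Nat.Prime 5 by norm_num)]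
  obtain ⟨g, hg⟩ := MulAction.exists_smul_eq ↥(six 0) (Sylow.ofCard P₁ (hc₁.trans h9))
    (Sylow.ofCard P₀ (hc₀.trans h9))
  have hg' : MulAut.conj g • P₁ = P₀ := by
    have := congrArg (fun P : Sylow 3 ↥(six 0) => (P : Subgroup ↥(six 0))) hg
    simpa [Sylow.coe_subgroup_smul, Sylow.ofCard] using this
  obtain ⟨e', he'⟩ : ∃ e' : ↥nine0 →* ↥(six 0), e' = (MulAut.conj g).toMonoidHom.comp e := ⟨_, rfl⟩
  have he'i : Function.Injective e' := by
    rw [he']; exact (MulAut.conj g).injective.comp he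
  have hP : ∀ σ : ↥nine0, (σ : Perm (Fin 9)) ∈ pSix → (e' σ : Perm (Fin 9)) ∈ pList := by
    intro σ hσ
    have : MulAut.conj g • e σ ∈ MulAut.conj g • P₁ :=
      Subgroup.smul_mem_pointwise_smul _ _ _ (hP₁ ▸ Subgroup.mem_map_of_mem e hσ)
    rw [hg', hP₀] at this
    rw [he']
    exact this
  have hsurj : ∀ x ∈ pList, ∃ σ : ↥nine0, (σ : Perm (Fin 9)) ∈ pSix ∧ (e' σ : Perm (Fin 9)) = x := by
    intro x hx
    have hx6 : x ∈ six 0 := (pSix_le (mem_pSix.2 hx)).1
    have : (⟨x, hx6⟩ : ↥(six 0)) ∈ MulAut.conj g • P₁ := by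
      rw [hg', hP₀]; exact hx
    obtain ⟨_, hw, hwx⟩ := this
    rw [hP₁] at hw
    obtain ⟨σ, hσ, rfl⟩ := hw
    exact ⟨σ, hσ, by rw [he']; exact congrArg Subtype.val hwx⟩
  obtain ⟨a₁, ha₁⟩ : ∃ a₁, a₁ = e' ⟨ax 1, ax1_nine0⟩ := ⟨_, rfl⟩
  obtain ⟨q₁, hq₁⟩ : ∃ q₁, q₁ = e' ⟨qq, qq_nine0⟩ := ⟨_, rfl⟩
  have hqn : (q₁ : Perm (Fin 9)) ∈ nList := by
    have hnorm := qq_norm
    have key : ∀ x ∈ pList, (q₁ : Perm (Fin 9)) * x * (q₁ : Perm (Fin 9))⁻¹ ∈ pList := by
      intro x hx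
      obtain ⟨σ, hσ, rfl⟩ := hsurj x hx
      have := hP (⟨qq, qq_nine0⟩ * σ * ⟨qq, qq_nine0⟩⁻¹) (mem_pSix.2 (hnorm σ (mem_pSix.1 hσ)))
      rw [map_mul, map_mul, map_inv, ← hq₁] at this
      exact this
    exact scan_normal q₁.2 (key _ (mem_pSix.1 ax1_pSix))
      (key _ (mem_pSix.1 ax2_pSix))
  have hane : (a₁ : Perm (Fin 9)) ≠ 1 := fun h => by
    have : e' ⟨ax 1, ax1_nine0⟩ = e' 1 := by rw [map_one, ← ha₁]; exact Subtype.ext h
    exact absurd (congrArg Subtype.val (he'i this)) (show ax 1 ≠ 1 by decide +kernel)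
  have hq4 : (q₁ : Perm (Fin 9)) ^ 4 = 1 := by
    rw [hq₁, ← Subgroup.coe_pow, ← map_pow,
      show (⟨qq, qq_nine0⟩ : ↥nine0) ^ 4 = 1 from Subtype.ext qq_conj.2.2, map_one]; rfl
  have hq2 : (q₁ : Perm (Fin 9)) ^ 2 ≠ 1 := fun h => by
    have : e' (⟨qq, qq_nine0⟩ ^ 2) = e' 1 := by rw [map_pow, map_one, ← hq₁]; exact Subtype.ext h
    exact absurd (congrArg Subtype.val (he'i this)) (show qq ^ 2 ≠ 1 by decide +kernel)
  obtain ⟨n, hn, hw⟩ := normalise (ha₁ ▸ hP _ ax1_pSix) hane hqn hq4 hq2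
  obtain ⟨y, hy6, hok⟩ := normForms_ok _ hw
  obtain ⟨u, hu⟩ : ∃ u : ↥(six 0), u = ⟨n, (nList_nine0 n hn).1⟩ * g := ⟨_, rfl⟩
  obtain ⟨m, hm⟩ : ∃ m : ↥(six 0), m = ⟨n, (nList_nine0 n hn).1⟩ := ⟨_, rfl⟩
  obtain ⟨Ψ, hΨa, hΨq⟩ := exists_of_starOk (a := m * a₁ * m⁻¹) (q := m * q₁ * m⁻¹) (y := ⟨y, hy6⟩)
    (by rw [hm]; exact hok)
  have hinj : Function.Injective Ψ := by
    have := six_simple
    rcases Ψ.normal_ker.eq_bot_or_eq_top with e₀ | e₀
    · exact (MonoidHom.ker_eq_bot_iff Ψ).1 e₀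
    · exfalso
      have : Ψ ⟨ax 1, ax1_nine0.1⟩ = 1 := MonoidHom.mem_ker.1 (e₀ ▸ Subgroup.mem_top _)
      rw [hΨa, conj_eq_one_iff] at this
      exact hane (congrArg Subtype.val this)
  obtain ⟨Φ, hΦ⟩ : ∃ Φ : ↥(six 0) ≃* ↥(six 0), Φ =
      (MulEquiv.ofBijective Ψ ⟨hinj, Finite.injective_iff_surjective.1 hinj⟩).trans (MulAut.conj u⁻¹) := ⟨_, rfl⟩
  refine ⟨Φ, fun σ => ?_⟩
  obtain ⟨E, hE⟩ : ∃ E : Subgroup ↥nine0,
      E = MonoidHom.eqLocus (Φ.toMonoidHom.comp (Subgroup.inclusion inf_le_left)) e := ⟨_, rfl⟩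
  have hmap : nine0 ≤ E.map nine0.subtype := by
    have hval : ∀ x : ↥(six 0), Φ x = u⁻¹ * Ψ x * u := fun x => by
      rw [hΦ]
      show u⁻¹ * Ψ x * u⁻¹⁻¹ = _
      rw [inv_inv]
    have key : ∀ τ : ↥nine0, Ψ ⟨τ, τ.2.1⟩ = m * e' τ * m⁻¹ → τ ∈ E := by
      intro τ hτ
      rw [hE]
      show Φ ⟨τ, τ.2.1⟩ = e τ
      rw [hval, hτ, he', hu, ← hm]
      show (m * g)⁻¹ * (m * (g * e τ * g⁻¹) * m⁻¹) * (m * g) = e τ
      group
    exact nine0_le ⟨⟨ax 1, ax1_nine0⟩, key _ (hΨa.trans (by rw [ha₁])), rfl⟩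
      ⟨⟨qq, qq_nine0⟩, key _ (hΨq.trans (by rw [hq₁])), rfl⟩
  obtain ⟨τ, hτ, hτe⟩ := hmap σ.2
  rw [hE] at hτ
  have : τ = σ := Subtype.ext hτe
  rw [this] at hτ
  exact hτ

/-- An endomorphism fixing the group of order thirty-six pointwise is the identity. -/
theorem six_rigid (Φ : ↥(six 0) →* ↥(six 0)) (hfix : ∀ σ : ↥(six 0), (σ : Perm (Fin 9)) ∈ nineH → Φ σ = σ)
    (σ : ↥(six 0)) : Φ σ = σ := by
  have hst : ∀ n, stdStar n = star (⟨ax 1, ax1_nine0.1⟩ : ↥(six 0)) ⟨ax 2, ax2_nine0.1⟩ (stdStar 1) n := fun n =>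
    Subtype.ext (map_star (six 0).subtype (⟨ax 1, ax1_nine0.1⟩ : ↥(six 0)) ⟨ax 2, ax2_nine0.1⟩ (stdStar 1) n).symm
  have ha := hfix ⟨ax 1, ax1_nine0.1⟩ ax1_nine0.2
  have hb := hfix ⟨ax 2, ax2_nine0.1⟩ ax2_nine0.2
  have hy : Φ (stdStar 1) = stdStar 1 := by
    refine Subtype.ext (rigid (Φ (stdStar 1)).2 ?_ ?_ ?_)
    · rw [← mul_assoc, ← pow_two, ← pow_succ, ← Subgroup.coe_pow, ← map_pow,
        show stdStar 1 ^ 3 = 1 from Subtype.ext (show cyc 3 4 6 ^ 3 = 1 by decide +kernel), map_one]; rfl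
    · rw [← pow_two]
      show ((⟨ax 1, ax1_nine0.1⟩ * Φ (stdStar 1) : ↥(six 0)) : Perm (Fin 9)) ^ 2 = 1
      rw [← ha, ← map_mul, ← Subgroup.coe_pow, ← map_pow,
        show (⟨ax 1, ax1_nine0.1⟩ * stdStar 1) ^ 2 = (1 : ↥(six 0)) from
          Subtype.ext (show (ax 1 * cyc 3 4 6) ^ 2 = 1 by decide +kernel), map_one]; rfl
    · have h1 : (starWord fun n => Φ (stdStar n)) = ⟨qq, qq_nine0.1⟩ := by
        rw [← map_starWord, starWord_stdStar]; exact hfix _ qq_nine0.2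
      have h2 : ∀ n, Φ (stdStar n) = star ⟨ax 1, ax1_nine0.1⟩ ⟨ax 2, ax2_nine0.1⟩ (Φ (stdStar 1)) n := fun n => by
        rw [hst n, map_star, ha, hb]
      rw [show (fun n => Φ (stdStar n)) = star (⟨ax 1, ax1_nine0.1⟩ : ↥(six 0)) ⟨ax 2, ax2_nine0.1⟩
        (Φ (stdStar 1)) from funext h2] at h1
      show starWord (star (ax 1) (ax 2) ((Φ (stdStar 1) : ↥(six 0)) : Perm (Fin 9))) = qq
      have h3 := congrArg (six 0).subtype h1
      rw [map_starWord] at h3
      refine Eq.trans (congrArg starWord (funext fun n => ?_)) h3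
      exact (map_star (six 0).subtype (⟨ax 1, ax1_nine0.1⟩ : ↥(six 0)) ⟨ax 2, ax2_nine0.1⟩ (Φ (stdStar 1)) n).symm
  have hle : Subgroup.closure (Set.range stdStar) ≤ MonoidHom.eqLocus Φ (MonoidHom.id _) := by
    rw [Subgroup.closure_le]
    rintro _ ⟨n, rfl⟩
    show Φ (stdStar n) = stdStar n
    rw [hst n, map_star, ha, hb, hy]
  exact hle (closure_stdStar ▸ Subgroup.mem_top σ)

end CfsgLib.AltNineLocal
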