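/-
The centraliser of a block cycle in the model, and conjugation of the three groups on six points.
-/
import Cfsg.Agent.Lib.AltNineLocal.SixModel

set_option autoImplicit false

namespace CfsgLib.AltNineLocal

open Equiv SixSearch

theorem ax0_apply : ∀ x : Fin 9, (x ∈ offBlock 0 → ax 0 x = x) ∧ (x ∉ offBlock 0 → ax 0 x ≠ x) := by
  decide +kernel

theorem mem_offBlock {k : Fin 3} {x : Fin 9} : x ∈ offBlock k ↔ blk x ≠ k := by simp [offBlock]

theorem six_comm_ax0 {τ : Perm (Fin 9)} (hτ : τ ∈ six 0) : τ * ax 0 = ax 0 * τ :=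
  Perm.Disjoint.commute (fun x => by
    by_cases hx : x ∈ offBlock 0
    · exact Or.inr ((ax0_apply x).1 hx)
    · exact Or.inl (hτ.2 x hx)) |>.eq

theorem blk_blockStab {σ : Perm (Fin 9)} (hσ : σ ∈ blockStab) {i j : Fin 9} :
    blk (σ i) = blk (σ j) ↔ blk i = blk j := ⟨fun e => by
  have := inv_mem hσ _ _ e
  simpa [Perm.coe_inv] using this, hσ i j⟩

/-- An element of the model commuting with the first block cycle. -/
theorem exists_decomp {σ : Perm (Fin 9)} (hσ : σ ∈ nineH) (hc : σ * ax 0 = ax 0 * σ) :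
    ∃ i : ℕ, ∃ τ ∈ nine0, σ = ax 0 ^ i * τ := by
  have happ : ∀ x, σ (ax 0 x) = ax 0 (σ x) := fun x => Equiv.congr_fun hc x
  have h0 : σ 0 ∉ offBlock 0 := fun h => by
    have := happ 0
    rw [(ax0_apply _).1 h] at this
    exact absurd (σ.injective this) (show ax 0 0 ≠ 0 by decide +kernel)
  obtain ⟨i, hi⟩ : ∃ i : ℕ, (ax 0 ^ i) 0 = σ 0 :=
    (show ∀ x : Fin 9, x ∉ offBlock 0 → ∃ i : Fin 3, (ax 0 ^ i.val) 0 = x by decide +kernel) _ h0 |>.elim
      fun i hi => ⟨i.val, hi⟩
  obtain ⟨τ, hτ⟩ : ∃ τ, τ = (ax 0 ^ i)⁻¹ * σ := ⟨_, rfl⟩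
  have hn : τ ∈ nineH := hτ ▸ mul_mem (inv_mem (pow_mem (ax_mem_nineH 0) i)) hσ
  have hcomm : Commute τ (ax 0) := hτ ▸ ((Commute.refl (ax 0)).pow_left i).inv_left.mul_left hc
  have t0 : τ 0 = 0 := by
    rw [hτ, Perm.mul_apply, ← hi, Perm.coe_inv, Equiv.symm_apply_apply]
  have t1 : τ (ax 0 0) = ax 0 0 := by
    have := Equiv.congr_fun hcomm.eq 0
    rw [Perm.mul_apply, Perm.mul_apply, t0] at this
    exact this
  have t2 : τ (ax 0 (ax 0 0)) = ax 0 (ax 0 0) := by
    have := Equiv.congr_fun hcomm.eq (ax 0 0)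
    rw [Perm.mul_apply, Perm.mul_apply, t1] at this
    exact this
  refine ⟨i, τ, Subgroup.mem_inf.2 ⟨⟨Perm.mem_alternatingGroup.1 hn.1, fun x hx => ?_⟩, hn⟩, by
    rw [hτ, mul_inv_cancel_left]⟩
  rcases (show ∀ x : Fin 9, x ∉ offBlock 0 → x = 0 ∨ x = ax 0 0 ∨ x = ax 0 (ax 0 0) by decide +kernel) x hx with
    rfl | rfl | rfl
  exacts [t0, t1, t2]

theorem ax0_pow_eq_one {i : ℕ} (h : ax 0 ^ i ∈ six 0) : ax 0 ^ i = 1 := by
  have e : i = i / 3 * 3 + i % 3 := by omega
  have h3 : ax 0 ^ i = ax 0 ^ (i % 3) := by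
    conv_lhs => rw [e, pow_add, pow_mul', show ax 0 ^ 3 = 1 by decide +kernel, one_pow, one_mul]
  rw [h3] at h ⊢
  have h0 := h.2 0 (by decide +kernel)
  have : ∀ r : Fin 3, (ax 0 ^ r.val) 0 = 0 → r.val = 0 := by decide +kernel
  rw [show i % 3 = 0 from this ⟨i % 3, Nat.mod_lt _ (by omega)⟩ h0, pow_zero]

/-- Conjugation carries one group on six points to another. -/
theorem six_conj {k : Fin 3} {σ p : Perm (Fin 9)} (hσ : σ ∈ six k) (hp : p ∈ nineH) :
    p * σ * p⁻¹ ∈ six (blk (p (base k))) := by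
  refine ⟨?_, fun x hx => ?_⟩
  · rw [map_mul, map_mul, map_inv, hσ.1, mul_one, mul_inv_cancel]
  · rw [mem_offBlock, not_not] at hx
    have hx' : p⁻¹ x ∉ offBlock k := by
      rw [mem_offBlock, not_not, ← blk_base k, ← blk_blockStab (σ := p) hp.2]
      rw [show p (p⁻¹ x) = x by simp, hx]
    rw [Perm.mul_apply, Perm.mul_apply, hσ.2 _ hx']
    simp

theorem third_eq : ∀ k l a b : Fin 3, k ≠ l → ¬(a = k ∨ a = l) → ¬(b = k ∨ b = l) → b = a := by decide

theorem six_inter {k l : Fin 3} (hkl : k ≠ l) {σ : Perm (Fin 9)} (hk : σ ∈ six k) (hl : σ ∈ six l) :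
    σ ∈ nineH := by
  have hfix : ∀ x, blk x = k ∨ blk x = l → σ x = x := by
    rintro x (e | e)
    · exact hk.2 x (by rw [mem_offBlock, not_not]; exact e)
    · exact hl.2 x (by rw [mem_offBlock, not_not]; exact e)
  have hkeep : ∀ x, blk (σ x) = blk x := by
    intro x
    by_cases hx : blk x = k ∨ blk x = l
    · rw [hfix x hx]
    · have hsx : ¬ (blk (σ x) = k ∨ blk (σ x) = l) := fun e => hx (by
        rwa [σ.injective (hfix _ e)] at e)
      exact third_eq k l _ _ hkl hx hsx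
  exact Subgroup.mem_inf.2 ⟨Perm.mem_alternatingGroup.2 hk.1, fun i j e => by rw [hkeep, hkeep, e]⟩

/-- An element of the model fixing the first block inverts or centralises its cycle. -/
theorem conj_ax0 {p : Perm (Fin 9)} (hp : p ∈ nineH) (h0 : blk (p 0) = 0) :
    p * ax 0 * p⁻¹ = ax 0 ∨ p * ax 0 * p⁻¹ = (ax 0)⁻¹ := by
  have hmem : p * ax 0 * p⁻¹ ∈ altOn ({0, 1, 2} : Finset (Fin 9)) := by
    refine ⟨by rw [map_mul, map_mul, map_inv, Perm.mem_alternatingGroup.1 (ax_mem_nineH 0).1, mul_one,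
      mul_inv_cancel], fun x hx => ?_⟩
    have hx0 : blk x ≠ 0 :=
      (show ∀ x : Fin 9, x ∉ ({0, 1, 2} : Finset (Fin 9)) → blk x ≠ 0 by decide +kernel) x hx
    have hy : p⁻¹ x ∈ offBlock 0 := by
      rw [mem_offBlock]
      intro e
      have := (blk_blockStab (σ := p) hp.2 (i := p⁻¹ x) (j := 0)).2 (e.trans rfl)
      rw [show p (p⁻¹ x) = x by simp, h0] at this
      exact hx0 this
    rw [Perm.mul_apply, Perm.mul_apply, (ax0_apply _).1 hy]
    simp
  have hne : p * ax 0 * p⁻¹ ≠ 1 := by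
    rw [Ne, conj_eq_one_iff]
    exact show ax 0 ≠ 1 by decide +kernel
  have hc := mem_evens [0, 1, 2] (by decide) _ hmem.1 fun i hi => hmem.2 i fun k =>
    hi ((show ∀ i : Fin 9, i ∈ ({0, 1, 2} : Finset (Fin 9)) → i ∈ ([0, 1, 2] : List (Fin 9)) by decide +kernel) i k)
  have he : ∀ c ∈ evens [0, 1, 2], c = idc ∨ c = code (ax 0) ∨ c = code (ax 0)⁻¹ := by decide +kernel
  rcases he _ hc with e | e | e
  · exact absurd (code_inj (e.trans code_one.symm)) hne
  · exact Or.inl (code_inj e)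
  · exact Or.inr (code_inj e)

/-- The rotation of the three blocks. -/
def blockShift : Perm (Fin 9) := cyc 0 3 6 * cyc 1 4 7 * cyc 2 5 8

theorem blockShift_mem : blockShift ∈ nineH := by decide +kernel

theorem blockShift_spec : ∀ k : Fin 3, blk ((blockShift ^ k.val) 0) = k ∧
    blockShift ^ k.val * ax 0 * (blockShift ^ k.val)⁻¹ = ax k := by decide +kernel

/-! ### Searches in the group of order thirty-six -/

theorem check_cent : (pC.all fun s => s == idc || nC.all fun t => !(cmb t s == cmb s t) || pC.contains t) = true := by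
  decide +kernel

theorem cent_pList {s t : Perm (Fin 9)} (hs : s ∈ pList) (h1 : s ≠ 1) (ht : t ∈ nine0) (hc : t * s = s * t) :
    t ∈ pList := by
  have h := List.all_eq_true.1 check_cent _ (mem_pC hs)
  simp only [Bool.or_eq_true, beq_iff_eq] at h
  rcases h with h | h
  · exact absurd (code_inj (h.trans code_one.symm)) h1
  have h' := List.all_eq_true.1 h _ (mem_nC (mem_nine0_iff.1 ht))
  simp only [← code_mul, hc, beq_self_eq_true, Bool.not_true, Bool.false_or] at h'
  exact mem_of_code (pC_eq ▸ List.contains_iff_mem.1 h')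

theorem check_line : (pC.all fun s => s == idc ||
    (let y := cmb (code qq) s; !(y == code qq) && !(y == cmb s (code qq)) && !(y == cmb (cmb s s) (code qq)))) = true := by
  decide +kernel

theorem line_pList {s : Perm (Fin 9)} (hs : s ∈ pList) (h1 : s ≠ 1) (n : ℕ) : qq * s * qq⁻¹ ≠ s ^ n := by
  have h := List.all_eq_true.1 check_line _ (mem_pC hs)
  simp only [Bool.or_eq_true, beq_iff_eq, Bool.and_eq_true, Bool.not_eq_true', beq_eq_false_iff_ne] at h
  rcases h with h | ⟨⟨a, b⟩, c⟩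
  · exact absurd (code_inj (h.trans code_one.symm)) h1
  intro e
  have h3 : s ^ 3 = 1 := by
    have hc : (pC.all fun c => cmb c (cmb c c) == idc) = true := by decide +kernel
    have := beq_iff_eq.1 (List.all_eq_true.1 hc _ (mem_pC hs))
    rw [← code_mul, ← code_mul, ← code_one] at this
    rw [pow_three]
    exact code_inj this
  have e' : n = n / 3 * 3 + n % 3 := by omega
  rw [e', pow_add, pow_mul', h3, one_pow, one_mul] at e
  have h' : qq * s = s ^ (n % 3) * qq := mul_inv_eq_iff_eq_mul.1 e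
  rcases (by omega : n % 3 = 0 ∨ n % 3 = 1 ∨ n % 3 = 2) with r | r | r <;> rw [r] at h'
  · exact a (by rw [← code_mul, h', pow_zero, one_mul])
  · exact b (by rw [← code_mul, h', pow_one, code_mul])
  · exact c (by rw [← code_mul, h', sq, code_mul, code_mul])

/-- The conjugating elements used below. -/
def wtList : List (Perm (Fin 9)) :=
  ([0, 1, 2] : List ℕ).flatMap fun i => ([0, 1, 2, 3] : List ℕ).map fun j => qq ^ j * blockShift ^ i

theorem check_wt : (pC.all fun s => s == idc || (wtList.map code).any fun u =>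
    cmb u (code pb) == cmb s u || cmb u (code pb) == cmb (cmb (code (ax 0)) s) u) = true := by decide +kernel

theorem exists_wt {s : Perm (Fin 9)} (hs : s ∈ pList) (h1 : s ≠ 1) :
    ∃ u ∈ nineH, u * pb * u⁻¹ = s ∨ u * pb * u⁻¹ = ax 0 * s := by
  have h := List.all_eq_true.1 check_wt _ (mem_pC hs)
  simp only [Bool.or_eq_true, beq_iff_eq] at h
  rcases h with h | h
  · exact absurd (code_inj (h.trans code_one.symm)) h1
  obtain ⟨c, hc, h⟩ := List.any_eq_true.1 h
  obtain ⟨u, hu, rfl⟩ := List.mem_map.1 hc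
  have hu' : u ∈ nineH := by
    simp only [wtList, List.mem_flatMap, List.mem_map] at hu
    obtain ⟨i, -, j, -, rfl⟩ := hu
    exact mul_mem (pow_mem qq_nine0.2 _) (pow_mem blockShift_mem _)
  simp only [Bool.or_eq_true, beq_iff_eq, ← code_mul] at h
  refine ⟨u, hu', ?_⟩
  rcases h with h | h
  · exact Or.inl (mul_inv_eq_iff_eq_mul.2 (code_inj h))
  · exact Or.inr (mul_inv_eq_iff_eq_mul.2 (code_inj h))

end CfsgLib.AltNineLocal
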