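/-
The quotient of the centraliser of a block cycle by that cycle: a Sylow three-subgroup of order nine,
self-centralising, with normaliser of order thirty-six.
-/
import Cfsg.Agent.Lib.AltNineLocal.SixPerm
import Cfsg.Agent.Lib.AltNineLocal.Local

set_option autoImplicit false
set_option linter.unusedSectionVars false

namespace CfsgLib.AltNineLocal

open Equiv SixSearch

namespace Hyp

variable {G : Type*} [Group G] (h : Hyp G)

theorem el_npow {σ : Perm (Fin 9)} (hσ : σ ∈ nineH) : ∀ n : ℕ, h.el (σ ^ n) = h.el σ ^ n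
  | 0 => by rw [pow_zero, pow_zero, h.el_one]
  | n + 1 => by rw [pow_succ, pow_succ, h.el_mul (pow_mem hσ n) hσ, el_npow hσ n]

/-- The centraliser of the first block cycle. -/
abbrev cAx : Subgroup G := Subgroup.centralizer ({h.el (ax 0)} : Set G)

theorem mem_cAx {g : G} : g ∈ h.cAx ↔ g * h.el (ax 0) = h.el (ax 0) * g :=
  Subgroup.mem_centralizer_singleton_iff

theorem ax0_mem_cAx : h.el (ax 0) ∈ h.cAx := h.mem_cAx.2 rfl

theorem J_le_cAx : h.J ≤ h.cAx := fun a ha => h.mem_cAx.2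
  (h.J_comm ha ((h.el_mem_J (ax_mem_nineH 0)).2 (Subgroup.subset_closure ⟨0, rfl⟩)))

/-- The group of order thirty-six inside the centraliser. -/
def embNine : ↥nine0 →* ↥h.cAx where
  toFun τ := ⟨h.el τ, h.mem_cAx.2 ((h.el_comm τ.2.2 (ax_mem_nineH 0)).2 (six_comm_ax0 τ.2.1))⟩
  map_one' := Subtype.ext h.el_one
  map_mul' a b := Subtype.ext (h.el_mul a.2.2 b.2.2)

/-- The central element. -/
def ctr : ↥h.cAx := ⟨h.el (ax 0), h.ax0_mem_cAx⟩

theorem ctr_comm (x : ↥h.cAx) : x * h.ctr = h.ctr * x := Subtype.ext (h.mem_cAx.1 x.2)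

instance ctr_normal : (Subgroup.zpowers h.ctr).Normal := by
  refine ⟨fun n hn g => ?_⟩
  obtain ⟨i, rfl⟩ := hn
  have : Commute g (h.ctr ^ i) := Commute.zpow_right (h.ctr_comm g) i
  rw [this.eq, mul_inv_cancel_right]
  exact ⟨i, rfl⟩

/-- The quotient. -/
abbrev qAx := ↥h.cAx ⧸ Subgroup.zpowers h.ctr

/-- The projection. -/
abbrev prj : ↥h.cAx →* h.qAx := QuotientGroup.mk' _

/-- The group of order thirty-six in the quotient. -/
def embQuot : ↥nine0 →* h.qAx := h.prj.comp h.embNine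

variable [Finite G]

theorem prj_eq_one {x : ↥h.cAx} (hx : h.prj x = 1) : ∃ n : ℕ, x = h.ctr ^ n := by
  rw [QuotientGroup.mk'_apply, QuotientGroup.eq_one_iff, ← mem_powers_iff_mem_zpowers] at hx
  obtain ⟨n, hn⟩ := hx
  exact ⟨n, hn.symm⟩

theorem embQuot_injective : Function.Injective h.embQuot := by
  rw [injective_iff_map_eq_one]
  intro τ hτ
  obtain ⟨n, hn⟩ := h.prj_eq_one hτ
  have he : h.el τ = h.el (ax 0 ^ n) := by
    rw [h.el_npow (ax_mem_nineH 0)]; exact congrArg Subtype.val hn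
  have := h.el_inj τ.2.2 (pow_mem (ax_mem_nineH 0) n) he
  exact Subtype.ext (this.trans (ax0_pow_eq_one (this ▸ τ.2.1)))

/-- An element of the centraliser normalising `J`. -/
theorem exists_nine {g : G} (hg : g ∈ h.cAx) (hn : g ∈ Subgroup.normalizer (h.J : Set G)) :
    ∃ (i : ℕ) (τ : ↥nine0), g = h.el (ax 0) ^ i * h.el τ := by
  obtain ⟨σ, hσ, rfl⟩ := h.exists_el hn
  obtain ⟨i, τ, hτ, rfl⟩ := exists_decomp hσ ((h.el_comm hσ (ax_mem_nineH 0)).1 (h.mem_cAx.1 hg))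
  exact ⟨i, ⟨τ, hτ⟩, by rw [h.el_mul (pow_mem (ax_mem_nineH 0) i) hτ.2, h.el_npow (ax_mem_nineH 0)]⟩

theorem prj_nine {x : ↥h.cAx} {i : ℕ} {τ : ↥nine0} (hx : (x : G) = h.el (ax 0) ^ i * h.el τ) :
    h.prj x = h.embQuot τ := by
  have : x = h.ctr ^ i * h.embNine τ := Subtype.ext hx
  rw [this, map_mul, map_pow,
    show h.prj h.ctr = 1 from (QuotientGroup.eq_one_iff _).2 (Subgroup.mem_zpowers _), one_pow, one_mul]
  rfl

theorem el_pList {τ : Perm (Fin 9)} (hτ : τ ∈ pList) : h.el τ ∈ h.J := by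
  refine (h.el_mem_J (pList_nine0 τ hτ).2).2 ?_
  simp only [pList, List.mem_flatMap, List.mem_map] at hτ
  obtain ⟨i, -, j, -, rfl⟩ := hτ
  exact mul_mem (pow_mem (show ax 1 ∈ baseJ from Subgroup.subset_closure ⟨1, rfl⟩) _)
    (pow_mem (show ax 2 ∈ baseJ from Subgroup.subset_closure ⟨2, rfl⟩) _)

/-- The image of `J`. -/
def qSyl : Subgroup h.qAx := (pSix.subgroupOf nine0).map h.embQuot

theorem mem_qSyl {x : ↥h.cAx} : h.prj x ∈ h.qSyl ↔ (x : G) ∈ h.J := by
  constructor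
  · rintro ⟨τ, hτ, e⟩
    have e' : h.prj ((h.embNine τ)⁻¹ * x) = 1 := by
      rw [map_mul, map_inv]
      exact inv_mul_eq_one.2 e
    obtain ⟨n, hn⟩ := h.prj_eq_one e'
    rw [inv_mul_eq_iff_eq_mul] at hn
    rw [hn]
    exact mul_mem (h.el_pList hτ) (Subgroup.pow_mem _ ((h.el_mem_J (ax_mem_nineH 0)).2
      (Subgroup.subset_closure ⟨0, rfl⟩)) n)
  · intro hx
    obtain ⟨v, hv⟩ := h.exists_jel hx
    have hm : ax 1 ^ v.2.1.val * ax 2 ^ v.2.2.val ∈ pSix := mul_mem (pow_mem ax1_pSix _) (pow_mem ax2_pSix _)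
    refine ⟨⟨_, pSix_le hm⟩, hm, (h.prj_nine (x := x) (i := v.1.val) ?_).symm⟩
    rw [← hv, jel, mul_assoc, h.el_mul (pow_mem (ax_mem_nineH 0) _) (pSix_le hm).2, h.el_npow (ax_mem_nineH 0)]

theorem card_qSyl : Nat.card h.qSyl = 9 := by
  rw [qSyl, Subgroup.card_map_of_injective h.embQuot_injective,
    Nat.card_congr (Subgroup.subgroupOfEquivOfLe pSix_le).toEquiv, card_pSix]

theorem qSyl_exp {s : h.qAx} (hs : s ∈ h.qSyl) : s ^ 3 = 1 := by
  obtain ⟨x, rfl⟩ := QuotientGroup.mk'_surjective _ s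
  have := h.J_exp (h.mem_qSyl.1 hs)
  rw [← map_pow, show x ^ 3 = 1 from Subtype.ext this, map_one]

variable (hb : Subgroup.centralizer ({h.el pb} : Set G) ≤ Subgroup.normalizer (h.J : Set G))
include hb

/-- Inside the centraliser of the cycle, an element of `J` outside it has centraliser `J`. -/
theorem mem_J_of_comm {s : Perm (Fin 9)} (hs : s ∈ pList) (h1 : s ≠ 1) {z : G} (hz : z ∈ h.cAx)
    (hc : z * h.el s = h.el s * z) : z ∈ h.J := by
  have hsn : s ∈ nineH := (pList_nine0 s hs).2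
  obtain ⟨u, hu, hus⟩ := exists_wt hs h1
  have hzu : z * h.el (u * pb * u⁻¹) = h.el (u * pb * u⁻¹) * z := by
    rcases hus with e | e <;> rw [e]
    · exact hc
    · rw [h.el_mul (ax_mem_nineH 0) hsn]
      exact Commute.mul_right (h.mem_cAx.1 hz) hc
  have hun : h.el u ∈ Subgroup.normalizer (h.J : Set G) := h.el_mem hu
  have hzn : z ∈ Subgroup.normalizer (h.J : Set G) := by
    have hw : (h.el u)⁻¹ * z * h.el u ∈ Subgroup.centralizer ({h.el pb} : Set G) := by
      rw [Subgroup.mem_centralizer_singleton_iff]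
      rw [h.el_conj hu pb_mem_nineH] at hzu
      calc (h.el u)⁻¹ * z * h.el u * h.el pb
          = (h.el u)⁻¹ * (z * (h.el u * h.el pb * (h.el u)⁻¹)) * h.el u := by group
        _ = (h.el u)⁻¹ * ((h.el u * h.el pb * (h.el u)⁻¹) * z) * h.el u := by rw [hzu]
        _ = h.el pb * ((h.el u)⁻¹ * z * h.el u) := by group
    have := mul_mem (mul_mem hun (hb hw)) (inv_mem hun)
    rwa [show h.el u * ((h.el u)⁻¹ * z * h.el u) * (h.el u)⁻¹ = z by group] at this
  obtain ⟨i, τ, rfl⟩ := h.exists_nine hz hzn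
  have ha : Commute (h.el (ax 0)) (h.el s) :=
    (h.el_comm (ax_mem_nineH 0) hsn).2 (six_comm_ax0 (pList_nine0 s hs).1).symm
  have hcτ : h.el τ * h.el s = h.el s * h.el τ := by
    have := ((ha.pow_left i).inv_left).mul_left hc
    rw [inv_mul_cancel_left] at this
    exact this
  exact mul_mem (Subgroup.pow_mem _ ((h.el_mem_J (ax_mem_nineH 0)).2 (Subgroup.subset_closure ⟨0, rfl⟩)) i)
    (h.el_pList (cent_pList hs h1 τ.2 ((h.el_comm τ.2.2 hsn).1 hcτ)))

/-- The centralisers in the quotient. -/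
theorem qSyl_cent {s : h.qAx} (hs : s ∈ h.qSyl) (h1 : s ≠ 1) :
    Subgroup.centralizer ({s} : Set h.qAx) = h.qSyl := by
  obtain ⟨σ, hσ, rfl⟩ := hs
  have hσp : (σ : Perm (Fin 9)) ∈ pList := hσ
  have hσ1 : (σ : Perm (Fin 9)) ≠ 1 := fun e => h1 (by
    rw [show σ = 1 from Subtype.ext e, map_one])
  refine le_antisymm (fun c hc => ?_) fun c hc => Subgroup.mem_centralizer_singleton_iff.2 ?_
  · obtain ⟨y, rfl⟩ := QuotientGroup.mk'_surjective _ c
    have key : ∀ y : ↥h.cAx, Commute (h.prj y) (h.embQuot σ) → ∀ w ∈ h.J, (y : G) * w * (y : G)⁻¹ ∈ h.J := by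
      intro y hy w hw
      have e1 : h.prj ((h.embNine σ)⁻¹ * (y * h.embNine σ * y⁻¹)) = 1 := by
        rw [map_mul, map_mul, map_mul, map_inv, map_inv]
        show (h.embQuot σ)⁻¹ * (h.prj y * h.embQuot σ * (h.prj y)⁻¹) = 1
        rw [hy.eq, mul_inv_cancel_right, inv_mul_cancel]
      obtain ⟨n, hn⟩ := h.prj_eq_one e1
      have hn' : (y : G) * h.el σ * (y : G)⁻¹ = h.el σ * h.el (ax 0) ^ n :=
        congrArg Subtype.val (inv_mul_eq_iff_eq_mul.1 hn)
      have hyw : (y : G) * w * (y : G)⁻¹ ∈ h.cAx := mul_mem (mul_mem y.2 (h.J_le_cAx hw)) (inv_mem y.2)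
      refine h.mem_J_of_comm hb hσp hσ1 hyw ?_
      have c1 : Commute ((y : G) * w * (y : G)⁻¹) ((y : G) * h.el σ * (y : G)⁻¹) := by
        have := (show Commute w (h.el σ) from h.J_comm hw (h.el_pList hσp)).map (MulAut.conj (y : G)).toMonoidHom
        exact this
      have c2 : Commute ((y : G) * w * (y : G)⁻¹) (h.el (ax 0)) := h.mem_cAx.1 hyw
      have := c1.mul_right (c2.pow_right n).inv_right
      rw [hn', mul_inv_cancel_right] at this
      exact this.eq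
    have hy : Commute (h.prj y) (h.embQuot σ) := Subgroup.mem_centralizer_singleton_iff.1 hc
    have hyn : (y : G) ∈ Subgroup.normalizer (h.J : Set G) := by
      rw [Subgroup.mem_normalizer_iff]
      refine fun w => ⟨key y hy w, fun hw => ?_⟩
      have := key y⁻¹ (by rw [map_inv]; exact hy.inv_left) _ hw
      rwa [InvMemClass.coe_inv, inv_inv,
        show (y : G)⁻¹ * ((y : G) * w * (y : G)⁻¹) * (y : G) = w by group] at this
    obtain ⟨i, τ, hy'⟩ := h.exists_nine y.2 hyn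
    rw [h.prj_nine hy'] at hy ⊢
    have : (τ : Perm (Fin 9)) * σ = σ * τ := by
      have := h.embQuot_injective (show h.embQuot (τ * σ) = h.embQuot (σ * τ) by rw [map_mul, map_mul]; exact hy)
      exact congrArg Subtype.val this
    exact ⟨τ, cent_pList hσp hσ1 τ.2 this, rfl⟩
  · obtain ⟨x, rfl⟩ := QuotientGroup.mk'_surjective _ c
    have : x * h.embNine σ = h.embNine σ * x :=
      Subtype.ext (h.J_comm (h.mem_qSyl.1 hc) (h.el_pList hσp))
    show h.prj x * h.embQuot σ = h.embQuot σ * h.prj x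
    exact (map_mul h.prj _ _).symm.trans ((congrArg h.prj this).trans (map_mul h.prj _ _))

omit hb

theorem mem_normalizer_qSyl {x : ↥h.cAx} :
    h.prj x ∈ Subgroup.normalizer (h.qSyl : Set h.qAx) ↔ (x : G) ∈ Subgroup.normalizer (h.J : Set G) := by
  constructor
  · intro hx
    have key : ∀ y : ↥h.cAx, h.prj y ∈ Subgroup.normalizer (h.qSyl : Set h.qAx) →
        ∀ w ∈ h.J, (y : G) * w * (y : G)⁻¹ ∈ h.J := by
      intro y hy w hw
      have := (Subgroup.mem_normalizer_iff.1 hy (h.prj ⟨w, h.J_le_cAx hw⟩)).1 (h.mem_qSyl.2 hw)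
      rw [← map_inv, ← map_mul, ← map_mul] at this
      exact h.mem_qSyl.1 this
    rw [Subgroup.mem_normalizer_iff]
    refine fun w => ⟨key x hx w, fun hw => ?_⟩
    have := key x⁻¹ (by rw [map_inv]; exact inv_mem hx) _ hw
    rwa [InvMemClass.coe_inv, inv_inv,
      show (x : G)⁻¹ * ((x : G) * w * (x : G)⁻¹) * (x : G) = w by group] at this
  · intro hx
    rw [Subgroup.mem_normalizer_iff]
    intro c
    obtain ⟨y, rfl⟩ := QuotientGroup.mk'_surjective _ c
    show h.prj y ∈ h.qSyl ↔ h.prj x * h.prj y * (h.prj x)⁻¹ ∈ h.qSyl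
    rw [← map_inv, ← map_mul, ← map_mul, h.mem_qSyl, h.mem_qSyl]
    exact Subgroup.mem_normalizer_iff.1 hx y

theorem normalizer_qSyl : Subgroup.normalizer (h.qSyl : Set h.qAx) = h.embQuot.range := by
  ext c
  obtain ⟨x, rfl⟩ := QuotientGroup.mk'_surjective _ c
  refine h.mem_normalizer_qSyl.trans ⟨fun hx => ?_, ?_⟩
  · obtain ⟨i, τ, hx'⟩ := h.exists_nine x.2 hx
    exact ⟨τ, (h.prj_nine hx').symm⟩
  · rintro ⟨τ, hτ⟩
    have : h.prj ((h.embNine τ)⁻¹ * x) = 1 := by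
      rw [map_mul, map_inv]; exact inv_mul_eq_one.2 hτ
    obtain ⟨n, hn⟩ := h.prj_eq_one this
    rw [inv_mul_eq_iff_eq_mul] at hn
    rw [hn]
    exact mul_mem (h.el_mem τ.2.2) (Subgroup.pow_mem _ (h.el_mem (ax_mem_nineH 0)) n)

theorem card_normalizer_qSyl : Nat.card (Subgroup.normalizer (h.qSyl : Set h.qAx)) = 36 := by
  rw [h.normalizer_qSyl, Nat.card_congr (MonoidHom.ofInjective h.embQuot_injective).symm.toEquiv, card_nine0]

theorem qSyl_line {s : h.qAx} (hs : s ∈ h.qSyl) (h1 : s ≠ 1) :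
    ∃ g ∈ Subgroup.normalizer (h.qSyl : Set h.qAx), g * s * g⁻¹ ∉ Subgroup.zpowers s := by
  obtain ⟨σ, hσ, rfl⟩ := hs
  refine ⟨h.embQuot ⟨qq, qq_nine0⟩, h.normalizer_qSyl ▸ ⟨_, rfl⟩, fun hm => ?_⟩
  rw [← mem_powers_iff_mem_zpowers] at hm
  obtain ⟨n, hn⟩ := hm
  change h.embQuot σ ^ n = _ at hn
  rw [show h.embQuot σ ^ n = h.embQuot (σ ^ n) from (map_pow h.embQuot σ n).symm, ← map_inv, ← map_mul,
    ← map_mul] at hn
  refine line_pList (show (σ : Perm (Fin 9)) ∈ pList from hσ) (fun e => h1 ?_) n ?_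
  · rw [show σ = 1 from Subtype.ext e, map_one]
  · exact (congrArg Subtype.val (h.embQuot_injective hn)).symm

include hb in
/-- The image of `J` is a Sylow subgroup. -/
theorem exists_sylow : ∃ P : Sylow 3 h.qAx, (P : Subgroup h.qAx) = h.qSyl := by
  have : Fact (Nat.Prime 3) := ⟨Nat.prime_three⟩
  have hp : IsPGroup 3 h.qSyl := IsPGroup.of_card (n := 2) (by rw [h.card_qSyl]; norm_num)
  obtain ⟨Q, hQ⟩ := hp.exists_le_sylow
  refine ⟨Q, le_antisymm (fun g hg => ?_) hQ⟩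
  have hm : h.embQuot ⟨ax 1, ax1_nine0⟩ ∈ h.qSyl := ⟨_, ax1_pSix, rfl⟩
  have hm1 : h.embQuot ⟨ax 1, ax1_nine0⟩ ≠ 1 := fun e => by
    rw [← map_one h.embQuot] at e
    exact absurd (congrArg Subtype.val (h.embQuot_injective e)) (show ax 1 ≠ 1 by decide +kernel)
  have : Nontrivial (Q : Subgroup h.qAx) := ⟨⟨⟨_, hQ hm⟩, 1, fun e => hm1 (congrArg Subtype.val e)⟩⟩
  have hnt := Q.isPGroup'.center_nontrivial
  obtain ⟨z, hz⟩ := exists_ne (1 : Subgroup.center (Q : Subgroup h.qAx))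
  have hzc : ∀ q : (Q : Subgroup h.qAx), q * (z : (Q : Subgroup h.qAx)) = (z : (Q : Subgroup h.qAx)) * q :=
    Subgroup.mem_center_iff.1 z.2
  have hzP : ((z : (Q : Subgroup h.qAx)) : h.qAx) ∈ h.qSyl := by
    rw [← h.qSyl_cent hb hm hm1, Subgroup.mem_centralizer_singleton_iff]
    exact (congrArg Subtype.val (hzc ⟨_, hQ hm⟩)).symm
  rw [← h.qSyl_cent hb hzP fun e => hz (Subtype.ext (Subtype.ext e)), Subgroup.mem_centralizer_singleton_iff]
  exact congrArg Subtype.val (hzc ⟨g, hg⟩)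

end Hyp

end CfsgLib.AltNineLocal
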