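/-
The centraliser of a block cycle is three-local, or contains a labelled alternating group of degree six.
-/
import Cfsg.Agent.Lib.AltNineLocal.SixQuot
import Cfsg.Agent.Lib.AltNineLocal.FourCase
import Mathlib.GroupTheory.Transfer

set_option autoImplicit false
set_option linter.unusedSectionVars false
set_option maxHeartbeats 1000000

namespace CfsgLib.AltNineLocal

open Equiv SixSearch
open scoped IsMulCommutative

namespace Hyp

variable {G : Type*} [Group G] (h : Hyp G) [Finite G]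

/-- The labelled group on six points in the centraliser of the first block cycle. -/
theorem exists_sixZero (ψ : h.qAx ≃* ↥(six 0)) (P : Sylow 3 h.qAx) (hP : (P : Subgroup h.qAx) = h.qSyl) :
    ∃ T : ↥(six 0) →* G, Function.Injective T ∧
      (∀ τ : ↥nine0, T ⟨τ, τ.2.1⟩ = h.el τ) ∧
      (∀ g : G, g * h.el (ax 0) = h.el (ax 0) * g ↔ ∃ (σ : ↥(six 0)) (i : ℕ), g = h.el (ax 0) ^ i * T σ) ∧
      (∀ (p : Perm (Fin 9)) (σ τ : ↥(six 0)), p ∈ nineH → blk (p 0) = 0 → (τ : Perm (Fin 9)) = p * σ * p⁻¹ →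
        T τ = h.el p * T σ * (h.el p)⁻¹) := by
  classical
  have hfac : Fact (Nat.Prime 3) := ⟨Nat.prime_three⟩
  obtain ⟨J₀, hJ₀⟩ : ∃ J₀ : Subgroup ↥h.cAx, J₀ = h.J.subgroupOf h.cAx := ⟨_, rfl⟩
  have hmemJ₀ : ∀ {x : ↥h.cAx}, x ∈ J₀ ↔ (x : G) ∈ h.J := fun {x} => by rw [hJ₀]; exact Iff.rfl
  have hcomap : J₀ = (P : Subgroup h.qAx).comap h.prj := by
    ext x; rw [hmemJ₀, Subgroup.mem_comap, hP, h.mem_qSyl]
  have : IsMulCommutative J₀ :=
    ⟨⟨fun a b => Subtype.ext (Subtype.ext (h.J_comm (hmemJ₀.1 a.2) (hmemJ₀.1 b.2)))⟩⟩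
  have hexp : ∀ a : J₀, a ^ 3 = 1 := fun a => Subtype.ext (Subtype.ext (h.J_exp (hmemJ₀.1 a.2)))
  obtain ⟨φ, hφ⟩ : ∃ φ : ↥h.cAx →* J₀, φ = MonoidHom.transfer (MonoidHom.id J₀) := ⟨_, rfl⟩
  have hidx : ¬ 3 ∣ J₀.index := by
    rw [hcomap, Subgroup.index_comap_of_surjective _ (QuotientGroup.mk'_surjective _)]
    exact P.not_dvd_index
  have hctr3 : h.ctr ^ 3 = 1 :=
    Subtype.ext (h.J_exp ((h.el_mem_J (ax_mem_nineH 0)).2 (Subgroup.subset_closure ⟨0, rfl⟩)))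
  have hctr1 : h.ctr ≠ 1 := fun e => by
    have := congrArg Subtype.val e
    change h.el (ax 0) = 1 at this
    rw [← h.el_one] at this
    exact absurd (h.el_inj (ax_mem_nineH 0) (one_mem _) this) (show ax 0 ≠ 1 by decide +kernel)
  have hord : orderOf h.ctr = 3 := orderOf_eq_prime hctr3 hctr1
  have hker_ctr : ∀ n : ℕ, φ (h.ctr ^ n) = 1 → h.ctr ^ n = 1 := by
    intro n hn
    rw [hφ, MonoidHom.transfer_eq_pow _ _ (fun k g _ => by
      rw [← pow_mul, mul_assoc, show h.ctr ^ (n * k) * g = g * h.ctr ^ (n * k) from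
        (Commute.pow_right (h.ctr_comm g) _).eq.symm, ← mul_assoc, inv_mul_cancel, one_mul])] at hn
    have h1 : (h.ctr ^ n) ^ J₀.index = 1 := congrArg Subtype.val hn
    rw [← pow_mul, ← orderOf_dvd_iff_pow_eq_one, hord] at h1
    rw [← orderOf_dvd_iff_pow_eq_one, hord]
    exact (Nat.Prime.dvd_mul Nat.prime_three).1 h1 |>.resolve_right hidx
  have hnine : ∀ τ : ↥nine0, φ (h.embNine τ) = 1 := by
    obtain ⟨E, hE⟩ : ∃ E : Subgroup ↥nine0, E = (φ.comp h.embNine).ker := ⟨_, rfl⟩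
    have hmemE : ∀ {τ : ↥nine0}, τ ∈ E ↔ φ (h.embNine τ) = 1 := fun {τ} => by rw [hE]; exact Iff.rfl
    obtain ⟨f, hf⟩ : ∃ f : ↥nine0 →* J₀, f = φ.comp h.embNine := ⟨_, rfl⟩
    have hq : f ⟨qq, qq_nine0⟩ = 1 := by
      have h4 : f ⟨qq, qq_nine0⟩ ^ 4 = 1 := by
        rw [← map_pow, show (⟨qq, qq_nine0⟩ : ↥nine0) ^ 4 = 1 from Subtype.ext qq_conj.2.2, map_one]
      rwa [pow_succ, hexp, one_mul] at h4
    have ha : f ⟨ax 1, ax1_nine0⟩ = 1 := by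
      have e : (⟨qq, qq_nine0⟩ : ↥nine0) ^ 2 * ⟨ax 1, ax1_nine0⟩ * ((⟨qq, qq_nine0⟩ : ↥nine0) ^ 2)⁻¹ =
          (⟨ax 1, ax1_nine0⟩ : ↥nine0)⁻¹ := Subtype.ext qq_conj.2.1
      have e' := congrArg f e
      rw [map_mul, map_mul, map_inv, map_inv, map_pow, hq, one_pow, one_mul, inv_one, mul_one,
        eq_inv_iff_mul_eq_one, ← sq] at e'
      have h3 := hexp (f ⟨ax 1, ax1_nine0⟩)
      rwa [pow_succ, e', one_mul] at h3
    have hle := nine0_le (M := E.map nine0.subtype)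
      ⟨⟨ax 1, ax1_nine0⟩, hmemE.2 (by rw [← ha, hf]; rfl), rfl⟩
      ⟨⟨qq, qq_nine0⟩, hmemE.2 (by rw [← hq, hf]; rfl), rfl⟩
    intro τ
    obtain ⟨τ', hτ', e⟩ := hle τ.2
    rw [← show τ' = τ from Subtype.ext e]
    exact hmemE.1 hτ'
  obtain ⟨πL, hπL⟩ : ∃ πL : φ.ker →* h.qAx, πL = h.prj.comp φ.ker.subtype := ⟨_, rfl⟩
  have hπLi : Function.Injective πL := by
    rw [injective_iff_map_eq_one]
    rintro ⟨x, hx⟩ h1
    rw [hπL] at h1
    obtain ⟨n, rfl⟩ := h.prj_eq_one h1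
    exact Subtype.ext (hker_ctr n hx)
  have hπLs : Function.Surjective πL := by
    rw [← MonoidHom.range_eq_top]
    have := six_simple
    have : Nontrivial h.qAx := ψ.toEquiv.nontrivial
    have : IsSimpleGroup h.qAx :=
      IsSimpleGroup.isSimpleGroup_of_surjective ψ.symm.toMonoidHom ψ.symm.surjective
    have hr : πL.range = φ.ker.map h.prj := by
      rw [hπL, MonoidHom.range_comp, Subgroup.range_subtype]
    have hn : πL.range.Normal := hr ▸ φ.normal_ker.map _ (QuotientGroup.mk'_surjective _)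
    refine hn.eq_bot_or_eq_top.resolve_left fun e => ?_
    have hq : h.embQuot ⟨qq, qq_nine0⟩ ∈ πL.range := hr ▸ ⟨_, hnine _, rfl⟩
    rw [e, Subgroup.mem_bot, ← map_one h.embQuot] at hq
    exact absurd (congrArg Subtype.val (h.embQuot_injective hq)) (show qq ≠ 1 by decide +kernel)
  obtain ⟨eL, heL⟩ : ∃ eL : φ.ker ≃* h.qAx, eL = MulEquiv.ofBijective πL ⟨hπLi, hπLs⟩ := ⟨_, rfl⟩
  have heL' : ∀ x : φ.ker, eL x = h.prj x := fun x => by rw [heL]; show πL x = _; rw [hπL]; rfl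
  obtain ⟨Ψ, hΨ⟩ := six_extend (ψ.toMonoidHom.comp h.embQuot) (ψ.injective.comp h.embQuot_injective)
  obtain ⟨Θ, hΘ⟩ : ∃ Θ : ↥(six 0) →* ↥h.cAx,
      Θ = φ.ker.subtype.comp ((Ψ.trans (ψ.symm.trans eL.symm)).toMonoidHom) := ⟨_, rfl⟩
  have hΘker : ∀ σ, φ (Θ σ) = 1 := fun σ => by rw [hΘ]; exact (eL.symm (ψ.symm (Ψ σ))).2
  have hΘprj : ∀ σ, h.prj (Θ σ) = ψ.symm (Ψ σ) := fun σ => by
    rw [hΘ]
    show h.prj (eL.symm (ψ.symm (Ψ σ)) : ↥h.cAx) = _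
    rw [← heL', MulEquiv.apply_symm_apply]
  -- lifting an element killed by the transfer
  have hlift : ∀ (x : ↥h.cAx), φ x = 1 → x = Θ (Ψ.symm (ψ (h.prj x))) := by
    intro x hx
    have := hπLi (a₁ := ⟨x, hx⟩) (a₂ := ⟨_, hΘker (Ψ.symm (ψ (h.prj x)))⟩) (by
      rw [hπL]
      show h.prj x = h.prj (Θ _)
      rw [hΘprj, MulEquiv.apply_symm_apply, MulEquiv.symm_apply_apply])
    exact congrArg Subtype.val this
  have hΘinj : Function.Injective Θ := by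
    intro a b e
    have := congrArg h.prj e
    rw [hΘprj, hΘprj] at this
    exact Ψ.injective (ψ.symm.injective this)
  have hagree : ∀ τ : ↥nine0, Θ ⟨τ, τ.2.1⟩ = h.embNine τ := fun τ => by
    rw [hlift _ (hnine τ)]
    congr 1
    rw [Ψ.eq_symm_apply, hΨ]
    rfl
  refine ⟨h.cAx.subtype.comp Θ, h.cAx.subtype_injective.comp hΘinj,
    fun τ => congrArg Subtype.val (hagree τ), fun g => ⟨fun hg => ?_, ?_⟩, ?_⟩
  · obtain ⟨x, hx⟩ : ∃ x : ↥h.cAx, x = ⟨g, h.mem_cAx.2 hg⟩ := ⟨_, rfl⟩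
    obtain ⟨n, hn⟩ := h.prj_eq_one (x := x * (Θ (Ψ.symm (ψ (h.prj x))))⁻¹) (by
      rw [map_mul, map_inv, hΘprj, MulEquiv.apply_symm_apply, MulEquiv.symm_apply_apply, mul_inv_cancel])
    refine ⟨Ψ.symm (ψ (h.prj x)), n, ?_⟩
    rw [mul_inv_eq_iff_eq_mul] at hn
    have := congrArg Subtype.val hn
    rw [hx] at this ⊢
    exact this
  · rintro ⟨σ, i, rfl⟩
    exact h.mem_cAx.1 (mul_mem (Subgroup.pow_mem _ h.ax0_mem_cAx i) (Θ σ).2)
  · intro p σ τ hp hp0 hτ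
    have hsix : ∀ ρ : ↥(six 0), p⁻¹ * ρ * p ∈ six 0 := fun ρ => by
      have := six_conj (k := 0) ρ.2 (inv_mem hp)
      rw [inv_inv] at this
      rwa [show blk (p⁻¹ (base 0)) = 0 from (blk_blockStab (σ := p) hp.2 (i := p⁻¹ (base 0)) (j := 0)).1 (by
        rw [show p (p⁻¹ (base 0)) = base 0 by simp, hp0]; rfl)] at this
    obtain ⟨c, hc⟩ : ∃ c : ↥(six 0) →* ↥(six 0), ∀ ρ, (c ρ : Perm (Fin 9)) = p⁻¹ * ρ * p :=
      ⟨MonoidHom.mk' (fun ρ => ⟨p⁻¹ * ρ * p, hsix ρ⟩) (fun a b => Subtype.ext (by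
        show p⁻¹ * ((a : Perm (Fin 9)) * b) * p = p⁻¹ * a * p * (p⁻¹ * b * p)
        group)), fun _ => rfl⟩
    have hpres : ∀ x : G, x ∈ h.cAx → h.el p * x * (h.el p)⁻¹ ∈ h.cAx := by
      intro x hx
      rw [h.mem_cAx] at hx ⊢
      have hcm : Commute x (h.el (ax 0)) := hx
      have := hcm.map (MulAut.conj (h.el p)).toMonoidHom
      change Commute (h.el p * x * (h.el p)⁻¹) (h.el p * h.el (ax 0) * (h.el p)⁻¹) at this
      rw [← h.el_conj hp (ax_mem_nineH 0)] at this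
      rcases conj_ax0 hp hp0 with e | e <;> rw [e] at this
      · exact this.eq
      · rw [h.el_inv (ax_mem_nineH 0)] at this
        have := this.inv_right
        rw [inv_inv] at this
        exact this.eq
    obtain ⟨χ, hχ⟩ : ∃ χ : ↥(six 0) →* ↥h.cAx, ∀ ρ, (χ ρ : G) = h.el p * Θ (c ρ) * (h.el p)⁻¹ :=
      ⟨MonoidHom.mk' (fun ρ => ⟨_, hpres _ (Θ (c ρ)).2⟩) (fun a b => Subtype.ext (by
        show h.el p * (Θ (c (a * b)) : G) * (h.el p)⁻¹ =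
          h.el p * (Θ (c a) : G) * (h.el p)⁻¹ * (h.el p * (Θ (c b) : G) * (h.el p)⁻¹)
        rw [map_mul, map_mul, Subgroup.coe_mul]; group)), fun _ => rfl⟩
    have hχker : ∀ ρ, φ (χ ρ) = 1 := fun ρ =>
      DFunLike.congr_fun (six_hom_comm (φ.comp χ)) ρ
    obtain ⟨Φ, hΦ⟩ : ∃ Φ : ↥(six 0) →* ↥(six 0), ∀ ρ, Φ ρ = Ψ.symm (ψ (h.prj (χ ρ))) :=
      ⟨(Ψ.symm.toMonoidHom.comp ψ.toMonoidHom).comp (h.prj.comp χ), fun _ => rfl⟩
    have hid : ∀ ρ, Φ ρ = ρ := by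
      refine six_rigid Φ fun ρ hρ => hΘinj ?_
      rw [hΦ, ← hlift _ (hχker ρ)]
      refine Subtype.ext ?_
      have hρn : (ρ : Perm (Fin 9)) ∈ nine0 := Subgroup.mem_inf.2 ⟨ρ.2, hρ⟩
      have hcn : (c ρ : Perm (Fin 9)) ∈ nine0 :=
        Subgroup.mem_inf.2 ⟨(c ρ).2, by rw [hc]; exact mul_mem (mul_mem (inv_mem hp) hρ) hp⟩
      rw [hχ, show Θ (c ρ) = h.embNine ⟨_, hcn⟩ from hagree ⟨_, hcn⟩,
        show Θ ρ = h.embNine ⟨_, hρn⟩ from hagree ⟨_, hρn⟩]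
      show h.el p * h.el (c ρ) * (h.el p)⁻¹ = h.el ρ
      rw [← h.el_conj hp hcn.2, hc]
      congr 1
      group
    have := hlift _ (hχker τ)
    rw [← hΦ, hid] at this
    show ((Θ τ : ↥h.cAx) : G) = h.el p * (Θ σ : G) * (h.el p)⁻¹
    rw [← this, hχ, show c τ = σ from Subtype.ext (by rw [hc, hτ]; group)]

/-- The first disjunct, or three labelled groups on six points. -/
theorem local_or_sixAct
    (hb : Subgroup.centralizer ({h.el pb} : Set G) ≤ Subgroup.normalizer (h.J : Set G))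
    (_hx : Subgroup.centralizer ({h.el px} : Set G) ≤ Subgroup.normalizer (h.J : Set G)) :
    Subgroup.centralizer ({h.el (ax 0)} : Set G) ≤ Subgroup.normalizer (h.J : Set G) ∨ Nonempty (SixAct h) := by
  classical
  obtain ⟨P, hP⟩ := h.exists_sylow hb
  rcases FourCase.normal_or_altSix P (by rw [hP]; exact h.card_qSyl) (fun s hs => h.qSyl_exp (hP ▸ hs))
    (fun s hs h1 => by rw [hP]; exact h.qSyl_cent hb (hP ▸ hs) h1) (by rw [hP]; exact h.card_normalizer_qSyl)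
    (fun s hs h1 => by rw [hP]; exact h.qSyl_line (hP ▸ hs) h1) with hn | ⟨⟨e⟩⟩
  · left
    intro g hg
    rw [hP] at hn
    exact (h.mem_normalizer_qSyl (x := ⟨g, hg⟩)).1 (Subgroup.normalizer_eq_top (H := h.qSyl) ▸ Subgroup.mem_top _)
  right
  obtain ⟨T, hinj, hel, hcent, hconj⟩ := h.exists_sixZero (e.trans sixEquiv) P hP
  -- the three copies
  obtain ⟨g, hg⟩ : ∃ g : Fin 3 → Perm (Fin 9), g = fun k => blockShift ^ k.val := ⟨_, rfl⟩
  have hgn : ∀ k, g k ∈ nineH := fun k => hg ▸ pow_mem blockShift_mem _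
  have hgb : ∀ k, blk (g k 0) = k ∧ g k * ax 0 * (g k)⁻¹ = ax k := fun k => hg ▸ blockShift_spec k
  have hback : ∀ (k : Fin 3) (σ : Perm (Fin 9)), σ ∈ six k → (g k)⁻¹ * σ * g k ∈ six 0 := fun k σ hσ => by
    have := six_conj hσ (inv_mem (hgn k))
    rw [inv_inv] at this
    rwa [show blk ((g k)⁻¹ (base k)) = 0 from (blk_blockStab (σ := g k) (hgn k).2 (j := 0)).1 (by
      rw [show g k ((g k)⁻¹ (base k)) = base k by simp, blk_base, (hgb k).1])] at this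
  obtain ⟨L, hL⟩ : ∃ L : Fin 3 → Perm (Fin 9) → G, ∀ k σ (hσ : σ ∈ six k),
      L k σ = h.el (g k) * T ⟨_, hback k σ hσ⟩ * (h.el (g k))⁻¹ :=
    ⟨fun k σ => if hσ : σ ∈ six k then h.el (g k) * T ⟨_, hback k σ hσ⟩ * (h.el (g k))⁻¹ else 1,
      fun k σ hσ => dif_pos hσ⟩
  have hLel : ∀ k σ, σ ∈ six k → σ ∈ nineH → L k σ = h.el σ := by
    intro k σ hσ hn
    have hm : (g k)⁻¹ * σ * g k ∈ nineH := mul_mem (mul_mem (inv_mem (hgn k)) hn) (hgn k)
    rw [hL k σ hσ, show T ⟨_, hback k σ hσ⟩ = h.el ((g k)⁻¹ * σ * g k) from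
      hel ⟨_, Subgroup.mem_inf.2 ⟨hback k σ hσ, hm⟩⟩, ← h.el_conj (hgn k) hm]
    congr 1
    group
  obtain ⟨t, ht⟩ : ∃ t : Perm (Fin 9) → G, ∀ k σ, σ ∈ six k → t σ = L k σ := by
    refine ⟨fun σ => if hx : ∃ k, σ ∈ six k then L hx.choose σ else 1, fun k σ hσ => ?_⟩
    have hx : ∃ k, σ ∈ six k := ⟨k, hσ⟩
    simp only [dif_pos hx]
    by_cases e : hx.choose = k
    · rw [e]
    · rw [hLel _ _ hx.choose_spec (six_inter e hx.choose_spec hσ), hLel _ _ hσ (six_inter e hx.choose_spec hσ)]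
  refine ⟨{ t := t, t_mul := ?_, t_ne_one := ?_, t_el := ?_, t_conj := ?_, cent := ?_ }⟩
  · intro k σ τ hσ hτ
    rw [ht k _ (mul_mem hσ hτ), ht k σ hσ, ht k τ hτ, hL k _ (mul_mem hσ hτ), hL k σ hσ, hL k τ hτ,
      show (⟨_, hback k (σ * τ) (mul_mem hσ hτ)⟩ : ↥(six 0)) = ⟨_, hback k σ hσ⟩ * ⟨_, hback k τ hτ⟩ from
        Subtype.ext (show (g k)⁻¹ * (σ * τ) * g k = (g k)⁻¹ * σ * g k * ((g k)⁻¹ * τ * g k) by group), map_mul]
    group
  · intro k σ hσ e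
    rw [ht k σ hσ, hL k σ hσ, conj_eq_one_iff, ← map_one T] at e
    have := congrArg Subtype.val (hinj e)
    rw [show σ = g k * ((g k)⁻¹ * σ * g k) * (g k)⁻¹ by group]
    rw [show (g k)⁻¹ * σ * g k = 1 from this, mul_one, mul_inv_cancel]
  · intro k σ hσ hn
    rw [ht k σ hσ, hLel k σ hσ hn]
  · intro k σ p hσ hp
    obtain ⟨l, hl⟩ : ∃ l, l = blk (p (base k)) := ⟨_, rfl⟩
    have hσ' : p * σ * p⁻¹ ∈ six l := hl ▸ six_conj hσ hp
    obtain ⟨p', hp'⟩ : ∃ p', p' = (g l)⁻¹ * p * g k := ⟨_, rfl⟩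
    have hpn : p' ∈ nineH := hp' ▸ mul_mem (mul_mem (inv_mem (hgn l)) hp) (hgn k)
    have hp0 : blk (p' 0) = 0 := by
      refine (blk_blockStab (σ := g l) (hgn l).2 (i := p' 0) (j := 0)).1 ?_
      rw [(hgb l).1, hp', show g l (((g l)⁻¹ * p * g k) 0) = p (g k 0) by simp [Perm.mul_apply], hl,
        blk_blockStab hp.2, (hgb k).1, blk_base]
    rw [ht l _ hσ', ht k σ hσ, hL l _ hσ', hL k σ hσ,
      hconj p' ⟨_, hback k σ hσ⟩ ⟨_, hback l _ hσ'⟩ hpn hp0 (by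
        show (g l)⁻¹ * (p * σ * p⁻¹) * g l = p' * ((g k)⁻¹ * σ * g k) * p'⁻¹
        rw [hp']; group),
      hp', h.el_mul (mul_mem (inv_mem (hgn l)) hp) (hgn k), h.el_mul (inv_mem (hgn l)) hp, h.el_inv (hgn l)]
    group
  · intro k x
    have hax : h.el (ax k) = h.el (g k) * h.el (ax 0) * (h.el (g k))⁻¹ := by
      rw [← h.el_conj (hgn k) (ax_mem_nineH 0), (hgb k).2]
    constructor
    · intro hx
      obtain ⟨σ, i, e⟩ := (hcent ((h.el (g k))⁻¹ * x * h.el (g k))).1 (by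
        rw [hax] at hx
        calc (h.el (g k))⁻¹ * x * h.el (g k) * h.el (ax 0)
            = (h.el (g k))⁻¹ * (x * (h.el (g k) * h.el (ax 0) * (h.el (g k))⁻¹)) * h.el (g k) := by group
          _ = (h.el (g k))⁻¹ * ((h.el (g k) * h.el (ax 0) * (h.el (g k))⁻¹) * x) * h.el (g k) := by rw [hx]
          _ = h.el (ax 0) * ((h.el (g k))⁻¹ * x * h.el (g k)) := by group)
      have hs : g k * σ * (g k)⁻¹ ∈ six k := by
        have := six_conj (k := 0) σ.2 (hgn k)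
        rwa [show base 0 = 0 from rfl, (hgb k).1] at this
      refine ⟨_, hs, i, ?_⟩
      rw [ht k _ hs, hL k _ hs, show (⟨_, hback k _ hs⟩ : ↥(six 0)) = σ from
        Subtype.ext (show (g k)⁻¹ * (g k * σ * (g k)⁻¹) * g k = σ by group), hax, conj_pow,
        show x = h.el (g k) * ((h.el (g k))⁻¹ * x * h.el (g k)) * (h.el (g k))⁻¹ by group, e]
      group
    · rintro ⟨σ, hσ, i, rfl⟩
      have hc := (hcent _).2 ⟨⟨_, hback k σ hσ⟩, i, rfl⟩
      rw [ht k σ hσ, hL k σ hσ, hax, conj_pow]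
      generalize T ⟨_, hback k σ hσ⟩ = y at hc ⊢
      calc h.el (g k) * h.el (ax 0) ^ i * (h.el (g k))⁻¹ * (h.el (g k) * y * (h.el (g k))⁻¹) *
              (h.el (g k) * h.el (ax 0) * (h.el (g k))⁻¹)
          = h.el (g k) * (h.el (ax 0) ^ i * y * h.el (ax 0)) * (h.el (g k))⁻¹ := by group
        _ = h.el (g k) * (h.el (ax 0) * (h.el (ax 0) ^ i * y)) * (h.el (g k))⁻¹ := by rw [hc]
        _ = _ := by group

end Hyp

end CfsgLib.AltNineLocal
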