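/-
Finite facts on the copy of the alternating group of degree six fixing the first block.
-/
import Cfsg.Agent.Lib.AltNineLocal.CrossPerms

set_option autoImplicit false
set_option maxRecDepth 100000
set_option synthInstance.maxSize 4096
set_option synthInstance.maxHeartbeats 400000

namespace CfsgLib.AltNineLocal.Cross

open Equiv

attribute [local instance 10000] List.decidableBAll List.decidableBEx

/-- The second three-cycle on the first four points. -/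
def cy : Perm (Fin 9) := cyc 1 2 3
/-- An even permutation taking the first axis to `cy`. -/
def qq : Perm (Fin 9) := swap 0 1 * swap 1 2 * swap 2 3 * swap 4 5

theorem qq_facts : qq ∈ six 2 ∧ qq * ax 0 * qq⁻¹ = cy ∧ qq * ax 2 = ax 2 * qq := by decide +kernel

/-- A block permutation. -/
def pOne : Perm (Fin 9) :=
  ⟨![0, 1, 2, 6, 7, 8, 3, 5, 4], ![0, 1, 2, 6, 8, 7, 3, 4, 5], by decide +kernel, by decide +kernel⟩

theorem block_pb : (∃ p ∈ nineH, p * pb * p⁻¹ = ax 0 * ax 2) ∧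
    (∃ p ∈ nineH, p * pb * p⁻¹ = ax 0 * (ax 2) ^ 2) :=
  ⟨⟨pOne, by decide +kernel⟩, ⟨pOne⁻¹, by decide +kernel⟩⟩

theorem dl_s1 : ∀ d ∈ dl, d * s1 = s1 * d → d ∈ [1, s0, s1, s0 * s1] := by decide +kernel

theorem klein_cent (σ : Perm (Fin 9)) (hσ : σ ∈ six 2) (h0 : σ * s0 = s0 * σ) (h1 : σ * s1 = s1 * σ) :
    σ ∈ [1, s0, s1, s0 * s1] :=
  dl_s1 σ (cent_s0 hσ h0) h1

/-- The lift of a permutation of the last six points. -/
def lift0 (p : Perm (Fin 6)) : Perm (Fin 9) :=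
  (finSumFinEquiv (m := 3) (n := 6)).permCongr (Perm.sumCongr 1 p)

theorem exists_lift0 {σ : Perm (Fin 9)} (hσ : σ ∈ six 0) : ∃ p, Perm.sign p = 1 ∧ lift0 p = σ := by
  obtain ⟨e, he⟩ : ∃ e : Fin 3 ⊕ Fin 6 ≃ Fin 9, e = finSumFinEquiv := ⟨_, rfl⟩
  have hl : ∀ a : Fin 3, (finSumFinEquiv (m := 3) (n := 6)) (Sum.inl a) ∉ offBlock 0 := by decide +kernel
  have hfix : ∀ a : Fin 3, e.symm.permCongr σ (Sum.inl a) = Sum.inl a := fun a => by
    rw [Equiv.permCongr_apply, Equiv.symm_symm, hσ.2 _ (by rw [he]; exact hl a), Equiv.symm_apply_apply]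
  have hm : Set.MapsTo (e.symm.permCongr σ) (Set.range Sum.inl) (Set.range Sum.inl) := by
    rintro _ ⟨a, rfl⟩
    exact ⟨a, (hfix a).symm⟩
  obtain ⟨⟨p₁, p₂⟩, hp⟩ := Perm.mem_sumCongrHom_range_of_perm_mapsTo_inl hm
  replace hp : Equiv.Perm.sumCongr p₁ p₂ = e.symm.permCongr σ := hp
  have h1 : p₁ = 1 := Equiv.ext fun a => Sum.inl_injective (by
    have := hfix a
    rw [← hp] at this
    exact this)
  subst h1
  refine ⟨p₂, ?_, ?_⟩
  · have hs := congrArg Perm.sign hp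
    rw [Perm.sign_sumCongr, map_one, one_mul, Perm.sign_permCongr, hσ.1] at hs
    exact hs
  · rw [lift0, ← he]
    show e.permCongr (Equiv.Perm.sumCongr 1 p₂) = σ
    rw [hp]
    exact Equiv.ext fun i => by simp [Equiv.permCongr_apply]

theorem forall_six0 {P : Perm (Fin 9) → Prop} (hP : ∀ p : Perm (Fin 6), Perm.sign p = 1 → P (lift0 p))
    {σ : Perm (Fin 9)} (hσ : σ ∈ six 0) : P σ := by
  obtain ⟨p, hp, rfl⟩ := exists_lift0 hσ
  exact hP p hp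

theorem six0_seven (σ : Perm (Fin 9)) (hσ : σ ∈ six 0) : σ ^ 7 = 1 → σ = 1 := by
  refine forall_six0 (P := fun σ => σ ^ 7 = 1 → σ = 1) ?_ hσ
  decide +kernel

theorem six0_central (σ : Perm (Fin 9)) (hσ : σ ∈ six 0) :
    σ * ax 1 = ax 1 * σ → σ * ax 2 = ax 2 * σ → σ ∈ nineH := by
  refine forall_six0 (P := fun σ => σ * ax 1 = ax 1 * σ → σ * ax 2 = ax 2 * σ → σ ∈ nineH) ?_ hσ
  decide +kernel

/-- A fixed-point-free orbit of an element of order prime to three under the last axis. -/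
def Ok (σ : Perm (Fin 9)) : Prop := σ = 1 ∨ (σ * ax 2 ≠ ax 2 * σ ∧ σ ^ 3 ≠ 1 ∧
  σ * (ax 2 * σ * (ax 2)⁻¹) * (ax 2 ^ 2 * σ * (ax 2 ^ 2)⁻¹) = 1)

instance decidableOk : DecidablePred Ok := fun σ => by unfold Ok; infer_instance

theorem ok_sq (σ : Perm (Fin 9)) (hσ : σ ∈ six 0) : Ok σ → Ok (σ * σ) → σ * σ = 1 := by
  refine forall_six0 (P := fun σ => Ok σ → Ok (σ * σ) → σ * σ = 1) ?_ hσ
  decide +kernel

/-- The nine involutions moved fixed-point-freely by the last axis. -/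
def nine : List (Perm (Fin 9)) := [dbl 3 6 7 8, dbl 3 7 6 8, dbl 3 8 6 7, dbl 4 6 7 8, dbl 4 7 6 8,
  dbl 4 8 6 7, dbl 5 6 7 8, dbl 5 7 6 8, dbl 5 8 6 7]

theorem mem_nine (σ : Perm (Fin 9)) (hσ : σ ∈ six 0) : Ok σ → σ * σ = 1 → σ ≠ 1 → σ ∈ nine := by
  refine forall_six0 (P := fun σ => Ok σ → σ * σ = 1 → σ ≠ 1 → σ ∈ nine) ?_ hσ
  decide +kernel

theorem nine_orbit : ∀ σ ∈ nine, ∀ ρ ∈ nine, σ * ρ = ρ * σ →
    ρ = σ ∨ ρ = ax 2 * σ * (ax 2)⁻¹ ∨ ρ = ax 2 ^ 2 * σ * (ax 2 ^ 2)⁻¹ := by decide +kernel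

theorem ok_orbit (σ ρ : Perm (Fin 9)) (hσ : σ ∈ six 0) (hρ : ρ ∈ six 0)
    (a : Ok σ) (b : σ * σ = 1) (c : σ ≠ 1) (a' : Ok ρ) (b' : ρ * ρ = 1) (c' : ρ ≠ 1) (hc : σ * ρ = ρ * σ) :
    ρ = σ ∨ ρ = ax 2 * σ * (ax 2)⁻¹ ∨ ρ = ax 2 ^ 2 * σ * (ax 2 ^ 2)⁻¹ :=
  nine_orbit σ (mem_nine σ hσ a b c) ρ (mem_nine ρ hρ a' b' c') hc

theorem six0_words (σ : Perm (Fin 9)) (hσ : σ ∈ six 0) : σ 3 ≠ 3 →
    ∃ w ∈ [σ * σ * ax 2 * σ * tau, σ * σ * tau * σ * ax 2, σ * tau, σ * ax 2, σ, σ * ax 2 * ax 2,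
        σ * ax 2 * tau, σ * ax 2 * ax 2 * tau],
      (w ^ 4 = 1 ∧ w ^ 2 ≠ 1) ∨ (w * ax 2 = ax 2 * w ∧ w ∉ [1, ax 2, ax 2 ^ 2]) := by
  refine forall_six0 (P := fun σ => σ 3 ≠ 3 →
    ∃ w ∈ [σ * σ * ax 2 * σ * tau, σ * σ * tau * σ * ax 2, σ * tau, σ * ax 2, σ, σ * ax 2 * ax 2,
        σ * ax 2 * tau, σ * ax 2 * ax 2 * tau],
      (w ^ 4 = 1 ∧ w ^ 2 ≠ 1) ∨ (w * ax 2 = ax 2 * w ∧ w ∉ [1, ax 2, ax 2 ^ 2])) ?_ hσ
  decide +kernel

theorem five_count : (Finset.univ.filter fun p : Perm (Fin 6) => Perm.sign p = 1 ∧ p 0 = 0).card = 60 := by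
  decide +kernel

theorem altOn_five_card : Nat.card (altOn ({4, 5, 6, 7, 8} : Finset (Fin 9))) ≤ 60 := by
  classical
  have hsub : ((altOn ({4, 5, 6, 7, 8} : Finset (Fin 9))) : Set (Perm (Fin 9))) ⊆
      lift0 '' ((Finset.univ.filter fun p : Perm (Fin 6) => Perm.sign p = 1 ∧ p 0 = 0) : Set (Perm (Fin 6))) := by
    intro σ hσ
    have h0 : σ ∈ six 0 := ⟨hσ.1, fun i hi => hσ.2 i (by revert i; decide +kernel)⟩
    obtain ⟨p, hp, rfl⟩ := exists_lift0 h0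
    have h3 := hσ.2 3 (by decide +kernel)
    refine ⟨p, ?_, rfl⟩
    rw [Finset.coe_filter]
    refine ⟨Finset.mem_univ _, hp, ?_⟩
    have e : lift0 p 3 = Fin.natAdd 3 (p 0) := rfl
    rw [e] at h3
    exact Fin.ext (by have := congrArg Fin.val h3; simpa using this)
  rw [← SetLike.coe_sort_coe, Nat.card_coe_set_eq, ← five_count, ← Set.ncard_coe_finset]
  exact (Set.ncard_le_ncard hsub (Set.toFinite _)).trans (Set.ncard_image_le (Set.toFinite _))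

end CfsgLib.AltNineLocal.Cross
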